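import Mathlib
import Cfsg.Agent.LieClassical.HermSiegel
import Cfsg.Agent.ClassicalGeometry.PSUAutCount
import Cfsg.Agent.SporadicA.PermTab
import Cfsg.Agent.S0277
import Cfsg.Agent.SporadicStructure.UnitTwo
import Cfsg.Agent.KFacts.OddLift.USixL.Diff
import Cfsg.Agent.H6.QO.Frame
import Cfsg.Agent.H51.Mult
import Cfsg.Agent.R01.PSUSix
import Cfsg.Agent.S2091
import Cfsg.Agent.Lib.ListFast
import Cfsg.Agent.FastGrp
import Cfsg.Agent.Prune
set_option linter.all false

section
prune_inst 0x7ffcbcf8efb8bddfffff7e7ffebfdffdf9b87fffefdff94bffec63ff0fdf5b02cbe5fbaf0feb90ff0ed6e09c10f87b93fb7eeeffea6fdc7ffffdfff45ffbff9fffffbd0871979c340fbc4ffff3e07f8e7f3fffffffffffffffffffffffffffbeffffffffffff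

-- part: H767/U6/Mats
section
set_option linter.all false

/-!
# `SU₆(2)`: the matrices `X i` (`i < 40`), representatives of the classes up to scalars and `GU₆(2)` (helper767)

Packed matrices: the entry `(r, c)` of `P` is `cd P r c = (P >>> (2 * (6 * r + c))) &&& 3`, a code
`0, 1, 2 = w, 3 = w + 1 = w²`.
-/

set_option autoImplicit false
set_option linter.unusedSectionVars false

namespace Cfsg.Agent.H767.U6

open Cfsg Matrix

/-- the packed matrices -/
def XP : List ℕ := [
  1180663682709764194305, 1180663682709764190216, 1180645699097580277764, 591160503275243720948,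
  3541846924145090338838, 1180735744702335389738, 1180807802295886594050, 2361327365420048633886,
  1697947259054774747139, 4042130110676327215208, 2140290867232166301735, 885731961032982343750,
  1180716916737265201290, 1180735737351985774737, 2361470929824976212394, 3541804155906954166274,
  1180698063765130146736, 1180807796799133724676, 3541918990535103795263, 885731949971025830116,
  295436138857260654600, 1693590923470988262170, 2361349929876646879926, 4540833679264323270175,
  1180663687108431613981, 3541846924144838692910, 821957474666607539530, 886308409553889951825,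
  2831616121229744392845, 3542061695602019766778, 2361327365419645968429, 1180663688345214570728,
  2361255304390792515609, 591160505886264447006, 3993632988589198580067, 3541846930811433230428,
  4353846165658291888149, 2361451789734077776763, 295436147375707828466, 1180831759005982232732]

/-- the entry `(r, c)` -/
def cd (P r c : ℕ) : ℕ := Nat.land (Nat.shiftRight P (2 * (6 * r + c))) 3

section

variable {F : Type*} [Field F]

/-- the elements of the field: `0, 1, w, w + 1` -/
def d4 (w : F) : ℕ → F
  | 0 => 0
  | 1 => 1
  | 2 => w
  | _ => w + 1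

/-- the matrix of a packed matrix -/
def mt (w : F) (P : ℕ) : Matrix (Fin 6) (Fin 6) F := fun r c => d4 w (cd P r c)

/-- the representatives -/
def X (w : F) (i : ℕ) : Matrix (Fin 6) (Fin 6) F := mt w (XP.getD i 0)

end

end Cfsg.Agent.H767.U6
end

-- part: H767/U6/Orb
section
prune_inst 0x34007104742200000000001400000024780001000028000028c00b020a09830080000100061000001082228050040040001000400000000000000000000000000008400082080104220000810004000000000000000000000000000000000000000000000
set_option linter.all false
open scoped Cfsg.Agent.FastGrp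

-- part: H767/U6/Eng
section
/-!
# Truth tables of functions on `F₄⁶` (helper767)

The vectors of `F₄⁶` have numbers `n < 4096` (`vec w n`), a function `f` with values in `F₄` is a pair of numbers with
4096 bits (`Rep`). `accL`, `accH` : linear combinations.
-/

set_option autoImplicit false
set_option linter.unusedSectionVars false

namespace Cfsg.Agent.H767.U6

open Cfsg Matrix Cfsg.Agent.SporadicA.PermTab

/-! ### bits -/

/-- bit `n` of `T` -/
def tb (T n : ℕ) : Bool := Nat.beq (Nat.land (Nat.shiftRight T n) 1) 1

theorem tb_eq (T n : ℕ) : tb T n = T.testBit n := by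
  have h1 : Nat.land (Nat.shiftRight T n) 1 = (T >>> n) % 2 := Nat.and_one_is_mod _
  have h2 : Nat.shiftRight T n = T >>> n := rfl
  rw [Bool.eq_iff_iff, tb, h1, Nat.beq_eq, Nat.testBit_eq_decide_div_mod_eq, decide_eq_true_iff,
    Nat.shiftRight_eq_div_pow]

theorem tb_xor (S T n : ℕ) : tb (Nat.xor S T) n = (tb S n ^^ tb T n) := by
  rw [tb_eq, tb_eq, tb_eq]
  exact Nat.testBit_xor _ _ _

theorem tb_land (S T n : ℕ) : tb (Nat.land S T) n = (tb S n && tb T n) := by
  rw [tb_eq, tb_eq, tb_eq]
  exact Nat.testBit_and _ _ _

theorem tb_zero (n : ℕ) : tb 0 n = false := by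
  rw [tb_eq, Nat.zero_testBit]

theorem tb_cond (b : Bool) (T n : ℕ) : tb (cond b T 0) n = (b && tb T n) := by
  cases b
  · rw [cond_false, tb_zero, Bool.false_and]
  · rw [cond_true, Bool.true_and]

theorem tb_shift (T k n : ℕ) : tb (Nat.shiftRight T k) n = tb T (k + n) := by
  rw [tb_eq, tb_eq]
  exact Nat.testBit_shiftRight T

/-- all bits -/
def FULL : ℕ := 2 ^ 4096 - 1

theorem tb_full {n : ℕ} (hn : n < 4096) : tb FULL n = true := by
  rw [tb_eq, FULL, Nat.testBit_two_pow_sub_one]
  exact decide_eq_true hn

/-! ### the field -/

section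

variable {F : Type*} [Field F] {w : F}

/-- the element with two given bits -/
def eb (w : F) (a b : Bool) : F := cond a 1 0 + cond b w 0

theorem d4_land (x : ℕ) : d4 w (Nat.land x 3) = eb w (tb x 0) (tb x 1) := by
  have h1 : Nat.land x 3 = x % 4 := by
    have := Nat.and_two_pow_sub_one_eq_mod x 2
    exact this
  have h2 : tb x 0 = decide (x % 4 % 2 = 1) := by
    rw [tb_eq, Nat.testBit_eq_decide_div_mod_eq]
    congr 1
    rw [eq_iff_iff]
    constructor <;> intro h <;> (clear * - h; solve | lia | omega)
  have h3 : tb x 1 = decide (x % 4 / 2 = 1) := by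
    rw [tb_eq, Nat.testBit_eq_decide_div_mod_eq]
    congr 1
    rw [eq_iff_iff]
    constructor <;> intro h <;> (clear * - h; solve | lia | omega)
  rw [h1, h2, h3]
  have h4 : x % 4 < 4 := Nat.mod_lt _ (by norm_num)
  interval_cases x % 4 <;> simp [d4, eb, add_comm]

theorem eb_add (h2 : (2 : F) = 0) (a b a' b' : Bool) : eb w a b + eb w a' b' = eb w (a ^^ a') (b ^^ b') := by
  cases a <;> cases b <;> cases a' <;> cases b' <;> simp only [eb, cond_true, cond_false, Bool.xor_false,
    Bool.xor_true, Bool.not_true, Bool.not_false, add_zero, zero_add] <;>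
    [linear_combination w * h2; ring1; linear_combination w * h2; linear_combination h2; linear_combination h2; linear_combination w * h2;
     linear_combination h2; linear_combination (1 + w) * h2]

theorem eb_mul (h2 : (2 : F) = 0) (hw : w ^ 2 + w + 1 = 0) (a b a' b' : Bool) :
    eb w a b * eb w a' b' = eb w ((a && a') ^^ (b && b')) ((a && b') ^^ (b && a') ^^ (b && b')) := by
  cases a <;> cases b <;> cases a' <;> cases b' <;> simp only [eb, cond_true, cond_false, Bool.xor_false,
    Bool.xor_true, Bool.not_true, Bool.not_false, add_zero, zero_add, Bool.and_true, Bool.and_false, Bool.xor_self,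
    mul_zero, zero_mul, mul_one, one_mul] <;>
    [linear_combination hw - (1 + w) * h2; linear_combination hw - h2; linear_combination hw - h2; linear_combination hw]

theorem eb_sq (h2 : (2 : F) = 0) (hw : w ^ 2 + w + 1 = 0) (a b : Bool) : eb w a b ^ 2 = eb w (a ^^ b) b := by
  rw [sq, eb_mul h2 hw]
  congr 1
  · cases a <;> cases b <;> rfl
  · cases a <;> cases b <;> rfl

theorem eb_inj (h2 : (2 : F) = 0) (hw : w ^ 2 + w + 1 = 0) {a b a' b' : Bool} (h : eb w a b = eb w a' b') :
    a = a' ∧ b = b' := by
  have w0 : w ≠ 0 := by
    rintro rfl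
    norm_num at hw
  have w1 : w + 1 ≠ 0 := by
    intro h
    have : (1 : F) = 0 := by linear_combination hw - w * h
    exact one_ne_zero this
  have key : ∀ c d : Bool, eb w c d = 0 → c = false ∧ d = false := by
    intro c d hcd
    cases c <;> cases d <;> simp only [eb, cond_true, cond_false, add_zero, zero_add] at hcd
    · exact ⟨rfl, rfl⟩
    · exact absurd hcd w0
    · exact absurd hcd one_ne_zero
    · exact absurd (by rw [add_comm]; exact hcd) w1
  have h3 : eb w (a ^^ a') (b ^^ b') = 0 := by
    rw [← eb_add h2, h, eb_add h2, Bool.xor_self, Bool.xor_self]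
    simp [eb]
  obtain ⟨h4, h5⟩ := key _ _ h3
  constructor
  · revert h4; cases a <;> cases a' <;> decide
  · revert h5; cases b <;> cases b' <;> decide

/-! ### vectors -/

/-- the vector with number `n` -/
def vec (w : F) (n : ℕ) : Fin 6 → F := fun i => d4 w (Nat.land (Nat.shiftRight n (2 * (i : ℕ))) 3)

theorem vec_apply (n : ℕ) (i : Fin 6) : vec w n i = eb w (tb n (2 * i)) (tb n (2 * i + 1)) := by
  unfold vec
  rw [d4_land, tb_shift, tb_shift, add_zero]

/-- `f` has the table `(a, b)` -/
def Rep (w : F) (a b : ℕ) (f : (Fin 6 → F) → F) : Prop := ∀ n < 4096, f (vec w n) = eb w (tb a n) (tb b n)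

/-- low bits of `∑ conj (P_j) L_j` -/
noncomputable def accL (L : List (ℕ × ℕ)) : ℕ → ℕ :=
  List.rec (fun _ => 0) (fun t _ ih P => Nat.xor (Nat.xor (cond (Bool.xor (tb P 0) (tb P 1)) t.1 0) (cond (tb P 1) t.2 0))
    (ih (Nat.shiftRight P 2))) L

/-- high bits of `∑ conj (P_j) L_j` -/
noncomputable def accH (L : List (ℕ × ℕ)) : ℕ → ℕ :=
  List.rec (fun _ => 0) (fun t _ ih P => Nat.xor (Nat.xor (cond (tb P 0) t.2 0) (cond (tb P 1) t.1 0))
    (ih (Nat.shiftRight P 2))) L

/-- `∑ conj (P_j) f_j` -/
def comb (w : F) : List ((Fin 6 → F) → F) → ℕ → (Fin 6 → F) → F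
  | [], _, _ => 0
  | f :: fs, P, v => (d4 w (Nat.land P 3)) ^ 2 * f v + comb w fs (Nat.shiftRight P 2) v

theorem rep_acc (h2 : (2 : F) = 0) (hw : w ^ 2 + w + 1 = 0) {L : List (ℕ × ℕ)} {fs : List ((Fin 6 → F) → F)}
    (h : List.Forall₂ (fun t f => Rep w t.1 t.2 f) L fs) (P : ℕ) : Rep w (accL L P) (accH L P) (comb w fs P) := by
  induction h generalizing P with
  | nil =>
    intro n _
    show (0 : F) = eb w (tb 0 n) (tb 0 n)
    rw [tb_zero]
    simp [eb]
  | @cons t f L fs ht _ ih =>
    intro n hn
    have h1 : accL (t :: L) P = Nat.xor (Nat.xor (cond (Bool.xor (tb P 0) (tb P 1)) t.1 0) (cond (tb P 1) t.2 0))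
      (accL L (Nat.shiftRight P 2)) := rfl
    have h3 : accH (t :: L) P = Nat.xor (Nat.xor (cond (tb P 0) t.2 0) (cond (tb P 1) t.1 0))
      (accH L (Nat.shiftRight P 2)) := rfl
    rw [h1, h3, comb, ih _ n hn, ht n hn, d4_land, eb_sq h2 hw, eb_mul h2 hw, eb_add h2]
    rw [tb_xor, tb_xor, tb_xor, tb_xor, tb_cond, tb_cond, tb_cond, tb_cond]
    congr 1
    generalize tb P 0 = p
    generalize tb P 1 = q
    generalize tb t.1 n = a
    generalize tb t.2 n = b
    generalize tb (accH L (Nat.shiftRight P 2)) n = c
    revert p q a b c
    decide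

theorem rep_mul (h2 : (2 : F) = 0) (hw : w ^ 2 + w + 1 = 0) {a b a' b' : ℕ} {f g : (Fin 6 → F) → F}
    (hf : Rep w a b f) (hg : Rep w a' b' g) :
    Rep w (Nat.xor (Nat.land a a') (Nat.land b b')) (Nat.xor (Nat.xor (Nat.land a b') (Nat.land b a')) (Nat.land b b'))
      (fun v => f v * g v) := by
  intro n hn
  show f (vec w n) * g (vec w n) = _
  rw [hf n hn, hg n hn, eb_mul h2 hw, tb_xor, tb_xor, tb_xor, tb_land, tb_land, tb_land, tb_land]

theorem rep_sq (h2 : (2 : F) = 0) (hw : w ^ 2 + w + 1 = 0) {a b : ℕ} {f : (Fin 6 → F) → F} (hf : Rep w a b f) :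
    Rep w (Nat.xor a b) b (fun v => f v ^ 2) := by
  intro n hn
  show f (vec w n) ^ 2 = _
  rw [hf n hn, eb_sq h2 hw, tb_xor]

end

end Cfsg.Agent.H767.U6
end

-- part: H767/U6/Tab
section
/-!
# The tables of the coordinates and of the products `v_r * conj (v_c)` (helper767)
-/

set_option autoImplicit false
set_option linter.unusedSectionVars false
set_option maxRecDepth 100000

namespace Cfsg.Agent.H767.U6

open Cfsg Matrix Cfsg.Agent.SporadicA.PermTab

/-- coordinates -/
def CO : List (ℕ × ℕ) := [
  (69625925427543500446116847381108292171997616603158918692282232218930260531437163789921787462333170556059340447629284189199171562545719573817549072523424351863063798436247333222690772675625581220961871334123729748425087922626514183044822312289639107833120527247053580271418936582674573940964531852239868600445795931792119185729793708679350729373305296895521564620201779762870601667731493324514281036112922370659019432421215860962299782272520791509299765006679269423267227804111672911222256703402198139217970051332241091294128867680919788389145872788910450081421232856424541703348399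8866941563189908397116328129744682537670608830407217154556920058405748068556180131798801542112678452004450130323386614424279580190250083189343271439423639988527008933074367862847404554089393722848589519861036566521969549023011376815512707596603991795334748642263791855252632293744004941963783279882033714428251436544214253754030601944091284472228570960486965266647934520977175648815900178168706599863997393866312801183083211812299911637106166785552713648746288777033871712147897714497582197923275213013544971334960617744607249432256718941286536348654571559318432068750723935334201608978126484448810994340754401947187825355624060162536472226935436126890, 835511105130522005353402168573299506063971399237907024307386786627163126377245965479061449547998046672712085371551410270390058750548634885810588870281092222356765581234967998672289272107506974651542456009484756981101055071518170196537867747475669293997446326964642963257027238992094887291574382226878423205349551181505430228757524504152208752479663562746258775442421357154447220012777919894171372433355068447908233189054590331547597387270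249498111597180080151233079206733649340074934667080440826377670615640615986893095529546412171037460669750473466925400977054794277094500440180798640329875827890076539593755693619045204730596488660585468304070086897682267416158158561850535214142405340156388063937309135496228300099827211925727308367986232410719689241435416885464907272467418307423833243879826363458827613652178615249115924790154401698370716550226303158752492805930356539935858440457313901723853057104504836722332909541366674285152584358319977521425172610778579080213802447919836796872639575361419699854174759893964527400142663256378495546532440646054577477257397098637507930255616253965601952741293528699318708062729543843618385485871182118482500868722401041930773751781338573193208905282336625390426748872195043766672322523352268),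
  (982954241330025888651061374792117065957613410868125910949866807796662501620289371151836999468232996085543629848884012082811833824174864571541869259154226143949135977923491763143869731891184676060638183540570302330707123613550788466515138526441963875291113325840756427361208516461288102695969861443386380241587707272359329680891205299002598532329015956172069147579319243711114376485621082228436908745123609938715568457711282742997173396788528821307761388329589685975537333705105970511373035812736914906606636018808109524152407543730632306670294674666971059973005640325993529929624468988623383326929501811286771404257700240859525280777159374475376572820802667548421363013941806134285182753125162428161540159407327411882149661089090951021160273424376104989924019865252832085255786244028039110446854545245679545473151312057783440929593413762789078294383886069120579771682772399924539341714486943204533008358240984379215187695725499159003040421552914731088438365621857741428002879905690349261928912189905529240205599875252385176638427360445288878273459583593620561479290704279421094418372063488943473813286504352139656544387698639551041748083743668802942198496942402271498531507457144933186947390984265165207939849641227960790967674532080,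 1040325111446564364642368458923952692375372948467432870732932963893743970586454120440854723172604571732559795015161289052625754086286237990114351900739103156241887105039648869942150066437362769994138466626595806357791196976209394797245594082459977331047403986882045713004858818978483906355267713278603484146738740770746060985223376814508586773515534397193785245687061612021101596903069783525816494858652225304788461558355910140448370287651672526831560691150382858308739901820189976572348115723986151185202354074380567278480369073520357927682179577857650304718511806103775253466372978851772608034726943551245143276101534885267668779655203695942811003141082978883932337508918954352239570851556592141867466627855225898956983298895847232209165736853814399055483787561668367031866046141539403260862040608197762009216720454784891423863227270597193110101449093427240457968473595691748928797456577620823474623632068279187340587755787298720812556399464563450801771344160098465635862970172559435794726319516164606822318767183146493260878024288097737645487863839445388298530611173400788084364969654743161964502777934567245083969157408676878923562174234544414008863778865110575282492490382659228898247822364669746834862408958809359280712869543680),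
  (1044372945546673828197059762417026954800502571456876931065827327471461972821825678502902390206631368287052718825052894233034066448646477102180500179340327980460903556994805658654408001145108432846397576884767250437032492049663068228640037320493871073809768575078864634481524503993658744936841378031125630239135682634068157595553907065934494117874392161071967268630592757954931050604189499026969785460738929265188251870658590413970416374951231195893953659645177365668990274509878983454352918652249826186380720497759224291404556847049016414820116251680890624350219398922434372584335734388449630404515847080634152714058809270664364623816701429169315371754247697433994176562656146066230462875407957492679621654635564983813385495231023408174091462213500113564221574854773413548995695679450698374027425358111405131610944537607879160761240956820277539402086435979141617874815978878367113591440913603448709010757297957250003996973141247805662445803646376223433329878923069384486850123343958838515748874889108470208492856409563667617066496390779656608815440708680455115994414915549760435273816066113220195745407416742423189412069582551371258052742225599983009157662680521765857237071078259853024604738224458732986851207870637736939387843706880,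 1044388881169986771263999928297300478070936649208137728716943272393150591271948624420606938378920325202647294538519193960583205430494401530480726046945869627125087576581441327184118791310492792158585976224097806280786892334766443875874066521728508219835242054530032570439342984842587365877130096578662750128451040500682764243793544319987273001483203699431458496061689471587577966752850769161623090706823127685972966430520428544916906687945372820189637536712212655530164534640139529398430844193326157970231116707311043062974574041904731135129602518839900824182031247902924614891437360369084692512773049940085501258098285770563207273639006194329011676441358313778892352118743746625795899402033165894235998571329265373996173471467022665683468183571100746705885850316405201516404038307610261005853895790796714546886639039188218465580120113917176202211286567528963263244593849404764230833283608612046582861144620238070068732151016953715065309433503193260162865354888677237019030264347447682156758356038253494239532670303481845396141046688302205997576446382970422445081164582128534982238690352916408567003808683045489108822658780334520875388558807595660704043381189270580666647121408487807204873312099823339727666234219348909033811901153280),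
  (1044388881413152506635136276009232092089202823436447410265032820226910016431650373821674532042254867838139147378579230266491649995086065497860958814445672983098674523922997302141987634666555615082983722320304956269495278966036628895198106523331321502350737542153318103393882108000571554757684726905909324459997731583883472732858966036228952156530271920897101714520128973521712735784643100820956652071166631477054434832397108876846187098344767158469121788585996206841660890750835750693609949169201177900602307658491760075332453005821036069979320207117722662159235830901138134661393429664477233482343753829841470905483136731221333733877769217174834552514251616968573563993492617495295314148382180608135581157273932514282997974199539452706406993951290912724329624341760460719763633771633144874653690249377653301500883009114539659231880768729006104695088072439311612787369829426929753368862093420031376900651804074900837670263910502048479989177994719261381762582742114295637847119814372497857489551334050635355850952294274817187604959104441222319544162008246019080907519047450074089096679813611777251441599542273895187986028643056257369619265109472987219292553483853374985528466622647542440199749314968114021310984993945131021102041006080,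 1044388881413152506691752710716624382576895065971976858589353558325762581703586392634626505372588775243352352872105555185162748037255922495907952398447320058874700219096305073257981830242798435018035019686250651065418447415300338976514028339919790540980387792506834595479320761864581409260493792716549666612049159545942355726765079667777658031392208221100212494804933965627458645374255563389838434653801141053202689771772723357135216290338695574272496666981821274149184005607430785375049614222602832045450996628806886507199929541770466891583529548235274898663973127724463951951808300980838223831519578183355159780297410327421594977202888369167777179438592323739958538795846107460850234988177201145750964409766625686468495075918326548817949557684257813730076538763495642113203681518969810948925707607978938570829087460191619207747778301032821196208427179851985730907623422392806420997835744218954081402941621610986598423511742048440577277941329354904592254225541145045407068107116812699371822895596907372297376022604084695037964149568827092433282418334219228004804244213575376376596603956419390270373352068036894356733923812512845494539668164417753658652817480459690527778339054327242899088717363700792681812630673715267993584984391680),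
  (1044388881413152506691752710716624382579964249047383780384233483283953907971548437330409861406439184862803595481780311363145047917784297492335081783587410389201085291003814724679247064006671965573116422575979128538114100332241674615061933189180684714263835399074900879577540164624257737073754377690779747879247076068708297591543861086689922251656106269806526857140849097848020246865224175226804081438728633403210458335090491660415105742009535386950924884328661026761230353637743702090864583446899967829903677272414380179127411591801030617544226984469391350202964315137212226053642808605295196669336567154773082816496671483611706639790862104308694690915303767542225100781954758506791181210226942698767971330918318987522521788982684753862563089534063043478107744494626356398106199729676496226503074872846326045491459111066027723006347168934171097334117299464743656642561004725739279259315461208549110360886408197976252866883289138591398644610234775266782248621442697914105954021224136874892190232353067578327032607013349675284007976635788833539884684616422541182911816223459033073906897174276429338970188739690807348257688010677971263071629760560585335781557762874848132251630064790978167461342051030462977170181956787177465479828602880,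 1044388881413152506691752710716624382579964249047383780384233483283953907971557456848826811934997558340890106714439262837987573438185793607263236087851365200051875641980331233831654138225785083950552277465749725235095346794307599601916087333516532942974033504539897429691338256245201060803893914535756384924762851404239611614608500917109405562380204866454265949087291595759606743764877742468162792104667105495459173531264931375171503341077321717949680998881907145818504688483711045395643582170427950798206975128373353831495314746178286730941650689781849877290214668035731179963609644181307854096174130583818979052166921580848728037242695212949929951551042190561929025086448680160504932230311456540897613584640906445984196552467049924272345293647753175864255808082351549504606730041888017823936400114385158144513058535899526249634545253015374794054599883356218175227331452924722558549936960733419533892684504472716145406068552393021232726327979635228876199079965686627072767760143813112977632709390627732330807247612718081853317533368977597841535037065250244845293595869833157234580037901524982220379728456454033998120376310912300218496266262777387344074565011593368670327711483761631037639070577436688718671720575540186699288312545280),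
  (1044388881413152506691752710716624382579964249047383780384233483283953907971557456848826811934997558340890106714439262837987573438185793607263236087851365277945956976543709998340361590134383718314428070011855946226376318839397712745672334684344586617496807908705803704071284048740118609114467977783598029006681129370886417827884046127656956366228892478256460574066365210290771821284975289641976879497160717152633965328563257396990506204493271825517833589428002008947976305421968653169489800700043920461069306004176574557017203334673772721009211507464275228928957284067323355657482772548674267805293784364913069105690745579399763137016726168676614418373815785804419263443829994913528343726197924232233843448230234354442216902501675118478607266340496883906056813968109678650873269623047506144251207192348736722002959785894766663346330782590857255426849356308544146420467254325915846046997571423088052709552219416707951538967168791556618640795272589062502312550940406613158238821101345989328956470661586832993202111821078441535291621023613008604897804903434271160062834068634843945666266783530255900254990723856788556496635177956672584474648141783972986500343820889912556558586040315196548818440919773527784966907775417291159271196590080,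 1044388881413152506691752710716624382579964249047383780384233483283953907971557456848826811934997558340890106714439262837987573438185793607263236087851365277945956976543709998340361590134383718314428070011855946226376318839397712745672334684344586617496807908705803704071284048740118609114467977783598029006686938976881787785946905630190260940599579453432823469303026696443059025015972399867714215541693835559885291486318237914434496734087811872639496475100189041349008417061675093668333850551032972088269550769983616369411933015213796825837188091833656751221318492846368125550225998300412344784862595674492194617023774188907174299818431120503398938670142390167527982718281038672250482020056617189028439217958762461661095296946237237440488670954249120630699182954444685807463642006912490558758032756573144864958427211423010838419416209904320775931621040854102139836942364029067786745528754801263275255572023493503792206541186428523051062105479286926994901193978367674231926737841718190431468443009066164503568191274591482133452385466754657575807952456415920200667342675683651625588293191772291620716891753772421453754942251261942325159403931650834773087264785777247077752391129614356077901998275463259428483942050248854729343557959680)]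

/-- products `v_r * conj (v_c)` -/
def ML : List (ℕ × ℕ) := [
  (974762955985609006245635863335516090407966632444224861691951251065023647440120293058905024472664387784830766266809978648788401875640074033445687015327940926082893178107462665117670817458758137093466198677732216477951230916771198562627512372054947509663687381458750123799865112157444035173503445931358160406241143045089668600217111921510910211226274156537301904682824916680188423348240906543199934505580913189226272053897022053472196951815291081130196710093509771925741189257563420757111593847630773949051580718651375278117804147532877037448042219044746301139897259989943583846877598413718188465871755962859381642555552738852362570104016379688081768047295978652184518322158957749832806230182452741260193991412266350116465080580015193095983937812506304115007986366375725151211988025327805451193130757368632215927541717790635245588513468648099169308597353685211241606918749296591834847200199552011161899955255642842721727798261119999344681751373307108329368045908342260249436189239809596351412837921656316496537219876291948633499773799108244804287847420397007056800296615077092585298218962959868944864842450149205159406517801150888116400183045804896251013509467882252569377078228335392077056162726062955497873684227551061117709610577646,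 0),
  (810331667690485674223884059426549425580621379958211191958152195895666259442095881068881448588857188472077212881907494266971727079955309885437110377585507311406058142111765712910821791945573255647395109543951341324769711762351337418050612253445541166193296536840965999002314050665103395685549213921422027602533264257213475934078404783457913913292247135853394487939578873285063939940675434324765887416861953926131796772660559418221794307391425316242818597175469785221856717643275427830128017590889212859454186580485647747796718851874435660336756543733238399116527088185734743999052285978169938317245643775945359149865362221907022397486332682771140531368225908552239453089055009051817979452511482800699708074344095075216983559777206496068806056794466215734884185507593644712566248685738290088975383591385413643453612158163329643391503986754382280368236573262688768486227717428524043068214951882102206459289880635112100095070561773366358407901347642805550987581309017873478130519413822031116578491034894882470913980908833224407615284604797698587588341000430746081551539781634241306890165088915139392938683400993800214915191726660568926245242577789742088276737557186619668568905499041918980056759675225601823821748938994152890712132208288,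 435508649595767631080677776431889999651259067642739054708786642728067328863152852380632320386962894244904933795562618064187448034161003550763557119230977497760084111619539281828723606243876375281859926715251381681153765792981776057278302620794519921918864218037875999463798740886090811778136581931336948755546512067753498079108217548818790737540326654511515980302328733659814099880010585848552591475141666867788895181782327088207307953752219773487329818746287725978266605958059921565090828837394202505962161950745590419520703523914894936392441842887467333445886805104227483558962021538928336892969024408217329587152309211773818204816443115850568919942394541160234419721870974027849310542759475337820988480484491626328070459439732125640503695722136027839893703224345483061379217355330710972929501313431808213662293759012890821558429455436275939228743885189638897600527671921938031957366626121658454572834208975699014148011491349562536236845658204503423878788192511808653444596336943999102302096503335575601107954497258384923916584677468366641787566528865863532816246050041310305905727492720911920434006056921778089073362954416693431726518037402416452730228995492368280023817052348520332893941323249001861261028064129016091043524799168),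
  (835504730751507446469678338543215290530222219876403366563794239247774973252752263822727574488255609524592563396651188590128590495819447398434865812508803116345438041117565091268524441295620781996029431267296545127781221384402908235414745004366182651105250356361671650892579676568982201823601113589368611370838313028912668990998605648897346720702052036880756321456282413840201929048219931842544333512441759620111172947854674593399565715544188237054730120856740772998529139343271331330359736222589554727039979562056425862710006700657951218915704235092239812332509960667933500598985750104131628040543831770635144522047829403186178521572857337153010164956346978064122979105837060253639453902859775313753665730331677953048861842218909631696611038199281131883056389520776165160619210126316983266970485587695015365855086026306553616653600734611329898359091208778971154946765970031985129096121560236143473572336364591817023044254063689044316266878516926470754056962975530379668612045435977693292653932820500592172838169444411079926384836919027460426394963472272565525454433978058288300112693480352775909619902134943333289644266607591010176128708143261043256456918189176352149656154185209296193535042590276397111469562487534949678604561809408,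 417759802226917653397801864583597066960409873525181314796485558144096991889782405959592693746984913773401036877221437428973112877342924241220518604783788583204650453270611230214025291155154113989495337075129360499929800865791891297381781598929563594796540834404775553461419512968017608593645791892621368917079006731419535158086488040523543061391685994052658454723779667029863652762398611302318849863352784678518519631036929625597706053518773417039878617824566864250514479290514328768111375492387462588033531058918177914775251582362558508544304252980722647973067799973793533006508093213608155728490899254610358514389806921645573333103847566122241067872191117519403258195562604840184778802113292434059103832766342826680699204408507010223569785332230285286851824725549433935707772816523719164233778944228504973985717865115836131985307712724770397821936024927787887392453126777208622236065167513559493465530189958202687232658775270139300879875991489889788671080016293246414566371444236437928243365853296629678602186863209084450616910837572423771386347942114351603219074459886967737850206268611111277217959924345020036773388347955928205787058864834921418292879976412237042911437413496839070329567715614169791267509986890374662669831241728),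
  (835511105130522005330755594690342589867257604583478220020344829877145233907079613657686778319793429177594730187563253583531564853245014469645535276254737561671496347466456639208325990011845736646069691694466675191572424180232784583872410224719847643730200559968981755926225830751537449492796569552475837113821655085944730417380036472187708491247528789896046545713444798609243623059779903798788879451212250587847863979428124297605828910844578739916155070058782544857566035389640876345083422340090671574699739526680660944131487248504693035687966497344678042567709528351405887640741123201916907688099185581355256019546829994277566743341313148081679908438354105789425398399117739512317141629400542814545856135959575232815949216906683477731397972732619835056243361852000723160777083571669584762477601180090531375838307530859360552167564728594445148420845914027558506226612175146563913657525540391644448104186269554788021850742710975531373878680000273163912086795694922952624047419300067460029666864409643769631760027943742711884526305909145355361798201403024019827752191906470815251601747692012082464104442947447052175351179499179977642737333635639594499389887640971110779877517153179423188480430767550488961052262283717095670958824357888,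 417755552565261002691798800208621030497416419678699312903254733980970495365890457037969915119215106518723649629606599663856614587380541286394262412836195289952072740719680191127477333776533925745876466739463508068841291730049114686373415604735785932284396888183354274922290676998140247113713914783426253958711639144316907223202668264530975776834213234216064653931600075944149316425147301165520561595123558611234000443583352153650897855485300394534596052358237404119925406923401371068882144303424510975253720290651597562518769144167069046645840691072706628820556309847332677373342343185194452675936795538585462593007881773236955358070720909043769768250793902659069637932495038427923760784990046386962772934478109597231605244930488820310212581716095676991486712457454099993892781828591311731559522487410163341111100210244790250872821731786336081791353886361665665522909824756034122076912892578162079559449530442416365223200585053090460742175836885456782953084489343082925611486904415991370985592591233678385234046395178806752476093710719186846313446084765564222164104137972771421936358089981581401378324047375836284212468971336241019423016051418898440137487745595765320597147799736853493066054809474069834736755184036554650432168787968),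
  (835511105130522005353402168573299506063971399237907024307386786627163126377242357671694669336574697281477480878487829680453048542388036439839327148575510256472939395743892720606682468068609122306501024695653200440292038062643739858280152458406494612455337613065961370720849436752633390244491637178088406171174219317037915491470597363815659731012841633461401587704938235904790562554605233614266683197642326063346719988161330655833329972790620419699053820802243038155034787190584509956611970858497025646598179839712207174755400644098456026126825472669577488426175866655004091839780274085806491320349092134573762729240086638631777722336742706557736204791352658079400306981461427805873270621080814956097326165064399156126453697257946416783552402455983882701182711915822514055434382289839717517007799196913832966672911237648808671227687153042835607325965640025075250462706838900691006517579926490442904292934537972162493800826331978428960524113586922043915179185775529748055403140773002488269946230615914034726492803487303492171658944247622212658122152773566101399696300232292938119413166209008834231201133706813639545676204430592319071438497430378827066143423347729851967790812186131160993351095654712358702238259385659051149363467255808,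 417755552565261002676701084286649753031985699618953512153693393313581563188625387944441911581614589597179112347818092195153036180714716406886135582944267446001314440586807578115924823784582741802337984339418684937266174622370073856549986369206602903086426436420126239960073733883064795023324056789525469380323673962605868954699247904139338862738443621516107998342029138260558161889449914396747174807253223438298795764629135573731719387739182019734786566839024899901904779387086153554233317640708741892246011663860188788588140508598832669545870875872386214521636388197204444092952185710787601008872254637820915877477432976326445660310846032768113441342537555047647283052178060527678274143608940681851318830211888498211857333961527530603236235289114885505624303729792744740973008291533927142884816918249375646895399976432425102306658327346539906495883709966975879239204124051642983472989681687955046198244652411225900806125872621525414081942461781464049400175107775367289248480672728881168572626640010775853423583085757698426724522792637270039271165216042100201742454500203943987418421402629352086372435953807952734378115545585583057423765656543320783311858222732547265321008572070629092346744917984994447475092019462632409222430588928),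
  (835511105130522005353402168573299506063971399237907024307386786627163126377245965479061449547998046672712085371551410270390058750548634885810588870281092222356765581234967998672289272107506974651542456009484756981101055071518170196537867747475669293997446326964642963257027238992094887291574382226878423205347227339107282245532380703138886922731388772675713617347756762693532338520379075803876438015541821085007702725952598124570001175432433479262932025811276420118793888993457498735129460500430757019735542709664076370571654539955027818738559839719172792060110310765476592483083508339634645036062552015762105489085816525191060657669343106305788988138106055482824155927252981526425536873205514672743098986852004836698308537902077448506170140133671866060327755609658131992166932885948612280161496032302189875346367080964013418724505941589709244478364649023548774815089335780887329465021967176644942136931992511391130546306147883915621529723188726940936881675839908215846048114617440172058349510406101988158979467935745774689018888860104023929348953493642339805433913591109423245330317152198695262981939352353584186828457698476680249638198484799679373311245240430078746687083769372254316993057386193710263106321767258590963828667711488,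 417755552565261002676701084286649753031985699618953512153693393313581563188622982739530724773999023336356042685775705135195029375274317442905294435140546111178382790617483999336144636053753487325771228004742378490550527535759085098268933873737834646998723163482321481628513619496047443645787191113439211602676324819018147103195524786084985596072014974753492826450987074884500197667988189340615642495219699132554470236595289970425529501527002094954908692885992158513211929928591754933691953514010269269227885578875324364403367787562858491622335659231964439766490386146292522191488592853961758441830054619017977983165018442904655428415614531223636695495835190940021214743466966173015455985199757414376011573950070254284073656455361484586824237141794101694685732274012754400071562374320779796536233464022849079685411326191012454126751176278537376913826826187750695427672261954709804276532230902303013251363271873772806586380769124801950331443132073715214635493891064022872348370428311197083308749580984110845276951154017957898975636427367465917499155862170527535662177605681242765528496967217497858782675754694071418348832360543119337384673738327855463562892029333714275270076081260584704135941437431880387235379974689822610621116448768),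
  (703239376806280519040110835713789589600803576439504867029762037847780850705255015729381697674030247264313704571523243923319075924014079504101809446627070221792922704828272446887365167459374146971527914450037067140879441485388605600687095215545249382114887302897225999134166819299671228854859890495683433646251335060224910832658351287846735863077412712612857771471793119106421128494771191902990660004941871909462396318123921609646226777780223732598393231909989196866545257161785283182974535089890638472742179543417059939717857329600281167781238057777303808924915578733875526730455067566958052196023752528023064989090204219011821199580649949365262928103702660725952300698430999044969788335439480668448645333241351232677294102537928104517862525059514733479172619140951312812227096877050410341533702940541526377798949758406061408582054120663494754328381519527531662518884847283785182750829715950546848777445403018136932681625113080850980644742579231862086099354704301854956791684248999736255356664025877937650969401934097555983701370339846460888788119722840779639055741572607689592323182918573931543651632731258936750388954934590890213525606994821934763834877968131119271841737371415233652295954431803716120232971546175542376521101519968,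 435508649595767631080677776431889999651259067642739054708786642728067328863152852380632320386962894244904933795562618064187448034161003550763557119230977497760084111619539281828723606243876375281859926715251381681153765792981776057278302620794519921918864218037875999463798740886090811778136581931336948755546512067753498079108217548818790737540326654511515980302328733659814099880010585848552591475141666867788895181782327088207307953752219773487329818746287725978266605958059921565090828837394202505962161950745590419520703523914894936392441842887467333445886805104227483558962021538928336892969024408217329587152309211773818204816443115850568919942394541160234419721870974027849310542759475337820988480484491626328070459439732125640503695722136027839893703224345483061379217355330710972929501313431808213662293759012890821558429455436275939228743885189638897600527671921938031957366626121658454572834208975699014148011491349562536236845658204503423878788192511808653444596336943999102302096503335575601107954497258384923916584677468366641787566528865863532816246050041310305905727492720911920434006056921778089073362954416693431726518037402416452730228995492368280023817052348520332893941323249001861261028064129016091043524799168),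
  (1044149836121000263041788931199408400803223584307386668051804040966882735184198437060122571419562676775694206026246440850613348770426996218019184076844761623728070513514059343728702088740441309589705152165664173292930135200386635219294291119527844894764490030951464998714435505812963626599220903400951291073748809670638509738845521582208985989594635626595232985560911103241767411597566363612308467266220799662526654431732218633611783413709215440533147311338435736464286739694528910309746454384736100270442068611418731128768899842173006302416305238070362254368212217155627368368822879509315889681913439667242368067557790528228211679580406650707306631829101666306299735808584097566769863391452020789447861725751752464761972208082964317621699434415776951993187772074762736028306730134706827537556386345727900840132958397633365289392136194386153378888586773917781783181592983911203888094506050332664737397983656765507882281093124752024933190797992006698782660209395981180583053642857017374896912813337915211994459645003672767133160664083274567563302157456502172814334032538008879217028076160826776530548744029914918779130808722679367449016446933936121413308130993291128868089889244360181945667851123363385609990579579981452513362549211120,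 0),
  (1040310229690191532531481425184077322890167737221771353004730232568261250549976630636906775108401579977509879580416505293105842251515604327450593558049240921871328753465645933608614923970268272034726898701225691870987644402233353974438587955509822826499590560241728107144662208719489469846796454906350018429267270088392142571481560973996958352503097520380066259741616464035413983079541548223861539784280328348205611530481705995513402107523101460749248701857564583652082659488307593415619740318582537225008842466662768847007250766025920829730744838454693879486555461493628410177981675392400933000396960043069872594997682426254799271026051826596186636354028980477919698848232691099486436769980198399735302833396235937943826183439315315787280149541925557559859598770385513478713539660244438613281371016609533392781081676257705686994209780629472670168833061581108563248262523577038591256324073977235258896990200056758469736119940707592108849351986480979549131322240774343077014401920116191552696682820763150755559417606928352206892627222725238004433137226792784966455068409993229688042805272433992322592978737812048490465335801454104557036195652028355385993189173028503608072228035081279870066864623989747575041806843224926739441107599360,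 65034326038851318959000983755329432217428033467810988011070656247541599087821709424696500535731068437869768411018197637136321526225867352424251478150650490703522094252577168673248651036523815354251560294254975309055952717519096239708875428599609786719250247361198900112142874734815907133951200492621408048788505285503242216783642484440152452909628828715161689828890508851874071880439500396100443115684942179067093900704699823639083178224453590540889949600046995053951654408831829012423127170938717536303571013856155881849072018400696485706561913684864707443826972543736307166006788877173615989252111230786213426128921695692320636422499909101340005772928983396240779951006476269885979659017989206981494362700544967023584395322632420247220902271747959445274436858212234474227543593329221469708754656172165699496857047652684326907360577769692307812989910300204675347177656053771116167811511065647486322719387443266193980827489098021812273439805245446312725674929550272499027650537224614569621113084338799524970625945891045102230381926864373146187416912668495976245979955248610268844656872675372896021589145263785421217659365940094823442991699611032490364627708071922811034724097884723684487775363026973687115941428709442093806109327360),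
  (1040325111446564364589497080208878179854648933720186807259113963791515091010040561418647393865004972368779889424648819232317366931316489920534729116559332036722904117928833201041721490444348953503355132938550178654210892175260905879204073489855871617282079355156783555271835113253869361042909365255076818951125764269815201966529716933009808998194464289624876927733366583971894191351496410429223093624980724143269083870595927658309639345127790899605053081572377792807942745024076710433063959559829037368361981338313847222396203526355588276986469597982311905753008467430953900368238110004831768473710758348536277684605229300283855092490173965692908352699544447889624712867916202919143789489392700939893884639558564678254956428246063226728134918118744126936778071286619658556818000928375927662774170229180325959399833551736294317880190745337156781847513002070372224131191636503309012022355283181874470054975818177485863619926720686695794344716441409095946299403895814164453620630213257965489642074461377126460337485023364650953323488514905406212147655548747067609664804424796539451999922640824463079438931877176071411057497817053628844634983434768004721367038974464708609168786319310076518859902407765271680013319350090418811664345333760,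 65020319465410272839909326296934819766261482498179054805216103532813452187527158706217594250465051373896339061085444072836281350042196802807480228304059332060745269170990429978608010344832241932122942164649257051916636664000187714082555364596465773042667780009733467127077210768870407684361202074397357982523209157181224482566725756364324194539062593193581157017908909440988604504875538654860711926753668195414800846215980839720354824726912140806215334549664045923184557403052101832917333074549800592871282194174798266397542289463758986981212385365591851888129305998264079044776700003402440954145765178402022383413815835676406354280993973027633075117065052067771294469903924983828849394996582707067558383591722579350733091044840073134368995255932617865118359757200534468567365931264158628171345046368168840477900458336823505596241710944288945471711014913148153890157086294652109669917993458201608962334448686578368642290622477279871930221698501636042107777811584310669569587719114693660277087742818329174904449306183426610336564481068202199660208269931262349368589489429245219775830422750170504798773957315269621032960212518326748527135428928462173348960865828990990185057712847969313716622353336598073088089490763578573579888885760),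
  (1040325111446564364642368458923952692375372948467432870732932963893743970586445697544278582601188191830844765070265770165613278892136980917807904301426460454302391568922005560255851816252165328146603169819673648150874903819876535395228321464063402037224217978405779980589151669849908043106154471084139158254248568492017871080282358386501293781728571152657596715750068543896073337942428271197311632816689485154572906678111139089387073173934227785619305135238951161625825134023942325977061936225016290763690036798328193408438389132199017258137897004488914990877203320730566255614765391962339201475566476327527894884712469730526053920498862178315488589492538466556569408287933500112620723262475279702752392993598066628593829783612212790255181050829287472790447620105900416061535415590345460032012608701434726938840292423066508285563527667700426205355575006206602958317521867058228781842722684819411567196659984301393492191881880837777237520865086858048112638255404517135249749363410550312534835040381089213097705523314614593760783328583169197589446911194520410405770145231335454600336030634402659468948728820667584250225476512787597544110916577955567426615050186366647857067264192248928506028247754100738851270595144189971961405096591360,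 65020319465410272790148028682747043273460809279214554420808310243358998161661309959625081912562025640781485960113951282977321577827484765964685910796328323687218909386970091463214588380418386384246828744588047365742193576507902474108833831153641126396231683219988678773528344911903202484009120043404866247908926871644375321702507647515564427554190449156446148452824964516308263495879344507364910537880202016058311562452403141364811178839526254624359119646094819937159804527902085463692793571986042796216376511073321115407031418948014422221068820148929309144865878518798075564757690982696604803786739219185566181570243306491052073962333684157564878056080005320173791703438843672833686657366911175829967841085750135746082662870399183438914436845599941748513554580779923791399132497408367418845042903345010136179174659598072933498773223220850099120762648084798855395849907919426181190554129654037047121076792519785671431511729637169602011910726091108976515253512700397943284235135715474865273313150110529641290222187474634767717548015607971062911850918929249014774120222553417272253522186118764149636750656812424802435525555862383785155853357392659247261926781375170410844607823704571862483884841524830733142285718188575576059921039360),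
  (1040325111446564364642368458923952692375372948467432870732932963893743970586454120440854723172604571732559795015161289052625754086286237990114351900739103156241887105039648869942150066437362769994138466626595806357791196976209394797245594082459977331047403986882045713004858818978483906355267713278603484146733315457754275810378683115644800400562363681075780985543875788376942340500582209774155169369594060255215238687300675415987056174411635128741291848499313256066530925969880460153194139209443846163692397872848699438111749916595821798659944635255893241099186163664200371076262573480499695680265796803000045522327468431558246575997045011639635013898354284829224911202949839765873530396270857064646005732778509564872259309212854317398295806132908185593439464768682263625601490243989420034882592414945926687550511696452766130616913632276417811175816771725839947509409425332641417951086126142039687626137450458246336856245728558849925470625989719982734861037753184437899632934243823466303044944424417754647852535101942380689144293196377472388063814406070320031809315943012579432936095995517241598632762433902042565313562606001643527441993958923947721569760363170940769755826179883075935986534284406930504129030391808032119298205941760,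 65020319465410272790148028682747043273460809279214554420808310243358998161653382527553420198287785733284987188447580565789109630392889874382146993796193947265117944064978054371384379152335173124633654164162237897361949811013087174827849630153748583190462749180127857062803676186155244147204232079912717759176277475105073682018525708660938553771234514994497940343145655357586385244077225001338896094838154716441723902508053536212201131910029437011931453927317377813434103487582594871446088069965421528143341201678778716428429332435762256618710287241286262745448769001085842649987516233551470218133866205595266399484907571710905574383375540412362246166773368956048386944027388954471829739704826411468083016023238047238921705876028211026123446931775044966763066334512512326908067916528877853896088966898790272894612135433545173231872907263171323148135035348152729124149175811130641265290661593005257463340753287796448359208428584128698207959671028910605034584176692247483243159929358215785626232731347144140149247808353658833227351416200259095903464078381366443758352928255706855122890156749300761847420355023232450055408674937230802466249868889221542019325189788220938051450643439044949818303925286270102859969303140125045772003573760),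
  (696261378992785986622100898830538756579975373059721597466149639522185438538467227709412918116988608647935922556586342562758718972902182834834598124299966784260699429039978234459601414855807026668754457442143656514332116855786952790765455176271418966654716709316402976269069816077216241706150274349686634518483322266028390892813564702922498931388004723427676525524011586922468210865862997926583533928193851926046644149761331467093409481133894024608436826044649338039334022477322278103323415036412605013457953326204242386775760344070153783999299968615648375271481815674928253452591481445710267703539539599345079844307436820418950060916793340414659316275396105189851393419861717512130475788672123634339684583003495254538563888888864082430736711665962157772839309177097144342175770951813314718182040841152719275539957150845753349930043242857067426609568410644076799877037026444160952173564934442401485401299251090200709024666528880136680917673630568466303672705622862667149497309084260470637275582411166612151083006239896070076840943873327241351228848949776706275980747368270133527303158632333212969877424014260404935837268271467407178074856875962102371033351209865722832557708697376062897438996171057976768544664295808011547113802825728,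 417759802226917653397801864583597066960409873525181314796485558144096991889782405959592693746984913773401036877221437428973112877342924241220518604783788583204650453270611230214025291155154113989495337075129360499929800865791891297381781598929563594796540834404775553461419512968017608593645791892621368917079006731419535158086488040523543061391685994052658454723779667029863652762398611302318849863352784678518519631036929625597706053518773417039878617824566864250514479290514328768111375492387462588033531058918177914775251582362558508544304252980722647973067799973793533006508093213608155728490899254610358514389806921645573333103847566122241067872191117519403258195562604840184778802113292434059103832766342826680699204408507010223569785332230285286851824725549433935707772816523719164233778944228504973985717865115836131985307712724770397821936024927787887392453126777208622236065167513559493465530189958202687232658775270139300879875991489889788671080016293246414566371444236437928243365853296629678602186863209084450616910837572423771386347942114351603219074459886967737850206268611111277217959924345020036773388347955928205787058864834921418292879976412237042911437413496839070329567715614169791267509986890374662669831241728),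
  (982955116512950255575491396773663332750138938177186572902187155303626916722258624978751796941912748130042683628283304156758700625916599947640174028724158416730364872502368182178943788095703540448519086592018886682341820828518229775385627650080160702131229453872865816116040635537347432343468138057711237127793390266609898982869088433567251561054327001879802330121657084166742192173443902676529350810876041977072741098933928127037578401805954808249859801945336154035922051495395517096882375173903655400630193814696685261700227267023212218467377060472640705928541534184641861605848871480699252999741541343009084013638088558248184502022167371756989578931959879938933435546263984517985797292736647748850491749601341100153858521310424383435010063939170687785907028601573558820277705537220755174306260032413265750931482580235847042931273292345633589804853067386691279960769171897160082552270406959646171561086011125800825486850107728837668472429927305157942481639478046144856304570914996373254255580949471348673878136058619370656998253571412665702061421256346857655097513587856814921905202818147771136026663250869734563334867204413339466111821981707317038786412708537060483522117536446834027249177433930677314541388391991475057267032719360,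 65034326038851318959000983755329432217428033467810988011070656247541599087821709424696500535731068437869768411018197637136321526225867352424251478150650490703522094252577168673248651036523815354251560294254975309055952717519096239708875428599609786719250247361198900112142874734815907133951200492621408048788505285503242216783642484440152452909628828715161689828890508851874071880439500396100443115684942179067093900704699823639083178224453590540889949600046995053951654408831829012423127170938717536303571013856155881849072018400696485706561913684864707443826972543736307166006788877173615989252111230786213426128921695692320636422499909101340005772928983396240779951006476269885979659017989206981494362700544967023584395322632420247220902271747959445274436858212234474227543593329221469708754656172165699496857047652684326907360577769692307812989910300204675347177656053771116167811511065647486322719387443266193980827489098021812273439805245446312725674929550272499027650537224614569621113084338799524970625945891045102230381926864373146187416912668495976245979955248610268844656872675372896021589145263785421217659365940094823442991699611032490364627708071922811034724097884723684487775363026973687115941428709442093806109327360),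
  (1044388881413148796333704161762866668252111142747128363657015769775387894829108159370571349831551320685319387230603018883139511971106011325619633504424584902041493530407939940683295257485668887136221013813162265433237395949633081601908204524768124221012414946472955453905215538721901456494677060624112472217714629656978890201017138424469672525079505046979156054484325179174571674648115111288275027127136640834648037533206929831834293526891172685019488695388905522475916593452379252608104210759673011961713284257417239016568402835941426881138915244654612947630567630169636760923974281123276813288879073548887812257542003470670018883353659773405309222734250464700023730743532883538904308121595638240438814721125812161215066929740864673759420108141503700862186173262547898270626475300707509187171235021290842651096836272643648088519081262603482708637819095187947772615851494600011448306652676174341670949553110164403796054417518485350159677372217313300096286115329296228517504853195254250995449757724087768215637515650455125600272870516032388686969728766516226823921922753329672981392531275694875083954617539401120497636566014471970835709262795031107345955258593993381442031410872901177586412646326936719823900930412625001368779390648320,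 0),
  (1044388881169986771207384357501324698272303478909434183395679712387434133914578714409490559743748486748329052856999797949566478035612656843301785062978942273633101278549712327871102685069667011955593982875979191851602301074489223306168751557773669627463320431298809775652889432279386281635994760175836967396117102874441304560144785979412473946400191811302379692320503584256418714376737631668491900649156085560940486278022674940494783386417186245000164548878686631399988694204373976800322782728834358147411132860878146477003397870300185363756607058372265299093159214619397481241968200132499438650638811093569151578165783329790638059795188845909842431519752624352890539382960392470798866977673945460076735716322269441049460653102656718561815974231368001231695906700958889413831347259496885829289275007889093279410968855048252777514474123012465853155134234224329509069373757561902301462864490520480760232104605099618948750217057296718725179774256192526151837342591579022720975342292435958311721241144739534736688961914819474632912114439391902305542609242488475432144589275270760114134326534457919880872432720755654166600987345119606310449982585603495079169524702302815116753032963874900297969784849769998098054010260804698935861297807360,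 15936109636993262963339735510893258252072588868346601128547994939454796988167070639367404222864701835381721081681678504440662648825929190222054516766966778758271855336557678779320050709958247098213714327652101158116457539907665298694577352508734037270491399356558467092820120187610149070284008049695063312478377599392265563681071823044641246640296300389071719818804880169207515499328025203702035542122573735587702115911213230975096811463005951690182242961294264194264000120315279111300618291480548618105516068150359009407387187881568958692337680925373290321463305872989281837541706151999509773816084025220049249233312400618234489973978120884815859234422166226872961625248421889917255759256823326891727917702823267472748406581685836706250224275320402166028029103485259327820072259312899656878221455743256081696071150021843564246417122596711778742768680991831755393422032305727614129459545192622416214391753962121936393855082162572151630852448717620198910476347284476199293324227636498757495623773002842903798274355545456573384159441748006341179707568538074194058460178503656770258251940111826013176931995896461618900520396365767579945514988212505506124306483281833615202841451213346867675499028052071898494378882766495309742735360),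
  (1044388881169986771263999928297300478070936649208137728716943272393150591271939605039819016808178202619782124348747967823804600156653756133213084827247233268396124173271034435401991759198504964781371469665379135337350590328757616708682938755729809625409088709484812348612736455500446956001349991962499132167628919997497157201148259672245373722178112741866861134671177126429411604848867452236037422088832726340667776092274858829185948555959648302435759024784912119800417284706994410608581570685262762933319910218917053592813365815429892432188807366626001109999979830847690210411708479032259547495525541863729863938092737638964542461238108985735769548120738656491521486936603014211813448614804534586513065413211141890624814123070137954353114563126425108856017503252938402185748600632390548053887107768339554941954150462678005757816135696347681783763340414063359026360541724552062686077841277994584595398888088064968539178963215705784080942361187372680754410623779288243508641621502965217155935811374602482082283863012146584496192019430338767769052315538290846914329599025240013877290763550617515088657584253435096400936392706509051646774617557330713921122719158643282609208765108248834610358816317257799089404174457349925743721667624960,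 15936109636993206348632811405903632783064829242067531260939686163225564451035060798563687224197275794366229953815848199580697680914632968875501487699259231786440384020307467642596081140813819171870429375544394277116181345059176487595932168159928951510599483274025102446443571550802892621246049147302396771264355961078867001815778463822923110607013340006098239392115634138086047148330727064401106944825696293442283714703543916788447174254212860206606790155229554861228156134991518710556496812236082308826185493363397529535092467096577868858561955960155516322730457811376239070980148461642005437031184586538988261658876741083904600920788210677942685092893671199667708737114545306364239493034164693833022907313669421202901669434810832455098192933851634905886053607535392629185114939139980412955023882925495216826535495291248312636570135379861791963677474573699724408042005323815162221441827702375508106075292185186147132534696529271776510371377892019145592766860670137120399400597643557540390438268902955378629241301114725809855666116538257220479663880202848794718206560006192117478093200761296183496533670497187074748119405836741996494416190806417649518804771618417968018443042852148917351879681281959704743070205933849636985896960),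
  (1044388881169986771263999928297300478070936649208137728716943272393150591271948624420606938378920325202647294538519193960583205430494401530480726046945869627125087576581441327184118791310492792158585976224097806280786892334766443875874066521728508219835242054530032570439342984842587365877130096578662750128445230983336299338979322292614519696190524451798519578913368043192852301550716389495953361190515537364036199078860683538682484217329079758628448922660664297836494802817291687774499478629184444419392595592235029551608432825003263473438091127234805398887354926147255881721304937936063035473002213302066906580569297981954243339691974419474946785320468802876192281471449938258199608470492408577739997967784640832451418810647742030298964138536114601755651689515088554118931817733206878375300705826321226536496607512178216123237509234099132518627190132542151209854070067798875712011299071346706686497097178653770775438975405435044717015735092372056125605769879671558220230179102522673766419371696755992509049669950368510428022404804839710255317723317553724869604908972300725032032234472972961796544422950769961777482215906569464702734740704405829481573802417753214068180603498887462681686945355795403948173135511784510097513104015360,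 15936109636993206348632811405903632783064829242067531260939686163225564442015817633371077550947880938761097633949572661752063071144018578040782562972196496995927239632895528063722515736549267458474517459474148655407514836651099302305207313869148379819263337013702889563588607556802175382646638436564067848345607908476335882193801298255420092364798370465099395345090389812402261100916222788363425996426044690054365954633321601977649342939304463863192306840499313237139137503258131860290051641949363954565598755492267492151960566999077070393034079514810372504361481925064256634604107578397237508503474513690926626835021544175342289620484066027159983239861323363284090078913722425089009049260569540759139239475782146003419115986512330985733402011054863484411961096453872823606271798237200466796497042769519864462715328471292233007074165004629165274800379841927100837589975925964116245069257841719135980143345153027367142635347005869861862526204268535336494846095689557201789326513062498183377898351110046971911637113120299930397756111957454975605896957085897937829139883846278999641281835187407535259236448903098392914121908017010902003698670700578370761838082229776107688235012916552666874414789052093424493386188817422878098063360),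
  (696259254275435004468717331772068560451259240626272190459992360875841119144618878415143993400148981706259589488452558918337589711076367807954175659026847005784229805938115796417463521001572899214687909223315391198282587992164715532226587694330461885266379413928199948684828360702541447878420727326102971398312094026931552950758371310561728303066803786954798157874769221931555359387226246831351550302668978463778255448618946976821883196567374798594463137437301963329581906078501718709464225455593577108837325238769012484619351691576419072728567468046148267120132281195082849597515045383655064126010867588191805860642732372748555335063375026800180901196740035741515470404309036029025323386977717061498503191796813452301100324560463466270149417777368151569779074318358349649774775623148234308611758127428586336942457586545150755718707406375151265792942960445092840518345842827993390837446460257926277767764188639668595209239105482484166434127205475017201195180830539229319437526773387255392343480907506946264725833746162261060621316654145569892021851598351755179990699368654894686713260891319839493530059655438468841915398931507448407163353169104400927440058697012404906595132125221140099441095507797404835547605239752069055555743776768,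 417755552565261002691798800208621030497416419678699312903254733980970495365890457037969915119215106518723649629606599663856614587380541286394262412836195289952072740719680191127477333776533925745876466739463508068841291730049114686373415604735785932284396888183354274922290676998140247113713914783426253958711639144316907223202668264530975776834213234216064653931600075944149316425147301165520561595123558611234000443583352153650897855485300394534596052358237404119925406923401371068882144303424510975253720290651597562518769144167069046645840691072706628820556309847332677373342343185194452675936795538585462593007881773236955358070720909043769768250793902659069637932495038427923760784990046386962772934478109597231605244930488820310212581716095676991486712457454099993892781828591311731559522487410163341111100210244790250872821731786336081791353886361665665522909824756034122076912892578162079559449530442416365223200585053090460742175836885456782953084489343082925611486904415991370985592591233678385234046395178806752476093710719186846313446084765564222164104137972771421936358089981581401378324047375836284212468971336241019423016051418898440137487745595765320597147799736853493066054809474069834736755184036554650432168787968),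
  (982954241330025888654171455893003801985536752396407474038945329277849998938920327904099812618624089657201294139652069708258253671025154494211417404779824408892820932081110746000794059205549403859337085490966114412137223338228070351682676545254443740092962115128037425808012369123606213463042563954156789503420474282700101810797408512565059032712844002004873522754499276912033212090910759637292582526393876432702098574382960269058102563118322458936775240577025808235479076715106427252821963722643133932367302744131621904005925924689118702086772901579844961108988845651368933011402913747130145484805241626199766888850727941730560801501872691348570749914211293544377664331695571198919312763677476094598039464205503990137891254419541968386302831880089001531347518504855853833117933664405400583945024161455175452402863319613018888584121285173753192640507757039048543336770184040942031513591063095742078322802332545541068054856046415327626226165233750386197534701000152140483898659690981634233285458855827196055865680648294011927042394283121682187556928061189252461649768945307493599219073219581053236586287922254631083020995813749344906822987423060764347537969377181932150036554302857543669602893750449238004887923791585180157468223733760,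 65020319465410272839909326296934819766261482498179054805216103532813452187527158706217594250465051373896339061085444072836281350042196802807480228304059332060745269170990429978608010344832241932122942164649257051916636664000187714082555364596465773042667780009733467127077210768870407684361202074397357982523209157181224482566725756364324194539062593193581157017908909440988604504875538654860711926753668195414800846215980839720354824726912140806215334549664045923184557403052101832917333074549800592871282194174798266397542289463758986981212385365591851888129305998264079044776700003402440954145765178402022383413815835676406354280993973027633075117065052067771294469903924983828849394996582707067558383591722579350733091044840073134368995255932617865118359757200534468567365931264158628171345046368168840477900458336823505596241710944288945471711014913148153890157086294652109669917993458201608962334448686578368642290622477279871930221698501636042107777811584310669569587719114693660277087742818329174904449306183426610336564481068202199660208269931262349368589489429245219775830422750170504798773957315269621032960212518326748527135428928462173348960865828990990185057712847969313716622353336598073088089490763578573579888885760),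
  (1044372945546673828197060626288897744973666733995954197316890517672591009490282390806065662690245286111912072461896995963901955768498225830256133322364609656957578530639385888366868399654015062137317648732905393446842266590954548825943539519818695271263672306740683783334543055904839110854283374607120374493253756927129160461880086068009661076338214941222747987108890612751999165280456427857592311162362564097562260566049082183464005643383450408224469200967157827780884849615015556814601349943764141676792190873634291169501925392239691930176982744349915368924405315953555061781399900141975865357003715563116659709946283573393355645318731408533931094719472487708503503338001880901898171625155450471752403028421645208500915578952980865656120701238521948131083725659984755027890431007963915305485723358415144919330622483755388884644383028859640024651017705435199594048529097402651258669415878860927949338118620097903796612847808378293618353880305101802051190283243808641257926850592270706712221703867007559006359734357103439139670578683376551460449961435497313284478317742769846368081465595464680055223461752793835654361064529775834045238275920880218095682142316297588215985619295830247171981358410779519025081936500697591658709369487360,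 15936109636993262963339735510893258252072588868346601128547994939454796988167070639367404222864701835381721081681678504440662648825929190222054516766966778758271855336557678779320050709958247098213714327652101158116457539907665298694577352508734037270491399356558467092820120187610149070284008049695063312478377599392265563681071823044641246640296300389071719818804880169207515499328025203702035542122573735587702115911213230975096811463005951690182242961294264194264000120315279111300618291480548618105516068150359009407387187881568958692337680925373290321463305872989281837541706151999509773816084025220049249233312400618234489973978120884815859234422166226872961625248421889917255759256823326891727917702823267472748406581685836706250224275320402166028029103485259327820072259312899656878221455743256081696071150021843564246417122596711778742768680991831755393422032305727614129459545192622416214391753962121936393855082162572151630852448717620198910476347284476199293324227636498757495623773002842903798274355545456573384159441748006341179707568538074194058460178503656770258251940111826013176931995896461618900520396365767579945514988212505506124306483281833615202841451213346867675499028052071898494378882766495309742735360),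
  (1044388881413152506691752710716624382579964249047383780384067102536048311652279794166500367949548670037095340699440577945924519188411744766425342865063096352182749407566563907189250095423188872289268250530667272031444448519167829358467364387742551139971951890400287131892863322385117398831213149104645569180810029423496352102504147882471649591686720970214415727242757551688365160110082206319104102508395421962246492788373441122184969622980671749845650496350529595878789293781184267566123102910236835531495063422911395173894432902275811333069129280248321217058070421103832900684784917020053441691096526093642423824927202217998077198111826294960159238153154309387505628608529543197821192393590164069468106569054195508401065064141590588024157127978259105509379901050614199716666771976826320072847615247283543421727784996954982977906657428619249551431326479018384113714929201462816835663509764229142574338249993912610526223133429380949643422312344268020301554496972217106179873089095287878639104966736634496936635665045580596266584133718219702910785803081861431730307318971302757871563232146417948228042585705497155697220918251084107358566269387230121714446839687631757682358819863287901846957632724011766231073190736163778237650037637120,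 0),
  (1044388881413152506691752710716624382576895065971976858589353558325762581703577373116209554844030890714338963178489809112141439581072972714454262942736425097984374384101534005765528002442051615652490641074648195979731057938187942566235575866294333912054891464563550356723021079151100898465757800794757373708895975627868915374772749284794346022883499982461640858814322885480446402723387880624382608445962529198412695646026586423109037776183188857571989273412200097555400535188884857392297900650163109744432932147509808437653512462283463075146293186423898575261791611776180459883275689644239428874012708382934080757233887683021528198545150023959584948647650668199537879658353182787655539664029375090496988342926942538869942555775961405258111305844372324852566546687172105288240681042267379087529172933837724356990169944731182073796866623506036609157338679039060180187421963643728427477379435916091340385082351830756471856785037119909983059772587226296897948249692334231245717354363836016483361652731661717518038860271223945405892134360875628292552125955049203926940941203386234630132967600014077529681644177504486747201664488587155048825072426631140954800370925774531184530086443555308998288047071220957747452528567912992497171022479360,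 56616434707392290493830608686343291913747826519424025169331841395116649012811092572639449302768990629341828708404942368594556070496864641921825653281839591799809272629712655374837216262533843246178214946173136726191572052335532053631557455965407362945627145692050873059062884263249277883310088411633479647591563738437281683396560877881821391826098215956859447701653543573847872151158373552455292438579124840818592815714171674498966044917139747287587977630411574313594259742247393355685550654861674768423521660345709067262064473469770240240525582832006328674134601792021262669719036973910574958981919727074863918668251995550500192148025242364085728062541046060217537186716233049402876193054943060741037388180049079405125183021373657639768923725358672914668900335028702735020171170043667162938356672400474817179223156636116177112383705580657508148052290382359739787860504601746149424855683172857000017771265118792188758606306181021644902032714364072861690256650043090187963173208580507270868388703643521837163063737990141866596716879176530829663650025240292716015153486087156565539810905283638703819910264465292428568879727905070630020716525949954883666055925344642784006533705566138817967711732042829474703983247360),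
  (1044388881413152506691752710716624382576895065971976858589353558325762581703586392634626505372588775243352352872105555185162748037255922495907952398447320058874700219096305073257981830242798435018035019686250651065418447415300338976514028339919790540980387792506834595479320761864581409260493792716549666612043349939946985768702535104616426703018832797877618599907766679918909496513229068073396938653866725384392011906823866618837911483681642871802115571986757127014779803074498682036976689422495907577215374791596387339333430986753944725551004531963616268374131974982006283952850364273611589682357105999019431192570478511206372913332978616838694922757366748605756393162105723584615129415744539163090496186485596186125932239998818024808328264260209318789699629592192841676902224010390993611474200230041347951552788965224685023984186612074639712071488262229165368989798989751707182830380821181733419685755407429754653531231161661664011593693540161521167323715152623568632830855334025170892373038128781822344696717644207609900280793099360328448932625182650585053911434992325825823600174577730058981233768284019145295273673705289494554320966352007715484692964410133198131221716844854846317917494176350907152159630636219691353912387829760,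 56616434707392290493830608686343291913747826519424025169322821876699698484253696992699181148196370440194640344481501539081774517233199662392124072113825438978530725937023694477517759054778936727975170656998690845222593912233990236612778446140421564912523774905081833644247778586832147289578977323162245703446479684725847077827076888393052594805364708075290118416443703070439611800812774568095200256576668626603738931048412599056537781222098321168073758383128301372805369488466864334008078225177646269187273125590330151900318552146885730510477386529680094826549461436778198743142062943840751437201923566656738917399686108467690608190035748730608331422551222451704583419297959768126291957525016647284621821080964047541831177127234507996719565783439053721679361525038612621194926701491519437769267390204060739718182195390257165047894574605928825770321075964925951493330040423454903090069558782247144586930402342753888580238414300353318211754598539755722351539284940418122990382700144457381900673005753320329185234413539533934616363147199006955561564982341686670232820948590251724449659649863296043624328930426061446546898803933357365040091154210496502165679203844114301503566528110132026438143878000681959554820341760),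
  (696259254275435004461168473811082921719976166031589186922822322189302605314372840501673468027139488691004939307314035421970719028177395220165911299136104149691532519884225031512734343064324410078093388320392547578344249148528583409169167273577683491597762186995348587169328053189292892553479188511449047655051167636614753230833591046720725360479984081770044775411750647151428894701667903683516223719137927617030345530238202428612561253039007811577244416231069117999587910985941564628416997166554081318619594225170992848991883802515950142545705759834389716662918372515276772696160593473337465749317388258025981496416613225892629247535347449094024031395088466452723853233098414338741438779283150060011212421271700590565220391465387063295379254680175591489464862303327095472636311498648038555946061845837761624220460638302658134316116948413778190473421800549723088059023406724025352393132089186239972249041761626213818259228260760839282313257621387172166926324871208109611915861736810559973848244368964996347755173762147287411577110301841514012351933238471164362008238656024112036513228388693001079363424589915858899645233384551864964010140417567774485557392783443179012146769645124075697071605395129618625784348944983403330945761148928,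 417755552565261002676701084286649753031985699618953512153693393313581563188625387944441911581614589597179112347818092195153036180714716406886135582944267446001314440586807578115924823784582741802337984339418684937266174622370073856549986369206602903086426436420126239960073733883064795023324056789525469380323673962605868954699247904139338862738443621516107998342029138260558161889449914396747174807253223438298795764629135573731719387739182019734786566839024899901904779387086153554233317640708741892246011663860188788588140508598832669545870875872386214521636388197204444092952185710787601008872254637820915877477432976326445660310846032768113441342537555047647283052178060527678274143608940681851318830211888498211857333961527530603236235289114885505624303729792744740973008291533927142884816918249375646895399976432425102306658327346539906495883709966975879239204124051642983472989681687955046198244652411225900806125872621525414081942461781464049400175107775367289248480672728881168572626640010775853423583085757698426724522792637270039271165216042100201742454500203943987418421402629352086372435953807952734378115545585583057423765656543320783311858222732547265321008572070629092346744917984994447475092019462632409222430588928),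
  (982954241330025888651061374792117065957613410868125910949866807796662501620289866616341478325375136079762161022113160252636097070889526752265777941466734469466530548719143035738337772848298904648560305767066651069243173004388832567906322057397480780854941225701565148359722303274571964344297395368682681976819296828622019180156603856732143417131141006558251576544829160336192273041432343537804752701387436408083139920245377274917883940085488801306319009505555396863325108369122681187248817219650468603730692941575610594426446876272963229886427141075438831994002976552840119354516626211128005075089741638539157217687930518758126394931374831462631771827810967453385056929738524721373505618219882517263858599842295615185957788849305977780508709292446987699206000593944566985958682796773862512549309452094728640899839914166870858928123500655459638783417205982231360724983191853510457510491540680249137667668134006227189366701280321234051834216170576680176913465065643966645999548923245823872466156792554960035438427619626421983427597184933672410037158176642222636890371547319242705312424492719582794247006925018336454547491803681286694226672134006965939503502770477020410918570439428750000762531430336945386822925417889661810900320911360,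 65020319465410272790148028682747043273460809279214554420808310243358998161661309959625081912562025640781485960113951282977321577827484765964685910796328323687218909386970091463214588380418386384246828744588047365742193576507902474108833831153641126396231683219988678773528344911903202484009120043404866247908926871644375321702507647515564427554190449156446148452824964516308263495879344507364910537880202016058311562452403141364811178839526254624359119646094819937159804527902085463692793571986042796216376511073321115407031418948014422221068820148929309144865878518798075564757690982696604803786739219185566181570243306491052073962333684157564878056080005320173791703438843672833686657366911175829967841085750135746082662870399183438914436845599941748513554580779923791399132497408367418845042903345010136179174659598072933498773223220850099120762648084798855395849907919426181190554129654037047121076792519785671431511729637169602011910726091108976515253512700397943284235135715474865273313150110529641290222187474634767717548015607971062911850918929249014774120222553417272253522186118764149636750656812424802435525555862383785155853357392659247261926781375170410844607823704571862483884841524830733142285718188575576059921039360),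
  (1044372945546673828197059762417026954800502571456876931065827327471461972821825678640525119167700241475062283882504254094274843087877351885057306680114237276455076447160825138496956159691691995671898687531569851134847085389163487317300461529939232940113742997979149133218128020434218714282068088978444189955978380839881792647475321131012333918484728496163351429417714628617316100837615418581516292768389312952899423045950354822387754644522067870037455007964967342121922001942847767069949756835964583866776223868156301780727415026216144638512902853223204043219951331169435686837732395010676654450047002257835523521456844920686342175689117767529132874725898043492392804454919107518830937822033246579316503368262817358720428307858807662964426934577056570882430609416648432771578096908938269578899254549423291227103045128059817988812436398732102816182149279436088740995385526084194886059871578566229619915972988502031066731760675876425546513256927384669839664970755665526842198261705408971512228222260557036962564115382670034678736920127088560099369515811019284566410176037960412121569073057782197765712775117843994700103670165684217435867065225818320048404248114558442511404134817196235249406490615356669357209063366719957986645597224960,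 15936109636993206348632811405903632783064829242067531260939686163225564451035060798563687224197275794366229953815848199580697680914632968875501487699259231786440384020307467642596081140813819171870429375544394277116181345059176487595932168159928951510599483274025102446443571550802892621246049147302396771264355961078867001815778463822923110607013340006098239392115634138086047148330727064401106944825696293442283714703543916788447174254212860206606790155229554861228156134991518710556496812236082308826185493363397529535092467096577868858561955960155516322730457811376239070980148461642005437031184586538988261658876741083904600920788210677942685092893671199667708737114545306364239493034164693833022907313669421202901669434810832455098192933851634905886053607535392629185114939139980412955023882925495216826535495291248312636570135379861791963677474573699724408042005323815162221441827702375508106075292185186147132534696529271776510371377892019145592766860670137120399400597643557540390438268902955378629241301114725809855666116538257220479663880202848794718206560006192117478093200761296183496533670497187074748119405836741996494416190806417649518804771618417968018443042852148917351879681281959704743070205933849636985896960),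
  (1044388881413152506635136276009232092089202823436447410265032820226910016431650373821674532042255356787212268917622356150365770087345574449801866716892902964459298777749754216813162915774613473551208643724152504836979624153974579423162168025156185586913331439090119347956922347973621962717414225441587202986652363173254493155373288565378383099741727556563036683568578390611389996272778187437707955115362621888898659117602532433348842878301774017092718196109551334702723680995973634089752616547994328280759566290301294959332352796688484727720003952594793498414664728334854939552989639046339690505269597920710790758180535363472389993766212903226281984217434756157354281237705882158082205383542892465485200686650747815513319918850354634807309131509601606558597155504302289399119820374106138345381613538843814914749476558129716024996164721815323080570686231823989120358353776879048495436456632601037662763686407189098783970119226869805043933030886371546890133300428191573528991196169514487355256862258700931740621644144975683505386343407657695434966220118335933615136889725782302235793270731611460008609388224203935681569417571289068362451073044641114928695264336243256341700344118302204297887419259694859921359778991492083561778233999360,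 56616434707392290493830608686343291913747826519424025169331841395116649012811092572639449302768990629341828708404942368594556070496864641921825653281839591799809272629712655374837216262533843246178214946173136726191572052335532053631557455965407362945627145692050873059062884263249277883310088411633479647591563738437281683396560877881821391826098215956859447701653543573847872151158373552455292438579124840818592815714171674498966044917139747287587977630411574313594259742247393355685550654861674768423521660345709067262064473469770240240525582832006328674134601792021262669719036973910574958981919727074863918668251995550500192148025242364085728062541046060217537186716233049402876193054943060741037388180049079405125183021373657639768923725358672914668900335028702735020171170043667162938356672400474817179223156636116177112383705580657508148052290382359739787860504601746149424855683172857000017771265118792188758606306181021644902032714364072861690256650043090187963173208580507270868388703643521837163063737990141866596716879176530829663650025240292716015153486087156565539810905283638703819910264465292428568879727905070630020716525949954883666055925344642784006533705566138817967711732042829474703983247360),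
  (1044388881413152506691752710716624382579964249047383780384233483283953907971557456848826811934997558340890106714439262837987573438185793607263236087851365277945956976543709998340361590134383718314428070011855946226376318839397712744999628268495061253824746198115055105991206012763388077404265115613783708860651282633709930898394698025719137832623894287543332693638598939991130867399494491979212543780732219885004925687336786781166577114411862634470224002074466280030282577266220836503176224463799919030784170926112529720893977654578520806188429700915903617648605693232581415336906992823177620399217179480582496483821856879027242480455144386653503755819095721203448987464323876431585526898556913766764209330293565131198320405009746970008304228084968406980145648901219118358416268971440187437056434621964805484529699206634227807777033444001689484443895259218807616657643412326621076276983052159627458610832652862286899749739535014710887635346608977150070449474511346370512446865990647462185196661584762396568395478751004541791050309290411248237363527443613946051846603600993389719649008571605993248359104062787920274839046443248089514038787591691029822328218403877988345674244858924570955055060339907306308302339473270582262249103032320,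 0),
  (1044388881413152506691752710716624382579964249047383780384233483283953907971557456848826811934997558340890106714439262837987573438185793607263236087851365200051875641980331233831654138225785083950552277465749725235095346794307599601916087333516532942974033504539897429691338256245201060803893914535756384924757041798244241656545641414576100988009517891277903053850630109607319540033880682415162070762327463099176532401360336582737496837236838423179915956750556841642083169079382025073222781442296171339935863684164176121765258403742997701680441182556858027037212153846071431657161324909173442045010756899967822384603565432049588917351955385248210603486961443391966869712597138157616194355143062282345214243180535169577690675234963328025992157516501052096944786837923312431101653863270640200589425266756603789055695029739046655678953383373969843687805531702384053539049199407585726044613327548449010694641192561724680365528349892412573282083016219032802534870785545527799702621312840760188805506965928517167894150913178518493450031396943380848148763923664961397336693206034498457656073166460345009209584662654107911985881479063493383580888386127827039067090346065916938742809039857204626431960307598468901857220437351884396791448207360,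 9019518416950528558373478086511232658951474842525520401496114928154304263954966638953020103274038169821978036310387105187439981983038679543190552246151273021236014292904850411623492615311902713533604657317356930881939001031284917298447400467322548699893550172252425582164414002235476285718672526921947899884076143722320658214867256654175610372359594170567623823294706457709319528877964732541670404718863569549003900938014103355440510809337868724711616801246077382776671135382024514218349402794868384590595827948117279517634303573500087190774425882845831044694820981402797150482022689894806475191675669381301451629900338016565692815986585890220958291739975393844311584738758046735900410224405661383605784563004792006336172638742431513083952802254702099670412385862614909492821179282498901586557090060777645517428051662323161624139398529548405211996579187988854821113313031708226492474131006514085709896326065939321895950005690139342385906384305818862985663474771070213916255228530855929548953246695337548469907660127235680756271724114972558698772500868529054227098428310149196146498511649578971125537597284956912273738223308124379210042085693846101279375360),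
  (696259254275435004461168473811082921719976166031589186922822322189302605314371637899217874623331705560593404476292841891991715625457195738175490725234243518630637984362473332226907726756255812209618713341237297484250879226265141830448223122896391078331205272470535802714189365826745739409645318522398686004458733932053907851706318353797947903649144565645397365566905995782344310508114547941907788500400306160890371145246156011948863226671146588042552701489750965219476559593077587845401773680820521609139733148763349821260585967547867764535188939138355370453193823068118053019183095633839973453850905290938679812860270509609009054123075121846737852460650710881523665973597967800224619601959633395401277422022457609250547966802591453098973498349546640475002484849080563910185480790386218825688532018412225476823305028426244618325769819427951717225003232159123012971075900857586535952846201025074368411615246900521506322909604895711732328037456370756871604970802103592744406662873624087409672981528056265524303631505151670611765598098169239827459955744079359861475848718159658808038785306435818352392554029107499054260055897527132753766725370600983959222169581362905773919487234450325188422236580598794593576862944127710179004218605568,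 417755552565261002676701084286649753031985699618953512153693393313581563188622982739530724773999023336356042685775705135195029375274317442905294435140546111178382790617483999336144636053753487325771228004742378490550527535759085098268933873737834646998723163482321481628513619496047443645787191113439211602676324819018147103195524786084985596072014974753492826450987074884500197667988189340615642495219699132554470236595289970425529501527002094954908692885992158513211929928591754933691953514010269269227885578875324364403367787562858491622335659231964439766490386146292522191488592853961758441830054619017977983165018442904655428415614531223636695495835190940021214743466966173015455985199757414376011573950070254284073656455361484586824237141794101694685732274012754400071562374320779796536233464022849079685411326191012454126751176278537376913826826187750695427672261954709804276532230902303013251363271873772806586380769124801950331443132073715214635493891064022872348370428311197083308749580984110845276951154017957898975636427367465917499155862170527535662177605681242765528496967217497858782675754694071418348832360543119337384673738327855463562892029333714275270076081260584704135941437431880387235379974689822610621116448768),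
  (982954241330025888651061374792117065957613410868125910949866807796662501620289371151836999468232996085543629848884012082811833824174864571541869259154226143949135977923491763143869731891184676060638183540570302330707123613550788466515138526441963875291113325840756427361208516461288102695969861443386380241588026408417669985293834340112233024855673057120187045234800762749006097450473292449122869068009384353396346273655708315024309521096766315313071320250240839048608449931594765594852681490062932849048398148309984102997620435314428549553955553643545004891789501645968523011395669304580613465427216325889424213303205053187271208780392749362616003593075678827326173470190966413194366646928358102781634702701757317412763401077046106818979615766870673426173013046330696104103902108895357186334091309611084719820792963380419274935485849232717623453221740761570889729627366678635716972635312930284529706489109784972979346732092001614908847272356454634457818183905507817076707044362564973132255856556953404254722189802957356443496374944483063864112772938641841404504814260333343410371035663477887417284878222108399465328391748733738019575692253360890696523232154358977537947520237375798203391724319894833941314704294714525180126570741760,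 65020319465410272790148028682747043273460809279214554420808310243358998161653382527553420198287785733284987188447580565789109630392889874382146993796193947265117944064978054371384379152335173124633654164162237897361949811013087174827849630153748583190462749180127857062803676186155244147204232079912717759176277475105073682018525708660938553771234514994497940343145655357586385244077225001338896094838154716441723902508053536212201131910029437011931453927317377813434103487582594871446088069965421528143341201678778716428429332435762256618710287241286262745448769001085842649987516233551470218133866205595266399484907571710905574383375540412362246166773368956048386944027388954471829739704826411468083016023238047238921705876028211026123446931775044966763066334512512326908067916528877853896088966898790272894612135433545173231872907263171323148135035348152729124149175811130641265290661593005257463340753287796448359208428584128698207959671028910605034584176692247483243159929358215785626232731347144140149247808353658833227351416200259095903464078381366443758352928255706855122890156749300761847420355023232450055408674937230802466249868889221542019325189788220938051450643439044949818303925286270102859969303140125045772003573760),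
  (1044372945546673828197059762417026954800502571456876931065827327471461972821825678502902390206631368287052718825052894233034066448646477102180500179340327980460903556994805658654408001145108432846397576884767250437032492049663068228640037320493871073809768575078864634481524503993658744936841378031125630239135682722713004727172760755026569933876120843789327430659937224766478645484412916857808329637761318260569821621598542803384125187110326306946665275810306247802101244949963559309848652838519630140079407323843956214036220886312591211769346327994905686001275972710092575870009020202912193867247430321195027007887873937841619084725724643269644500164792265200491895925536915097183918763649607333596872335227507707832711629718000804888890344344881745105236245048910788549497526596409902798574967719217689245832602317780608761567646216942828269483173257453902408276795331425221220485761211744134936266028898329883789302716995829111105504684911822721967670040517263007636541852396627836534561281829725908875988280563970991013896056098619892971443729739188015146571925704061580413524135725323893047096641497050537726896989089319337190072466326544506938914990366917681353398106516337286878769743722022667019413631949617226203302052495360,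 15936109636993206348632811405903632783064829242067531260939686163225564442015817633371077550947880938761097633949572661752063071144018578040782562972196496995927239632895528063722515736549267458474517459474148655407514836651099302305207313869148379819263337013702889563588607556802175382646638436564067848345607908476335882193801298255420092364798370465099395345090389812402261100916222788363425996426044690054365954633321601977649342939304463863192306840499313237139137503258131860290051641949363954565598755492267492151960566999077070393034079514810372504361481925064256634604107578397237508503474513690926626835021544175342289620484066027159983239861323363284090078913722425089009049260569540759139239475782146003419115986512330985733402011054863484411961096453872823606271798237200466796497042769519864462715328471292233007074165004629165274800379841927100837589975925964116245069257841719135980143345153027367142635347005869861862526204268535336494846095689557201789326513062498183377898351110046971911637113120299930397756111957454975605896957085897937829139883846278999641281835187407535259236448903098392914121908017010902003698670700578370761838082229776107688235012916552666874414789052093424493386188817422878098063360),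
  (1044388881413152506635136276009232092089202823436447410265032820226910016431650373821674532042254867838139147378579230266491649995086065497860958814445672983098674523922997302141987634666555615082983722320304956269495278966036628895198106523331321502350737542153318103393882108000571554757684726905909324459997731583883472732859280975601025402527532254158160259772383715382530705290491641494371654562111343972005773413346346998928288831231288028832647639492203743574725026104741551722464146909510899151766673829048756739268161692207347788686935476386140435231531480695979422590170008329717094956693883244424665020082002358133042565490987864613932945358906121438646532632402140359322671952137829207719424994097778183391576067203399103698154814569074384232340606725596504034751958418223033913026103563034219454133513638481220192110946049773602225743270121201674032669738337209000537003308666853096825900675021613219254328105294397942759698229552528305079415719246547292608775322257063365378338884242654117952940205234814558377179367112079749020434670643070431046095555714489559645641880853870345986008789768696939670813369329378256204610287283782241075993426343703117679319563922655768512803866586830810413118119953764168247581354229760,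 56616434707392290493830608686343291913747826519424025169322821876699698484253696992699181148196370440194640344481501539081774517233199662392124072113825438978530725937023694477517759054778936727975170656998690845222593912233990236612778446140421564912523774905081833644247778586832147289578977323162245703446479684725847077827076888393052594805364708075290118416443703070439611800812774568095200256576668626603738931048412599056537781222098321168073758383128301372805369488466864334008078225177646269187273125590330151900318552146885730510477386529680094826549461436778198743142062943840751437201923566656738917399686108467690608190035748730608331422551222451704583419297959768126291957525016647284621821080964047541831177127234507996719565783439053721679361525038612621194926701491519437769267390204060739718182195390257165047894574605928825770321075964925951493330040423454903090069558782247144586930402342753888580238414300353318211754598539755722351539284940418122990382700144457381900673005753320329185234413539533934616363147199006955561564982341686670232820948590251724449659649863296043624328930426061446546898803933357365040091154210496502165679203844114301503566528110132026438143878000681959554820341760),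
  (1044388881413152506691752710716624382579964249047383780384233483283953907971548437330409861406439184862803595481780311363145047917784297492335081783587410389201085291003814724679247064006671965573116422575979128538114100332241674615061933189180684714263835399074900879577540164624257737073754377690779747879247076068708297591543861086689922251656106269806526857140849097848020246865224225399540696140922109414179143362940877385425089767763592139302822727869497753685940315048340784363580663584365652618277037657251545451297985288612797833313641548139567183745780883216296530632062064909233681473905967757623670495849373900122050212513638567077394111000747976325036298740858939036173557990340864913166638724590608506928729176492790636596771987068697003816610610554290518624347278295046729881517107804534264748490619430727154257775443092243546510290492165555948680874651068155595648863835348719143583365399973764319570728738723198282586161325906876374591979780816292611315316939457581238079950454901979583903289003727801444197745361292644601769649057128796771017181979347844306695844718533304664520857314586758415172945273728765912945430922022524557771467437246936367566612471660835600974969105860638313044689943936348041638183289487360,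 9019518416950528558373478086511232658951474842525520401496114928154304263954966638953020103274038169821978036310387105187439981983038679543190552246151273021236014292904850411623492615311902713533604657317356930881939001031284917298447400467322548699893550172252425582164414002235476285718672526921947899884076143722320658214867256654175610372359594170567623823294706457709319528877964732541670404718863569549003900938014103355440510809337868724711616801246077382776671135382024514218349402794868384590595827948117279517634303573500087190774425882845831044694820981402797150482022689894806475191675669381301451629900338016565692815986585890220958291739975393844311584738758046735900410224405661383605784563004792006336172638742431513083952802254702099670412385862614909492821179282498901586557090060777645517428051662323161624139398529548405211996579187988854821113313031708226492474131006514085709896326065939321895950005690139342385906384305818862985663474771070213916255228530855929548953246695337548469907660127235680756271724114972558698772500868529054227098428310149196146498511649578971125537597284956912273738223308124379210042085693846101279375360),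
  (1044388881413152506691752710716624382579964249047383780384233483283953907971557456848826811934997558340890106714439262837987573438185793607263236087851365277945956976543709998340361590134383718314428070011855946226376318839397712745672334684344586617496807908705803704071284048740118609114467977783598029006686938976881787785946905630190260940599579453432823469303026696443059025015972399867714215541693835559885291486318237914434496734087811872639496475100189041349008417061675093668333850551032972088269550769983616369411933015213796825837188091833656751221318492846368125550225998300412344784862595674492194617023806505913245610825731835380087608622102834270197698202313169017678006675195485079921636419370285375124784014907159135459982790513399611551794271106831134090584272884279791554849782954323534517065223269061394905987693002122963395687782878948440616007412945674919823050571642377154816321380631045902916136926708163087127244216309198971262386860999862052569358829242522566009641736525969123854585741390133251714157208956593248039807892017799407429949253525866245438695142549563577575441340608654547138984292476721570896851570139497420783623021527389302926362489509865980826545304680834492094956373938969352010778930053120,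 0)]

/-- the product of the first table and the conjugate of the second one -/
def prodT (t s : ℕ × ℕ) : ℕ × ℕ :=
  (Nat.xor (Nat.land t.1 (Nat.xor s.1 s.2)) (Nat.land t.2 s.2),
    Nat.xor (Nat.xor (Nat.land t.1 s.2) (Nat.land t.2 (Nat.xor s.1 s.2))) (Nat.land t.2 s.2))

/-- equality -/
def beqb (a b : Bool) : Bool := cond a b (cond b false true)

theorem beqb_iff (a b : Bool) : beqb a b = true ↔ a = b := by cases a <;> cases b <;> decide

/-- check of a coordinate table -/
def coB (t : ℕ × ℕ) (i : ℕ) : Bool :=
  allB (fun n => band (beqb (tb t.1 n) (tb n (2 * i))) (beqb (tb t.2 n) (tb n (2 * i + 1)))) 4096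

theorem co0 : coB (CO.getD 0 (0, 0)) 0 = true := by decide +kernel
theorem co1 : coB (CO.getD 1 (0, 0)) 1 = true := by decide +kernel
theorem co2 : coB (CO.getD 2 (0, 0)) 2 = true := by decide +kernel
theorem co3 : coB (CO.getD 3 (0, 0)) 3 = true := by decide +kernel
theorem co4 : coB (CO.getD 4 (0, 0)) 4 = true := by decide +kernel
theorem co5 : coB (CO.getD 5 (0, 0)) 5 = true := by decide +kernel

theorem ml_eq : ML = CO.flatMap (fun t => CO.map (fun s => prodT t s)) := by decide +kernel

section

variable {F : Type*} [Field F] {w : F}

theorem rep_co {t : ℕ × ℕ} {i : Fin 6} (h : coB t i = true) : Rep w t.1 t.2 (fun v => v i) := by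
  intro n hn
  have h1 := (allB_iff _ _).1 h n hn
  rw [band_eq_true, beqb_iff, beqb_iff] at h1
  show vec w n i = _
  rw [vec_apply, h1.1, h1.2]

/-- the coordinates -/
def coords (F : Type*) [Field F] : List ((Fin 6 → F) → F) :=
  [fun v => v 0, fun v => v 1, fun v => v 2, fun v => v 3, fun v => v 4, fun v => v 5]

theorem forall_co : List.Forall₂ (fun t f => Rep w t.1 t.2 f) CO (coords F) := by
  unfold CO coords
  exact .cons (rep_co (i := 0) co0) (.cons (rep_co (i := 1) co1) (.cons (rep_co (i := 2) co2)
    (.cons (rep_co (i := 3) co3) (.cons (rep_co (i := 4) co4) (.cons (rep_co (i := 5) co5) .nil)))))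

/-- the products -/
def prods (F : Type*) [Field F] : List ((Fin 6 → F) → F) :=
  (coords F).flatMap fun f => (coords F).map fun g => fun v => f v * g v ^ 2

theorem forall_ml (h2 : (2 : F) = 0) (hw : w ^ 2 + w + 1 = 0) :
    List.Forall₂ (fun t f => Rep w t.1 t.2 f) ML (prods F) := by
  rw [ml_eq]
  unfold prods
  refine List.rel_flatMap (R := fun (t : ℕ × ℕ) (f : (Fin 6 → F) → F) => Rep w t.1 t.2 f)
    (P := fun (t : ℕ × ℕ) (f : (Fin 6 → F) → F) => Rep w t.1 t.2 f) forall_co ?_
  intro t f htf
  refine List.rel_map (R := fun (t : ℕ × ℕ) (f : (Fin 6 → F) → F) => Rep w t.1 t.2 f)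
    (P := fun (t : ℕ × ℕ) (f : (Fin 6 → F) → F) => Rep w t.1 t.2 f) ?_ forall_co
  intro s g hsg
  exact rep_mul h2 hw htf (rep_sq h2 hw hsg)

end

end Cfsg.Agent.H767.U6
end

-- part: H767/U6/Chain
section
/-!
# The bound of the centralizer by a chain of vectors (helper767)
-/

set_option autoImplicit false
set_option linter.unusedSectionVars false
set_option maxRecDepth 100000

namespace Cfsg.Agent.H767.U6

open Cfsg Matrix Cfsg.Agent.SporadicA.PermTab
open Cfsg.Agent.LieClassical.HermBasic Cfsg.Agent.ClassicalGeometry.PSUAutCount

section field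

variable {F : Type*} [Field F] {w : F}

theorem sq_add (h2 : (2 : F) = 0) (a b : F) : (a + b) ^ 2 = a ^ 2 + b ^ 2 := by linear_combination a * b * h2

theorem comb_append (fs gs : List ((Fin 6 → F) → F)) (P : ℕ) (v : Fin 6 → F) :
    comb w (fs ++ gs) P v = comb w fs P v + comb w gs (Nat.shiftRight P (2 * fs.length)) v := by
  induction fs generalizing P with
  | nil => simp [comb]
  | cons f fs ih =>
    rw [List.cons_append, comb, comb, ih, add_assoc, List.length_cons]
    have h1 : Nat.shiftRight (Nat.shiftRight P 2) (2 * fs.length) = Nat.shiftRight P (2 * (fs.length + 1)) := by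
      rw [mul_add, mul_one, add_comm]
      exact (Nat.shiftRight_add P 2 (2 * fs.length)).symm
    rw [h1]

theorem herm_two (u v : Fin 6 → F) : hermForm 6 F 2 u v =
    u 0 * v 0 ^ 2 + u 1 * v 1 ^ 2 + u 2 * v 2 ^ 2 + u 3 * v 3 ^ 2 + u 4 * v 4 ^ 2 + u 5 * v 5 ^ 2 := by
  rw [herm_def, Fin.sum_univ_six]

/-- linear functionals -/
theorem comb_coords (P : ℕ) (v : Fin 6 → F) : comb w (coords F) P v = hermForm 6 F 2 v (vec w P) := by
  have e : ∀ k : Fin 6, vec w P k = d4 w (Nat.land (Nat.shiftRight P (2 * (k : ℕ))) 3) := fun k => rfl
  rw [herm_two, e 0, e 1, e 2, e 3, e 4, e 5]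
  unfold coords
  simp only [comb]
  have s : ∀ a b : ℕ, Nat.shiftRight (Nat.shiftRight P a) b = Nat.shiftRight P (a + b) :=
    fun a b => (Nat.shiftRight_add P a b).symm
  simp only [s]
  have s0 : Nat.shiftRight P (2 * ((0 : Fin 6) : ℕ)) = P := rfl
  rw [s0]
  show d4 w (Nat.land P 3) ^ 2 * v 0 + (d4 w (Nat.land (Nat.shiftRight P 2) 3) ^ 2 * v 1 +
    (d4 w (Nat.land (Nat.shiftRight P 4) 3) ^ 2 * v 2 + (d4 w (Nat.land (Nat.shiftRight P 6) 3) ^ 2 * v 3 +
    (d4 w (Nat.land (Nat.shiftRight P 8) 3) ^ 2 * v 4 + (d4 w (Nat.land (Nat.shiftRight P 10) 3) ^ 2 * v 5 + 0))))) =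
    v 0 * d4 w (Nat.land P 3) ^ 2 + v 1 * d4 w (Nat.land (Nat.shiftRight P 2) 3) ^ 2 +
    v 2 * d4 w (Nat.land (Nat.shiftRight P 4) 3) ^ 2 + v 3 * d4 w (Nat.land (Nat.shiftRight P 6) 3) ^ 2 +
    v 4 * d4 w (Nat.land (Nat.shiftRight P 8) 3) ^ 2 + v 5 * d4 w (Nat.land (Nat.shiftRight P 10) 3) ^ 2
  ring

theorem comb_row (P : ℕ) (f : (Fin 6 → F) → F) (v : Fin 6 → F) :
    comb w ((coords F).map fun g => fun v => f v * g v ^ 2) P v = f v * (∑ c : Fin 6, d4 w (cd P 0 c) ^ 2 * v c ^ 2) := by
  rw [Fin.sum_univ_six]
  unfold coords
  simp only [List.map, comb]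
  have s : ∀ a b : ℕ, Nat.shiftRight (Nat.shiftRight P a) b = Nat.shiftRight P (a + b) :=
    fun a b => (Nat.shiftRight_add P a b).symm
  simp only [s]
  show d4 w (Nat.land P 3) ^ 2 * (f v * v 0 ^ 2) + (d4 w (Nat.land (Nat.shiftRight P 2) 3) ^ 2 * (f v * v 1 ^ 2) +
    (d4 w (Nat.land (Nat.shiftRight P 4) 3) ^ 2 * (f v * v 2 ^ 2) +
    (d4 w (Nat.land (Nat.shiftRight P 6) 3) ^ 2 * (f v * v 3 ^ 2) +
    (d4 w (Nat.land (Nat.shiftRight P 8) 3) ^ 2 * (f v * v 4 ^ 2) +
    (d4 w (Nat.land (Nat.shiftRight P 10) 3) ^ 2 * (f v * v 5 ^ 2) + 0))))) =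
    f v * (d4 w (Nat.land P 3) ^ 2 * v 0 ^ 2 + d4 w (Nat.land (Nat.shiftRight P 2) 3) ^ 2 * v 1 ^ 2 +
    d4 w (Nat.land (Nat.shiftRight P 4) 3) ^ 2 * v 2 ^ 2 + d4 w (Nat.land (Nat.shiftRight P 6) 3) ^ 2 * v 3 ^ 2 +
    d4 w (Nat.land (Nat.shiftRight P 8) 3) ^ 2 * v 4 ^ 2 + d4 w (Nat.land (Nat.shiftRight P 10) 3) ^ 2 * v 5 ^ 2)
  ring

theorem cd_shift (P j r c : ℕ) : cd (Nat.shiftRight P (12 * j)) r c = cd P (j + r) c := by
  unfold cd
  congr 1
  have s : Nat.shiftRight (Nat.shiftRight P (12 * j)) (2 * (6 * r + c)) =
      Nat.shiftRight P (12 * j + 2 * (6 * r + c)) := (Nat.shiftRight_add P _ _).symm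
  rw [s]
  congr 1
  ring

/-- hermitian products with the image -/
theorem comb_prods (h2 : (2 : F) = 0) (P : ℕ) (v : Fin 6 → F) :
    comb w (prods F) P v = hermForm 6 F 2 v (mt w P *ᵥ v) := by
  have hl : ∀ f : (Fin 6 → F) → F, ((coords F).map fun g => fun v : Fin 6 → F => f v * g v ^ 2).length = 6 := fun f => rfl
  have h1 : prods F = ((coords F).map fun g => fun v : Fin 6 → F => v 0 * g v ^ 2) ++
      (((coords F).map fun g => fun v : Fin 6 → F => v 1 * g v ^ 2) ++
      (((coords F).map fun g => fun v : Fin 6 → F => v 2 * g v ^ 2) ++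
      (((coords F).map fun g => fun v : Fin 6 → F => v 3 * g v ^ 2) ++
      (((coords F).map fun g => fun v : Fin 6 → F => v 4 * g v ^ 2) ++
      ((coords F).map fun g => fun v : Fin 6 → F => v 5 * g v ^ 2))))) := rfl
  have s : ∀ a b : ℕ, Nat.shiftRight (Nat.shiftRight P a) b = Nat.shiftRight P (a + b) :=
    fun a b => (Nat.shiftRight_add P a b).symm
  rw [h1, comb_append, comb_append, comb_append, comb_append, comb_append]
  rw [comb_row, comb_row, comb_row, comb_row, comb_row, comb_row, hl, hl, hl, hl, hl]
  simp only [s]
  have hrow : ∀ r : Fin 6, (mt w P *ᵥ v) r ^ 2 = ∑ c : Fin 6, d4 w (cd P r c) ^ 2 * v c ^ 2 := by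
    intro r
    show (∑ c, mt w P r c * v c) ^ 2 = _
    rw [Fin.sum_univ_six, Fin.sum_univ_six, sq_add h2, sq_add h2, sq_add h2, sq_add h2, sq_add h2]
    simp only [mul_pow, mt]
  rw [herm_two, hrow, hrow, hrow, hrow, hrow, hrow]
  have c1 : ∀ c : Fin 6, cd (Nat.shiftRight P (2 * 6)) 0 c = cd P ((1 : Fin 6) : ℕ) c := fun c => cd_shift P 1 0 c
  have c2 : ∀ c : Fin 6, cd (Nat.shiftRight P (2 * 6 + 2 * 6)) 0 c = cd P ((2 : Fin 6) : ℕ) c := fun c => cd_shift P 2 0 c
  have c3 : ∀ c : Fin 6, cd (Nat.shiftRight P (2 * 6 + 2 * 6 + 2 * 6)) 0 c = cd P ((3 : Fin 6) : ℕ) c :=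
    fun c => cd_shift P 3 0 c
  have c4 : ∀ c : Fin 6, cd (Nat.shiftRight P (2 * 6 + 2 * 6 + 2 * 6 + 2 * 6)) 0 c = cd P ((4 : Fin 6) : ℕ) c :=
    fun c => cd_shift P 4 0 c
  have c5 : ∀ c : Fin 6, cd (Nat.shiftRight P (2 * 6 + 2 * 6 + 2 * 6 + 2 * 6 + 2 * 6)) 0 c =
    cd P ((5 : Fin 6) : ℕ) c := fun c => cd_shift P 5 0 c
  have c0 : ∀ c : Fin 6, cd P 0 c = cd P ((0 : Fin 6) : ℕ) c := fun c => rfl
  simp only [c1, c2, c3, c4, c5, c0]
  simp only [add_assoc]

/-- the tables of a matrix -/
theorem rep_mat (h2 : (2 : F) = 0) (hw : w ^ 2 + w + 1 = 0) (P : ℕ) :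
    Rep w (accL ML P) (accH ML P) (fun v => hermForm 6 F 2 v (mt w P *ᵥ v)) := by
  intro n hn
  have h := rep_acc h2 hw (forall_ml h2 hw) P n hn
  rw [comb_prods h2] at h
  exact h

/-- the tables of a vector -/
theorem rep_vec (h2 : (2 : F) = 0) (hw : w ^ 2 + w + 1 = 0) (u : ℕ) :
    Rep w (accL CO u) (accH CO u) (fun v => hermForm 6 F 2 v (vec w u)) := by
  intro n hn
  have h := rep_acc h2 hw (forall_co (F := F) (w := w)) u n hn
  rw [comb_coords] at h
  exact h

/-! ### surjectivity of `vec` -/

theorem d4_surj (h2 : (2 : F) = 0) (hw : w ^ 2 + w + 1 = 0) (hc : ∀ x : F, x ^ 4 = x) (a : F) :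
    ∃ k < 4, d4 w k = a := by
  have e : a * ((a - 1) * ((a - w) * (a - (w + 1)))) = 0 := by
    linear_combination hc a + a * (a - 1) * (-(w + 1) * a - 1) * h2 + a * (a - 1) * hw
  rcases mul_eq_zero.1 e with h | h
  · exact ⟨0, by norm_num, h.symm⟩
  · rcases mul_eq_zero.1 h with h | h
    · exact ⟨1, by norm_num, (sub_eq_zero.1 h).symm⟩
    · rcases mul_eq_zero.1 h with h | h
      · exact ⟨2, by norm_num, (sub_eq_zero.1 h).symm⟩
      · exact ⟨3, by norm_num, (sub_eq_zero.1 h).symm⟩

theorem vec_surj (h2 : (2 : F) = 0) (hw : w ^ 2 + w + 1 = 0) (hc : ∀ x : F, x ^ 4 = x) (v : Fin 6 → F) :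
    ∃ n < 4096, vec w n = v := by
  choose k hk hk2 using fun i => d4_surj h2 hw hc (v i)
  have l0 := hk 0
  have l1 := hk 1
  have l2 := hk 2
  have l3 := hk 3
  have l4 := hk 4
  have l5 := hk 5
  refine ⟨k 0 + 4 * k 1 + 16 * k 2 + 64 * k 3 + 256 * k 4 + 1024 * k 5, by (clear * - l0 l1 l2 l3 l4 l5; solve | lia | omega), ?_⟩
  have h3 : ∀ x : ℕ, Nat.land x 3 = x % 4 := fun x => Nat.and_two_pow_sub_one_eq_mod x 2
  have key : ∀ i : Fin 6, Nat.land (Nat.shiftRight (k 0 + 4 * k 1 + 16 * k 2 + 64 * k 3 + 256 * k 4 + 1024 * k 5)
      (2 * (i : ℕ))) 3 = k i := by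
    intro i
    rw [h3]
    have h4 : Nat.shiftRight (k 0 + 4 * k 1 + 16 * k 2 + 64 * k 3 + 256 * k 4 + 1024 * k 5) (2 * (i : ℕ)) =
      (k 0 + 4 * k 1 + 16 * k 2 + 64 * k 3 + 256 * k 4 + 1024 * k 5) / 2 ^ (2 * (i : ℕ)) :=
      Nat.shiftRight_eq_div_pow _ _
    rw [h4]
    fin_cases i
    · show (k 0 + 4 * k 1 + 16 * k 2 + 64 * k 3 + 256 * k 4 + 1024 * k 5) / 1 % 4 = k 0
      (clear * - l0; solve | lia | omega)
    · show (k 0 + 4 * k 1 + 16 * k 2 + 64 * k 3 + 256 * k 4 + 1024 * k 5) / 4 % 4 = k 1
      (clear * - l0 l1; solve | lia | omega)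
    · show (k 0 + 4 * k 1 + 16 * k 2 + 64 * k 3 + 256 * k 4 + 1024 * k 5) / 16 % 4 = k 2
      omega
    · show (k 0 + 4 * k 1 + 16 * k 2 + 64 * k 3 + 256 * k 4 + 1024 * k 5) / 64 % 4 = k 3
      (clear * - l0 l1 l2 l3; solve | lia | omega)
    · show (k 0 + 4 * k 1 + 16 * k 2 + 64 * k 3 + 256 * k 4 + 1024 * k 5) / 256 % 4 = k 4
      (clear * - l0 l1 l2 l3 l4; solve | lia | omega)
    · show (k 0 + 4 * k 1 + 16 * k 2 + 64 * k 3 + 256 * k 4 + 1024 * k 5) / 1024 % 4 = k 5
      (clear * - l0 l1 l2 l3 l4 l5; solve | lia | omega)
  funext i
  unfold vec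
  rw [key, hk2]

end field

end Cfsg.Agent.H767.U6
end

-- part: H767/U6/Bound
section
/-!
# The bound of the centralizer by a chain of vectors: the check (helper767)
-/

set_option autoImplicit false
set_option linter.unusedSectionVars false
set_option maxRecDepth 100000

namespace Cfsg.Agent.H767.U6

open Cfsg Matrix Cfsg.Agent.SporadicA.PermTab Subgroup
open Cfsg.Agent.LieClassical.HermBasic Cfsg.Agent.ClassicalGeometry.PSUAutCount

/-! ### arithmetic of codes -/

/-- entry of a matrix -/
def cq (P r c : ℕ) : ℕ := Nat.land (Nat.shiftRight P (Nat.mul 2 (Nat.add (Nat.mul 6 r) c))) 3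

/-- product of codes -/
def mulc (a b : ℕ) : ℕ := Nat.land (Nat.shiftRight 2625168384 (Nat.mul 2 (Nat.add (Nat.mul 4 a) b))) 3

/-- entry of a vector -/
def cv (v r : ℕ) : ℕ := Nat.land (Nat.shiftRight v (Nat.mul 2 r)) 3

/-- entry of the product of a matrix and a vector -/
def rowc (P v r : ℕ) : ℕ :=
  Nat.xor (mulc (cq P r 0) (cv v 0)) (Nat.xor (mulc (cq P r 1) (cv v 1)) (Nat.xor (mulc (cq P r 2) (cv v 2))
    (Nat.xor (mulc (cq P r 3) (cv v 3)) (Nat.xor (mulc (cq P r 4) (cv v 4)) (mulc (cq P r 5) (cv v 5))))))

/-- `u = P v` -/
def stepB (P v u : ℕ) : Bool := allB (fun r => Nat.beq (cv u r) (rowc P v r)) 6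

/-- entry of the product of matrices -/
def entc (P Q r c : ℕ) : ℕ :=
  Nat.xor (mulc (cq P r 0) (cq Q 0 c)) (Nat.xor (mulc (cq P r 1) (cq Q 1 c)) (Nat.xor (mulc (cq P r 2) (cq Q 2 c))
    (Nat.xor (mulc (cq P r 3) (cq Q 3 c)) (Nat.xor (mulc (cq P r 4) (cq Q 4 c)) (mulc (cq P r 5) (cq Q 5 c))))))

/-- `P Q = R` -/
def mulB (P Q R : ℕ) : Bool := allB (fun r => allB (fun c => Nat.beq (cq R r c) (entc P Q r c)) 6) 6

/-- entry of `P Q^*` -/
def entH (P Q r c : ℕ) : ℕ :=
  Nat.xor (mulc (cq P r 0) (mulc (cq Q c 0) (cq Q c 0))) (Nat.xor (mulc (cq P r 1) (mulc (cq Q c 1) (cq Q c 1)))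
    (Nat.xor (mulc (cq P r 2) (mulc (cq Q c 2) (cq Q c 2))) (Nat.xor (mulc (cq P r 3) (mulc (cq Q c 3) (cq Q c 3)))
      (Nat.xor (mulc (cq P r 4) (mulc (cq Q c 4) (cq Q c 4))) (mulc (cq P r 5) (mulc (cq Q c 5) (cq Q c 5)))))))

/-- the columns of `P` are orthonormal: `P^T conj P = 1` is checked as `Q Q^* = 1` for the transpose; here `P P^* = 1` -/
def uniB (P : ℕ) : Bool := allB (fun r => allB (fun c => Nat.beq (entH P P r c) (cond (Nat.beq r c) 1 0)) 6) 6

section field

variable {F : Type*} [Field F] {w : F}

theorem land3_lt (x : ℕ) : Nat.land x 3 < 4 := by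
  have : Nat.land x 3 = x % 4 := Nat.and_two_pow_sub_one_eq_mod x 2
  omega

theorem cd_lt (P r c : ℕ) : cd P r c < 4 := land3_lt _
theorem cq_lt (P r c : ℕ) : cq P r c < 4 := land3_lt _
theorem cv_lt (v r : ℕ) : cv v r < 4 := land3_lt _
theorem mulc_lt (a b : ℕ) : mulc a b < 4 := land3_lt _

theorem d4_eb {k : ℕ} (hk : k < 4) : d4 w k = eb w (tb k 0) (tb k 1) := by
  have h : Nat.land k 3 = k := by
    have : Nat.land k 3 = k % 4 := Nat.and_two_pow_sub_one_eq_mod k 2
    omega
  rw [← d4_land, h]

theorem xor_lt {a b : ℕ} (ha : a < 4) (hb : b < 4) : Nat.xor a b < 4 := Nat.xor_lt_two_pow (n := 2) ha hb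

theorem d4_xor (h2 : (2 : F) = 0) {a b : ℕ} (ha : a < 4) (hb : b < 4) :
    d4 w (Nat.xor a b) = d4 w a + d4 w b := by
  rw [d4_eb ha, d4_eb hb, d4_eb (xor_lt ha hb), eb_add h2, tb_xor, tb_xor]

theorem d4_mulc (h2 : (2 : F) = 0) (hw : w ^ 2 + w + 1 = 0) {a b : ℕ} (ha : a < 4) (hb : b < 4) :
    d4 w (mulc a b) = d4 w a * d4 w b := by
  rw [d4_eb ha, d4_eb hb, d4_eb (mulc_lt a b), eb_mul h2 hw]
  interval_cases a <;> interval_cases b <;> congr 1

theorem d4_inj (h2 : (2 : F) = 0) (hw : w ^ 2 + w + 1 = 0) {a b : ℕ} (ha : a < 4) (hb : b < 4)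
    (h : d4 w a = d4 w b) : a = b := by
  rw [d4_eb ha, d4_eb hb] at h
  obtain ⟨h3, h4⟩ := eb_inj h2 hw h
  interval_cases a <;> interval_cases b <;> first | rfl | (exfalso; revert h3 h4; decide)

theorem vec_cv (v : ℕ) (r : Fin 6) : vec w v r = d4 w (cv v r) := rfl

theorem row_eq (h2 : (2 : F) = 0) (hw : w ^ 2 + w + 1 = 0) (P v : ℕ) (r : Fin 6) :
    d4 w (rowc P v r) = (mt w P *ᵥ vec w v) r := by
  have m := fun c : ℕ => d4_mulc h2 hw (cq_lt P r c) (cv_lt v c)
  have l := fun c : ℕ => mulc_lt (cq P r c) (cv v c)
  unfold rowc
  rw [d4_xor h2 (l 0) (xor_lt (l 1) (xor_lt (l 2) (xor_lt (l 3) (xor_lt (l 4) (l 5))))),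
    d4_xor h2 (l 1) (xor_lt (l 2) (xor_lt (l 3) (xor_lt (l 4) (l 5)))),
    d4_xor h2 (l 2) (xor_lt (l 3) (xor_lt (l 4) (l 5))), d4_xor h2 (l 3) (xor_lt (l 4) (l 5)),
    d4_xor h2 (l 4) (l 5), m, m, m, m, m, m]
  show _ = ∑ c, mt w P r c * vec w v c
  rw [Fin.sum_univ_six]
  show _ = d4 w (cq P r 0) * d4 w (cv v 0) + d4 w (cq P r 1) * d4 w (cv v 1) + d4 w (cq P r 2) * d4 w (cv v 2) +
    d4 w (cq P r 3) * d4 w (cv v 3) + d4 w (cq P r 4) * d4 w (cv v 4) + d4 w (cq P r 5) * d4 w (cv v 5)
  ring

theorem stepB_eq (h2 : (2 : F) = 0) (hw : w ^ 2 + w + 1 = 0) {P v u : ℕ} (h : stepB P v u = true) :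
    vec w u = mt w P *ᵥ vec w v := by
  funext r
  rw [← row_eq h2 hw, vec_cv]
  exact congrArg _ (Nat.eq_of_beq_eq_true ((allB_iff _ _).1 h r r.2))

theorem ent_eq (h2 : (2 : F) = 0) (hw : w ^ 2 + w + 1 = 0) (P Q : ℕ) (r c : Fin 6) :
    d4 w (entc P Q r c) = (mt w P * mt w Q) r c := by
  have m := fun k : ℕ => d4_mulc h2 hw (cq_lt P r k) (cq_lt Q k c)
  have l := fun k : ℕ => mulc_lt (cq P r k) (cq Q k c)
  unfold entc
  rw [d4_xor h2 (l 0) (xor_lt (l 1) (xor_lt (l 2) (xor_lt (l 3) (xor_lt (l 4) (l 5))))),
    d4_xor h2 (l 1) (xor_lt (l 2) (xor_lt (l 3) (xor_lt (l 4) (l 5)))),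
    d4_xor h2 (l 2) (xor_lt (l 3) (xor_lt (l 4) (l 5))), d4_xor h2 (l 3) (xor_lt (l 4) (l 5)),
    d4_xor h2 (l 4) (l 5), m, m, m, m, m, m]
  rw [Matrix.mul_apply, Fin.sum_univ_six]
  show _ = d4 w (cq P r 0) * d4 w (cq Q 0 c) + d4 w (cq P r 1) * d4 w (cq Q 1 c) + d4 w (cq P r 2) * d4 w (cq Q 2 c) +
    d4 w (cq P r 3) * d4 w (cq Q 3 c) + d4 w (cq P r 4) * d4 w (cq Q 4 c) + d4 w (cq P r 5) * d4 w (cq Q 5 c)
  ring

theorem mulB_eq (h2 : (2 : F) = 0) (hw : w ^ 2 + w + 1 = 0) {P Q R : ℕ} (h : mulB P Q R = true) :
    mt w P * mt w Q = mt w R := by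
  ext r c
  rw [← ent_eq h2 hw]
  have h1 := Nat.eq_of_beq_eq_true ((allB_iff _ _).1 ((allB_iff _ _).1 h r r.2) c c.2)
  exact congrArg (d4 w) h1.symm

theorem uniB_eq (h2 : (2 : F) = 0) (hw : w ^ 2 + w + 1 = 0) {P : ℕ} (h : uniB P = true) (r c : Fin 6) :
    ∑ k : Fin 6, mt w P r k * mt w P c k ^ 2 = if r = c then 1 else 0 := by
  have h1 := Nat.eq_of_beq_eq_true ((allB_iff _ _).1 ((allB_iff _ _).1 h r r.2) c c.2)
  have m := fun k : ℕ => d4_mulc h2 hw (cq_lt P r k) (mulc_lt (cq P c k) (cq P c k))
  have m' := fun k : ℕ => d4_mulc h2 hw (cq_lt P c k) (cq_lt P c k)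
  have l := fun k : ℕ => mulc_lt (cq P r k) (mulc (cq P c k) (cq P c k))
  have h3 : d4 w (entH P P r c) = ∑ k : Fin 6, mt w P r k * mt w P c k ^ 2 := by
    unfold entH
    rw [d4_xor h2 (l 0) (xor_lt (l 1) (xor_lt (l 2) (xor_lt (l 3) (xor_lt (l 4) (l 5))))),
      d4_xor h2 (l 1) (xor_lt (l 2) (xor_lt (l 3) (xor_lt (l 4) (l 5)))),
      d4_xor h2 (l 2) (xor_lt (l 3) (xor_lt (l 4) (l 5))), d4_xor h2 (l 3) (xor_lt (l 4) (l 5)),
      d4_xor h2 (l 4) (l 5), m, m, m, m, m, m, m', m', m', m', m', m']
    rw [Fin.sum_univ_six]
    show _ = d4 w (cq P r 0) * d4 w (cq P c 0) ^ 2 + d4 w (cq P r 1) * d4 w (cq P c 1) ^ 2 +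
      d4 w (cq P r 2) * d4 w (cq P c 2) ^ 2 + d4 w (cq P r 3) * d4 w (cq P c 3) ^ 2 +
      d4 w (cq P r 4) * d4 w (cq P c 4) ^ 2 + d4 w (cq P r 5) * d4 w (cq P c 5) ^ 2
    ring
  rw [← h3, h1]
  by_cases hrc : r = c
  · subst hrc
    rw [if_pos rfl]
    have : Nat.beq (r : ℕ) r = true := Nat.beq_refl _
    rw [this]
    rfl
  · rw [if_neg hrc]
    have : Nat.beq (r : ℕ) c = false := by
      rw [Bool.eq_false_iff]
      intro h4
      exact hrc (Fin.ext (Nat.eq_of_beq_eq_true h4))
    rw [this]
    rfl

end field

end Cfsg.Agent.H767.U6
end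

-- part: H767/U6/Orb
section
/-!
# The bound of the centralizer by a chain of vectors: the theorem (helper767)
-/

set_option autoImplicit false
set_option linter.unusedSectionVars false
set_option maxRecDepth 100000

namespace Cfsg.Agent.H767.U6

open Cfsg Matrix Cfsg.Agent.SporadicA.PermTab Subgroup
open Cfsg.Agent.LieClassical.HermBasic Cfsg.Agent.ClassicalGeometry.PSUAutCount

/-! ### sets -/

/-- the numbers `n` where `T` has the same bit as in `v` -/
noncomputable def same (T v : ℕ) : ℕ := cond (tb T v) T (Nat.xor FULL T)

theorem tb_same {T v n : ℕ} (hn : n < 4096) : tb (same T v) n = true ↔ tb T n = tb T v := by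
  unfold same
  cases h : tb T v
  · rw [cond_false, tb_xor, tb_full hn, Bool.true_xor, Bool.not_eq_true']
  · rw [cond_true]

/-- the numbers in `S` where all tables have the same value as in `v` -/
noncomputable def SS (v S : ℕ) (Ts : List (ℕ × ℕ)) : ℕ :=
  List.rec S (fun t _ ih => Nat.land (Nat.land (same t.1 v) (same t.2 v)) ih) Ts

theorem tb_SS {v S n : ℕ} (hn : n < 4096) (Ts : List (ℕ × ℕ)) : tb (SS v S Ts) n = true ↔
    tb S n = true ∧ ∀ t ∈ Ts, tb t.1 n = tb t.1 v ∧ tb t.2 n = tb t.2 v := by
  induction Ts with
  | nil => exact ⟨fun h => ⟨h, fun t ht => absurd ht (by simp)⟩, fun h => h.1⟩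
  | cons t Ts ih =>
    have e : SS v S (t :: Ts) = Nat.land (Nat.land (same t.1 v) (same t.2 v)) (SS v S Ts) := rfl
    rw [e, tb_land, tb_land, Bool.and_eq_true, Bool.and_eq_true, tb_same hn, tb_same hn, ih]
    simp only [List.mem_cons, forall_eq_or_imp]
    itauto

namespace PC

/-- the multiples of `32` below `32 * 2 ^ t` -/
private noncomputable def msk (t : ℕ) : ℕ :=
  Nat.rec (motive := fun _ => ℕ) 1 (fun i ih => Nat.lor ih (Nat.shiftLeft ih (Nat.shiftLeft 32 i))) t

private theorem tb_msk (t : ℕ) : ∀ p, (msk t).testBit p = true ↔ 32 ∣ p ∧ p < 32 * 2 ^ t := by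
  induction t with
  | zero =>
    intro p
    show (2 ^ 0).testBit p = true ↔ _
    rw [Nat.testBit_two_pow, decide_eq_true_eq]
    omega
  | succ t ih =>
    intro p
    show (msk t ||| msk t <<< (32 <<< t)).testBit p = true ↔ _
    rw [Nat.testBit_or, Nat.testBit_shiftLeft, Bool.or_eq_true, Bool.and_eq_true, decide_eq_true_eq, ih, ih,
      Nat.shiftLeft_eq, pow_succ]
    omega

private theorem bitsum (y n : ℕ) : y % 2 ^ n = ∑ p ∈ Finset.range n, (y.testBit p).toNat * 2 ^ p := by
  induction n with
  | zero => simp [Nat.mod_one]
  | succ n ih => rw [Finset.sum_range_succ, ← ih, Nat.mod_pow_succ, Nat.toNat_testBit, Nat.mul_comm]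

private theorem blocks (f : ℕ → ℕ) (m : ℕ) :
    ∑ q ∈ Finset.range (32 * m), f q = ∑ j ∈ Finset.range m, ∑ i ∈ Finset.range 32, f (32 * j + i) := by
  induction m with
  | zero => rw [Nat.mul_zero, Finset.sum_range_zero, Finset.sum_range_zero]
  | succ m ih => rw [Nat.mul_succ, Finset.sum_range_add, ih, Finset.sum_range_succ _ m]

private theorem lane (t x i : ℕ) : (x >>> i &&& msk t) ≡
    ∑ j ∈ Finset.range (2 ^ t), (x.testBit (32 * j + i)).toNat [MOD 4294967295] := by
  have hm : ∀ p, ¬ (32 ∣ p ∧ p < 32 * 2 ^ t) → (msk t).testBit p = false := fun p h =>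
    Bool.eq_false_iff.2 fun h' => h ((tb_msk t p).1 h')
  have h : x >>> i &&& msk t < 2 ^ (32 * 2 ^ t) := Nat.lt_pow_two_of_testBit _ fun p hp => by
    rw [Nat.testBit_and, hm p (by omega), Bool.and_false]
  rw [← Nat.mod_eq_of_lt h, bitsum, blocks]
  unfold Nat.ModEq
  rw [Finset.sum_nat_mod, Finset.sum_nat_mod _ _ fun j => (x.testBit (32 * j + i)).toNat]
  refine congrArg (· % 4294967295) (Finset.sum_congr rfl fun j hj => ?_)
  rw [Finset.sum_eq_single_of_mem 0 (by simp) fun r hr h0 => by
    rw [Nat.testBit_and, hm _ (by have := Finset.mem_range.1 hr; omega), Bool.and_false]; simp,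
    Nat.testBit_and, (tb_msk t _).2 ⟨by omega, by have := Finset.mem_range.1 hj; omega⟩, Bool.and_true,
    Nat.testBit_shiftRight, Nat.add_zero, Nat.add_comm i, pow_mul, Nat.mul_mod, Nat.pow_mod]
  simp

/-- the number of bits below `32 * 2 ^ t` -/
private noncomputable def pcF (t x : ℕ) : ℕ := Nat.mod (Nat.rec (motive := fun _ => ℕ) 0
  (fun i ih => Nat.add ih (Nat.land (Nat.shiftRight x i) (msk t))) 32) 4294967295

private theorem card_pcF (t x : ℕ) (ht : t ≤ 20) :
    ((Finset.range (2 ^ (t + 5))).filter (fun p => x.testBit p = true)).card = pcF t x := by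
  have h1 : ∀ n, (Nat.rec (motive := fun _ => ℕ) 0 (fun i ih => Nat.add ih (Nat.land (Nat.shiftRight x i) (msk t))) n : ℕ) ≡
      ∑ i ∈ Finset.range n, ∑ j ∈ Finset.range (2 ^ t), (x.testBit (32 * j + i)).toNat [MOD 4294967295] := fun n => by
    induction n with
    | zero => rw [Finset.sum_range_zero]; exact Nat.ModEq.refl 0
    | succ n ih => rw [Finset.sum_range_succ]; exact ih.add (lane t x n)
  have h2 : ((Finset.range (2 ^ (t + 5))).filter (fun p => x.testBit p = true)).card =
      ∑ i ∈ Finset.range 32, ∑ j ∈ Finset.range (2 ^ t), (x.testBit (32 * j + i)).toNat := by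
    rw [Finset.sum_comm, ← blocks (fun q => (x.testBit q).toNat), Finset.card_filter, pow_add, Nat.mul_comm]
    exact Finset.sum_congr rfl fun p _ => by cases x.testBit p <;> rfl
  have h3 := Finset.card_filter_le (Finset.range (2 ^ (t + 5))) (fun p => x.testBit p = true)
  have h4 : 2 ^ (t + 5) ≤ 2 ^ 25 := Nat.pow_le_pow_right (by norm_num) (by omega)
  rw [Finset.card_range] at h3
  exact ((Nat.mod_eq_of_lt (by omega)).symm.trans (congrArg (· % 4294967295) h2)).trans (h1 32).symm

end PC

/-- the number of bits below `4096` is `j` -/
noncomputable def cntF (S j : ℕ) : Bool := Nat.beq (PC.pcF 7 S) j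

theorem card_fin_of_cntF {S j : ℕ} (h : cntF S j = true) :
    ((Finset.univ : Finset (Fin 4096)).filter (fun i : Fin 4096 => tb S i = true)).card = j := by
  rw [← Nat.eq_of_beq_eq_true h, ← PC.card_pcF 7 S (by decide)]
  refine Finset.card_bij (fun i _ => (i : ℕ)) (fun i hi => ?_) (fun i _ j _ hij => Fin.ext hij) fun i hi => ?_
  · exact Finset.mem_filter.2 ⟨Finset.mem_range.2 i.2, tb_eq S i ▸ (Finset.mem_filter.1 hi).2⟩
  · exact ⟨⟨i, Finset.mem_range.1 (Finset.mem_filter.1 hi).1⟩,
      Finset.mem_filter.2 ⟨Finset.mem_univ _, (tb_eq S i).trans (Finset.mem_filter.1 hi).2⟩, rfl⟩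

/-- evaluate first -/
noncomputable def force (S : ℕ) (k : ℕ → Bool) : Bool := Nat.rec (k 0) (fun m _ => k (Nat.succ m)) S

theorem force_eq (S : ℕ) (k : ℕ → Bool) : force S k = k S := by cases S <;> rfl

/-- the tables of the members of a list -/
noncomputable def withT (L : List (ℕ × ℕ)) (Ps : List ℕ) : (List (ℕ × ℕ) → Bool) → Bool :=
  List.rec (fun k => k []) (fun P _ ih k => force (accL L P) fun a => force (accH L P) fun b =>
    ih fun ts => k ((a, b) :: ts)) Ps

theorem withT_eq (L : List (ℕ × ℕ)) (Ps : List ℕ) (k : List (ℕ × ℕ) → Bool) :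
    withT L Ps k = k (Ps.map fun P => (accL L P, accH L P)) := by
  induction Ps generalizing k with
  | nil => rfl
  | cons P Ps ih =>
    have e : withT L (P :: Ps) k = force (accL L P) fun a => force (accH L P) fun b =>
      withT L Ps fun ts => k ((a, b) :: ts) := rfl
    rw [e, force_eq, force_eq, ih]
    rfl

/-- `ws = [P v, P (P v), ...]` -/
noncomputable def stepsB (P : ℕ) (ws : List ℕ) : ℕ → Bool :=
  List.rec (fun _ => true) (fun u _ ih v => band (stepB P v u) (ih u)) ws

/-- the check of a chain: vector, number, images -/
noncomputable def chkC (Q : List (ℕ × ℕ)) (P : ℕ) (L : List (ℕ × ℕ × List ℕ)) : List ℕ → Bool :=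
  List.rec (fun Fx => withT CO Fx fun lt => Nat.beq (SS 0 FULL lt) 1)
    (fun s _ ih Fx => band (Nat.blt s.1 4096) (band (stepsB P s.2.2 s.1)
      (band (withT CO Fx fun lt => force (SS s.1 (SS s.1 FULL lt) Q) fun S => cntF S s.2.1)
        (ih (s.1 :: (s.2.2 ++ Fx)))))) L

/-- the bound -/
def bnd (L : List (ℕ × ℕ × List ℕ)) : ℕ := (L.map fun s => s.2.1).prod

/-! ### groups -/

section grp

variable {G α : Type*} [Group G] [Finite G] [MulAction G α]

theorem card_le_act (C : Subgroup G) (a : α) {m : ℕ} (S : Finset α) (hS : S.card ≤ m) (h : ∀ c ∈ C, c • a ∈ S) :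
    Nat.card C ≤ m * Nat.card ↥(C ⊓ MulAction.stabilizer G a) := by
  classical
  have h1 := Nat.card_congr (MulAction.orbitProdStabilizerEquivGroup C a)
  rw [Nat.card_prod] at h1
  have h2 : Nat.card (MulAction.orbit C a) ≤ m := by
    refine le_trans ?_ hS
    have h3 : MulAction.orbit C a ⊆ (S : Set α) := by
      rintro _ ⟨c, rfl⟩
      exact h c c.2
    have h4 := Nat.card_mono S.finite_toSet h3
    rw [Nat.card_eq_fintype_card (α := ↥(S : Set α))] at h4
    simpa only [_root_.Nat.card_coe_set_eq, _root_.ge_iff_le, _root_.SetLike.coe_sort_coe, _root_.Fintype.card_coe] using h4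
  have h3 : Nat.card (MulAction.stabilizer C a) ≤ Nat.card ↥(C ⊓ MulAction.stabilizer G a) := by
    refine Nat.card_le_card_of_injective (fun c : MulAction.stabilizer C a =>
      (⟨(c : C), (c : C).2, c.2⟩ : ↥(C ⊓ MulAction.stabilizer G a))) ?_
    intro c d hcd
    have h5 : (((c : C) : G)) = ((d : C) : G) :=
      congrArg (fun x : ↥(C ⊓ MulAction.stabilizer G a) => (x : G)) hcd
    exact Subtype.ext (Subtype.ext h5)
  rw [← h1]
  exact Nat.mul_le_mul h2 h3

end grp

section herm

variable {F : Type*} [Field F] [Fintype F] {w : F}

/-- the action on vectors -/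
@[reducible] def actGU : MulAction (GU 6 F 2) (Fin 6 → F) where
  smul A v := gm A *ᵥ v
  one_smul v := by
    show gm (1 : GU 6 F 2) *ᵥ v = v
    rw [gm_one, one_mulVec]
  mul_smul A B v := by
    show gm (A * B) *ᵥ v = gm A *ᵥ (gm B *ᵥ v)
    rw [gm_mul, mulVec_mulVec]

/-- the stabilizer of a vector -/
def stab (v : Fin 6 → F) : Subgroup (GU 6 F 2) := @MulAction.stabilizer (GU 6 F 2) (Fin 6 → F) _ actGU v

theorem card_le_gm (C : Subgroup (GU 6 F 2)) (a : Fin 6 → F) {m : ℕ} (S : Finset (Fin 6 → F)) (hS : S.card ≤ m)
    (h : ∀ c ∈ C, gm c *ᵥ a ∈ S) : Nat.card C ≤ m * Nat.card ↥(C ⊓ stab a) := by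
  have hfin : Finite (GU 6 F 2) := Finite.of_injective gm fun A B h => gm_inj h
  exact @card_le_act (GU 6 F 2) (Fin 6 → F) _ _ actGU C a m S hS h

theorem stepsB_spec (h2 : (2 : F) = 0) (hw : w ^ 2 + w + 1 = 0) {P : ℕ} {C : Subgroup (GU 6 F 2)}
    (hx : ∀ c ∈ C, gm c * mt w P = mt w P * gm c) {ws : List ℕ} {v : ℕ} (h : stepsB P ws v = true)
    {c : GU 6 F 2} (hc : c ∈ C) (hv : gm c *ᵥ vec w v = vec w v) : ∀ u ∈ ws, gm c *ᵥ vec w u = vec w u := by
  induction ws generalizing v with
  | nil => intro u hu; exact absurd hu (by simp)
  | cons u ws ih =>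
    have e : stepsB P (u :: ws) v = band (stepB P v u) (stepsB P ws u) := rfl
    rw [e, band_eq_true] at h
    have h1 : gm c *ᵥ vec w u = vec w u := by
      rw [stepB_eq h2 hw h.1, mulVec_mulVec, hx c hc, ← mulVec_mulVec, hv]
    intro u' hu'
    rcases List.mem_cons.1 hu' with rfl | hu'
    · exact h1
    · exact ih h.2 h1 u' hu'

theorem card_le_of_chk (hc4 : ∀ x : F, x ^ 4 = x) (h2 : (2 : F) = 0) (hw : w ^ 2 + w + 1 = 0) {Q : List (ℕ × ℕ)}
    {P : ℕ} (L : List (ℕ × ℕ × List ℕ)) : ∀ (C : Subgroup (GU 6 F 2)) (Fx : List ℕ),
    (∀ c ∈ C, gm c * mt w P = mt w P * gm c) →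
    (∀ t ∈ Q, ∃ f : (Fin 6 → F) → F, Rep w t.1 t.2 f ∧ ∀ c ∈ C, ∀ v, f (gm c *ᵥ v) = f v) →
    (∀ c ∈ C, ∀ u ∈ Fx, gm c *ᵥ vec w u = vec w u) → chkC Q P L Fx = true → Nat.card C ≤ bnd L := by
  classical
  have hfin : Finite (GU 6 F 2) := Finite.of_injective gm fun A B h => gm_inj h
  induction L with
  | nil =>
    intro C Fx hx hQ hFx h
    have e : chkC Q P [] Fx = withT CO Fx fun lt => Nat.beq (SS 0 FULL lt) 1 := rfl
    rw [e, withT_eq] at h
    have h1 := Nat.eq_of_beq_eq_true h
    have hC : C = ⊥ := by
      rw [eq_bot_iff]
      intro c hc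
      rw [Subgroup.mem_bot]
      have h3 : ∀ v : Fin 6 → F, gm c *ᵥ v = v := by
        intro v
        obtain ⟨n, hn, hn2⟩ := vec_surj h2 hw hc4 (gm c *ᵥ v - v)
        have h4 : tb (SS 0 FULL (Fx.map fun P => (accL CO P, accH CO P))) n = true := by
          rw [tb_SS hn]
          refine ⟨tb_full hn, ?_⟩
          intro t ht
          obtain ⟨u, hu, rfl⟩ := List.mem_map.1 ht
          have r := rep_vec h2 hw u
          have r1 := r n hn
          have r2 := r 0 (by norm_num)
          have h5 : hermForm 6 F 2 (vec w n) (vec w u) = 0 := by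
            rw [hn2, herm_sub_left]
            conv_lhs => rw [← hFx c hc u hu]
            rw [hFx c hc u hu]
            have := herm_gm c v (vec w u)
            rw [hFx c hc u hu] at this
            rw [this, sub_self]
          have h6 : vec w 0 = (0 : Fin 6 → F) := by
            funext i
            rw [vec_apply, tb_zero, tb_zero]
            simp [eb]
          have h7 : hermForm 6 F 2 (vec w 0) (vec w u) = 0 := by rw [h6, herm_zero_left]
          exact eb_inj h2 hw (r1.symm.trans ((h5.trans h7.symm).trans r2))
        rw [h1] at h4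
        have h5 : n = 0 := by
          by_contra hne
          rw [tb_eq, Nat.testBit_one_eq_true_iff_self_eq_zero] at h4
          exact hne h4
        rw [h5] at hn2
        have h6 : vec w 0 = (0 : Fin 6 → F) := by
          funext i
          rw [vec_apply, tb_zero, tb_zero]
          simp [eb]
        rw [h6] at hn2
        exact (sub_eq_zero.1 hn2.symm)
      apply gm_inj
      rw [gm_one]
      ext i j
      have := congrFun (h3 (Pi.single j 1)) i
      rw [Matrix.mulVec_single_one] at this
      rw [Matrix.col_apply] at this
      rw [this, Matrix.one_apply, Pi.single_apply]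
    rw [hC]
    simp [bnd]
  | cons s L ih =>
    intro C Fx hx hQ hFx h
    have e : chkC Q P (s :: L) Fx = band (Nat.blt s.1 4096) (band (stepsB P s.2.2 s.1)
      (band (withT CO Fx fun lt => force (SS s.1 (SS s.1 FULL lt) Q) fun S => cntF S s.2.1)
        (chkC Q P L (s.1 :: (s.2.2 ++ Fx))))) := rfl
    rw [e, band_eq_true, band_eq_true, band_eq_true, withT_eq, force_eq] at h
    obtain ⟨h1, h3, h4, h5⟩ := h
    have hs : s.1 < 4096 := by rwa [Nat.blt_eq] at h1
    have hcard := card_fin_of_cntF h4
    set T := (Finset.univ : Finset (Fin 4096)).filter fun i : Fin 4096 =>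
      tb (SS s.1 (SS s.1 FULL (Fx.map fun P => (accL CO P, accH CO P))) Q) i = true with hT
    have hb : bnd (s :: L) = s.2.1 * bnd L := by simp [bnd]
    rw [hb]
    refine (card_le_gm C (vec w s.1) (T.image fun i : Fin 4096 => vec w i)
      (Finset.card_image_le.trans (le_of_eq hcard)) ?_).trans (Nat.mul_le_mul_left _ ?_)
    · intro c hc
      obtain ⟨n, hn, hn2⟩ := vec_surj h2 hw hc4 (gm c *ᵥ vec w s.1)
      rw [Finset.mem_image]
      refine ⟨⟨n, hn⟩, ?_, hn2⟩
      rw [hT, Finset.mem_filter]
      refine ⟨Finset.mem_univ _, ?_⟩
      show tb _ n = true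
      rw [tb_SS hn, tb_SS hn]
      refine ⟨⟨tb_full hn, ?_⟩, ?_⟩
      · intro t ht
        obtain ⟨u, hu, rfl⟩ := List.mem_map.1 ht
        have r := rep_vec h2 hw u
        have r1 := r n hn
        have r2 := r s.1 hs
        have h6 : hermForm 6 F 2 (vec w n) (vec w u) = hermForm 6 F 2 (vec w s.1) (vec w u) := by
          rw [hn2]
          have := herm_gm c (vec w s.1) (vec w u)
          rwa [hFx c hc u hu] at this
        exact eb_inj h2 hw (r1.symm.trans (h6.trans r2))
      · intro t ht
        obtain ⟨f, hf, hfc⟩ := hQ t ht
        have r1 := hf n hn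
        have r2 := hf s.1 hs
        have h6 : f (vec w n) = f (vec w s.1) := by rw [hn2, hfc c hc]
        exact eb_inj h2 hw (r1.symm.trans (h6.trans r2))
    · refine ih (C ⊓ stab (vec w s.1)) _ (fun c hc => hx c hc.1) ?_ ?_ h5
      · intro t ht
        obtain ⟨f, hf, hfc⟩ := hQ t ht
        exact ⟨f, hf, fun c hc => hfc c hc.1⟩
      · intro c hc u hu
        have hv : gm c *ᵥ vec w s.1 = vec w s.1 := hc.2
        rcases List.mem_cons.1 hu with rfl | hu
        · exact hv
        · rcases List.mem_append.1 hu with hu | hu
          · exact stepsB_spec h2 hw hx h3 hc.1 hv u hu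
          · exact hFx c hc.1 u hu

end herm

end Cfsg.Agent.H767.U6
end

private theorem dce_a83d0777fba2 : _root_.True := by
  try have : _root_.True := by simp only [_root_.Cfsg.Agent.H767.U6.FULL.eq_1]
  try have : _root_.True := by simp only [_root_.Cfsg.Agent.H767.U6.d4.eq_1]
  try have : _root_.True := by simp only [_root_.Cfsg.Agent.H767.U6.comb.eq_1]
  try have : _root_.True := by simp only [_root_.Cfsg.Agent.H767.U6.comb.eq_2]
  try have : _root_.True := by simp only [_root_.Cfsg.Agent.H767.U6.tb.eq_1]
  try have : _root_.True := by simp only [_root_.Cfsg.Agent.H767.U6.eb.eq_1]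
  try have : _root_.True := by simp only [_root_.Cfsg.Agent.H767.U6.mt.eq_1]
  try have : _root_.True := by simp only [_root_.Cfsg.Agent.H767.U6.d4.eq_3]
  try have : _root_.True := by simp only [_root_.Cfsg.Agent.H767.U6.d4.eq_2]
  try have : _root_.True := by simp only [_root_.Cfsg.Agent.H767.U6.comb.eq_def]
  try have : _root_.True := by simp only [_root_.Cfsg.Agent.H767.U6.d4.eq_4]
  try have : _root_.True := by simp only [_root_.Cfsg.Agent.H767.U6.bnd.eq_1]
  exact _root_.True.intro
end

-- part: H767/U6/K10_mg
section
prune_inst 0x3010710464220000000000140200206478000102006b000029c00b020a49834180000f0006b0031291e63aa070044040001000490010000000003200400600000008400082080104220000818000000000000000000000000000000000000000000000000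
set_option linter.all false
open scoped Cfsg.Agent.FastGrp

-- part: H767/U6/Rec
section
/-!
# The records of the classes (helper767)
-/

set_option autoImplicit false
set_option linter.unusedSectionVars false
set_option maxRecDepth 100000

namespace Cfsg.Agent.H767.U6

open Cfsg Matrix Cfsg.Agent.SporadicA.PermTab Subgroup
open Cfsg.Agent.LieClassical.HermBasic Cfsg.Agent.ClassicalGeometry.PSUAutCount

/-- `l X_i` -/
structure Rec where
  /-- class -/
  i : ℕ
  /-- scalar -/
  l : ℕ
  /-- the powers -/
  p1 : ℕ
  p2 : ℕ
  p3 : ℕ
  p4 : ℕ
  p5 : ℕ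
  /-- chain -/
  L : List (ℕ × ℕ × List ℕ)
  /-- invariants -/
  j1 : ℕ
  j2 : ℕ
  j3 : ℕ
  j4 : ℕ

/-- the identity matrix -/
def pid : ℕ := 1180663682709764194305

/-- `Q = l P` -/
def smB (l P Q : ℕ) : Bool := allB (fun r => allB (fun c => Nat.beq (cq Q r c) (mulc l (cq P r c))) 6) 6

/-- number of `v` with `∑ conj (a_k) h (v, Y^k v) = c` -/
noncomputable def jnB (Q : List (ℕ × ℕ)) (a c j : ℕ) : Bool :=
  force (accL Q a) fun A => force (accH Q a) fun B =>
    force (Nat.land (cond (tb c 0) A (Nat.xor FULL A)) (cond (tb c 1) B (Nat.xor FULL B))) fun S => cntF S j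

/-- all powers -/
def Rec.Ps (r : Rec) : List ℕ := [pid, r.p1, r.p2, r.p3, r.p4, r.p5]

/-- the check -/
noncomputable def Rec.chk (r : Rec) : Bool :=
  band (Nat.blt r.i 40) (band (Nat.blt 0 r.l) (band (Nat.blt r.l 4) (band (smB r.l (XP.getD r.i 0) r.p1)
    (band (mulB r.p1 r.p1 r.p2) (band (mulB r.p1 r.p2 r.p3) (band (mulB r.p1 r.p3 r.p4) (band (mulB r.p1 r.p4 r.p5)
      (band (uniB r.p1) (withT ML r.Ps fun Q => band (chkC Q r.p1 r.L []) (band (jnB Q 1264 0 r.j1)
        (band (jnB Q 1225 2 r.j2) (band (jnB Q 3178 2 r.j3) (jnB Q 3406 3 r.j4)))))))))))))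

/-- the invariants -/
def Rec.J (r : Rec) : ℕ × ℕ × ℕ × ℕ := (r.j1, r.j2, r.j3, r.j4)

section herm

variable {F : Type*} [Field F] [Fintype F] {w : F}

/-- `h (v, Y^k v)`, `k < 6` -/
def qf (Y : Matrix (Fin 6) (Fin 6) F) : List ((Fin 6 → F) → F) :=
  [fun v => hermForm 6 F 2 v (1 *ᵥ v), fun v => hermForm 6 F 2 v (Y *ᵥ v), fun v => hermForm 6 F 2 v ((Y * Y) *ᵥ v),
    fun v => hermForm 6 F 2 v ((Y * (Y * Y)) *ᵥ v), fun v => hermForm 6 F 2 v ((Y * (Y * (Y * Y))) *ᵥ v),
    fun v => hermForm 6 F 2 v ((Y * (Y * (Y * (Y * Y)))) *ᵥ v)]

/-- the invariant -/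
noncomputable def inv (w : F) (Y : Matrix (Fin 6) (Fin 6) F) (a c : ℕ) : ℕ :=
  Nat.card {v : Fin 6 → F // comb w (qf Y) a v = d4 w c}

theorem comb_qf_conj {c : GU 6 F 2} {Y Z : Matrix (Fin 6) (Fin 6) F} (h : gm c * Y = Z * gm c) (a : ℕ) (v : Fin 6 → F) :
    comb w (qf Z) a (gm c *ᵥ v) = comb w (qf Y) a v := by
  have key : ∀ A B : Matrix (Fin 6) (Fin 6) F, gm c * A = B * gm c →
      hermForm 6 F 2 (gm c *ᵥ v) (B *ᵥ (gm c *ᵥ v)) = hermForm 6 F 2 v (A *ᵥ v) := by
    intro A B hAB
    rw [mulVec_mulVec, ← hAB, ← mulVec_mulVec, herm_gm]
  have m : ∀ A B : Matrix (Fin 6) (Fin 6) F, gm c * A = B * gm c → gm c * (Y * A) = (Z * B) * gm c := by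
    intro A B hAB
    rw [← Matrix.mul_assoc, h, Matrix.mul_assoc, hAB, Matrix.mul_assoc]
  have h0 : gm c * 1 = 1 * gm c := by rw [Matrix.mul_one, Matrix.one_mul]
  unfold qf
  simp only [comb]
  rw [key _ _ h0, key _ _ h, key _ _ (m _ _ h), key _ _ (m _ _ (m _ _ h)), key _ _ (m _ _ (m _ _ (m _ _ h))),
    key _ _ (m _ _ (m _ _ (m _ _ (m _ _ h))))]

theorem inv_conj {c : GU 6 F 2} {Y Z : Matrix (Fin 6) (Fin 6) F} (h : gm c * Y = Z * gm c) (a k : ℕ) :
    inv w Y a k = inv w Z a k := by
  refine Nat.card_congr ⟨fun v => ⟨gm c *ᵥ v.1, ?_⟩, fun v => ⟨gm c⁻¹ *ᵥ v.1, ?_⟩, fun v => Subtype.ext ?_,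
    fun v => Subtype.ext ?_⟩
  · rw [comb_qf_conj h]; exact v.2
  · rw [← comb_qf_conj h, gm_mulVec_inv]; exact v.2
  · exact gm_inv_mulVec c v.1
  · exact gm_mulVec_inv c v.1

theorem vec_bij (hF : Fintype.card F = 2 ^ 2) (hc4 : ∀ x : F, x ^ 4 = x) (h2 : (2 : F) = 0)
    (hw : w ^ 2 + w + 1 = 0) : Function.Bijective fun i : Fin 4096 => vec w i := by
  rw [Fintype.bijective_iff_surjective_and_card]
  refine ⟨?_, ?_⟩
  · intro v
    obtain ⟨n, hn, hn2⟩ := vec_surj h2 hw hc4 v
    exact ⟨⟨n, hn⟩, hn2⟩
  · rw [Fintype.card_fun, hF, Fintype.card_fin, Fintype.card_fin]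
    norm_num

theorem jnB_spec (hF : Fintype.card F = 2 ^ 2) (hc4 : ∀ x : F, x ^ 4 = x) (h2 : (2 : F) = 0)
    (hw : w ^ 2 + w + 1 = 0) {Q : List (ℕ × ℕ)} {Y : Matrix (Fin 6) (Fin 6) F}
    (hQ : List.Forall₂ (fun t f => Rep w t.1 t.2 f) Q (qf Y)) {a c j : ℕ} (hc : c < 4) (h : jnB Q a c j = true) :
    inv w Y a c = j := by
  unfold jnB at h
  rw [force_eq, force_eq, force_eq] at h
  rw [← card_fin_of_cntF h]
  have r := rep_acc h2 hw hQ a
  generalize accL Q a = A at *
  generalize accH Q a = B at *
  unfold inv
  rw [Nat.card_congr (Equiv.subtypeEquiv (Equiv.ofBijective _ (vec_bij hF hc4 h2 hw)) (q := fun v =>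
    comb w (qf Y) a v = d4 w c) (p := fun i : Fin 4096 => comb w (qf Y) a (vec w i) = d4 w c) fun i => Iff.rfl).symm]
  classical
  rw [Nat.card_eq_fintype_card, Fintype.card_subtype]
  congr 1
  apply Finset.filter_congr
  intro i _
  rw [r i i.2, d4_eb hc, tb_land, Bool.and_eq_true]
  have key : ∀ (b : Bool) (T : ℕ), tb (cond b T (Nat.xor FULL T)) i = true ↔ tb T i = b := by
    intro b T
    cases b
    · rw [cond_false, tb_xor, tb_full i.2, Bool.true_xor, Bool.not_eq_true']
    · rw [cond_true]
  rw [key, key]
  constructor
  · intro h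
    exact eb_inj h2 hw h
  · rintro ⟨h3, h4⟩
    rw [h3, h4]

theorem smB_eq (h2 : (2 : F) = 0) (hw : w ^ 2 + w + 1 = 0) {l P Q : ℕ} (hl : l < 4) (h : smB l P Q = true) :
    mt w Q = d4 w l • mt w P := by
  ext r c
  have h1 := Nat.eq_of_beq_eq_true ((allB_iff _ _).1 ((allB_iff _ _).1 h r r.2) c c.2)
  show d4 w (cq Q r c) = d4 w l * d4 w (cq P r c)
  rw [h1, d4_mulc h2 hw hl (cq_lt P r c)]

theorem mt_pid : mt w pid = (1 : Matrix (Fin 6) (Fin 6) F) := by
  have h : ∀ r c : Fin 6, cd pid r c = if r = c then 1 else 0 := by decide +kernel
  ext r c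
  show d4 w (cd pid r c) = _
  rw [h, Matrix.one_apply]
  by_cases hrc : r = c
  · rw [if_pos hrc, if_pos hrc]; rfl
  · rw [if_neg hrc, if_neg hrc]; rfl

/-- the isometries from their matrices -/
theorem exists_gu (h2 : (2 : F) = 0) {A : Matrix (Fin 6) (Fin 6) F}
    (h : ∀ r c : Fin 6, ∑ k : Fin 6, A r k * A c k ^ 2 = if r = c then 1 else 0) (hF : Fintype.card F = 2 ^ 2)
    (hc4 : ∀ x : F, x ^ 4 = x) : ∃ g : GU 6 F 2, gm g = A := by
  -- `A A^* = 1`, so `A^* A = 1`
  let B : Matrix (Fin 6) (Fin 6) F := fun i j => A j i ^ 2
  have h1 : A * B = 1 := by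
    ext r c
    rw [Matrix.mul_apply, Matrix.one_apply]
    exact h r c
  have h3 : B * A = 1 := mul_eq_one_comm.1 h1
  have h4 : ∀ i j : Fin 6, ∑ k : Fin 6, A k i * A k j ^ 2 = if i = j then 1 else 0 := by
    intro i j
    have h5 : (B * A) i j = if i = j then 1 else 0 := by rw [h3, Matrix.one_apply]
    rw [Matrix.mul_apply] at h5
    have h6 : (∑ k : Fin 6, B i k * A k j) ^ 2 = ∑ k : Fin 6, A k i * A k j ^ 2 := by
      rw [Fin.sum_univ_six, Fin.sum_univ_six, sq_add h2, sq_add h2, sq_add h2, sq_add h2, sq_add h2]
      simp only [mul_pow, B, ← pow_mul]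
      norm_num
      simp only [hc4]
    rw [← h6, h5]
    split <;> norm_num
  have iso : ∀ u v : Fin 6 → F, hermForm 6 F 2 (A *ᵥ u) (A *ᵥ v) = hermForm 6 F 2 u v := by
    intro u v
    have hsum : ∀ k : Fin 6, (A *ᵥ v) k ^ 2 = ∑ j : Fin 6, A k j ^ 2 * v j ^ 2 := by
      intro k
      show (∑ j, A k j * v j) ^ 2 = _
      rw [Fin.sum_univ_six, Fin.sum_univ_six, sq_add h2, sq_add h2, sq_add h2, sq_add h2, sq_add h2]
      simp only [mul_pow]
    calc hermForm 6 F 2 (A *ᵥ u) (A *ᵥ v) = ∑ k, (∑ i, A k i * u i) * (∑ j, A k j ^ 2 * v j ^ 2) := by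
          rw [herm_def]
          refine Finset.sum_congr rfl fun k _ => ?_
          rw [hsum]
          rfl
      _ = ∑ k, ∑ i, ∑ j, (u i * v j ^ 2) * (A k i * A k j ^ 2) := by
          refine Finset.sum_congr rfl fun k _ => ?_
          rw [Finset.sum_mul_sum]
          refine Finset.sum_congr rfl fun i _ => Finset.sum_congr rfl fun j _ => ?_
          ring
      _ = ∑ i, ∑ j, (u i * v j ^ 2) * ∑ k, (A k i * A k j ^ 2) := by
          rw [Finset.sum_comm]
          refine Finset.sum_congr rfl fun i _ => ?_
          rw [Finset.sum_comm]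
          refine Finset.sum_congr rfl fun j _ => ?_
          rw [Finset.mul_sum]
      _ = hermForm 6 F 2 u v := by
          rw [herm_def]
          refine Finset.sum_congr rfl fun i _ => ?_
          simp only [h4, mul_ite, mul_one, mul_zero, Finset.sum_ite_eq, Finset.mem_univ, if_true]
  exact ⟨⟨⟨A, B, h1, h3⟩, iso⟩, rfl⟩

/-- **What a record gives.** -/
theorem Rec.spec (hF : Fintype.card F = 2 ^ 2) (hc4 : ∀ x : F, x ^ 4 = x) (h2 : (2 : F) = 0)
    (hw : w ^ 2 + w + 1 = 0) {r : Rec} (h : r.chk = true) : ∃ g : GU 6 F 2, gm g = mt w r.p1 ∧ r.i < 40 ∧ 0 < r.l ∧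
      r.l < 4 ∧ mt w r.p1 = d4 w r.l • X w r.i ∧ Nat.card ↥(centralizer ({g} : Set (GU 6 F 2))) ≤ bnd r.L ∧
      inv w (gm g) 1264 0 = r.j1 ∧ inv w (gm g) 1225 2 = r.j2 ∧ inv w (gm g) 3178 2 = r.j3 ∧
      inv w (gm g) 3406 3 = r.j4 := by
  unfold Rec.chk at h
  rw [band_eq_true, band_eq_true, band_eq_true, band_eq_true, band_eq_true, band_eq_true, band_eq_true, band_eq_true,
    band_eq_true, withT_eq, band_eq_true, band_eq_true, band_eq_true, band_eq_true] at h
  obtain ⟨e1, e2, e3, e4, e5, e6, e7, e8, e9, e10, e11, e12, e13, e14⟩ := h
  rw [Nat.blt_eq] at e1 e2 e3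
  obtain ⟨g, hg⟩ := exists_gu h2 (fun r' c => uniB_eq h2 hw e9 r' c) hF hc4
  have m2 := mulB_eq h2 hw e5
  have m3 := mulB_eq h2 hw e6
  have m4 := mulB_eq h2 hw e7
  have m5 := mulB_eq h2 hw e8
  have hQ : List.Forall₂ (fun t f => Rep w t.1 t.2 f) (r.Ps.map fun P => (accL ML P, accH ML P)) (qf (gm g)) := by
    have f0 := rep_mat h2 hw pid
    have f1 := rep_mat h2 hw r.p1
    have f2 := rep_mat h2 hw r.p2
    have f3 := rep_mat h2 hw r.p3
    have f4 := rep_mat h2 hw r.p4
    have f5 := rep_mat h2 hw r.p5
    rw [← m5, ← m4, ← m3, ← m2, ← hg] at f5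
    rw [← m4, ← m3, ← m2, ← hg] at f4
    rw [← m3, ← m2, ← hg] at f3
    rw [← m2, ← hg] at f2
    rw [← hg] at f1
    rw [mt_pid] at f0
    exact .cons f0 (.cons f1 (.cons f2 (.cons f3 (.cons f4 (.cons f5 .nil)))))
  refine ⟨g, hg, e1, e2, e3, smB_eq h2 hw e3 e4, ?_, jnB_spec hF hc4 h2 hw hQ (by norm_num) e11,
    jnB_spec hF hc4 h2 hw hQ (by norm_num) e12, jnB_spec hF hc4 h2 hw hQ (by norm_num) e13,
    jnB_spec hF hc4 h2 hw hQ (by norm_num) e14⟩
  have hcm : ∀ c ∈ centralizer ({g} : Set (GU 6 F 2)), gm c * gm g = gm g * gm c := by
    intro c hc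
    have h1 := mem_centralizer_singleton_iff.1 hc
    rw [← gm_mul, ← gm_mul, h1]
  refine card_le_of_chk hc4 h2 hw r.L _ [] (P := r.p1) (fun c hc => by rw [← hg]; exact hcm c hc) ?_
    (fun c _ u hu => absurd hu (by simp)) e10
  intro t ht
  have key : ∀ (Q : List (ℕ × ℕ)) (fs : List ((Fin 6 → F) → F)),
      List.Forall₂ (fun t f => Rep w t.1 t.2 f) Q fs → (∀ f ∈ fs, ∀ c ∈ centralizer ({g} : Set (GU 6 F 2)), ∀ v,
        f (gm c *ᵥ v) = f v) → ∀ t ∈ Q, ∃ f : (Fin 6 → F) → F, Rep w t.1 t.2 f ∧
        ∀ c ∈ centralizer ({g} : Set (GU 6 F 2)), ∀ v, f (gm c *ᵥ v) = f v := by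
    intro Q fs hQf
    induction hQf with
    | nil => intro _ t ht; exact absurd ht (by simp)
    | @cons t f Q fs htf _ ih =>
      intro hf t' ht'
      rcases List.mem_cons.1 ht' with rfl | ht'
      · exact ⟨f, htf, hf f List.mem_cons_self⟩
      · exact ih (fun f' hf' => hf f' (List.mem_cons_of_mem _ hf')) t' ht'
  refine key _ _ hQ ?_ t ht
  intro f hf c hc v
  have hc1 := hcm c hc
  have k1 : ∀ A : Matrix (Fin 6) (Fin 6) F, gm c * A = A * gm c →
      hermForm 6 F 2 (gm c *ᵥ v) (A *ᵥ (gm c *ᵥ v)) = hermForm 6 F 2 v (A *ᵥ v) := by
    intro A hA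
    rw [mulVec_mulVec, ← hA, ← mulVec_mulVec, herm_gm]
  have k2 : ∀ A : Matrix (Fin 6) (Fin 6) F, gm c * A = A * gm c → gm c * (gm g * A) = (gm g * A) * gm c := by
    intro A hA
    rw [← Matrix.mul_assoc, hc1, Matrix.mul_assoc, hA, Matrix.mul_assoc]
  unfold qf at hf
  simp only [List.mem_cons, List.not_mem_nil, or_false] at hf
  rcases hf with rfl | rfl | rfl | rfl | rfl | rfl
  · exact k1 1 (by rw [Matrix.mul_one, Matrix.one_mul])
  · exact k1 _ hc1
  · exact k1 _ (k2 _ hc1)
  · exact k1 _ (k2 _ (k2 _ hc1))
  · exact k1 _ (k2 _ (k2 _ (k2 _ hc1)))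
  · exact k1 _ (k2 _ (k2 _ (k2 _ (k2 _ hc1))))

end herm

end Cfsg.Agent.H767.U6
end

-- part: H767/U6/Data
section
/-!
# The list of the records (helper767)
-/

set_option autoImplicit false
set_option maxRecDepth 100000

namespace Cfsg.Agent.H767.U6

/-- records -/
def D0 : List Rec := [
  ⟨0, 1, 1180663682709764194305, 1180663682709764194305, 1180663682709764194305, 1180663682709764194305, 1180663682709764194305, [(2342, 2016, []), (2534, 528, []), (3404, 120, []), (604, 36, []), (2579, 6, []), (728, 3, [])], 2080, 0, 0, 2016⟩,
  ⟨0, 2, 2361327365419528388610, 3541991048129292582915, 1180663682709764194305, 2361327365419528388610, 3541991048129292582915, [(2342, 2016, []), (2534, 528, []), (3404, 120, []), (604, 36, []), (2579, 6, []), (728, 3, [])], 2080, 0, 2016, 2016⟩,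
  ⟨0, 3, 3541991048129292582915, 2361327365419528388610, 1180663682709764194305, 3541991048129292582915, 2361327365419528388610, [(2342, 2016, []), (2534, 528, []), (3404, 120, []), (604, 36, []), (2579, 6, []), (728, 3, [])], 4096, 0, 0, 0⟩,
  ⟨1, 1, 1180663682709764190216, 1180663682709764194305, 1180663682709764190216, 1180663682709764194305, 1180663682709764190216, [(1017, 1536, [1023]), (674, 120, []), (1520, 36, []), (650, 6, []), (3728, 3, [])], 544, 0, 0, 480⟩,
  ⟨1, 2, 2361327365419528359948, 3541991048129292582915, 1180663682709764190216, 2361327365419528388610, 3541991048129292541956, [(1017, 1536, [341]), (674, 120, []), (1520, 36, []), (650, 6, []), (3728, 3, [])], 2080, 1536, 2016, 2016⟩,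
  ⟨1, 3, 3541991048129292541956, 2361327365419528388610, 1180663682709764190216, 3541991048129292582915, 2361327365419528359948, [(1017, 1536, [682]), (674, 120, []), (1520, 36, []), (650, 6, []), (3728, 3, [])], 1024, 0, 0, 1536⟩,
  ⟨2, 1, 1180645699097580277764, 1180663682709764194305, 1180645699097580277764, 1180663682709764194305, 1180645699097580277764, [(1414, 768, [1417]), (2526, 96, [2715]), (1932, 6, []), (1121, 3, [])], 1312, 0, 0, 1248⟩,
  ⟨2, 2, 2361201308610427101192, 3541991048129292582915, 1180645699097580277764, 2361327365419528388610, 3541810908542244237324, [(1414, 768, [2766]), (2526, 96, [4077]), (1932, 6, []), (1121, 3, [])], 2080, 768, 2016, 2016⟩,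
  ⟨2, 3, 3541810908542244237324, 2361327365419528388610, 1180645699097580277764, 3541991048129292582915, 2361201308610427101192, [(1414, 768, [3911]), (2526, 96, [1398]), (1932, 6, []), (1121, 3, [])], 2560, 0, 0, 768⟩,
  ⟨3, 1, 591160503275243720948, 1180663682709764194305, 591160503275243720948, 1180663682709764194305, 591160503275243720948, [(3982, 864, [1682]), (3908, 64, [1690]), (3772, 6, [3736])], 928, 0, 0, 864⟩]

/-- records -/
def D1 : List Rec := [
  ⟨3, 2, 885731949146760585304, 3541991048129292582915, 591160503275243720948, 2361327365419528388610, 295724369577832411308, [(3982, 864, [3043]), (3908, 64, [3055]), (3772, 6, [2028])], 2080, 1152, 2016, 2016⟩,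
  ⟨3, 3, 295724369577832411308, 2361327365419528388610, 591160503275243720948, 3541991048129292582915, 885731949146760585304, [(3982, 864, [3441]), (3908, 64, [3445]), (3772, 6, [2420])], 1792, 0, 0, 1152⟩,
  ⟨4, 1, 3541846924145090338838, 2361255303427863531583, 1180663682709764194305, 3541846924145090338838, 2361255303427863531583, [(735, 120, []), (2329, 108, [1305]), (2958, 18, [1944]), (2782, 3, [])], 544, 1584, 3072, 528⟩,
  ⟨4, 2, 1180735744702503055403, 1180807806694319042602, 1180663682709764194305, 1180735744702503055403, 1180807806694319042602, [(735, 120, []), (2329, 108, [2606]), (2958, 18, [2540]), (2782, 3, [])], 544, 720, 1920, 528⟩,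
  ⟨4, 3, 2361399427411495505981, 3541918986136906326037, 1180663682709764194305, 2361399427411495505981, 3541918986136906326037, [(735, 120, []), (2329, 108, [3895]), (2958, 18, [3700]), (2782, 3, [])], 256, 1584, 3072, 816⟩,
  ⟨5, 1, 1180735744702335389738, 1180807806694654668823, 1180663682709764194305, 1180735744702335389738, 1180807806694654668823, [(2102, 1296, [2056]), (263, 36, [519]), (33, 3, []), (2484, 3, [])], 784, 1296, 2304, 2016⟩,
  ⟨5, 2, 2361399427411982016575, 3541918986137040429118, 1180663682709764194305, 2361399427411982016575, 3541918986137040429118, [(2102, 1296, [3084]), (263, 36, [777]), (33, 3, []), (2484, 3, [])], 1792, 1296, 2304, 1008⟩,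
  ⟨5, 3, 3541846924144771493909, 2361255303427393802281, 1180663682709764194305, 3541846924144771493909, 2361255303427393802281, [(2102, 1296, [1028]), (263, 36, [270]), (33, 3, []), (2484, 3, [])], 1792, 0, 0, 1008⟩,
  ⟨6, 1, 1180807802295886594050, 1180735749099895160835, 1180663682709764194305, 1180807802295886594050, 1180735749099895160835, [(2252, 216, [2120, 2180]), (1391, 27, [1961, 1766])], 1600, 720, 1536, 1200⟩,
  ⟨7, 1, 2361327365420048633886, 3541991048128621510659, 1180663682710401970233, 2361327365419528388610, 3541991048128839770151, [(2500, 768, [3711, 1952]), (2806, 36, []), (3853, 6, []), (2739, 3, [])], 544, 768, 2016, 2016⟩]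

/-- records -/
def D2 : List Rec := [
  ⟨7, 2, 3541991048128839770151, 2361327365419058790402, 1180663682710401970233, 3541991048129292582915, 2361327365420048633886, [(2500, 768, [1941, 3664]), (2806, 36, []), (3853, 6, []), (2739, 3, [])], 2560, 1536, 0, 768⟩,
  ⟨7, 3, 1180663682710200496185, 1180663682709697200129, 1180663682710401970233, 1180663682709764194305, 1180663682710200496185, [(2500, 768, [2538, 2544]), (2806, 36, []), (3853, 6, []), (2739, 3, [])], 1312, 1536, 3072, 1248⟩,
  ⟨8, 1, 1697947259054774747139, 221505114441871556610, 4354386465671593656321, 3541991048129292582915, 4575261164126093836290, [(2458, 768, [2525, 1711]), (269, 24, [2019]), (1863, 3, [])], 1792, 1536, 0, 1152⟩,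
  ⟨8, 2, 3026220958335203606529, 147646221290215325697, 4354386465671593656321, 1180663682709764194305, 3026220958335203606529, [(2458, 768, [3686, 3418]), (269, 24, [2417]), (1863, 3, [])], 928, 1536, 3072, 864⟩,
  ⟨8, 3, 4575261164126093836290, 74003289815245701123, 4354386465671593656321, 2361327365419528388610, 1697947259054774747139, [(2458, 768, [1979, 3061]), (269, 24, [3730]), (1863, 3, [])], 544, 1152, 2016, 2016⟩,
  ⟨9, 1, 4042130110676327215208, 1301774044763098269537, 3164111134996611020552, 1180663682709764194305, 4042130110676327215208, [(511, 384, [2035, 386, 510]), (1254, 6, []), (505, 3, [])], 928, 768, 0, 864⟩,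
  ⟨9, 2, 2013389230566620008636, 3789898973302860009171, 3164111134996611020552, 2361327365419528388610, 3361536752573918224596, [(511, 384, [2385, 833, 510]), (1254, 6, []), (505, 3, [])], 1312, 1152, 480, 2016⟩,
  ⟨9, 3, 3361536752573918224596, 2580443127736792680882, 3164111134996611020552, 3541991048129292582915, 2013389230566620008636, [(511, 384, [3746, 707, 510]), (1254, 6, []), (505, 3, [])], 1792, 768, 1536, 1152⟩,
  ⟨10, 1, 2140290867232166301735, 74003289815245664268, 3026220958335488876571, 2361327365419528388610, 2804752048613738373177, [(3898, 384, [1562, 613]), (1176, 12, [3612, 2225])], 1312, 960, 2016, 2016⟩,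
  ⟨10, 2, 2804752048613738373177, 221505114441871532040, 3026220958335488876571, 3541991048129292582915, 2140290867232166301735, [(3898, 384, [2863, 479]), (1176, 12, [1828, 1123])], 2176, 768, 0, 960⟩]

/-- records -/
def D3 : List Rec := [
  ⟨10, 3, 4354386465671878914078, 147646221290215313412, 3026220958335488876571, 1180663682709764194305, 4354386465671878914078, [(3898, 384, [3381, 954]), (1176, 12, [2360, 3282])], 1120, 768, 1536, 1056⟩,
  ⟨11, 1, 885731961032982343750, 3541991048610480464100, 591160515096503853101, 2361327365419528388610, 295724372804242313355, [(1786, 384, [1290, 3445, 4062]), (940, 6, [2121])], 1312, 960, 480, 2016⟩,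
  ⟨11, 2, 295724372804242313355, 2361327366381718933660, 591160515096503853101, 3541991048129292582915, 885731961032982343750, [(1786, 384, [2575, 3055, 4062]), (940, 6, [3214])], 2176, 768, 1536, 960⟩,
  ⟨11, 3, 591160514132534763725, 1180663683328475279480, 591160515096503853101, 1180663682709764194305, 591160514132534763725, [(1786, 384, [3845, 1690, 4062]), (940, 6, [1223])], 1120, 768, 0, 1056⟩,
  ⟨12, 1, 1180716916737265201290, 1180837350369847103652, 1180742509393102852420, 1180721159620314296683, 1180663682709764194305, [(80, 90, [334, 872, 301, 995]), (2221, 3, [])], 1120, 960, 960, 1056⟩,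
  ⟨12, 2, 2361387653979367706831, 3541979498528109424732, 1180742509393102852420, 2361346526965553730237, 3541991048129292582915, [(80, 90, [647, 724, 301, 369]), (2221, 3, [])], 1120, 1200, 1056, 1056⟩,
  ⟨12, 3, 3542021183752059215941, 2361308781895306813688, 1180742509393102852420, 3542029365701164196822, 2361327365419528388610, [(80, 90, [969, 444, 301, 658]), (2221, 3, [])], 2176, 960, 960, 960⟩,
  ⟨13, 1, 1180735737351985774737, 1180807807725346439281, 1180663681612131614721, 1180735745045882814609, 1180807796730498596977, [(3039, 432, [2415]), (73, 36, [227, 124]), (3371, 3, [])], 784, 1104, 2304, 2016⟩,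
  ⟨13, 2, 2361399417104480764130, 3541918986824387051747, 1180663681612131614721, 2361399428099328606434, 3541918979130490011875, [(3039, 432, [3765]), (73, 36, [113, 232]), (3371, 3, [])], 448, 1296, 576, 816⟩,
  ⟨13, 3, 3541846924077830750323, 2361255303770941259922, 1180663681612131614721, 3541846925175463329907, 2361255302673308680338, [(3039, 432, [2010]), (73, 36, [146, 148]), (3371, 3, [])], 256, 0, 0, 1200⟩]

/-- records -/
def D4 : List Rec := [
  ⟨14, 1, 2361470929824976212394, 3542062272231895429975, 1180638962678475587585, 2361351605606020633002, 3541942938664406496087, [(987, 864, [986, 396]), (1013, 18, [787]), (3537, 3, [])], 976, 1296, 2304, 480⟩,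
  ⟨14, 2, 3541871444499261301503, 2361375558816419996414, 1180638962678475587585, 3542039232729554264831, 2361327093157828043518, [(987, 864, [367, 840]), (1013, 18, [289]), (3537, 3, [])], 1792, 1104, 2304, 1008⟩,
  ⟨14, 3, 1180783360371364213589, 1180687931692886364585, 1180638962678475587585, 1180734924405626893141, 1180855697931603481001, [(987, 864, [693, 708]), (1013, 18, [562]), (3537, 3, [])], 2176, 0, 0, 816⟩,
  ⟨15, 1, 3541804155906954166274, 2361255303427175497731, 1180620914472131559425, 3541846924144586801154, 2361212535189542862851, [(54, 288, [991, 53]), (792, 6, []), (2625, 9, [1450])], 1312, 1584, 3072, 1296⟩,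
  ⟨15, 2, 1180644577326077968387, 1180807806694469976066, 1180620914472131559425, 1180735744702117085187, 1180651347574363193346, [(54, 288, [357, 47]), (792, 6, []), (2625, 9, [2815])], 544, 1104, 1920, 528⟩,
  ⟨15, 3, 2361242968291774496769, 3541918986136939692033, 1180620914472131559425, 2361399427411881279489, 3541827818760900575233, [(54, 288, [698, 26]), (792, 6, []), (2625, 9, [3925])], 640, 1584, 768, 1200⟩,
  ⟨16, 1, 1180698063765130146736, 1180759705474310386430, 1180708205514608501548, 1180879600547485770155, 1180728449933069534152, [(221, 576, [866, 153, 176]), (2276, 9, [2204])], 640, 0, 0, 1008⟩,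
  ⟨16, 2, 2361372180076812669392, 3541918717997602595241, 1180708205514608501548, 2361279264199368798973, 3542035292347358298756, [(221, 576, [435, 119, 176]), (2276, 9, [3300])], 976, 1104, 2304, 480⟩,
  ⟨16, 3, 3542055518898755658336, 2361447331016104530775, 1180708205514608501548, 3541966889741162943318, 2361362020460773540172, [(221, 576, [721, 238, 176]), (2276, 9, [1144])], 448, 1104, 576, 816⟩,
  ⟨17, 1, 1180807796799133724676, 1180735749100432048131, 1180663680513693720588, 1180807802296155013122, 1180735737007146274824, [(1121, 216, [1116, 1235]), (1355, 12, [1818, 1734])], 544, 912, 1920, 528⟩]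

/-- records -/
def D5 : List Rec := [
  ⟨17, 2, 2361255300130519650312, 3541846928542901764098, 1180663680513693720588, 2361255312223805423619, 3541846923045880475652, [(1121, 216, [2212, 3250]), (1355, 12, [2351, 3469])], 448, 1584, 1920, 1008⟩,
  ⟨17, 3, 3541918979542554255372, 2361399418615251353601, 1180663680513693720588, 3541918981738624729089, 2361399416419180879884, [(1121, 216, [3320, 2145]), (1355, 12, [3637, 2891])], 928, 1584, 3072, 912⟩,
  ⟨18, 1, 3541918990535103795263, 2361399423014069719087, 1180663682709764190216, 3541918990535103782966, 2361399423014069706790, [(1066, 216, [3073, 2103, 1063]), (2972, 9, [1361])], 1216, 720, 1536, 816⟩,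
  ⟨18, 2, 1180807797898528120853, 1180735740304221777946, 1180663682709764190216, 1180807797898528157723, 1180735740304221753373, [(1066, 216, [1026, 1070, 1063]), (2972, 9, [2722])], 1600, 816, 1536, 1200⟩,
  ⟨18, 3, 2361255307825456984106, 3541846932940797403189, 1180663682709764190216, 2361255307825456959533, 3541846932940797440059, [(1066, 216, [2051, 3097, 1063]), (2972, 9, [4083])], 1120, 720, 384, 1296⟩,
  ⟨19, 1, 885731949971025830116, 3541991046206087331842, 591160505406554255480, 2361327371745277493251, 295724369919785963676, [(1061, 216, [294, 3218, 915, 2123]), (3376, 3, [])], 1120, 816, 384, 1296⟩,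
  ⟨19, 2, 295724367927843434616, 2361327362948647567361, 591160505406554255480, 3541991041807772368897, 885731948458072944760, [(1061, 216, [571, 2161, 915, 3213]), (3376, 3, [])], 736, 720, 384, 912⟩,
  ⟨19, 3, 591160504099759788188, 1180663695357034545155, 591160505406554255480, 1180663690958719582210, 591160503620770144484, [(1061, 216, [797, 1251, 915, 1222]), (3376, 3, [])], 1216, 816, 1536, 816⟩,
  ⟨20, 1, 295436138857260654600, 1180663687108079173635, 295436136656089911300, 1180663691506394103810, 295436137756675289100, [(3469, 216, [1817, 3531, 1831, 3398, 1854])], 736, 816, 384, 912⟩,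
  ⟨21, 1, 1693590923470988262170, 3549347623459387241366, 632797273535095944838, 813757430414858637931, 3463473604689264926235, [(2131, 63, [3799, 126, 2453, 301, 2354])], 1072, 1008, 1008, 0⟩]

/-- records -/
def D6 : List Rec := [
  ⟨21, 2, 3196298652137558842671, 2376693275471382700669, 632797273535095944838, 961984987800252343229, 1891076413954474178870, [(2131, 63, [1897, 233, 2453, 566, 1825])], 1072, 2016, 1008, 1008⟩,
  ⟨21, 3, 4547898813110584944181, 1194294226717338997227, 632797273535095944838, 446981734063261069782, 4081535506293071587117, [(2131, 63, [2494, 151, 2453, 795, 3603])], 1072, 1008, 1008, 1008⟩,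
  ⟨22, 1, 2361349929876646879926, 3541898473029519893495, 1180641500969234325557, 2361231693349786025986, 3541798555261560189915, [(2309, 192, [3753, 1805, 2376, 3926]), (1919, 3, [])], 928, 960, 1248, 480⟩,
  ⟨22, 2, 3542036092379976348635, 2361430410412769399470, 1180641500969234325557, 3541843598412698222595, 2361254200082541896374, [(2309, 192, [2046, 3595, 2376, 1451]), (1919, 3, [])], 640, 1152, 768, 960⟩,
  ⟨22, 3, 1180731269427836211565, 1180796879266692378969, 1180641500969234325557, 1180616409762322382849, 1180638965973618561389, [(2309, 192, [2391, 2310, 2376, 2813]), (1919, 3, [])], 1120, 1152, 1536, 1056⟩,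
  ⟨23, 1, 4540833679264323270175, 4669109814827359105668, 3957706015000099932950, 2636919061341514053174, 1704896690452086157522, [(2112, 96, [394, 2654, 279, 550, 1515])], 1120, 1056, 864, 1248⟩,
  ⟨23, 2, 1683039781838589287205, 3158470623179442413900, 3957706015000099932950, 3676950331908330756891, 4590366969584365134001, [(2112, 96, [719, 1529, 279, 827, 3990])], 1216, 960, 1152, 1056⟩,
  ⟨23, 3, 3192757036337003277626, 1589049960478809363400, 3957706015000099932950, 1358246758742490819885, 3038241546289544728675, [(2112, 96, [837, 4007, 279, 285, 2685])], 1024, 960, 768, 960⟩,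
  ⟨24, 1, 1180663687108431613981, 1180663691506041983039, 1180663682710301097987, 1180663687108330876987, 1180663691506494894122, [(775, 54, [804, 773, 782]), (3481, 9, [3521])], 1360, 1008, 768, 864⟩,
  ⟨24, 2, 2361327369817474457638, 3541991043731346845738, 1180663682710301097987, 2361327369817927356445, 3541991043731195813909, [(775, 54, [312, 527, 782]), (3481, 9, [1602])], 1984, 1008, 960, 1104⟩]

/-- records -/
def D7 : List Rec := [
  ⟨24, 3, 3541991039333182828603, 2361327361021700071445, 1180663682710301097987, 3541991039332830666790, 2361327361021398192191, [(775, 54, [540, 266, 782]), (3481, 9, [2947])], 448, 1152, 1152, 912⟩,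
  ⟨25, 1, 3541846924144838692910, 2361255303427662278713, 1180663682710032646146, 3541846924144939196471, 2361255303427813101598, [(159, 54, [153, 189, 165]), (2454, 9, [1466])], 832, 0, 2304, 816⟩,
  ⟨25, 2, 1180735744702201028663, 1180807806694117777447, 1180663682710032646146, 1180735744702553436185, 1180807806694419853369, [(159, 54, [238, 107, 165]), (2454, 9, [2783])], 1072, 720, 2112, 1008⟩,
  ⟨25, 3, 2361399427412049178649, 3541918986137308844062, 1180663682710032646146, 2361399427411596267566, 3541918986136855945255, [(159, 54, [119, 214, 165]), (2454, 9, [3941])], 1024, 1584, 1920, 1488⟩,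
  ⟨26, 1, 821957474666607539530, 2592592998527154042661, 3787562659241984718219, 3838982332417867916643, 3022096970945912505646, [(3597, 81, [2570, 984, 103, 1094, 1529])], 928, 1152, 864, 1152⟩,
  ⟨27, 1, 886308409553889951825, 2361327371194967822398, 295436152600670007353, 3541991037546862624866, 590872279907639001090, [(3421, 90, [3701, 1623, 1915, 3009, 2470])], 544, 960, 960, 1056⟩,
  ⟨27, 2, 295436139887147860130, 1180663691233698017321, 295436152600670007353, 1180663682368231145651, 295436139953819500545, [(3421, 90, [1946, 3582, 1915, 3394, 1885])], 1024, 960, 960, 960⟩,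
  ⟨27, 3, 590872272557591314675, 3541991042082801246231, 295436152600670007353, 2361327358619203518673, 886308419861458501635, [(3421, 90, [2543, 2985, 1915, 1667, 3835])], 1120, 1296, 1056, 1056⟩,
  ⟨28, 1, 2831616121229744392845, 2393899848937881158118, 2080131196811818569217, 1941252042110098849051, 208150583739561926354, [(2996, 33, [2138, 3554, 3492, 3427]), (871, 3, [])], 1024, 1056, 1488, 960⟩,
  ⟨28, 2, 4404223938908832812998, 1246093217358119879581, 2080131196811818569217, 3506362201966457312813, 124828200785343396273, [(2996, 33, [3247, 2961, 3492, 1713]), (871, 3, [])], 1984, 1056, 1056, 1056⟩]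

/-- records -/
def D8 : List Rec := [
  ⟨28, 3, 2199806866964113491275, 3584076283076110811771, 2080131196811818569217, 3968987547890622622518, 249967149584202229603, [(2996, 33, [1269, 1651, 3492, 3026]), (871, 3, [])], 1024, 1056, 1056, 960⟩,
  ⟨29, 1, 3542061695602019766778, 2361345706239901717222, 1180609377695077257563, 3541948816376172872484, 2361187771985473839243, [(1729, 99, [3154, 2523, 2046, 3801, 2290])], 928, 1056, 1056, 1056⟩,
  ⟨29, 2, 1180689871705640133215, 1180718601747944829341, 1180609377695077257563, 1180861559147657019704, 1180605188974586892358, [(1729, 99, [1187, 1974, 2046, 1902, 1185])], 1024, 1056, 1056, 2016⟩,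
  ⟨29, 3, 2361374089442238296997, 3542027644763956028283, 1180609377695077257563, 2361315255275970249244, 3541783918559115096269, [(1729, 99, [2289, 3693, 2046, 2487, 3155])], 1024, 1056, 960, 960⟩,
  ⟨30, 1, 2361327365419645968429, 3541991048128621641729, 1180663682710552829997, 2361327365419259936769, 3541991048129141710893, [(3006, 432, [3581, 1626, 2969]), (3864, 6, []), (3254, 3, [])], 880, 1104, 1920, 1248⟩,
  ⟨30, 2, 3541991048129443786806, 2361327365419058724867, 1180663682710552829997, 3541991048129024131074, 2361327365419494887451, [(3006, 432, [1622, 3573, 2969]), (3864, 6, []), (3254, 3, [])], 256, 1200, 2304, 1008⟩,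
  ⟨30, 3, 1180663682709999144987, 1180663682709697134594, 1180663682710552829997, 1180663682710301097987, 1180663682710452301878, [(3006, 432, [2987, 2991, 2969]), (3864, 6, []), (3254, 3, [])], 1984, 1536, 0, 912⟩,
  ⟨31, 1, 1180663688345214570728, 1180663690681744298186, 1180663690957477236875, 1180663686217729081585, 1180663679414417514639, [(11, 432, [91, 190, 217]), (1268, 6, []), (2452, 3, [])], 976, 1200, 2304, 2016⟩,
  ⟨31, 2, 2361327372223243640956, 3541991042356487794821, 1180663690957477236875, 2361327366588850028626, 3541991038235181371466, [(11, 432, [173, 105, 217]), (1268, 6, []), (2452, 3, [])], 1120, 1104, 1440, 912⟩,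
  ⟨31, 3, 3541991042700018495636, 2361327371467195490383, 1180663690957477236875, 3541991050467935797411, 2361327358823113732293, [(11, 432, [246, 215, 217]), (1268, 6, []), (2452, 3, [])], 1024, 1536, 3072, 1104⟩]

/-- records -/
def D9 : List Rec := [
  ⟨32, 1, 2361255304390792515609, 3541846934247306936343, 1180663688345382994058, 2361255312566866731211, 3541846919816803598492, [(29, 144, [1, 133, 211]), (1343, 9, [2545])], 928, 816, 1536, 912⟩,
  ⟨32, 2, 3541918986620459425838, 2361399426452342341694, 1180663688345382994058, 3541918982426088206413, 2361399414426719731832, [(29, 144, [2, 79, 211]), (1343, 9, [3666])], 1312, 912, 1920, 528⟩,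
  ⟨32, 3, 1180807807315764523063, 1180735742573659635753, 1180663688345382994058, 1180807803327216128134, 1180735736045946700004, [(29, 144, [3, 202, 211]), (1343, 9, [1955])], 448, 816, 1920, 1008⟩,
  ⟨33, 1, 591160505886264447006, 1180663682709630025731, 591160505886113525817, 1180663682710032646146, 591160505885559840807, [(659, 288, [3220, 646, 3236, 673]), (3500, 3, [])], 1168, 1200, 2304, 480⟩,
  ⟨33, 2, 885731954710655754279, 3541991048128554532866, 591160505886113525817, 2361327365419796840451, 295724379126852931614, [(659, 288, [1256, 333, 3236, 1010]), (3500, 3, [])], 1120, 912, 1440, 912⟩,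
  ⟨33, 3, 295724379126500536377, 2361327365419192942593, 591160505886113525817, 3541991048128755679233, 885731954711007965241, [(659, 288, [2172, 971, 3236, 339]), (3500, 3, [])], 1408, 1536, 768, 912⟩,
  ⟨34, 1, 3993632988589198580067, 1081504680727914075306, 4163958184885248571929, 4539603917625828080727, 244216115487661837190, [(2193, 288, [1592, 3949, 4059, 797]), (1473, 3, [])], 448, 1536, 0, 1104⟩,
  ⟨34, 2, 2003151518943179697841, 688338302541264829525, 4163958184885248571929, 1681679132535695643817, 206020430754093647437, [(2193, 288, [2844, 2779, 4059, 294]), (1473, 3, [])], 880, 912, 1920, 1248⟩,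
  ⟨34, 3, 3337240866508982286290, 589176839714916952319, 4163958184885248571929, 3195778108967644883198, 112281059965658828235, [(2193, 288, [3364, 1462, 4059, 571]), (1473, 3, [])], 1216, 1200, 576, 816⟩,
  ⟨35, 1, 3541846930811433230428, 2361255301985878872267, 1180663685047266799796, 3541846928542901764098, 2361255315661205401764, [(2301, 72, [1126, 3312, 2104, 1110]), (363, 3, [])], 928, 1008, 384, 528⟩]

/-- records -/
def D10 : List Rec := [
  ⟨35, 2, 1180735752537832026276, 1180807795015246819462, 1180663685047266799796, 1180735749100432048131, 1180807804564686479452, [(2301, 72, [2235, 2208, 2104, 2219]), (363, 3, [])], 544, 1200, 576, 1104⟩,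
  ⟨35, 3, 2361399419924042109176, 3541918981534681473101, 1180663685047266799796, 2361399418615251353601, 3541918983047415484664, [(2301, 72, [3293, 1104, 2104, 3325]), (363, 3, [])], 1120, 1200, 768, 1104⟩,
  ⟨36, 1, 4353846165658291888149, 2361237302223342411780, 2140669090435826884662, 3541991048129024131074, 2805022198620582162474, [(2820, 144, [405, 3265, 377, 1544, 874])], 736, 1008, 1440, 912⟩,
  ⟨36, 2, 2140561017239362449450, 1180627702291525275660, 2140669090435826884662, 1180663682710301097987, 2140561017239060570133, [(2820, 144, [746, 2179, 377, 2828, 725])], 1216, 768, 1920, 1008⟩,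
  ⟨36, 3, 2805022198620129251391, 3541792911735383928840, 2140669090435826884662, 2361327365419259936769, 4353846165658140856383, [(2820, 144, [895, 1090, 377, 3332, 447])], 1072, 1008, 1920, 1248⟩,
  ⟨37, 1, 2361451789734077776763, 3541850622847297315162, 1180729277102280212825, 2361353874243197785023, 3541846928954950717514, [(1788, 135, [3021, 3087, 1275, 2316, 3762])], 1024, 1104, 1152, 1008⟩,
  ⟨37, 2, 3541909725511112802717, 2361402544126557197301, 1180729277102280212825, 3542038070890449560021, 2361399419509141696709, [(1788, 135, [3398, 2058, 1275, 3588, 2401])], 1024, 1200, 960, 1008⟩,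
  ⟨37, 3, 1180764220695413687014, 1180737487778524197551, 1180729277102280212825, 1180733817607554445930, 1180735749856078651535, [(1788, 135, [1675, 1029, 1275, 1800, 2003])], 496, 1104, 1152, 1056⟩,
  ⟨38, 1, 295436147375707828466, 1180663680442676281405, 295436144080411639810, 1180663684635872612435, 295436143322097860630, [(2068, 54, [635, 2208, 552, 2205]), (3426, 3, [])], 1024, 0, 2304, 720⟩,
  ⟨38, 2, 590872287879316951123, 3541991038920849358891, 295436144080411639810, 2361327367896281882785, 886308422269241114685, [(2068, 54, [925, 1104, 552, 3302]), (3426, 3, [])], 1072, 816, 2112, 1008⟩]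

/-- records -/
def D11 : List Rec := [
  ⟨38, 3, 886308412714734346401, 2361327359165939318806, 295436144080411639810, 3541991051978103451890, 590872281146301775915, [(2068, 54, [486, 3312, 552, 1147]), (3426, 3, [])], 1120, 1584, 480, 720⟩,
  ⟨39, 1, 1180831759005982232732, 1180859911189779980656, 1180611615416610726363, 1180729321012731618252, 1180874818221292675468, [(3990, 162, [3673, 3670, 3628, 3224, 3423])], 1120, 1152, 1152, 1008⟩,
  ⟨39, 2, 2361303212174553309412, 3541947991815668110304, 1180611615416610726363, 2361362851953707381060, 3541962106041332192072, [(3990, 162, [1966, 2557, 3628, 1260, 3066])], 1264, 1008, 768, 1056⟩,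
  ⟨39, 3, 3541990784523899203704, 2361317852726366581392, 1180611615416610726363, 3542033589748885639816, 2361288838472031843012, [(3990, 162, [2551, 1963, 3628, 2164, 1701])], 1984, 1104, 960, 1104⟩]

/-- all -/
def DL : List Rec := D0 ++ (D1 ++ (D2 ++ (D3 ++ (D4 ++ (D5 ++ (D6 ++ (D7 ++ (D8 ++ (D9 ++ (D10 ++ (D11)))))))))))

/-- check of a list -/
noncomputable def chkL (L : List Rec) : Bool := List.rec true (fun r _ ih => Cfsg.Agent.SporadicA.PermTab.band r.chk ih) L

theorem chkL_spec {L : List Rec} (h : chkL L = true) : ∀ r ∈ L, r.chk = true := by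
  induction L with
  | nil => intro r hr; exact absurd hr (by simp)
  | cons s L ih =>
    have e : chkL (s :: L) = Cfsg.Agent.SporadicA.PermTab.band s.chk (chkL L) := rfl
    rw [e, Cfsg.Agent.SporadicA.PermTab.band_eq_true] at h
    intro r hr
    rcases List.mem_cons.1 hr with rfl | hr
    · exact h.1
    · exact ih h.2 r hr

end Cfsg.Agent.H767.U6
end

-- part: H767/U6/K10
section
set_option autoImplicit false
set_option maxRecDepth 1000000

namespace Cfsg.Agent.H767.U6

theorem k10 : chkL D10 = true := by decide +kernel

end Cfsg.Agent.H767.U6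
end

-- part: H767/U6/K11
section
set_option autoImplicit false
set_option maxRecDepth 1000000

namespace Cfsg.Agent.H767.U6

theorem k11 : chkL D11 = true := by decide +kernel

end Cfsg.Agent.H767.U6
end

-- part: H767/U6/Det
section
/-!
# The determinants of the representatives (helper767)
-/

set_option autoImplicit false
set_option maxRecDepth 100000

namespace Cfsg.Agent.H767.U6

open Cfsg Matrix Cfsg.Agent.SporadicA.PermTab

/-- `(C, C', L, U, C X, L U)` -/
def DT : List (ℕ × ℕ × ℕ × ℕ × ℕ × ℕ) := [
  (1180663682709764194305, 1180663682709764194305, 1180663682709764194305, 1180663682709764194305, 1180663682709764194305, 1180663682709764194305),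
  (2117536781947833630753, 4216507866180367223731, 1608397563255400189953, 3541847179264854214994, 2106007566283172425768, 3137171631304400136530),
  (2423901560231935621816, 4606066016037528525693, 1512718586835418238977, 1180735740312943888263, 2427359480320874564466, 1494411454359294244743),
  (3269265715532203120818, 1636044352198812239668, 2083445131050932523009, 2362264197756187758226, 3540034231506225644422, 4401568372439191645842),
  (1180663682709764194305, 1180663682709764194305, 1180663682709982302209, 3541846924144855400470, 3541846924145090338838, 3541846924145090338838),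
  (1180663682709764194305, 1180663682709764194305, 1180663682710015864833, 1180735744702117232682, 1180735744702335389738, 1180735744702335389738),
  (1180663682709764194305, 1180663682709764194305, 1180663682709764194305, 1180807802295886594050, 1180807802295886594050, 1180807802295886594050),
  (1180663682709764194305, 1180663682709764194305, 1180663682709931978753, 2361327365419796873246, 2361327365420048633886, 2361327365420048633886),
  (2368860858682686534675, 2968209542932201343902, 1666079101996513644545, 3542711844011730683815, 3082813173830686057934, 2973530316062699042727),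
  (4046251508245342175619, 3210021084568078858846, 1678744072353164062721, 3542279326938195806915, 3074223395793435170906, 720450711417720138435),
  (1180663682709764194305, 1180663682709764194305, 1549634592981091639297, 1181240319384196562983, 2140290867232166301735, 2140290867232166301735),
  (3649804578434241856359, 2605480467856435329640, 1478118558378919747585, 3542855963567515140147, 855252593949602339972, 906135783999294115891),
  (1180663682709764194305, 1180663682709764194305, 1180728707758879170561, 1180663704715031576714, 1180716916737265201290, 1180716916737265201290),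
  (3300915150725419472710, 193438226911807001775, 1512730128409159553025, 1181528567396304899989, 2730274751877308167523, 1955705326882977619861),
  (1180663682709764194305, 1180663682709764194305, 1180719134860908720129, 2361399436214419407274, 2361470929824976212394, 2361470929824976212394),
  (3583902964854012501732, 2893102403499070178578, 1915112684595659689985, 1180807947496397049267, 3127058076335276124464, 340812768659435077043),
  (4416332821645027048487, 3446820134465178933742, 2039631301118802284545, 3541919074134124039498, 4046386060101266800311, 1796747091469758508362),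
  (694879788090268912352, 2392660322946597397898, 1666071506226558029825, 1180663827852820302931, 435422603121856350624, 930629098802040568915),
  (1180663682709764194305, 1180663682709764194305, 1180663682709848088577, 3541918990534986399807, 3541918990535103795263, 3541918990535103795263),
  (88465445756715518067, 3825934786958109650802, 1304071603098176479233, 2362264224153317033797, 196984270195466150380, 1779261223441502234437),
  (3990865882569383330004, 935256949081373367162, 1369760263112933527553, 1180808048644745627858, 2096188126512123744482, 2057295968199536388306),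
  (2373095387318175666106, 4109415058777448713468, 1878185698726904881153, 3542423582824032010711, 2152419070581958086163, 465388509518133727703),
  (503625037216272871021, 2515691437909189662839, 1882838200060232093697, 2361903896576009783687, 549087825300673087326, 1982445994198767057287),
  (2375969088832079182249, 2115113428535119797120, 1319070839801724817409, 1181312328642677211795, 1763732268039569655835, 4239157072299244499603),
  (1180663682709764194305, 1180663682709764194305, 1180663682709915193345, 1180663687108347772957, 1180663687108431613981, 1180663687108431613981),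
  (1180663682709764194305, 1180663682709764194305, 1180663682709931978753, 3541846924144586932270, 3541846924144838692910, 3541846924144838692910),
  (1851771739335825709769, 4465502053579863512216, 1223345706983271456769, 3542135383230980850353, 716925993939363368654, 545631770589691486897),
  (2598116738610585085506, 2968515839177445282383, 1562300404051770109953, 3542783875243268785427, 313671614609709365128, 11693012799061583123),
  (3655380177285352585653, 3920568230270253205775, 1267200633979753488385, 3542279520417346440503, 1887530374732850181637, 3826481033524671339831),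
  (1180663682709764194305, 1180663682709764194305, 1180666499383743770625, 3541991078922867294714, 3542061695602019766778, 3542061695602019766778),
  (1180663682709764194305, 1180663682709764194305, 1180663682709881643009, 2361327365419528470573, 2361327365419645968429, 2361327365419645968429),
  (2291484324057515368086, 976459568233349649058, 1898997112430709989377, 1181312280271949512879, 2330696046916804488953, 132261560373866565807),
  (1180663682709764194305, 1180663682709764194305, 1180663683946848997377, 2361255303427444736025, 2361255304390792515609, 2361255304390792515609),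
  (3027166345480766321198, 3086359326880662618378, 1531154634860264439809, 1180952163830416164299, 2174940584815490937897, 3007482975660298618315),
  (1180663682709764194305, 1180663682709764194305, 1767520716095628533761, 3542567522089429469539, 3993632988589198580067, 3993632988589198580067),
  (3439542289430339035470, 2734618344409859295894, 2206811394791857745921, 2362120245306028280451, 2275718345897385181472, 158885846220046428803),
  (1180663682709764194305, 1180663682709764194305, 2287522370328117403649, 3542783901565766975509, 4353846165658291888149, 4353846165658291888149),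
  (1180663682709764194305, 1180663682709764194305, 1180728706178415083521, 2361399445014270165883, 2361451789734077776763, 2361451789734077776763),
  (416699529962125369828, 3734679872947999565972, 1859744020103197380609, 3541847122060184733219, 1474142513424802976830, 3209319699376513971747),
  (2302014645235705057088, 1351019219887246207681, 2040783940667479977985, 1181384403791593950418, 1637902583325687385271, 1581403668100081147090)]

/-- lower unitriangular -/
def lowB (P : ℕ) : Bool := allB (fun r => allB (fun c => cond (Nat.blt r c) (Nat.beq (cd P r c) 0)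
  (cond (Nat.beq r c) (Nat.beq (cd P r c) 1) true)) 6) 6

/-- upper triangular, product of the diagonal one -/
def uppB (P : ℕ) : Bool := band (allB (fun r => allB (fun c => cond (Nat.blt c r) (Nat.beq (cd P r c) 0) true) 6) 6)
  (Nat.beq (mulc (cd P 0 0) (mulc (cd P 1 1) (mulc (cd P 2 2) (mulc (cd P 3 3) (mulc (cd P 4 4) (cd P 5 5)))))) 1)

/-- the check for one matrix -/
def dtB (X : ℕ) (t : ℕ × ℕ × ℕ × ℕ × ℕ × ℕ) : Bool :=
  band (mulB t.1 X t.2.2.2.2.1) (band (mulB t.2.2.2.2.2 t.1 t.2.2.2.2.1) (band (mulB t.2.2.1 t.2.2.2.1 t.2.2.2.2.2)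
    (band (mulB t.1 t.2.1 pid) (band (lowB t.2.2.1) (uppB t.2.2.2.1)))))

theorem dt_all : allB (fun i => dtB (XP.getD i 0) (DT.getD i (0, 0, 0, 0, 0, 0))) 40 = true := by decide +kernel

section

variable {F : Type*} [Field F] {w : F}

theorem det_low {P : ℕ} (h : lowB P = true) : (mt w P).det = 1 := by
  have h1 : ∀ r c : ℕ, r < 6 → c < 6 → cond (Nat.blt r c) (Nat.beq (cd P r c) 0)
      (cond (Nat.beq r c) (Nat.beq (cd P r c) 1) true) = true := fun r c hr hc =>
    (allB_iff _ _).1 ((allB_iff _ _).1 h r hr) c hc
  rw [Matrix.det_of_isLowerTriangular]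
  · refine Finset.prod_eq_one fun i _ => ?_
    have h3 := h1 i i i.2 i.2
    have h4 : Nat.blt (i : ℕ) i = false := by rw [Bool.eq_false_iff, ne_eq, Nat.blt_eq]; omega
    have h5 : Nat.beq (i : ℕ) i = true := Nat.beq_refl _
    rw [h4, h5, cond_false, cond_true] at h3
    show d4 w (cd P i i) = 1
    rw [Nat.eq_of_beq_eq_true h3]
    rfl
  · intro i j hij
    have hij' : (i : ℕ) < j := hij
    have h3 := h1 i j i.2 j.2
    have h4 : Nat.blt (i : ℕ) j = true := by rw [Nat.blt_eq]; exact hij'
    rw [h4, cond_true] at h3
    show d4 w (cd P i j) = 0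
    rw [Nat.eq_of_beq_eq_true h3]
    rfl

theorem det_upp (h2 : (2 : F) = 0) (hw : w ^ 2 + w + 1 = 0) {P : ℕ} (h : uppB P = true) : (mt w P).det = 1 := by
  unfold uppB at h
  rw [band_eq_true] at h
  have h1 : ∀ r c : ℕ, r < 6 → c < 6 → cond (Nat.blt c r) (Nat.beq (cd P r c) 0) true = true := fun r c hr hc =>
    (allB_iff _ _).1 ((allB_iff _ _).1 h.1 r hr) c hc
  rw [Matrix.det_of_isUpperTriangular]
  · rw [Fin.prod_univ_six]
    have h3 := congrArg (d4 w) (Nat.eq_of_beq_eq_true h.2)
    rw [d4_mulc h2 hw (cd_lt _ _ _) (mulc_lt _ _), d4_mulc h2 hw (cd_lt _ _ _) (mulc_lt _ _),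
      d4_mulc h2 hw (cd_lt _ _ _) (mulc_lt _ _), d4_mulc h2 hw (cd_lt _ _ _) (mulc_lt _ _),
      d4_mulc h2 hw (cd_lt _ _ _) (cd_lt _ _ _)] at h3
    show d4 w (cd P 0 0) * d4 w (cd P 1 1) * d4 w (cd P 2 2) * d4 w (cd P 3 3) * d4 w (cd P 4 4) * d4 w (cd P 5 5) = 1
    calc _ = d4 w (cd P 0 0) * (d4 w (cd P 1 1) * (d4 w (cd P 2 2) * (d4 w (cd P 3 3) *
          (d4 w (cd P 4 4) * d4 w (cd P 5 5))))) := by ring
      _ = 1 := h3
  · intro i j hij
    have hij' : (j : ℕ) < i := hij
    have h3 := h1 i j i.2 j.2
    have h4 : Nat.blt (j : ℕ) i = true := by rw [Nat.blt_eq]; exact hij'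
    rw [h4, cond_true] at h3
    show d4 w (cd P i j) = 0
    rw [Nat.eq_of_beq_eq_true h3]
    rfl

variable [Fintype F]

theorem det_dt (h2 : (2 : F) = 0) (hw : w ^ 2 + w + 1 = 0) {P : ℕ} {t : ℕ × ℕ × ℕ × ℕ × ℕ × ℕ}
    (h : dtB P t = true) : (mt w P).det = 1 := by
  unfold dtB at h
  rw [band_eq_true, band_eq_true, band_eq_true, band_eq_true, band_eq_true] at h
  obtain ⟨e1, e2, e3, e4, e5, e6⟩ := h
  have m1 := mulB_eq (w := w) h2 hw e1
  have m2 := mulB_eq (w := w) h2 hw e2
  have m3 := mulB_eq (w := w) h2 hw e3
  have m4 := mulB_eq (w := w) h2 hw e4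
  rw [mt_pid] at m4
  have d4' := congrArg Matrix.det m4
  rw [det_mul, det_one] at d4'
  have d0 : (mt w t.1).det ≠ 0 := by
    intro h0
    rw [h0, zero_mul] at d4'
    exact zero_ne_one d4'
  have d3 : (mt w t.2.2.2.2.2).det = 1 := by
    rw [← m3, det_mul, det_low e5, det_upp h2 hw e6, mul_one]
  have d1 := congrArg Matrix.det (m1.trans m2.symm)
  rw [det_mul, det_mul, d3, one_mul] at d1
  exact mul_left_cancel₀ d0 (d1.trans (mul_one _).symm)

/-- the determinants -/
theorem det_X (h2 : (2 : F) = 0) (hw : w ^ 2 + w + 1 = 0) {i : ℕ} (hi : i < 40) : (X w i).det = 1 :=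
  det_dt h2 hw ((allB_iff _ _).1 dt_all i hi)

end

end Cfsg.Agent.H767.U6
end
end

-- part: H767/U6/Cover
section
set_option linter.all false
open scoped Cfsg.Agent.FastGrp

-- part: H767/U6/K0
section
set_option autoImplicit false
set_option maxRecDepth 1000000

namespace Cfsg.Agent.H767.U6

theorem k0 : chkL D0 = true := by decide +kernel

end Cfsg.Agent.H767.U6
end

-- part: H767/U6/K1
section
set_option autoImplicit false
set_option maxRecDepth 1000000

namespace Cfsg.Agent.H767.U6

theorem k1 : chkL D1 = true := by decide +kernel

end Cfsg.Agent.H767.U6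
end

-- part: H767/U6/K2
section
set_option autoImplicit false
set_option maxRecDepth 1000000

namespace Cfsg.Agent.H767.U6

theorem k2 : chkL D2 = true := by decide +kernel

end Cfsg.Agent.H767.U6
end

-- part: H767/U6/K3
section
set_option autoImplicit false
set_option maxRecDepth 1000000

namespace Cfsg.Agent.H767.U6

theorem k3 : chkL D3 = true := by decide +kernel

end Cfsg.Agent.H767.U6
end

-- part: H767/U6/K4
section
set_option autoImplicit false
set_option maxRecDepth 1000000

namespace Cfsg.Agent.H767.U6

theorem k4 : chkL D4 = true := by decide +kernel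

end Cfsg.Agent.H767.U6
end

-- part: H767/U6/K5
section
set_option autoImplicit false
set_option maxRecDepth 1000000

namespace Cfsg.Agent.H767.U6

theorem k5 : chkL D5 = true := by decide +kernel

end Cfsg.Agent.H767.U6
end

-- part: H767/U6/K6
section
set_option autoImplicit false
set_option maxRecDepth 1000000

namespace Cfsg.Agent.H767.U6

theorem k6 : chkL D6 = true := by decide +kernel

end Cfsg.Agent.H767.U6
end

-- part: H767/U6/K7
section
set_option autoImplicit false
set_option maxRecDepth 1000000

namespace Cfsg.Agent.H767.U6

theorem k7 : chkL D7 = true := by decide +kernel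

end Cfsg.Agent.H767.U6
end

-- part: H767/U6/K8
section
set_option autoImplicit false
set_option maxRecDepth 1000000

namespace Cfsg.Agent.H767.U6

theorem k8 : chkL D8 = true := by decide +kernel

end Cfsg.Agent.H767.U6
end

-- part: H767/U6/K9
section
set_option autoImplicit false
set_option maxRecDepth 1000000

namespace Cfsg.Agent.H767.U6

theorem k9 : chkL D9 = true := by decide +kernel

end Cfsg.Agent.H767.U6
end

-- part: H767/U6/Cover
section
/-!
# The classes of `SU₆(2)` up to scalars and conjugation in `GU₆(2)` (helper767)

`cover` : every element of `SU₆(2)` is conjugate in `GU₆(2)` to a scalar multiple of one of the 40 matrices `X w i`.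
-/

set_option autoImplicit false
set_option linter.unusedSectionVars false
set_option maxRecDepth 100000

namespace Cfsg.Agent.H767.U6

open Cfsg Matrix Cfsg.Agent.SporadicA.PermTab Subgroup
open Cfsg.Agent.LieClassical.HermBasic Cfsg.Agent.ClassicalGeometry.PSUAutCount
open Cfsg.Agent.LieClassical.GUOrder (detGU kerEquiv coe_detGU card_GU_eq)
open Cfsg.Agent.LieClassical.HermSiegel (mat mkSU mat_mkSU)

/-! ### classes by counting -/

section classes

variable {G : Type*} [Group G] [Finite G]

omit [Finite G] in
theorem card_class (x : G) :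
    Nat.card {y : G // IsConj x y} * Nat.card ↥(Subgroup.centralizer ({x} : Set G)) = Nat.card G := by
  have h1 : Nat.card {y : G // IsConj x y} = Nat.card (MulAction.orbit (ConjAct G) x) := by
    refine Nat.card_congr (Equiv.subtypeEquivRight fun y => ?_)
    rw [ConjAct.mem_orbit_conjAct]
    exact ⟨fun h => h.symm, fun h => h.symm⟩
  have h2 : Nat.card ↥(Subgroup.centralizer ({x} : Set G)) = Nat.card (MulAction.stabilizer (ConjAct G) x) := by
    rw [ConjAct.stabilizer_eq_centralizer]
    rfl
  have h3 := Nat.card_congr (MulAction.orbitProdStabilizerEquivGroup (ConjAct G) x)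
  rw [Nat.card_prod] at h3
  rw [h1, h2, h3]
  rfl

/-- **The class list criterion** for a normal subgroup. -/
theorem complete (N : Subgroup G) [N.Normal] {ι : Type} [Fintype ι] (x : ι → G) (c : ι → ℕ) (hN : ∀ i, x i ∈ N)
    (hc : ∀ i, Nat.card ↥(Subgroup.centralizer ({x i} : Set G)) ≤ c i) (hd : ∀ i j, IsConj (x i) (x j) → i = j)
    (hs : Nat.card N ≤ ∑ i, Nat.card G / c i) (g : G) (hg : g ∈ N) : ∃ i, IsConj (x i) g := by
  classical
  have hmem : ∀ i (y : G), IsConj (x i) y → y ∈ N := by
    intro i y h
    obtain ⟨k, rfl⟩ := isConj_iff.1 h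
    exact Subgroup.Normal.conj_mem inferInstance _ (hN i) k
  let f : (Σ i : ι, {y : G // IsConj (x i) y}) → N := fun s => ⟨s.2.1, hmem s.1 _ s.2.2⟩
  have hf : Function.Injective f := by
    rintro ⟨i, y, hy⟩ ⟨j, z, hz⟩ h
    have h1 : y = z := congrArg Subtype.val h
    subst h1
    have h2 := hd i j (hy.trans hz.symm)
    subst h2
    rfl
  have hcard : Nat.card N ≤ Nat.card (Σ i : ι, {y : G // IsConj (x i) y}) := by
    rw [Nat.card_sigma]
    refine hs.trans (Finset.sum_le_sum fun i _ => ?_)
    have h5 : 0 < c i := lt_of_lt_of_le Nat.card_pos (hc i)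
    apply Nat.div_le_of_le_mul
    rw [← card_class (x i), mul_comm (c i)]
    exact Nat.mul_le_mul_left _ (hc i)
  obtain ⟨⟨i, y, hy⟩, h⟩ := (hf.bijective_of_nat_card_le hcard).2 ⟨g, hg⟩
  refine ⟨i, ?_⟩
  have h1 : y = g := congrArg Subtype.val h
  rw [← h1]
  exact hy

end classes

/-! ### the list -/

theorem chk_all : ∀ r ∈ DL, r.chk = true := by
  intro r hr
  unfold DL at hr
  rcases List.mem_append.1 hr with h | hr
  · exact chkL_spec k0 r h
  rcases List.mem_append.1 hr with h | hr
  · exact chkL_spec k1 r h
  rcases List.mem_append.1 hr with h | hr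
  · exact chkL_spec k2 r h
  rcases List.mem_append.1 hr with h | hr
  · exact chkL_spec k3 r h
  rcases List.mem_append.1 hr with h | hr
  · exact chkL_spec k4 r h
  rcases List.mem_append.1 hr with h | hr
  · exact chkL_spec k5 r h
  rcases List.mem_append.1 hr with h | hr
  · exact chkL_spec k6 r h
  rcases List.mem_append.1 hr with h | hr
  · exact chkL_spec k7 r h
  rcases List.mem_append.1 hr with h | hr
  · exact chkL_spec k8 r h
  rcases List.mem_append.1 hr with h | hr
  · exact chkL_spec k9 r h
  rcases List.mem_append.1 hr with h | h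
  · exact chkL_spec k10 r h
  · exact chkL_spec k11 r h

theorem dl_nodup : (DL.map Rec.J).Nodup := by decide +kernel

theorem dl_sum : Nat.ble 27590492160 ((DL.map fun r => 82771476480 / bnd r.L).sum) = true := by decide +kernel

section

variable {F : Type*} [Field F] [Fintype F] {w : F}

theorem card_gu (hF : Fintype.card F = 2 ^ 2) : Nat.card (GU 6 F 2) = 82771476480 := by
  rw [Cfsg.Agent.S0277.result hF 6]
  decide +kernel

theorem card_ker (hF : Fintype.card F = 2 ^ 2) : Nat.card (detGU 6 F 2).ker = 27590492160 := by
  have h := card_GU_eq (F := F) (q := 2) hF (n := 6) (by norm_num)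
  rw [card_gu hF, ← Nat.card_congr (kerEquiv (F := F) (q := 2) 6)] at h
  omega

theorem four (hF : Fintype.card F = 2 ^ 2) (x : F) : x ^ 4 = x := by
  have h := FiniteField.pow_card x
  rw [hF] at h
  exact h

theorem two (hF : Fintype.card F = 2 ^ 2) : (2 : F) = 0 := by
  obtain ⟨p, hp⟩ := CharP.exists F
  obtain ⟨k, hprime, hcard⟩ := FiniteField.card F p
  rw [hF] at hcard
  have h1 : p ∣ 2 ^ 2 := by
    rw [hcard]
    exact dvd_pow_self p k.pos.ne'
  have h2 : p ∣ 2 := hprime.dvd_of_dvd_pow h1
  have h3 : p = 2 := (Nat.prime_dvd_prime_iff_eq hprime Nat.prime_two).1 h2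
  subst h3
  exact_mod_cast CharP.cast_eq_zero F 2

/-- the cover for `GU` -/
theorem cover_gu (hF : Fintype.card F = 2 ^ 2) (hw : w ^ 2 + w + 1 = 0) (g : GU 6 F 2) (hg : (gm g).det = 1) :
    ∃ i < 40, ∃ l, (l = 1 ∨ l = 2 ∨ l = 3) ∧ ∃ c : GU 6 F 2, gm c * gm g = (d4 w l • X w i) * gm c := by
  have h2 := two hF
  have hc4 := four hF
  have hfin : Finite (GU 6 F 2) := Finite.of_injective gm fun A B h => gm_inj h
  have hsp : ∀ i : Fin DL.length, _ := fun i => Rec.spec (F := F) hF hc4 h2 hw (chk_all (DL.get i) (DL.get_mem i))
  choose x hx hi40 hl0 hl4 hX hcent hj1 hj2 hj3 hj4 using hsp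
  have hinj : Function.Injective fun i : Fin DL.length => (DL.get i).J := by
    have h := List.nodup_iff_injective_get.1 dl_nodup
    intro i j hij
    have e : ∀ k : Fin DL.length, (DL.map Rec.J).get (Fin.cast (by rw [List.length_map]) k) = (DL.get k).J := by
      intro k
      simp
    have h3 := h ((e i).trans (hij.trans (e j).symm))
    exact Fin.ext (congrArg (fun t : Fin (DL.map Rec.J).length => (t : ℕ)) h3)
  obtain ⟨i, hi⟩ := complete (detGU 6 F 2).ker x (fun i => bnd (DL.get i).L) (by
      intro i
      rw [MonoidHom.mem_ker]
      apply Units.ext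
      rw [coe_detGU, Units.val_one]
      show (gm (x i)).det = 1
      rw [hx, hX, Matrix.det_smul, det_X h2 hw (hi40 i), mul_one, Fintype.card_fin]
      have hl := hl4 i
      have hl' := hl0 i
      have hu : (d4 w (DL.get i).l) ^ 4 = d4 w (DL.get i).l := hc4 _
      have hne : d4 w (DL.get i).l ≠ 0 := by
        intro h0
        have := d4_inj h2 hw hl (by norm_num : 0 < 4) h0
        omega
      have h3 : (d4 w (DL.get i).l) ^ 3 = 1 := by
        apply mul_left_cancel₀ hne
        rw [mul_one, ← pow_succ']
        exact hu
      calc (d4 w (DL.get i).l) ^ 6 = ((d4 w (DL.get i).l) ^ 3) ^ 2 := by ring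
        _ = 1 := by rw [h3, one_pow]) hcent (by
      intro i j hij
      apply hinj
      obtain ⟨c, hc⟩ := isConj_iff.1 hij
      have h3 : gm c * gm (x i) = gm (x j) * gm c := by
        rw [← gm_mul, ← gm_mul, ← hc]
        congr 1
        group
      show (DL.get i).J = (DL.get j).J
      unfold Rec.J
      rw [← hj1 i, ← hj1 j, ← hj2 i, ← hj2 j, ← hj3 i, ← hj3 j, ← hj4 i, ← hj4 j, inv_conj h3, inv_conj h3,
        inv_conj h3, inv_conj h3]) (by
      rw [card_ker hF, card_gu hF]
      have h3 := dl_sum
      rw [Nat.ble_eq] at h3
      refine h3.trans (le_of_eq ?_)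
      have h5 : ∀ (L : List Rec) (f : Rec → ℕ), (L.map f).sum = ∑ i : Fin L.length, f (L.get i) := by
        intro L f
        rw [← List.sum_ofFn]
        congr 1
        apply List.ext_get
        · simp
        · intro n h1 h2
          simp
      exact h5 DL _) g (by
      rw [MonoidHom.mem_ker]
      apply Units.ext
      rw [coe_detGU, Units.val_one]
      exact hg)
  obtain ⟨c, hc⟩ := isConj_iff.1 hi
  refine ⟨(DL.get i).i, hi40 i, (DL.get i).l, ?_, c⁻¹, ?_⟩
  · have h3 := hl0 i
    have h4 := hl4 i
    omega
  · rw [← hX, ← hx, ← gm_mul, ← gm_mul, ← hc]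
    congr 1
    group

/-- **The cover of `SU₆(2)`.** -/
theorem cover (hF : Fintype.card F = 2 ^ 2) (hw : w ^ 2 + w + 1 = 0) (g : SU 6 F 2) :
    ∃ i < 40, ∃ l, (l = 1 ∨ l = 2 ∨ l = 3) ∧ ∃ c : GU 6 F 2, gm c * mat g = (d4 w l • X w i) * gm c := by
  let g' : GU 6 F 2 := ⟨((g : Matrix.SpecialLinearGroup (Fin 6) F) : GL (Fin 6) F), fun u v => g.2 u v⟩
  exact cover_gu hF hw g' g.1.2

end

end Cfsg.Agent.H767.U6
end
end

-- part: H259/U6/Main
section
prune_inst 0x14100100040000000000001400002000380000000000000020c001020840c00000000000001000001000308050040000001000400000000000003000000400000000000080080004020000810000000000000000000000000000000000000000000000000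
set_option linter.all false
open scoped Cfsg.Agent.FastGrp

-- part: H259/U6/Code
section
/-!
# `SU₆(2)` in codes (1): vectors

Vectors of `F⁶`, `|F| = 4`, as 12 bit numbers: entry `i` in the bits `2 i, 2 i + 1`, `0, 1, 2 = ω, 3 = ω + 1`.
-/

set_option autoImplicit false
set_option linter.unusedSectionVars false
set_option maxRecDepth 100000

namespace Cfsg.Agent.H259.U6

open Cfsg Cfsg.Agent.LieClassical.HermBasic Cfsg.Agent.ClassicalGeometry.UnitTransv
  Cfsg.Agent.SporadicStructure.UnitTwo
open scoped Matrix

/-- `f` holds below `n` -/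
def allB (n : ℕ) (f : ℕ → Bool) : Bool := Nat.rec true (fun m ih => bif f m then ih else false) n

theorem allB_spec {n : ℕ} {f : ℕ → Bool} (h : allB n f = true) : ∀ m < n, f m = true := by
  induction n with
  | zero => exact fun m hm => absurd hm (Nat.not_lt_zero m)
  | succ n ih =>
    have h' : (bif f n then allB n f else false) = true := h
    cases hf : f n with
    | false => rw [hf] at h'; cases h'
    | true =>
      rw [hf] at h'
      intro m hm
      rcases Nat.lt_succ_iff_lt_or_eq.1 hm with h1 | h1
      · exact ih h' m h1
      · rw [h1]; exact hf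

theorem beq_eq {a b : ℕ} (h : Nat.beq a b = true) : a = b := Nat.eq_of_beq_eq_true h

/-- entry of a code -/
def dig (x i : ℕ) : ℕ := Nat.land (Nat.shiftRight x (Nat.mul 2 i)) 3

/-- multiplication table -/
def mt (a b : ℕ) : ℕ := Nat.land (Nat.shiftRight 2625168384 (Nat.add (Nat.mul 8 a) (Nat.mul 2 b))) 3

/-- conjugation -/
def cj (a : ℕ) : ℕ := Nat.land (Nat.shiftRight 180 (Nat.mul 2 a)) 3

/-- multiplication of a vector by `ω` -/
def mw (x : ℕ) : ℕ :=
  Nat.lor (Nat.land (Nat.shiftRight x 1) 0x555)
    (Nat.shiftLeft (Nat.xor (Nat.land x 0x555) (Nat.land (Nat.shiftRight x 1) 0x555)) 1)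

/-- scalar multiplication -/
def sm (c x : ℕ) : ℕ := Nat.xor (Nat.mul (Nat.land c 1) x) (Nat.mul (Nat.shiftRight c 1) (mw x))

theorem and_three (x : ℕ) : Nat.land x 3 = x % 4 := Nat.and_two_pow_sub_one_eq_mod x 2

theorem dig_eq (x i : ℕ) : dig x i = (x >>> (2 * i)) % 4 := and_three _

theorem dig_lt (x i : ℕ) : dig x i < 4 := by rw [dig_eq]; exact Nat.mod_lt _ (by norm_num)

theorem dig_xor (x y i : ℕ) : dig (x ^^^ y) i = dig x i ^^^ dig y i := by
  rw [dig_eq, dig_eq, dig_eq, Nat.shiftRight_xor_distrib, show (4 : ℕ) = 2 ^ 2 by norm_num, Nat.xor_mod_two_pow]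

theorem dig_zero (i : ℕ) : dig 0 i = 0 := by rw [dig_eq, Nat.zero_shiftRight]

theorem dig_mw : ∀ x < 4096, ∀ i < 6, dig (mw x) i = mt 2 (dig x i) := by
  have h : allB 4096 (fun x => allB 6 fun i => Nat.beq (dig (mw x) i) (mt 2 (dig x i))) = true := by
    decide +kernel
  exact fun x hx i hi => beq_eq (allB_spec (allB_spec h x hx) i hi)

theorem sm_0 (x : ℕ) : sm 0 x = 0 := by
  show Nat.xor (Nat.mul (Nat.land 0 1) x) (Nat.mul (Nat.shiftRight 0 1) (mw x)) = 0
  rw [show Nat.land 0 1 = 0 from rfl, show Nat.shiftRight 0 1 = 0 from rfl, show Nat.mul 0 x = 0 from Nat.zero_mul x,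
    show Nat.mul 0 (mw x) = 0 from Nat.zero_mul _]
  rfl

theorem sm_1 (x : ℕ) : sm 1 x = x := by
  show Nat.xor (Nat.mul (Nat.land 1 1) x) (Nat.mul (Nat.shiftRight 1 1) (mw x)) = x
  rw [show Nat.land 1 1 = 1 from rfl, show Nat.shiftRight 1 1 = 0 from rfl, show Nat.mul 1 x = x from Nat.one_mul x,
    show Nat.mul 0 (mw x) = 0 from Nat.zero_mul _]
  exact Nat.xor_zero x

theorem sm_2 (x : ℕ) : sm 2 x = mw x := by
  show Nat.xor (Nat.mul (Nat.land 2 1) x) (Nat.mul (Nat.shiftRight 2 1) (mw x)) = mw x
  rw [show Nat.land 2 1 = 0 from rfl, show Nat.shiftRight 2 1 = 1 from rfl, show Nat.mul 0 x = 0 from Nat.zero_mul x,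
    show Nat.mul 1 (mw x) = mw x from Nat.one_mul _]
  exact Nat.zero_xor _

theorem sm_3 (x : ℕ) : sm 3 x = x ^^^ mw x := by
  show Nat.xor (Nat.mul (Nat.land 3 1) x) (Nat.mul (Nat.shiftRight 3 1) (mw x)) = x ^^^ mw x
  rw [show Nat.land 3 1 = 1 from rfl, show Nat.shiftRight 3 1 = 1 from rfl, show Nat.mul 1 x = x from Nat.one_mul x,
    show Nat.mul 1 (mw x) = mw x from Nat.one_mul _]
  rfl

theorem mt_tab : ∀ a < 4, mt 0 a = 0 ∧ mt 1 a = a ∧ a ^^^ mt 2 a = mt 3 a := by decide

theorem dig_sm : ∀ x < 4096, ∀ c < 4, ∀ i < 6, dig (sm c x) i = mt c (dig x i) := by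
  intro x hx c hc i hi
  have h := mt_tab _ (dig_lt x i)
  interval_cases c
  · rw [sm_0, dig_zero, h.1]
  · rw [sm_1, h.2.1]
  · rw [sm_2, dig_mw x hx i hi]
  · rw [sm_3, dig_xor, dig_mw x hx i hi, h.2.2]

theorem mw_lt (x : ℕ) : mw x < 4096 := by
  have h : ∀ y, Nat.land y 0x555 < 2 ^ 11 := fun y => lt_of_le_of_lt Nat.and_le_right (by norm_num)
  have h1 : Nat.xor (Nat.land x 0x555) (Nat.land (Nat.shiftRight x 1) 0x555) < 2 ^ 11 :=
    Nat.xor_lt_two_pow (h _) (h _)
  have h2 : Nat.shiftLeft (Nat.xor (Nat.land x 0x555) (Nat.land (Nat.shiftRight x 1) 0x555)) 1 < 2 ^ 12 := by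
    have : Nat.shiftLeft (Nat.xor (Nat.land x 0x555) (Nat.land (Nat.shiftRight x 1) 0x555)) 1 =
        (Nat.xor (Nat.land x 0x555) (Nat.land (Nat.shiftRight x 1) 0x555)) * 2 ^ 1 := Nat.shiftLeft_eq _ _
    omega
  exact Nat.or_lt_two_pow (n := 12) (lt_of_lt_of_le (h _) (by norm_num)) h2

theorem sm_lt : ∀ x < 4096, ∀ c < 4, sm c x < 4096 := by
  intro x hx c hc
  interval_cases c
  · rw [sm_0]; norm_num
  · rw [sm_1]; exact hx
  · rw [sm_2]; exact mw_lt x
  · rw [sm_3]; exact Nat.xor_lt_two_pow (n := 12) hx (mw_lt x)

theorem mt_lt (a b : ℕ) : mt a b < 4 := by unfold mt; rw [and_three]; exact Nat.mod_lt _ (by norm_num)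

theorem cj_lt (a : ℕ) : cj a < 4 := by unfold cj; rw [and_three]; exact Nat.mod_lt _ (by norm_num)

theorem xor_lt {a b : ℕ} (ha : a < 4) (hb : b < 4) : a ^^^ b < 4 := Nat.xor_lt_two_pow (n := 2) ha hb

section F

variable {F : Type*} [Field F] [Fintype F] (hF : Fintype.card F = 2 ^ 2) {ω : F} (hω : ω ^ 2 + ω + 1 = 0)

/-- the field element -/
def d4 (ω : F) (c : ℕ) : F := bif Nat.beq c 0 then 0 else bif Nat.beq c 1 then 1 else bif Nat.beq c 2 then ω else ω + 1

theorem d4_0 (ω : F) : d4 ω 0 = 0 := rfl
theorem d4_1 (ω : F) : d4 ω 1 = 1 := rfl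
theorem d4_2 (ω : F) : d4 ω 2 = ω := rfl
theorem d4_3 (ω : F) : d4 ω 3 = ω + 1 := rfl

include hF in
theorem d4_xor : ∀ a < 4, ∀ b < 4, d4 ω (a ^^^ b) = d4 ω a + d4 ω b := by
  have h2 := two_eq_zero hF
  intro a ha b hb
  interval_cases a <;> interval_cases b <;>
    simp only [Nat.xor_self, Nat.zero_xor, Nat.xor_zero, show (1 : ℕ) ^^^ 2 = 3 from rfl, show (1 : ℕ) ^^^ 3 = 2 from rfl,
      show (2 : ℕ) ^^^ 1 = 3 from rfl, show (2 : ℕ) ^^^ 3 = 1 from rfl, show (3 : ℕ) ^^^ 1 = 2 from rfl,
      show (3 : ℕ) ^^^ 2 = 1 from rfl, d4_0, d4_1, d4_2, d4_3] <;> [(ring1); (ring1); (ring1); (ring1); (ring1); (linear_combination (-1 : F) * h2); (ring1); (linear_combination (-1 : F) * h2); (ring1);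
                                                                    (linear_combination (-ω) * h2); (linear_combination (-ω) * h2); (ring1); (linear_combination (-1 : F) * h2); (linear_combination (-ω) * h2);
                                                                    (linear_combination (-(ω + 1)) * h2)]

include hF hω in
theorem d4_mt : ∀ a < 4, ∀ b < 4, d4 ω (mt a b) = d4 ω a * d4 ω b := by
  have h2 := two_eq_zero hF
  intro a ha b hb
  interval_cases a <;> interval_cases b <;>
    simp only [show mt 0 0 = 0 from rfl, show mt 0 1 = 0 from rfl, show mt 0 2 = 0 from rfl, show mt 0 3 = 0 from rfl,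
      show mt 1 0 = 0 from rfl, show mt 1 1 = 1 from rfl, show mt 1 2 = 2 from rfl, show mt 1 3 = 3 from rfl,
      show mt 2 0 = 0 from rfl, show mt 2 1 = 2 from rfl, show mt 2 2 = 3 from rfl, show mt 2 3 = 1 from rfl,
      show mt 3 0 = 0 from rfl, show mt 3 1 = 3 from rfl, show mt 3 2 = 1 from rfl, show mt 3 3 = 2 from rfl,
      d4_0, d4_1, d4_2, d4_3] <;> [(ring1); (ring1); (ring1); (ring1); (ring1); (ring1); (ring1); (ring1); (ring1); (ring1); (linear_combination (-1 : F) * hω + (ω + 1) * h2);
                                   (linear_combination (-1 : F) * hω + h2); (ring1); (ring1); (linear_combination (-1 : F) * hω + h2); (linear_combination (-1 : F) * hω)]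

include hF hω in
theorem d4_cj : ∀ a < 4, d4 ω (cj a) = d4 ω a ^ 2 := by
  have h2 := two_eq_zero hF
  intro a ha
  interval_cases a <;>
    simp only [show cj 0 = 0 from rfl, show cj 1 = 1 from rfl, show cj 2 = 3 from rfl, show cj 3 = 2 from rfl,
      d4_0, d4_1, d4_2, d4_3] <;> [(ring1); (ring1); (linear_combination (-1 : F) * hω + (ω + 1) * h2); (linear_combination (-1 : F) * hω)]

include hω in
theorem omega_ne : ω ≠ 0 ∧ ω + 1 ≠ 0 := by
  have h0 : ω ≠ 0 := by
    rintro rfl
    norm_num at hω
  refine ⟨h0, fun h => h0 ?_⟩
  have : ω ^ 2 = 0 := by linear_combination hω - h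
  exact pow_eq_zero_iff (by norm_num) |>.1 this

include hω in
theorem d4_ne {c : ℕ} (hc : c < 4) (h0 : c ≠ 0) : d4 ω c ≠ 0 := by
  obtain ⟨h1, h2⟩ := omega_ne hω
  interval_cases c
  · exact absurd rfl h0
  · exact one_ne_zero
  · exact h1
  · exact h2

include hF hω in
theorem exists_d4 (x : F) : ∃ c < 4, d4 ω c = x := by
  have h2 := two_eq_zero hF
  have h := pow_four hF x
  have h3 : x * ((x - 1) * ((x - ω) * (x - (ω + 1)))) = 0 := by
    linear_combination h + (x ^ 2 - x) * hω - (ω * x * (x ^ 2 - x) + x ^ 3 - x ^ 2) * h2 + (x - x ^ 2) * h2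
  rcases mul_eq_zero.1 h3 with h0 | h3
  · exact ⟨0, by norm_num, h0.symm⟩
  rcases mul_eq_zero.1 h3 with h0 | h3
  · exact ⟨1, by norm_num, (sub_eq_zero.1 h0).symm⟩
  rcases mul_eq_zero.1 h3 with h0 | h0
  · exact ⟨2, by norm_num, (sub_eq_zero.1 h0).symm⟩
  · exact ⟨3, by norm_num, (sub_eq_zero.1 h0).symm⟩

/-- the vector of a code -/
def dec (ω : F) (x : ℕ) : Fin 6 → F := fun i => d4 ω (dig x i)

include hF in
theorem dec_xor (x y : ℕ) : dec ω (x ^^^ y) = dec ω x + dec ω y := by
  funext i
  unfold dec
  rw [dig_xor, d4_xor hF _ (dig_lt _ _) _ (dig_lt _ _)]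
  rfl

theorem dec_zero : dec ω 0 = 0 := by
  funext i
  unfold dec
  rw [dig_zero]
  rfl

include hF hω in
theorem dec_sm {x c : ℕ} (hx : x < 4096) (hc : c < 4) : dec ω (sm c x) = d4 ω c • dec ω x := by
  funext i
  unfold dec
  rw [dig_sm x hx c hc i i.2, d4_mt hF hω c hc _ (dig_lt _ _)]
  rfl

/-- pack six entries -/
def pk (a b c d e f : ℕ) : ℕ := a + 4 * b + 16 * c + 64 * d + 256 * e + 1024 * f

theorem pk_lt {a b c d e f : ℕ} (ha : a < 4) (hb : b < 4) (hc : c < 4) (hd : d < 4) (he : e < 4) (hf : f < 4) :
    pk a b c d e f < 4096 := by unfold pk; omega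

theorem dec_pk {a b c d e f : ℕ} (ha : a < 4) (hb : b < 4) (hc : c < 4) (hd : d < 4) (he : e < 4) (hf : f < 4) :
    dec ω (pk a b c d e f) = ![d4 ω a, d4 ω b, d4 ω c, d4 ω d, d4 ω e, d4 ω f] := by
  have h0 : dig (pk a b c d e f) 0 = a := by
    rw [dig_eq, Nat.shiftRight_eq_div_pow, pk]; norm_num; omega
  have h1 : dig (pk a b c d e f) 1 = b := by
    rw [dig_eq, Nat.shiftRight_eq_div_pow, pk]; norm_num; omega
  have h2 : dig (pk a b c d e f) 2 = c := by
    rw [dig_eq, Nat.shiftRight_eq_div_pow, pk]; norm_num; omega
  have h3 : dig (pk a b c d e f) 3 = d := by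
    rw [dig_eq, Nat.shiftRight_eq_div_pow, pk]; norm_num; omega
  have h4 : dig (pk a b c d e f) 4 = e := by
    rw [dig_eq, Nat.shiftRight_eq_div_pow, pk]; norm_num; omega
  have h5 : dig (pk a b c d e f) 5 = f := by
    rw [dig_eq, Nat.shiftRight_eq_div_pow, pk]; norm_num; omega
  funext i
  fin_cases i
  · show d4 ω (dig _ 0) = d4 ω a
    rw [h0]
  · show d4 ω (dig _ 1) = d4 ω b
    rw [h1]
  · show d4 ω (dig _ 2) = d4 ω c
    rw [h2]
  · show d4 ω (dig _ 3) = d4 ω d
    rw [h3]
  · show d4 ω (dig _ 4) = d4 ω e
    rw [h4]
  · show d4 ω (dig _ 5) = d4 ω f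
    rw [h5]

include hF hω in
theorem exists_code (v : Fin 6 → F) : ∃ x < 4096, dec ω x = v := by
  obtain ⟨a, ha, h0⟩ := exists_d4 hF hω (v 0)
  obtain ⟨b, hb, h1⟩ := exists_d4 hF hω (v 1)
  obtain ⟨c, hc, h2⟩ := exists_d4 hF hω (v 2)
  obtain ⟨d, hd, h3⟩ := exists_d4 hF hω (v 3)
  obtain ⟨e, he, h4⟩ := exists_d4 hF hω (v 4)
  obtain ⟨f, hf, h5⟩ := exists_d4 hF hω (v 5)
  refine ⟨pk a b c d e f, pk_lt ha hb hc hd he hf, ?_⟩
  rw [dec_pk ha hb hc hd he hf, h0, h1, h2, h3, h4, h5]
  funext i
  fin_cases i <;> rfl

/-- the hermitian form -/
def hm (x y : ℕ) : ℕ :=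
  Nat.xor (mt (dig x 0) (cj (dig y 0))) (Nat.xor (mt (dig x 1) (cj (dig y 1))) (Nat.xor (mt (dig x 2) (cj (dig y 2)))
    (Nat.xor (mt (dig x 3) (cj (dig y 3))) (Nat.xor (mt (dig x 4) (cj (dig y 4))) (mt (dig x 5) (cj (dig y 5)))))))

theorem hm_lt (x y : ℕ) : hm x y < 4 :=
  xor_lt (mt_lt _ _) (xor_lt (mt_lt _ _) (xor_lt (mt_lt _ _) (xor_lt (mt_lt _ _) (xor_lt (mt_lt _ _) (mt_lt _ _)))))

include hF hω in
theorem dec_hm (x y : ℕ) : d4 ω (hm x y) = hermForm 6 F 2 (dec ω x) (dec ω y) := by
  have h' : ∀ i : ℕ, d4 ω (mt (dig x i) (cj (dig y i))) = d4 ω (dig x i) * d4 ω (dig y i) ^ 2 := by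
    intro i
    rw [d4_mt hF hω _ (dig_lt _ _) _ (cj_lt _), d4_cj hF hω _ (dig_lt _ _)]
  show d4 ω (_ ^^^ (_ ^^^ (_ ^^^ (_ ^^^ (_ ^^^ _))))) = _
  rw [d4_xor hF _ (mt_lt _ _) _ (xor_lt (mt_lt _ _) (xor_lt (mt_lt _ _) (xor_lt (mt_lt _ _) (xor_lt (mt_lt _ _) (mt_lt _ _))))),
    d4_xor hF _ (mt_lt _ _) _ (xor_lt (mt_lt _ _) (xor_lt (mt_lt _ _) (xor_lt (mt_lt _ _) (mt_lt _ _)))),
    d4_xor hF _ (mt_lt _ _) _ (xor_lt (mt_lt _ _) (xor_lt (mt_lt _ _) (mt_lt _ _))),
    d4_xor hF _ (mt_lt _ _) _ (xor_lt (mt_lt _ _) (mt_lt _ _)),
    d4_xor hF _ (mt_lt _ _) _ (mt_lt _ _), h', h', h', h', h', h', herm_def, Fin.sum_univ_six]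
  unfold dec
  simp only [Fin.val_zero, Fin.val_one, Fin.val_two, show ((3 : Fin 6) : ℕ) = 3 from rfl,
    show ((4 : Fin 6) : ℕ) = 4 from rfl, show ((5 : Fin 6) : ℕ) = 5 from rfl]
  ring

/-- a transvection -/
def tv (v x : ℕ) : ℕ := Nat.xor x (sm (hm x v) v)

theorem tv_lt {v x : ℕ} (hv : v < 4096) (hx : x < 4096) : tv v x < 4096 :=
  Nat.xor_lt_two_pow (n := 12) hx (sm_lt v hv _ (hm_lt _ _))

include hF hω in
theorem dec_tv {v x : ℕ} (hv : v < 4096) : dec ω (tv v x) = dec ω x + hermForm 6 F 2 (dec ω x) (dec ω v) • dec ω v := by
  show dec ω (x ^^^ sm (hm x v) v) = _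
  rw [dec_xor hF, dec_sm hF hω hv (hm_lt _ _), dec_hm hF hω]

include hF hω in
theorem herm_eq_zero_iff (x y : ℕ) : hermForm 6 F 2 (dec ω x) (dec ω y) = 0 ↔ hm x y = 0 := by
  rw [← dec_hm hF hω]
  constructor
  · intro h
    by_contra h0
    exact d4_ne hω (hm_lt x y) h0 h
  · intro h
    rw [h]
    rfl

end F

end Cfsg.Agent.H259.U6
end

-- part: H259/U6/Rep
section
/-!
# `SU₆(2)` in codes (2): elements as maps of codes
-/

set_option autoImplicit false
set_option linter.unusedSectionVars false
set_option maxRecDepth 100000

namespace Cfsg.Agent.H259.U6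

open Cfsg Cfsg.Agent.LieClassical.HermBasic Cfsg.Agent.ClassicalGeometry.UnitTransv
  Cfsg.Agent.SporadicStructure.UnitTwo
open scoped Matrix

/-- `f n`, with `n` evaluated first -/
def frc (n : ℕ) (f : ℕ → Bool) : Bool := Nat.rec (f 0) (fun m _ => f (Nat.succ m)) n

theorem frc_eq (n : ℕ) (f : ℕ → Bool) : frc n f = f n := by
  cases n <;> rfl

/-- `f n`, with `n` evaluated first -/
def frcN (n : ℕ) (f : ℕ → ℕ) : ℕ := Nat.rec (f 0) (fun m _ => f (Nat.succ m)) n

theorem frcN_eq (n : ℕ) (f : ℕ → ℕ) : frcN n f = f n := by
  cases n <;> rfl

/-- the additive map with the given images of the powers of two -/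
def ap (A : List ℕ) : ℕ → ℕ :=
  List.rec (fun _ => 0) (fun c _ ih x => Nat.xor (Nat.mul (Nat.land x 1) c) (frcN (Nat.shiftRight x 1) ih)) A

theorem ap_nil (x : ℕ) : ap [] x = 0 := rfl

theorem ap_cons (c : ℕ) (A : List ℕ) (x : ℕ) : ap (c :: A) x = ((x % 2) * c) ^^^ ap A (x / 2) := by
  show Nat.xor (Nat.mul (Nat.land x 1) c) (frcN (Nat.shiftRight x 1) (ap A)) = _
  rw [frcN_eq]
  have h1 : Nat.land x 1 = x % 2 := Nat.and_two_pow_sub_one_eq_mod x 1
  have h2 : Nat.shiftRight x 1 = x / 2 := Nat.shiftRight_eq_div_pow x 1
  rw [h1, h2]
  rfl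

theorem ap_lt {n : ℕ} : ∀ {A : List ℕ}, (∀ c ∈ A, c < 2 ^ n) → ∀ x, ap A x < 2 ^ n := by
  intro A
  induction A with
  | nil => exact fun _ x => by rw [ap_nil]; positivity
  | cons c A ih =>
    intro h x
    rw [ap_cons]
    refine Nat.xor_lt_two_pow ?_ (ih (fun d hd => h d (List.mem_cons_of_mem _ hd)) _)
    have hc := h c List.mem_cons_self
    rcases Nat.mod_two_eq_zero_or_one x with h0 | h0
    · rw [h0, zero_mul]; positivity
    · rw [h0, one_mul]; exact hc

/-- the powers of two -/
def E12 : List ℕ := [1, 2, 4, 8, 16, 32, 64, 128, 256, 512, 1024, 2048]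

theorem E12_get : ∀ i (h : i < E12.length), E12[i] = 2 ^ i := by
  intro i h
  have h' : i < 12 := h
  interval_cases i <;> rfl

theorem split_bit (x j : ℕ) : x * 2 ^ j = ((x % 2) * 2 ^ j) ^^^ ((x / 2) * 2 ^ (j + 1)) := by
  apply Nat.eq_of_testBit_eq
  intro k
  rw [Nat.testBit_xor, Nat.testBit_mul_two_pow, Nat.testBit_mul_two_pow, Nat.testBit_mul_two_pow,
    Nat.testBit_div_two, show x % 2 = x % 2 ^ 1 from rfl, Nat.testBit_mod_two_pow]
  by_cases h : j + 1 ≤ k
  · obtain ⟨m, rfl⟩ := Nat.exists_eq_add_of_le h
    have h1 : j + 1 + m - j = m + 1 := by omega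
    have h2 : j + 1 + m - (j + 1) = m := by omega
    rw [h1, h2]
    simp [show j ≤ j + 1 + m by omega]
  · by_cases h0 : j = k
    · subst h0
      simp
    · simp [h, show ¬ j ≤ k by omega]

section F

variable {F : Type*} [Field F] [Fintype F] (hF : Fintype.card F = 2 ^ 2) {ω : F} (hω : ω ^ 2 + ω + 1 = 0)

include hF in
/-- an additive map which is right on the powers of two -/
theorem dec_ap {φ : (Fin 6 → F) → (Fin 6 → F)} (hφ : ∀ x y, φ (x + y) = φ x + φ y) :
    ∀ (A : List ℕ) (j : ℕ), (∀ i (hi : i < A.length), φ (dec ω (2 ^ (j + i))) = dec ω A[i]) →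
      ∀ x < 2 ^ A.length, φ (dec ω (x * 2 ^ j)) = dec ω (ap A x) := by
  have hφ0 : φ 0 = 0 := by
    have := hφ 0 0
    rwa [add_zero, left_eq_add] at this
  intro A
  induction A with
  | nil =>
    intro j _ x hx
    rw [List.length_nil, pow_zero, Nat.lt_one_iff] at hx
    rw [hx, zero_mul, ap_nil, dec_zero, hφ0]
  | cons c A ih =>
    intro j h x hx
    rw [ap_cons, dec_xor hF, split_bit, dec_xor hF, hφ, ih (j + 1) ?_ (x / 2) ?_]
    · congr 1
      rcases Nat.mod_two_eq_zero_or_one x with h0 | h0
      · rw [h0, zero_mul, zero_mul, dec_zero, hφ0]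
      · rw [h0, one_mul, one_mul]
        exact h 0 (Nat.succ_pos _)
    · intro i hi
      have := h (i + 1) (Nat.succ_lt_succ hi)
      rw [add_assoc, add_comm 1 i]
      exact this
    · rw [List.length_cons, pow_succ] at hx
      omega

/-- the map `φ` is `f` in codes -/
def Rp (ω : F) (φ : (Fin 6 → F) → (Fin 6 → F)) (f : ℕ → ℕ) : Prop :=
  ∀ x < 4096, f x < 4096 ∧ φ (dec ω x) = dec ω (f x)

theorem rp_mul {g h : SU 6 F 2} {f f' : ℕ → ℕ} (h1 : Rp ω (act g) f) (h2 : Rp ω (act h) f') :
    Rp ω (act (g * h)) (fun x => f (f' x)) := by
  intro x hx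
  obtain ⟨h3, h4⟩ := h2 x hx
  obtain ⟨h5, h6⟩ := h1 _ h3
  exact ⟨h5, by rw [act_mul, h4, h6]⟩

theorem rp_one : Rp ω (act (1 : SU 6 F 2)) (fun x => x) := fun x hx => ⟨hx, by rw [act_one]⟩

include hF hω in
theorem rp_T {v : ℕ} (hv : v < 4096) (h0 : hermForm 6 F 2 (dec ω v) (dec ω v) = 0) :
    Rp ω (act (T hF (dec ω v) h0)) (tv v) :=
  fun x hx => ⟨tv_lt hv hx, by rw [act_T, dec_tv hF hω hv]⟩

/-- `Nat.beq` for lists -/
def lbeq : List ℕ → List ℕ → Bool
  | [], [] => true
  | a :: as, b :: bs => bif Nat.beq a b then lbeq as bs else false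
  | _, _ => false

theorem lbeq_eq : ∀ {A B : List ℕ}, lbeq A B = true → A = B := by
  intro A
  induction A with
  | nil => intro B h; cases B with
    | nil => rfl
    | cons b B => cases h
  | cons a A ih => intro B h; cases B with
    | nil => cases h
    | cons b B =>
      have h' : (bif Nat.beq a b then lbeq A B else false) = true := h
      cases hab : Nat.beq a b with
      | false => rw [hab] at h'; cases h'
      | true => rw [hab] at h'; rw [beq_eq hab, ih h']

/-- the entries are codes -/
def okL (A : List ℕ) : Bool := A.all fun c => Nat.ble c 4095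

theorem okL_spec {A : List ℕ} (h : okL A = true) : ∀ c ∈ A, c < 2 ^ 12 := by
  intro c hc
  have := Nat.le_of_ble_eq_true (List.all_eq_true.1 h c hc)
  omega

include hF in
/-- the list of the images of the powers of two -/
theorem rp_ap {φ : (Fin 6 → F) → (Fin 6 → F)} (hφ : ∀ x y, φ (x + y) = φ x + φ y) {f : ℕ → ℕ} (h : Rp ω φ f)
    {A : List ℕ} (hA : lbeq (E12.map f) A = true) (hok : okL A = true) : Rp ω φ (ap A) := by
  have hA' := lbeq_eq hA
  have hlen : A.length = 12 := by rw [← hA']; rfl
  intro x hx
  refine ⟨ap_lt (okL_spec hok) x, ?_⟩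
  have := dec_ap hF (ω := ω) hφ A 0 ?_ x (by rw [hlen]; exact hx)
  · rwa [pow_zero, mul_one] at this
  · intro i hi
    have hi' : i < 12 := by rwa [hlen] at hi
    have h1 : A[i] = f (2 ^ i) := by
      simp only [← hA', List.getElem_map]
      exact congrArg f (E12_get i hi')
    rw [zero_add, h1]
    have : (2 : ℕ) ^ i < 4096 := by interval_cases i <;> norm_num
    exact (h _ this).2

include hF hω in
/-- elements which agree on the basis -/
theorem ext6 {g h : SU 6 F 2} {f f' : ℕ → ℕ} (h1 : Rp ω (act g) f) (h2 : Rp ω (act h) f')
    (H : ∀ j < 6, f (4 ^ j) = f' (4 ^ j)) : g = h := by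
  have h3 : ∀ j < 6, act g (dec ω (4 ^ j)) = act h (dec ω (4 ^ j)) := by
    intro j hj
    have h4 : (4 : ℕ) ^ j < 4096 := by interval_cases j <;> norm_num
    rw [(h1 _ h4).2, (h2 _ h4).2, H j hj]
  have h5 : ∀ j : Fin 6, dec ω (4 ^ (j : ℕ)) = Pi.single j 1 := by
    intro j
    funext i
    unfold dec
    rw [dig_eq]
    fin_cases j <;> fin_cases i <;> rfl
  apply ext_act
  intro x
  have h6 : x = ∑ j : Fin 6, x j • (Pi.single j 1 : Fin 6 → F) := by
    funext i
    rw [Finset.sum_apply, Finset.sum_eq_single i]
    · rw [Pi.smul_apply, Pi.single_eq_same, smul_eq_mul, mul_one]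
    · intro j _ hj
      rw [Pi.smul_apply, Pi.single_eq_of_ne (Ne.symm hj), smul_zero]
    · exact fun h => absurd (Finset.mem_univ i) h
  rw [h6]
  simp only [Fin.sum_univ_six, act_add, act_smul]
  simp only [← h5]
  rw [h3 _ (Fin.is_lt 0), h3 _ (Fin.is_lt 1), h3 _ (Fin.is_lt 2), h3 _ (Fin.is_lt 3), h3 _ (Fin.is_lt 4),
    h3 _ (Fin.is_lt 5)]

/-! ### words of transvections -/

/-- the product of transvections -/
def tvs (L : List ℕ) : ℕ → ℕ := List.rec (fun x => x) (fun c _ ih x => frcN (ih x) (tv c)) L

theorem tvs_cons (c : ℕ) (L : List ℕ) (x : ℕ) : tvs (c :: L) x = tv c (tvs L x) := frcN_eq _ _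

/-- the codes are isotropic vectors -/
def okT (L : List ℕ) : Bool := L.all fun c => bif Nat.ble c 4095 then Nat.beq (hm c c) 0 else false

theorem okT_spec {L : List ℕ} (h : okT L = true) : ∀ c ∈ L, c < 4096 ∧ hm c c = 0 := by
  intro c hc
  have h1 := List.all_eq_true.1 h c hc
  cases h2 : Nat.ble c 4095 with
  | false => rw [h2] at h1; cases h1
  | true =>
    rw [h2] at h1
    have := Nat.le_of_ble_eq_true h2
    exact ⟨by omega, beq_eq h1⟩

include hF hω in
theorem exists_tvs : ∀ L : List ℕ, (∀ c ∈ L, c < 4096 ∧ hm c c = 0) → ∃ g : SU 6 F 2, Rp ω (act g) (tvs L) := by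
  intro L
  induction L with
  | nil => exact fun _ => ⟨1, rp_one⟩
  | cons c L ih =>
    intro h
    obtain ⟨g, hg⟩ := ih fun d hd => h d (List.mem_cons_of_mem _ hd)
    obtain ⟨h1, h2⟩ := h c List.mem_cons_self
    refine ⟨T hF (dec ω c) ((herm_eq_zero_iff hF hω c c).2 h2) * g, ?_⟩
    have h3 : tvs (c :: L) = fun x => tv c (tvs L x) := funext fun x => tvs_cons c L x
    rw [h3]
    exact rp_mul (rp_T hF hω h1 _) hg

/-! ### words in two elements -/

/-- the value of a word -/
def wd (A B : List ℕ) (w : List Bool) : ℕ → ℕ :=
  List.rec (fun x => x) (fun c _ ih x => frcN (ih x) (ap (bif c then A else B))) w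

theorem wd_cons (A B : List ℕ) (c : Bool) (w : List Bool) (x : ℕ) :
    wd A B (c :: w) x = ap (bif c then A else B) (wd A B w x) := frcN_eq _ _

/-- the word in the group -/
def wg (a b : SU 6 F 2) : List Bool → SU 6 F 2
  | [] => 1
  | c :: w => (bif c then a else b) * wg a b w

theorem rp_wg {a b : SU 6 F 2} {A B : List ℕ} (ha : Rp ω (act a) (ap A)) (hb : Rp ω (act b) (ap B)) :
    ∀ w : List Bool, Rp ω (act (wg a b w)) (wd A B w) := by
  intro w
  induction w with
  | nil => exact rp_one
  | cons c w ih =>
    have h3 : wd A B (c :: w) = fun x => ap (bif c then A else B) (wd A B w x) := funext fun x => wd_cons A B c w x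
    rw [h3]
    cases c with
    | false => exact rp_mul hb ih
    | true => exact rp_mul ha ih

theorem wg_mem (a b : SU 6 F 2) : ∀ w : List Bool, wg a b w ∈ Subgroup.closure {a, b} := by
  have ha : a ∈ Subgroup.closure {a, b} := Subgroup.subset_closure (Set.mem_insert _ _)
  have hb : b ∈ Subgroup.closure {a, b} := Subgroup.subset_closure (Set.mem_insert_of_mem _ rfl)
  intro w
  induction w with
  | nil => exact one_mem _
  | cons c w ih =>
    cases c with
    | false => exact mul_mem hb ih
    | true => exact mul_mem ha ih

/-- iterate -/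
def itn (f : ℕ → ℕ) (k x : ℕ) : ℕ := Nat.rec x (fun _ ih => frcN ih f) k

theorem rp_pow {g : SU 6 F 2} {f : ℕ → ℕ} (h : Rp ω (act g) f) : ∀ k, Rp ω (act (g ^ k)) (itn f k) := by
  intro k
  induction k with
  | zero => rw [pow_zero]; exact rp_one
  | succ k ih =>
    have h3 : itn f (k + 1) = fun x => f (itn f k x) := funext fun x => frcN_eq _ _
    rw [pow_succ', h3]
    exact rp_mul h ih

end F

end Cfsg.Agent.H259.U6
end

-- part: H259/U6/Six
section
/-!
# `SU₆(2)` in codes (3): six transvections generate
-/

set_option autoImplicit false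
set_option linter.unusedSectionVars false
set_option maxRecDepth 100000

namespace Cfsg.Agent.H259.U6

open Cfsg Cfsg.Agent.LieClassical.HermBasic Cfsg.Agent.ClassicalGeometry.UnitTransv
  Cfsg.Agent.SporadicStructure.UnitTwo
open scoped Matrix

/-- bit -/
def tb (K x : ℕ) : Bool := Nat.beq (Nat.land (Nat.shiftRight K x) 1) 1

theorem tb_eq (K x : ℕ) : tb K x = true ↔ K.testBit x = true := by
  have h1 : Nat.land (Nat.shiftRight K x) 1 = K / 2 ^ x % 2 := by
    have h2 : Nat.shiftRight K x = K / 2 ^ x := Nat.shiftRight_eq_div_pow K x
    rw [h2]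
    exact Nat.and_two_pow_sub_one_eq_mod _ 1
  unfold tb
  rw [h1, Nat.testBit_eq_decide_div_mod_eq, decide_eq_true_iff]
  exact ⟨fun h => beq_eq h, fun h => by rw [h]; rfl⟩

/-- the six transvections -/
def G6 : List ℕ := [5, 20, 80, 320, 1280, 109]

/-- set the bits of a line -/
def setL (K y : ℕ) : ℕ :=
  Nat.lor K (Nat.lor (Nat.shiftLeft 1 y) (Nat.lor (Nat.shiftLeft 1 (mw y)) (Nat.shiftLeft 1 (Nat.xor y (mw y)))))

theorem tb_setL {K y x : ℕ} (h : tb (setL K y) x = true) : tb K x = true ∨ x = y ∨ x = mw y ∨ x = y ^^^ mw y := by
  have h1 : ∀ z, Nat.testBit (Nat.shiftLeft 1 z) x = decide (z = x) := by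
    intro z
    have : Nat.shiftLeft 1 z = 2 ^ z := Nat.one_shiftLeft z
    rw [this, Nat.testBit_two_pow]
  rw [tb_eq] at h ⊢
  have h2 : (K ||| (Nat.shiftLeft 1 y ||| (Nat.shiftLeft 1 (mw y) ||| Nat.shiftLeft 1 (y ^^^ mw y)))).testBit x = true := h
  rw [Nat.testBit_or, Nat.testBit_or, Nat.testBit_or, h1, h1, h1, Bool.or_eq_true, Bool.or_eq_true, Bool.or_eq_true,
    decide_eq_true_iff, decide_eq_true_iff, decide_eq_true_iff] at h2
  rcases h2 with h2 | h2 | h2 | h2
  · exact Or.inl h2
  · exact Or.inr (Or.inl h2.symm)
  · exact Or.inr (Or.inr (Or.inl h2.symm))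
  · exact Or.inr (Or.inr (Or.inr h2.symm))

/-- the known lines at the start -/
def K0 : ℕ := List.rec 1 (fun p _ ih => setL ih p) G6

/-- the orbit: entries `8 x + j`, a known code `x` and the number `j` of a transvection -/
def orb : List ℕ → ℕ → (ℕ → Bool) → Bool
  | [], K, k => k K
  | t :: L, K, k => frc (Nat.shiftRight t 3) fun x => bif tb K x then
      frc (tv (G6.getD (Nat.land t 7) 0) x) fun y => frc (setL K y) fun K' => orb L K' k else false

/-- the tree -/
def tree : List ℕ := [
  41, 45, 162, 165, 643, 645, 2564, 2565, 138, 141, 825, 826, 827, 547, 549, 968, 970, 971, 2180, 2181, 985, 987,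
  8709, 2410, 523, 755, 731, 1011, 2362, 2364, 2084, 2085, 979, 946, 947, 883, 2506, 2508, 8325, 3672, 3673, 891,
  2524, 8554, 3177, 2060, 2061, 2290, 2292, 2266, 2268, 2269, 2548, 2549, 3129, 3132, 3133, 8229, 3472, 3473,
  3474, 3475, 2514, 2516, 859, 2482, 2484, 2485, 2420, 2421, 3660, 3661, 9816, 9817, 9819, 3697, 3864, 3866,
  2426, 2428, 2429, 9321, 9323, 3464, 3469, 8205, 2912, 2913, 2914, 2673, 2676, 2677, 2652, 2653, 8413, 3586,
  8693, 2713, 3228, 3229, 9275, 9277, 2785, 9616, 9617, 9618, 9619, 3521, 3522, 3523, 3184, 3852, 3668, 3669,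
  2396, 2397, 3633, 3636, 3637, 8629, 3074, 8565, 3264, 3266, 9803, 9805, 3360, 9841, 9843, 10008, 10010, 10011,
  3989, 3938, 3941, 3196, 8573, 4000, 9608, 9611, 9613, 3493, 3808, 9056, 9057, 9058, 9059, 3010, 2964, 2965,
  8819, 8821, 8795, 8797, 2353, 2354, 2355, 9730, 9731, 2433, 2435, 8857, 8859, 2616, 2618, 9371, 9373, 2345,
  2346, 2347, 12349, 8929, 8931, 2976, 2978, 9665, 9666, 9667, 9328, 9331, 10003, 12690, 12692, 3424, 3876, 3165,
  9811, 9813, 3040, 8541, 2608, 2609, 2610, 3732, 3733, 9779, 9781, 2281, 2283, 9218, 9219, 2305, 2307, 9408,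
  9410, 9411, 3218, 14413, 9504, 9507, 3337, 10131, 10133, 14453, 10082, 10083, 10085, 9627, 14618, 14621, 2379,
  3557, 2490, 2491, 9339, 10144, 10147, 3977, 9635, 9637, 12682, 12685, 9952, 9955, 2067, 8987, 9154, 9155, 9443,
  10594, 3781, 9107, 9109, 2298, 2299, 10357, 10179, 8497, 8498, 2258, 2259, 818, 8577, 2147, 2149, 901, 8760,
  8762, 8763, 10394, 2235, 12442, 8489, 8490, 2251, 3113, 3115, 810, 13138, 13139, 9120, 9122, 9123, 10466, 3747,
  9568, 9571, 10051, 12738, 12740, 12741, 9307, 9309, 12405, 14610, 14613, 13844, 13845, 14421, 9184, 9187, 8752,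
  8753, 8754, 8755, 2704, 9875, 9877, 2850, 8425, 2474, 2475, 8449, 2115, 9362, 9363, 9027, 12482, 15866, 15867,
  9481, 9483, 12578, 14738, 16042, 9699, 9701, 14690, 8634, 12698, 12701, 15389, 15530, 3723, 12413, 10121,
  10123, 14754, 12706, 13837, 14162, 14163, 9883, 14562, 530, 10522, 10525, 9923, 9925, 10690, 10693, 12514,
  12517, 11361, 11365, 2075, 10642, 8442, 11946, 11947, 14786, 8402, 9267, 8293, 610, 8811, 10301, 10781, 12829,
  9257, 9259, 3211, 3706, 3708, 13521, 9099, 9891, 10658, 10849, 3396, 9499, 12642, 14658, 14661, 13889, 13892,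
  14629, 13994, 16328, 16329, 15373, 13689, 15160, 15161, 15162, 15163, 9115, 10722, 8779, 8848, 8851, 14482,
  14485, 8994, 8995, 3235, 8618, 3627, 938, 578, 8979, 12434, 12437, 10562, 10565, 12865, 12869, 16249, 9291,
  12554, 13345, 15893, 15273, 12770, 12773, 9867, 15457, 15461, 9787, 13040, 13041, 16240, 16241, 16242, 15145,
  15147, 3348, 13768, 13769, 13770, 9835, 14730, 14733, 15905, 15909, 13857, 13861, 13240, 13241, 13242, 13243,
  13777, 14490, 14945, 145, 11293, 11434, 14530, 11841, 12897, 10936, 538, 11797, 8827, 15937, 8787, 8971, 229,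
  11090, 12201, 14249, 14251, 9355, 12332, 12333, 3996, 3997, 2556, 10634, 10637, 14498, 14500, 14501, 11809,
  11813, 11141, 12570, 12573, 13409, 13413, 15425, 15429, 15600, 15601, 15602, 14084, 14085, 13225, 13227, 16305,
  16232, 16234, 15057, 15059, 13784, 13786, 15210, 15211, 15064, 15067, 10650, 10653, 11873, 11877, 10317, 8899,
  10386, 10389, 14869, 15354, 15355, 9379, 10530, 4068, 9771, 3154, 3156, 3157, 853, 10514, 10517, 12821, 13306,
  11329, 11504, 11505, 11506, 14320, 16344, 16349, 12365, 13325, 13445, 15737, 15739, 13921, 13925, 14136, 14137,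
  14138, 14139, 14474, 14476, 15035, 14397, 13017, 13232, 13234, 15048, 15051, 13745, 13746, 13672, 15885, 16210,
  15688, 13291, 13051, 13680, 14877, 15237, 12144, 12145, 12146, 11049, 14913, 12037, 11641, 11643, 10365, 10325,
  10506, 683, 11473, 12010, 15788, 12426, 12428, 14461, 14065, 14066, 10141, 11789, 12114, 14881, 14884, 14885,
  15304, 15306, 11595, 11608, 11611, 13341, 13482, 12987, 15621, 15578, 15794, 15217, 15493, 12976, 12979, 13035,
  16112, 16114, 16186, 16189, 15152, 15155, 15597, 12141, 15091, 11994, 10993, 11770, 10434, 10773, 11258, 15561,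
  15563, 16121, 12450, 11297, 14380, 2388, 9301, 2696, 12232, 13512, 13513, 14073, 11481, 11482, 13009, 14204,
  14213, 13265, 14185, 14186, 14187, 14042, 13753, 14860, 13112, 13114, 15027, 11978, 11981, 13552, 14133, 15288,
  15289, 15290, 15291, 15825, 15827, 11517, 16297, 13180, 11721, 11722, 11064, 11277, 2220, 12812, 15818, 8747,
  11193, 14980, 13381, 15610, 15282, 13099, 15323, 15317, 11442, 15347, 12085, 12018, 10817, 11466, 11397, 8840,
  8843, 13545, 11213, 10784]

/-- the orbit consists of all isotropic vectors -/
def chk6 : Bool := orb tree K0 fun K => allB 4096 fun x => bif Nat.beq (hm x x) 0 then tb K x else true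

theorem chk6_true : chk6 = true := by decide +kernel

section F

variable {F : Type*} [Field F] [Fintype F] (hF : Fintype.card F = 2 ^ 2) {ω : F} (hω : ω ^ 2 + ω + 1 = 0)

/-- the transvection of the code is in the subgroup -/
def InH (ω : F) (H : Subgroup (SU 6 F 2)) (x : ℕ) : Prop :=
  x < 4096 ∧ hm x x = 0 ∧ ∀ h : hermForm 6 F 2 (dec ω x) (dec ω x) = 0, T hF (dec ω x) h ∈ H

variable {H : Subgroup (SU 6 F 2)}

include hω in
theorem InH.sm {x c : ℕ} (h : InH hF ω H x) (hc : c < 4) (h0 : c ≠ 0) : InH hF ω H (sm c x) := by
  obtain ⟨h1, h2, h3⟩ := h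
  have h4 := dec_sm hF hω h1 hc
  have h5 : hermForm 6 F 2 (dec ω (U6.sm c x)) (dec ω (U6.sm c x)) = 0 := by
    rw [h4, herm_smul_left, herm_smul_right, (herm_eq_zero_iff hF hω x x).2 h2, mul_zero, mul_zero]
  refine ⟨sm_lt x h1 c hc, (herm_eq_zero_iff hF hω _ _).1 h5, ?_⟩
  rw [h4]
  intro h
  rw [T_smul hF _ (d4_ne hω hc h0) _ ((herm_eq_zero_iff hF hω x x).2 h2)]
  exact h3 _

include hω in
theorem InH.tv {p x : ℕ} (hp : InH hF ω H p) (hx : InH hF ω H x) : InH hF ω H (tv p x) := by
  obtain ⟨h1, h2, h3⟩ := hp
  obtain ⟨h1', h2', h3'⟩ := hx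
  have e := (herm_eq_zero_iff hF hω p p).2 h2
  have e' := (herm_eq_zero_iff hF hω x x).2 h2'
  have h4 := (rp_T hF hω h1 e x h1').2
  have h5 : hermForm 6 F 2 (dec ω (U6.tv p x)) (dec ω (U6.tv p x)) = 0 := by
    rw [← h4, herm_act, e']
  refine ⟨tv_lt h1 h1', (herm_eq_zero_iff hF hω _ _).1 h5, ?_⟩
  rw [← h4]
  intro h
  rw [← conj_T hF _ _ e' h]
  exact mul_mem (mul_mem (h3 _) (h3' _)) (inv_mem (h3 _))

include hω in
theorem inH_setL {K y : ℕ} (hK : ∀ x, tb K x = true → InH hF ω H x) (hy : InH hF ω H y) :
    ∀ x, tb (setL K y) x = true → InH hF ω H x := by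
  intro x hx
  rcases tb_setL hx with h | h | h | h
  · exact hK x h
  · rw [h]; exact hy
  · rw [h, ← sm_2]; exact hy.sm hF hω (by norm_num) (by norm_num)
  · rw [h, ← sm_3]; exact hy.sm hF hω (by norm_num) (by norm_num)

include hω in
theorem orb_spec (hG : ∀ p ∈ G6, InH hF ω H p) (k : ℕ → Bool) : ∀ (L : List ℕ) (K : ℕ),
    (∀ x, tb K x = true → InH hF ω H x) → orb L K k = true →
      ∃ K', (∀ x, tb K' x = true → InH hF ω H x) ∧ k K' = true := by
  have h0 : InH hF ω H 0 := by
    refine ⟨by norm_num, rfl, ?_⟩
    rw [dec_zero]
    intro h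
    rw [T_zero]
    exact one_mem _
  have hG' : ∀ j, InH hF ω H (G6.getD j 0) := by
    intro j
    rcases lt_or_ge j G6.length with h | h
    · rw [List.getD_eq_getElem _ _ h]
      exact hG _ (List.getElem_mem h)
    · rw [List.getD_eq_default _ _ h]
      exact h0
  intro L
  induction L with
  | nil => exact fun K hK h => ⟨K, hK, h⟩
  | cons t L ih =>
    intro K hK h
    rw [orb, frc_eq] at h
    cases h1 : tb K (Nat.shiftRight t 3) with
    | false => rw [h1] at h; cases h
    | true =>
      rw [h1, cond_true, frc_eq, frc_eq] at h
      exact ih _ (inH_setL hF hω hK ((hG' _).tv hF hω (hK _ h1))) h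

include hω in
/-- a subgroup with the six transvections is everything -/
theorem six (hG : ∀ p ∈ G6, InH hF ω H p) : H = ⊤ := by
  have hK0 : ∀ x, tb K0 x = true → InH hF ω H x := by
    have h1 : ∀ x, tb 1 x = true → InH hF ω H x := by
      intro x hx
      have h2 : x = 0 := by
        by_contra h
        rw [tb_eq, Nat.testBit_eq_decide_div_mod_eq, decide_eq_true_iff, Nat.div_eq_of_lt] at hx
        · cases hx
        · exact Nat.one_lt_two_pow h
      subst h2
      refine ⟨by norm_num, rfl, ?_⟩
      rw [dec_zero]
      intro h
      rw [T_zero]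
      exact one_mem _
    have h2 : ∀ L : List ℕ, (∀ p ∈ L, InH hF ω H p) → ∀ x, tb (List.rec 1 (fun p _ ih => setL ih p) L) x = true →
        InH hF ω H x := by
      intro L
      induction L with
      | nil => exact fun _ => h1
      | cons p L ih =>
        exact fun h => inH_setL hF hω (ih fun q hq => h q (List.mem_cons_of_mem _ hq)) (h p List.mem_cons_self)
    exact h2 G6 hG
  obtain ⟨K, hK, hk⟩ := orb_spec hF hω hG _ tree K0 hK0 chk6_true
  rw [eq_top_iff, ← R_eq_top hF (n := 6) (by norm_num), R, Subgroup.closure_le]
  rintro _ ⟨v, hv, _, rfl⟩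
  obtain ⟨x, hx, rfl⟩ := exists_code hF hω v
  have h1 := allB_spec hk x hx
  have h2 := (herm_eq_zero_iff hF hω x x).1 hv
  have h3 : Nat.beq (hm x x) 0 = true := by rw [h2]; rfl
  simp only [h3, cond_true] at h1
  exact (hK x h1).2.2 hv

end F

end Cfsg.Agent.H259.U6
end

-- part: H259/U6/Cert
section
/-!
# `SU₆(2)` in codes (4): certificates

A certificate: codes of the matrices of `a, b`, transvection words for them, a power of a word which is a
transvection, and words which move its centre to the six points; `a b = (l Xᵢ) b a`.
-/

set_option autoImplicit false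
set_option linter.unusedSectionVars false
set_option maxRecDepth 100000

namespace Cfsg.Agent.H259.U6

open Cfsg Cfsg.Agent.LieClassical.HermBasic Cfsg.Agent.ClassicalGeometry.UnitTransv
  Cfsg.Agent.SporadicStructure.UnitTwo
open Cfsg.Agent.LieClassical.HermSiegel (mat mat_mul mat_injective)
open Cfsg.Agent.ClassicalGeometry.PSUAutCount (gm guConj gm_inv_mul gm_mul_inv)
open scoped Matrix

/-! ### the representatives -/

/-- a column of a packed matrix -/
def col (P c : ℕ) : ℕ :=
  pk (H767.U6.cd P 0 c) (H767.U6.cd P 1 c) (H767.U6.cd P 2 c) (H767.U6.cd P 3 c) (H767.U6.cd P 4 c) (H767.U6.cd P 5 c)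

/-- a matrix with the given columns -/
def mxl (c0 c1 c2 c3 c4 c5 x : ℕ) : ℕ :=
  Nat.xor (sm (dig x 0) c0) (Nat.xor (sm (dig x 1) c1) (Nat.xor (sm (dig x 2) c2) (Nat.xor (sm (dig x 3) c3)
    (Nat.xor (sm (dig x 4) c4) (sm (dig x 5) c5)))))

/-- a packed matrix on codes -/
def mx (P x : ℕ) : ℕ := mxl (col P 0) (col P 1) (col P 2) (col P 3) (col P 4) (col P 5) x

theorem cd_lt (P r c : ℕ) : H767.U6.cd P r c < 4 := by
  unfold H767.U6.cd
  rw [and_three]
  exact Nat.mod_lt _ (by norm_num)

theorem col_lt (P c : ℕ) : col P c < 4096 :=
  pk_lt (cd_lt _ _ _) (cd_lt _ _ _) (cd_lt _ _ _) (cd_lt _ _ _) (cd_lt _ _ _) (cd_lt _ _ _)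

section F

variable {F : Type*} [Field F] [Fintype F] (hF : Fintype.card F = 2 ^ 2) {ω : F} (hω : ω ^ 2 + ω + 1 = 0)

theorem d4_eq (c : ℕ) : H767.U6.d4 ω c = d4 ω c := by
  rcases c with _ | _ | _ | c <;> rfl

theorem dec_col (P c : ℕ) : dec ω (col P c) = fun r : Fin 6 => H767.U6.d4 ω (H767.U6.cd P r c) := by
  rw [col, dec_pk (cd_lt _ _ _) (cd_lt _ _ _) (cd_lt _ _ _) (cd_lt _ _ _) (cd_lt _ _ _) (cd_lt _ _ _)]
  funext r
  rw [d4_eq]
  fin_cases r <;> rfl

include hF hω in
theorem dec_mx (P x : ℕ) : dec ω (mx P x) = H767.U6.mt ω P *ᵥ dec ω x := by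
  show dec ω (_ ^^^ (_ ^^^ (_ ^^^ (_ ^^^ (_ ^^^ _))))) = _
  rw [dec_xor hF, dec_xor hF, dec_xor hF, dec_xor hF, dec_xor hF]
  rw [dec_sm hF hω (col_lt _ _) (dig_lt _ _), dec_sm hF hω (col_lt _ _) (dig_lt _ _),
    dec_sm hF hω (col_lt _ _) (dig_lt _ _), dec_sm hF hω (col_lt _ _) (dig_lt _ _),
    dec_sm hF hω (col_lt _ _) (dig_lt _ _), dec_sm hF hω (col_lt _ _) (dig_lt _ _)]
  simp only [dec_col]
  funext r
  simp only [Pi.add_apply, Pi.smul_apply, smul_eq_mul, Matrix.mulVec, dotProduct, Fin.sum_univ_six, H767.U6.mt, dec,
    Fin.val_zero, Fin.val_one, Fin.val_two, show ((3 : Fin 6) : ℕ) = 3 from rfl,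
    show ((4 : Fin 6) : ℕ) = 4 from rfl, show ((5 : Fin 6) : ℕ) = 5 from rfl]
  ring

end F

/-! ### certificates -/

/-- certificate -/
structure Crt where
  /-- number of the class -/
  i : ℕ
  /-- scalar -/
  l : ℕ
  /-- transvections with product `a` -/
  ta : List ℕ
  /-- transvections with product `b` -/
  tb : List ℕ
  /-- `a` -/
  A : List ℕ
  /-- `b` -/
  B : List ℕ
  /-- a word -/
  w : List Bool
  /-- its power -/
  k : ℕ
  /-- is the transvection with this centre -/
  v : ℕ
  /-- words -/
  gs : List (List Bool)

/-- `x` is in the line of `p` -/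
def inL (x p : ℕ) : Bool := bif Nat.beq x p then true else bif Nat.beq x (mw p) then true else Nat.beq x (Nat.xor p (mw p))

/-- the words move the centre to the lines of the six points -/
def hits (A B : List ℕ) (v : ℕ) : List (List Bool) → List ℕ → Bool
  | _, [] => true
  | [], _ :: _ => false
  | g :: gs, p :: ps => bif frc (wd A B g v) fun x => inL x p then hits A B v gs ps else false

/-- the check -/
def chk (d : Crt) : Bool :=
  (lbeq (E12.map (tvs d.ta)) d.A && (okL d.A && okT d.ta)) &&
  ((lbeq (E12.map (tvs d.tb)) d.B && (okL d.B && okT d.tb)) &&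
  ((okT [d.v] && allB 6 fun j => Nat.beq (itn (wd d.A d.B d.w) d.k (Nat.pow 4 j)) (tv d.v (Nat.pow 4 j))) &&
  (hits d.A d.B d.v d.gs G6 &&
  frc (H767.U6.XP.getD d.i 0) fun P => frc (col P 0) fun c0 => frc (col P 1) fun c1 => frc (col P 2) fun c2 =>
    frc (col P 3) fun c3 => frc (col P 4) fun c4 => frc (col P 5) fun c5 => allB 6 fun j =>
      frc (Nat.pow 4 j) fun e => frc (ap d.B (ap d.A e)) fun x =>
        Nat.beq (ap d.A (ap d.B e)) (sm d.l (mxl c0 c1 c2 c3 c4 c5 x)))))

section F

variable {F : Type*} [Field F] [Fintype F] (hF : Fintype.card F = 2 ^ 2) {ω : F} (hω : ω ^ 2 + ω + 1 = 0)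

theorem inL_spec {x p : ℕ} (h : inL x p = true) : ∃ c < 4, c ≠ 0 ∧ x = sm c p := by
  unfold inL at h
  cases h1 : Nat.beq x p with
  | true => exact ⟨1, by norm_num, by norm_num, by rw [sm_1]; exact beq_eq h1⟩
  | false =>
    rw [h1, cond_false] at h
    cases h2 : Nat.beq x (mw p) with
    | true => exact ⟨2, by norm_num, by norm_num, by rw [sm_2]; exact beq_eq h2⟩
    | false =>
      rw [h2, cond_false] at h
      exact ⟨3, by norm_num, by norm_num, by rw [sm_3]; exact beq_eq h⟩

theorem hits_spec {A B : List ℕ} {v : ℕ} : ∀ {gs : List (List Bool)} {ps : List ℕ}, hits A B v gs ps = true →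
    ∀ p ∈ ps, ∃ g : List Bool, ∃ c < 4, c ≠ 0 ∧ wd A B g v = sm c p := by
  intro gs
  induction gs with
  | nil =>
    intro ps h p hp
    cases ps with
    | nil => cases hp
    | cons q ps => cases h
  | cons g gs ih =>
    intro ps h p hp
    cases ps with
    | nil => cases hp
    | cons q ps =>
      rw [hits, frc_eq] at h
      cases h1 : inL (wd A B g v) q with
      | false => rw [h1] at h; cases h
      | true =>
        rw [h1, cond_true] at h
        rcases List.mem_cons.1 hp with h2 | h2
        · rw [h2]
          exact ⟨g, inL_spec h1⟩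
        · exact ih h p h2

theorem act_add' (g : SU 6 F 2) : ∀ x y, act g (x + y) = act g x + act g y := fun x y => act_add g x y

include hF hω in
/-- the meaning of a certificate -/
theorem chk_spec (d : Crt) (hl4 : d.l < 4) (h : chk d = true) :
    ∃ a b : SU 6 F 2, Subgroup.closure {a, b} = ⊤ ∧
      mat (a * b) = (H767.U6.d4 ω d.l • H767.U6.X ω d.i) * mat (b * a) := by
  unfold chk at h
  simp only [Bool.and_eq_true, frc_eq] at h
  obtain ⟨⟨hA, hA1, hA2⟩, ⟨hB, hB1, hB2⟩, ⟨hv, hw⟩, hg, hX⟩ := h
  obtain ⟨a, ha⟩ := exists_tvs hF hω d.ta (okT_spec hA2)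
  obtain ⟨b, hb⟩ := exists_tvs hF hω d.tb (okT_spec hB2)
  have ha' : Rp ω (act a) (ap d.A) := rp_ap hF (act_add' a) ha hA hA1
  have hb' : Rp ω (act b) (ap d.B) := rp_ap hF (act_add' b) hb hB hB1
  obtain ⟨hv1, hv2⟩ := okT_spec hv d.v (List.mem_singleton.2 rfl)
  have hv3 := (herm_eq_zero_iff hF hω _ _).2 hv2
  refine ⟨a, b, six hF hω ?_, ?_⟩
  · -- the six transvections
    have hT : T hF (dec ω d.v) hv3 ∈ Subgroup.closure {a, b} := by
      have h1 : (wg a b d.w) ^ d.k = T hF (dec ω d.v) hv3 := by
        refine ext6 hF hω (rp_pow (rp_wg ha' hb' d.w) d.k) (rp_T hF hω hv1 hv3) fun j hj => ?_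
        exact beq_eq (allB_spec hw j hj)
      rw [← h1]
      exact pow_mem (wg_mem a b _) _
    intro p hp
    obtain ⟨g, c, hc, hc0, h1⟩ := hits_spec hg p hp
    have hp' : p < 4096 ∧ hm p p = 0 := okT_spec (L := G6) (by decide) p hp
    have h2 := (rp_wg ha' hb' g d.v hv1).2
    rw [h1, dec_sm hF hω hp'.1 hc] at h2
    refine ⟨hp'.1, hp'.2, fun h3 => ?_⟩
    have h4 : hermForm 6 F 2 (act (wg a b g) (dec ω d.v)) (act (wg a b g) (dec ω d.v)) = 0 := by
      rw [herm_act, hv3]
    have h5 := conj_T hF (wg a b g) (dec ω d.v) hv3 h4
    have h6 : T hF (act (wg a b g) (dec ω d.v)) h4 = T hF (dec ω p) h3 := by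
      have h7 : hermForm 6 F 2 (d4 ω c • dec ω p) (d4 ω c • dec ω p) = 0 := by rw [← h2]; exact h4
      rw [← T_smul hF (d4 ω c) (d4_ne hω hc hc0) (dec ω p) h3 h7]
      congr 1
    rw [← h6, ← h5]
    exact mul_mem (mul_mem (wg_mem a b g) hT) (inv_mem (wg_mem a b g))
  · -- the commutator
    apply Matrix.ext_of_mulVec_single
    intro j
    have h5 : dec ω (4 ^ (j : ℕ)) = Pi.single j 1 := by
      funext i
      unfold dec
      rw [dig_eq]
      fin_cases j <;> fin_cases i <;> rfl
    have h6 : (4 : ℕ) ^ (j : ℕ) < 4096 := by
      have := j.2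
      generalize (j : ℕ) = m at this
      interval_cases m <;> norm_num
    rw [← h5, ← Matrix.mulVec_mulVec, Matrix.smul_mulVec]
    have h7 := (rp_mul ha' hb' _ h6).2
    have h8 := (rp_mul hb' ha' _ h6)
    have h9 := beq_eq (allB_spec hX j j.2)
    have e1 : mat (a * b) *ᵥ dec ω (4 ^ (j : ℕ)) = dec ω (ap d.A (ap d.B (4 ^ (j : ℕ)))) := h7
    have e2 : mat (b * a) *ᵥ dec ω (4 ^ (j : ℕ)) = dec ω (ap d.B (ap d.A (4 ^ (j : ℕ)))) := h8.2
    rw [e1, e2, H767.U6.X, ← dec_mx hF hω, d4_eq]
    have h10 : mx (H767.U6.XP.getD d.i 0) (ap d.B (ap d.A (4 ^ (j : ℕ)))) < 4096 := by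
      refine Nat.xor_lt_two_pow (n := 12) (sm_lt _ (col_lt _ _) _ (dig_lt _ _)) (Nat.xor_lt_two_pow (n := 12)
        (sm_lt _ (col_lt _ _) _ (dig_lt _ _)) (Nat.xor_lt_two_pow (n := 12) (sm_lt _ (col_lt _ _) _ (dig_lt _ _))
        (Nat.xor_lt_two_pow (n := 12) (sm_lt _ (col_lt _ _) _ (dig_lt _ _)) (Nat.xor_lt_two_pow (n := 12)
        (sm_lt _ (col_lt _ _) _ (dig_lt _ _)) (sm_lt _ (col_lt _ _) _ (dig_lt _ _))))))
    rw [← dec_sm hF hω h10 hl4]
    exact congrArg (dec ω) h9

end F

end Cfsg.Agent.H259.U6
end

-- part: H259/U6/Data
section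
/-!
# `SU₆(2)` in codes (5): the certificates

Data found by helper51 (`tools/h51_u6`) and helper201 (`tools/h201_u6`).
-/

set_option autoImplicit false
set_option maxRecDepth 100000

namespace Cfsg.Agent.H259.U6

/-- letter `a` -/
abbrev t : Bool := true

/-- letter `b` -/
abbrev f : Bool := false

/-- certificates -/
def D0 : List Crt := [
  ⟨1, 2, [3813, 724, 1857, 3457, 2985, 2717, 3757], [1909, 393, 516, 3577, 3853], [16, 32, 2572, 3844, 3722, 1999,
    774, 267, 456, 588, 3470, 1735], [999, 377, 2002, 2403, 2286, 3191, 3212, 1220, 1210, 2271, 3631, 1845], [t], 5,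
    2577,
    [[f, f, t, f, t, f, t, f], [t, f, t, t, f, t, t, t, f], [t, f, t, f, f, f, f, t, t, f, t, f], [t, f, f, f, t, t,
    t, t, f, f, f, f], [f, f, t, t, f, f, f, t, f], [t, t, f, f, f, f, f]]⟩,
  ⟨1, 3, [1293, 3849, 1369, 789, 2768, 2685], [2125, 2292, 576, 1249, 2209, 3024], [1566, 2855, 2379, 3725, 678,
    1019, 2018, 2419, 3193, 1182, 3420, 1700], [3893, 1306, 1142, 2203, 4084, 1368, 1005, 374, 2642, 4003, 3983,
    1477], [t, t, f, f, f, f], 6, 1360,
    [[t, f, t, f, t, t, t, t, f], [t, f, f, t, f, t, f, f, f, t, f], [f, f, f, f, t, t, f, t, f, f, f], [t, f, t, t,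
    f, t, t, f, f, t, f], [f, f, f, f, f, t, t, t, f, t, f], [f, f, f, t, t, f, f]]⟩,
  ⟨2, 1, [2489, 789, 645, 1545, 3873], [36, 285, 1860, 3117, 756], [687, 1013, 2417, 3730, 869, 442, 2460, 3812,
    1179, 2285, 518, 779], [3887, 1333, 1220, 2120, 452, 584, 4042, 1359, 1490, 2659, 1388, 2740], [t], 9, 1381,
    [[f, f, t, t, f, t, t, f, f, f], [t, t, f, t, t, t, t, t, f], [f, t, f, f, f, t, t, f, f], [t, t, t, t, f, t, t,
    f], [f, t, t, f, t, t, t, t, t, f], [t, f, t, f, f, f, f, f, t, f, f]]⟩,
  ⟨2, 2, [3172, 3805, 1268, 1936, 3061, 3857], [3757, 1157, 3741, 2565, 1860, 1680], [662, 1003, 1523, 2641, 2124,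
    3204, 2061, 3078, 2263, 3177, 1422, 2759], [1611, 2957, 1038, 2055, 1477, 2634, 464, 608, 2899, 3489, 4065,
    1394], [f], 9, 3233,
    [[t, t, t, t, t, t, t], [t, t, t, f, t, t, t, f, f, t, f, t], [t, f, f, f, t, f, t, t, f, f, t], [t, f, t, t, f,
    t, t, f, t], [t, f, t, f, f, f, f, f, t, f, t], [t, t, t, t]]⟩,
  ⟨2, 3, [1965, 3889, 4033, 2756, 1412, 3713], [2612, 3833, 2989, 3757, 3449, 3741], [1337, 2590, 1953, 2546, 687,
    1013, 3975, 1481, 2392, 3756, 2298, 3167], [58, 31, 1039, 2053, 1305, 2606, 3826, 1875, 3512, 1756, 2286, 3191],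
    [t, t, f], 5, 1085,
    [[t, f, f, t, t, f, t, f, t, t], [f, f, f, f, t, f, t, f, t, t], [f, f, t, t, t, f, f, f, f, f], [f, f, f, f, t,
    t, t, t], [t, f, f, t, f, t, f, f], [t, f, f, f, t, t, f, f, t]]⟩,
  ⟨3, 1, [461, 157, 3833, 1744, 233, 2421], [2825, 3408, 2052, 3141, 1825, 1701], [3303, 1145, 1205, 2266, 2540,
    3700, 2511, 3653, 3257, 1246, 561, 786], [2702, 4039, 1436, 2788, 413, 742, 3263, 1237, 352, 688, 788, 296], [f],
    9, 1661,
    [[f, f, f, f, f, f, f, t], [t, f, f, t, f, f, t, f, t], [f, f, f, t, f, t], [f, f, f, t, f, f, t, t], [t, f, f,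
    t, t], [t, t, f, f, f, f, t, f, f, t]]⟩,
  ⟨3, 2, [3957, 80, 3501, 3933, 1860], [85, 3513, 1077, 2025, 2713, 3853], [1031, 2057, 1524, 2648, 688, 976, 3867,
    1325, 2936, 3484, 2847, 3365], [1305, 2606, 2940, 3476, 1258, 2175, 951, 473, 2895, 3461, 1489, 2658], [t, t, f,
    f, f], 5, 901,
    [[t, f, f, f, f, t, t, t, f], [t, t, f, f, t, t, f, t, t], [t, t, t, f, f], [t, f, f, t], [f, f, t, f, t, f, t,
    t], [t, f, t, t, f, t, f, t, f]]⟩,
  ⟨3, 3, [1293, 2689, 2389, 533, 2112, 20, 3876, 2436], [2749, 2225, 612, 3941, 2409], [818, 275, 2859, 3389, 3531,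
    1613, 3043, 3441, 2940, 3476, 1057, 2098], [3253, 1242, 256, 512, 1146, 2207, 2303, 3157, 1031, 2057, 3083,
    1037], [f], 9, 208,
    [[f, t, t, f, f, f, t], [t, t, f, f, t, f, t], [t, f, t, t, f, t, f, f, t, f, t], [t, f, f, t, t, t, f, t], [t,
    f, t, t, t, t, f, t, t], [f, t, t, f, f, t, t, t, f, f, t]]⟩,
  ⟨4, 1, [1809, 337, 3876, 2429, 4033], [181, 1405, 4077, 153, 3049, 356, 1924], [677, 1018, 788, 296, 1483, 2637,
    1777, 2898, 1850, 2335, 61, 22], [351, 677, 4068, 1400, 490, 639, 3607, 1833, 73, 142, 3571, 1617], [t, f, f, f],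
    4, 709,
    [[t, t, f, t, f, t, t, f, f, t, f], [f, f, t, f, f, f, t, f, f], [t, t, t, f, t, f, f], [f, f, t, f, f, t, f, t,
    f, t], [t, f, f, f, f, f, t, f, t], [t, f, t, t, t, f, f]]⟩,
  ⟨4, 2, [4033, 329, 2901, 805, 1124, 3805], [3169, 3333, 2717, 105, 1860, 2941], [3752, 2044, 1219, 2113, 954, 479,
    2008, 2412, 1311, 2597, 1528, 2652], [490, 639, 735, 869, 3841, 1282, 3571, 1617, 172, 244, 2465, 3826], [t, f],
    9, 3577,
    [[t, f, t, f, t, f, f, f, f], [f, f, t, f, t, t, t, f, t], [t, f, f, t, f, t, f, f, f, t], [t, t, f, t, f, t, t,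
    t, f, f], [t, t, t, t, t, f, f, t, f, f], [f, f, t, f, f, t, f, f, t, t]]⟩,
  ⟨4, 3, [3664, 945, 2228, 372, 2745], [2921, 2273, 3813, 3001, 213, 3797], [899, 449, 3466, 1743, 135, 201, 885,
    410, 1512, 2684, 3614, 1831], [2957, 3526, 3684, 1976, 1306, 2607, 88, 172, 2270, 3175, 3312, 1104], [f], 9, 1844,
    [[t, f, t, f, t, t, t, f, f, t], [t, f, t, f, t, t, t, f, t], [f, t, f, t, f, f, t, t], [t, t, f, t, t, f, f, f,
    f, t, f, t], [t, f, t, t, f, f, t, t, t], [t, f, f, t, f, f, t, t]]⟩,
  ⟨5, 1, [3097, 1668, 2945, 1569, 832, 1773], [3009, 157, 3037, 1509, 1721, 52], [3398, 1675, 3861, 1322, 209, 98,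
    352, 688, 2546, 3667, 510, 599], [3386, 1567, 4017, 1490, 3977, 1486, 1337, 2590, 100, 184, 2335, 3621], [t], 15,
    457,
    [[f, t, f, f, f], [t, f, f, t, t, f], [t, t, t, t, f, t, f, t, f, f, f], [t, f, t, t, t, t, f, f], [t, t, t, f,
    f, t, t, f, f, f], [t, t, t, t, t, t, f, f, f]]⟩,
  ⟨5, 2, [1985, 1040, 33, 2436, 3677], [673, 2689, 3413, 3341, 1329, 3156, 1268, 1389], [2877, 3350, 2548, 3672,
    1279, 2133, 3746, 2035, 3021, 3398, 602, 943], [3222, 1259, 3653, 1930, 3064, 3420, 2417, 3730, 597, 938, 2875,
    3357], [t, f], 9, 2917,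
    [[f, f, t, f, t, t, f, f], [t, f, t], [t, t, t, t, f, t, t, f, f], [t, t, t, t, f, t, t, f, t], [f, t, f, t, f,
    t, f, f, f, f], [f, f, f, t, t, t, f, t]]⟩,
  ⟨5, 3, [1429, 2553, 20, 549, 2109, 1461], [3328, 541, 3753, 1405, 1625, 585], [1679, 3013, 1075, 2065, 2761, 3918,
    2599, 3897, 2874, 3359, 460, 580], [1075, 2065, 1321, 2622, 2674, 3987, 695, 985, 1539, 2817, 1784, 2908], [f],
    15, 3876,
    [[t, f, f, f, t, f, f, f, f, t, t], [f, f, t, t, f, f, f, t, f, t, t], [t, t, t, t, f, f, t, f, f, t], [t, t],
    [f, t, t, f, t, t, t, t, t], [t, t, t, f, f, f, f, t]]⟩,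
  ⟨6, 1, [2713, 1165, 3337, 2353, 756, 1233], [2829, 1121, 3673, 4093, 1988, 3765, 4036], [1257, 2174, 1491, 2657,
    3555, 1649, 2995, 3537, 2622, 3863, 456, 588], [2664, 4028, 3697, 1938, 3902, 1303, 2279, 3193, 357, 698, 1999,
    2373], [t], 15, 1785,
    [[t, f, t, t, f, f, f, f, t, t, f], [f, t, f, f, t, t, f], [t, t, t, f, f, t, f, t, f, f], [t, t, f, f, f, f, f,
    t, f, f, f], [t, f, f, f, f], [t, t, t, f, t, t, f, t, f, f, f]]⟩,
  ⟨6, 2, [865, 2473, 3925, 3892, 2425, 2537, 1108, 3421], [3417, 4013, 1781, 457, 625, 2852], [1954, 2547, 1606,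
    2955, 3389, 1558, 1278, 2135, 521, 782, 1804, 2308], [41, 62, 2994, 3539, 2330, 3631, 3866, 1327, 2889, 3470,
    3028, 3432], [t, f, t, f, f], 6, 1389,
    [[f, f, f, t, t, f], [t, f, f, t, t, f], [f, t, f, f, f, t, f, f], [f, f, t, t, f, f, f, t, t], [f, t, t, t, f,
    f, f, t], [t, t, t, t, f, t, t, f, f]]⟩,
  ⟨6, 3, [2193, 1721, 2580, 3209, 3601, 1785], [2921, 2353, 3925, 3965, 2085, 17], [2548, 3672, 3869, 1318, 2854,
    3387, 141, 198, 1846, 2331, 2546, 3667], [81, 162, 1264, 2128, 12, 4, 3106, 1075, 3202, 1219, 768, 256], [t, t,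
    f], 2, 325,
    [[f, t, t, f, f, t], [f, t, t, t, t, t, t, f, f], [t, f, f, t, t, f, t, t, t], [t, f, t, t, f, f, t, t, f, f],
    [f, t, f, t, f, t, t, t, t], [t, t, f, t, f, f, f, f, f]]⟩,
  ⟨7, 1, [1909, 2321, 1585, 3829, 121, 2457], [709, 1225, 3217, 3845, 3617, 2821], [2842, 3375, 1565, 2854, 64, 128,
    1853, 2326, 1323, 2621, 2839, 3369], [688, 976, 3816, 1916, 964, 328, 3647, 1813, 2238, 3287, 893, 406], [f], 15,
    1097,
    [[f, t, f, t, f, t, t, t, t], [f, t, t, t, t, f, t, t, t], [f, f, f, f, t, t, t, t, f, t], [t, f, f, t, f, f, f,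
    t, f, t], [t, t, f, t, t, t, f, t, f, t], [t, t, t, f, t, t, f, t]]⟩,
  ⟨7, 2, [4029, 109, 3509, 3141, 3873], [17, 2805, 2161, 1732, 2580, 2665, 3593], [3505, 1746, 3571, 1617, 1540,
    2824, 1126, 2235, 1761, 2930, 614, 955], [88, 172, 1865, 2446, 4081, 1362, 2092, 3124, 2233, 3294, 3000, 3548],
    [t, f, f, f], 5, 3501,
    [[f, f, t, f, t, t, f, t, f], [t, t, t, f, f, f, t, t, t], [f, f, t, f, f, t, f], [t, f, f, f, t, t, f, f, t],
    [t, t, t], [f, f, t, t, t, f, f, t, t]]⟩,
  ⟨7, 3, [1588, 713, 2045, 1433, 2901, 2337], [3509, 36, 3689, 1345, 3136, 1300], [2083, 3121, 2592, 3888, 1358,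
    2695, 949, 474, 2482, 3795, 2358, 3611], [1344, 2688, 3471, 1733, 3491, 1777, 1113, 2222, 321, 642, 1325, 2614],
    [f], 12, 3145,
    [[t, t, f, f, f, t, f, f, f, t], [f, f, t, t, t, t, f, f, t, t], [t, f, t, t, t, f, f, t], [t, t, f, f, f, t, f,
    t, t, t], [f, f, t, f, t, t, f, t, t, t], [t, t, f, f, t, t, f, f, t]]⟩]

theorem chk_D0 : D0.all chk = true := by decide +kernel

/-- certificates -/
def D1 : List Crt := [
  ⟨8, 1, [3593, 1201, 865, 3549, 573, 144], [516, 4073, 3925, 1348, 3780], [349, 678, 786, 291, 572, 788, 3072, 1024,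
    912, 480, 877, 438], [2854, 3387, 3175, 1209, 3657, 1934, 1720, 3036, 998, 379, 3697, 1938], [f], 5, 1121,
    [[f, f, t, t, f, f, t, t, f, t], [t, t, t, t, f, f, t, f, f, t], [f, f, f, f, t, t, f, f, t], [f, f, f, t, t, f,
    t, f, t, t], [f, t, f, f, t, f, t, t, t, t], [t, f, f, t, t, f, t, t, f, t]]⟩,
  ⟨8, 2, [420, 2909, 2729, 4073, 3509, 673], [1424, 2557, 1088, 1012, 1689, 1497, 1601], [1100, 2180, 3795, 1889,
    366, 695, 2615, 3865, 3825, 1874, 2722, 4083], [2420, 3736, 2879, 3349, 2944, 3520, 939, 509, 2040, 2396, 1150,
    2199], [f], 9, 3837,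
    [[f, f, f, f, t, f, t, f, t, t, t], [f, f, t, f, f, f, f, f, f, t], [f, t, t, t, t, f, t, t], [f, f, f, t, f, t],
    [f, f, f, f, t, f, f, f, t, t], [f, f, f, t, f, t, t, f, f, t, t]]⟩,
  ⟨8, 3, [3233, 389, 1465, 3705, 2741], [821, 3109, 2805, 3876, 3636, 193], [774, 267, 556, 820, 3954, 1427, 1179,
    2285, 716, 836, 3844, 1288], [1317, 2618, 3157, 1194, 963, 321, 3181, 1206, 2744, 4060, 1117, 2214], [f], 15,
    1028,
    [[f, f, f, t, t, f, t, f, t, t], [t, f, f, t, f, t, f, t, t], [t, t, t, t, f, t, t, f, t, t, t], [t, t, f, f, f,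
    f, f, f, t], [t, f, t, f, t, t, f, t, t], [t, t, t, t, f, t, f, f, f, t]]⟩,
  ⟨9, 1, [2884, 2777, 1637, 465, 2304, 2433], [4013, 500, 1569, 1517, 1725, 2461, 221, 1517], [2308, 3592, 1306,
    2607, 1247, 2149, 3745, 2034, 667, 1005, 1339, 2589], [2660, 4024, 726, 875, 2432, 3776, 1824, 2352, 3291, 1133,
    2658, 4019], [t], 15, 3205,
    [[t, f, t, f, f, f, t, t, t, f], [t, f, f, f], [t, f, f, t, t, t, f, f], [f, t, t, t, f, t, f, f, f, t, f], [t,
    f, t, f, t, t, f, f, f], [f, t, t, f, t, t, t, f, f, f]]⟩,
  ⟨9, 2, [3797, 3945, 3633, 3472, 2164, 233], [181, 3728, 2533, 2692, 221, 3233, 1533, 3705], [480, 624, 3530, 1615,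
    734, 871, 1017, 350, 2062, 3079, 3533, 1606], [2456, 3820, 2307, 3585, 3265, 1090, 1884, 2468, 387, 705, 3796,
    1896], [t, f, f], 9, 2196,
    [[t, t, f, f, t, f, f, f, f], [t, t, f, f, f, f, t, t, t], [f, t, f, f, f, f, t, t, f], [t, f, f, t, t, t, t, f],
    [f, t, f, f, f, f, t, t, t], [t, f, f, t, t, f, f, f, t]]⟩,
  ⟨9, 3, [2884, 2573, 1097, 565, 2553, 4077], [213, 2825, 2433, 3348, 3713, 3497], [3386, 1567, 61, 22, 1664, 3008,
    2438, 3787, 2862, 3383, 1483, 2637], [3721, 1998, 619, 957, 1042, 2083, 4028, 1492, 3661, 1926, 1422, 2759], [t,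
    f, f], 9, 1860,
    [[t, t, t, t, t, f, f, t, f], [f, f, f, t, t, t, f, f, f], [t, f, t, f, t, f, f, t, t], [f, f, t, t, f, t, t, t],
    [t, f, t, t, t, t, f, t, f], [f, f, f, f, f, t, f]]⟩,
  ⟨10, 1, [1289, 461, 3957, 565, 2593, 3093, 3957, 1725], [965, 3557, 2692, 1629, 3925, 3133], [1700, 3064, 2388,
    3752, 1288, 2572, 3222, 1259, 83, 161, 1211, 2269], [346, 687, 2838, 3371, 1142, 2203, 2740, 4056, 1573, 2874,
    3841, 1282], [t, f], 9, 852,
    [[f, f, f, t, t, f, t], [f, t, t, t, t, f, f], [t, f, t, f, f, f, f, t, t, t], [t, t, f, t, f, f, f, t, f, t],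
    [t, f, f, f, t, t, t, t, f, t], [t, t, f, t, f, t, t, t]]⟩,
  ⟨10, 2, [2372, 325, 2653, 1332, 1509, 1625], [2829, 2129, 645, 2005, 948, 2372], [3161, 1198, 147, 225, 1508, 2680,
    58, 31, 2703, 4037, 857, 430], [2547, 3665, 3410, 1699, 3843, 1281, 244, 88, 662, 1003, 614, 955], [t, t, f], 15,
    153,
    [[t, f, f, t, f, t, t, t], [t, f, t, f], [t, f, t, t, f, t, t, t, t], [t, t, t, t, t, f, f], [f, f, t, f, t, f,
    f, t, f], [f, t, t, t, f, f, t, f, f]]⟩,
  ⟨10, 3, [2433, 1437, 4036, 845, 3705, 2948], [1913, 3693, 1449, 169, 1909, 2253], [667, 1005, 1160, 2252, 1155,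
    2241, 2861, 3382, 2272, 3184, 3392, 1664], [1670, 3019, 2231, 3289, 688, 976, 1617, 2978, 3637, 1818, 2545,
    3666], [t, f], 9, 1753,
    [[t, f, f, t, t, t, t, t], [t, t, t, t, f, f, f, f], [f, t, t, t, f, f, f], [f, f, t, f, t, t, f, f], [f, f, t,
    t, t, t, t, f, f], [t, t, t, t, t, f, f]]⟩,
  ⟨11, 1, [2821, 117, 3236, 20, 169, 2025], [356, 49, 2317, 809, 3925], [3174, 1211, 3042, 3443, 4065, 1394, 1419,
    2765, 2913, 3506, 804, 312], [617, 958, 2244, 3144, 1970, 2515, 290, 563, 1854, 2327, 803, 305], [t, t, f], 5,
    3156,
    [[f, f, f, f, f, t, t, t], [t, f, f, f, f, f, f, t, f, f], [t, t, f, t, f, f, t, f, f], [t, f, t, t, t], [t, f,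
    t, t, f, f, t, f, f], [t, t, t, t, f, t, t, t, t]]⟩,
  ⟨11, 2, [157, 1280, 3005, 3969, 916], [3993, 1501, 1397, 3188, 3709, 3169], [2224, 3280, 2877, 3350, 2898, 3491,
    3266, 1091, 3239, 1273, 879, 437], [3752, 2044, 2345, 3646, 2173, 3222, 624, 912, 456, 588, 682, 1023], [t], 5,
    1445,
    [[t, t, t, f, t, t, t, t, f], [t, f, f, t, f, t, f, f, t, f], [t, t, f, t, f], [t, t, f, f, f, f, f, f, f, f],
    [t, f, t, f, f, t, t, f, f], [t, f, t, t, f, f, f, t, f, f, f, f]]⟩,
  ⟨11, 3, [557, 2941, 1188, 1924, 3673, 1588, 2749], [1701, 2628, 589, 3989, 208, 1137], [1013, 346, 447, 725, 1814,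
    2347, 989, 358, 1090, 2179, 1876, 2472], [3683, 1969, 2759, 3913, 1342, 2583, 3596, 1796, 1029, 2058, 703, 981],
    [t], 5, 3757,
    [[f, f, t, t, t, t, f, f], [t, t, t, t, f, t, f, t, f, t, f, f], [f, t, t, f, t, f, t, f, t, f], [t, f, f, f, f,
    f, f], [f, t, t, t, t, f, f, t, t, f, f, f], [t, f, t, t, f, t, f, t, f, f]]⟩,
  ⟨12, 1, [884, 1857, 2485, 1572, 1744], [2745, 653, 2225, 676, 2125, 772], [54, 27, 1593, 2846, 3948, 1460, 306,
    531, 697, 990, 2502, 3659], [3553, 1650, 3247, 1269, 3355, 1581, 2516, 3688, 2347, 3645, 261, 522], [t, f, f], 4,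
    2756,
    [[f, f, t, t, f, t, f, t, f], [t, t, t, f, t, f, f, t, t, f], [t, f, f, f, f, t, f, f, f, t], [f, t, t, t, f, t,
    f, t], [f, t, t, f, f, t, f, t, t, f], [f, f, t, f, f, f, t, f, f, t]]⟩,
  ⟨12, 2, [1729, 3149, 2117, 2193, 1188, 589], [2489, 1025, 3433, 3737, 1488, 1401, 1949, 977], [2619, 3869, 987,
    365, 3359, 1573, 3148, 1156, 3027, 3425, 2586, 3887], [708, 840, 864, 432, 3390, 1559, 2261, 3178, 342, 683,
    3412, 1704], [f], 9, 1252,
    [[t, f, f, f, t], [t, f, f, f, f, f, t], [f, t, t, t, t, t, t, f, t, t], [f, f, t, t, f, f, t, t], [t, t, f, f,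
    f, f, t, t], [t, t, t, f, t, t, t, t, t]]⟩,
  ⟨12, 3, [3857, 3889, 3156, 1488, 3716, 3817, 805, 3941], [2196, 2309, 2249, 2836, 3949, 3073], [820, 280, 1288,
    2572, 392, 716, 3704, 1948, 1, 2, 1684, 3048], [2263, 3177, 2996, 3544, 3068, 3412, 818, 275, 2503, 3657, 2392,
    3756], [f], 15, 3597,
    [[t, f, f, f, f, f, f, f, t, t], [t, t, t, f, f, t, f, t], [f, t], [f, t, f, t, t, f, f, t, t], [f, t, f, t, f,
    t, f, f, t], [t, t, f, f, f, f, f, t, t, t]]⟩,
  ⟨13, 1, [3328, 1689, 2704, 2985, 125, 2612, 3737, 2077], [3136, 3493, 3348, 852, 3109, 2821, 1140], [2142, 3239,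
    1237, 2154, 449, 578, 3381, 1562, 2988, 3572, 2231, 3289], [2139, 3245, 2202, 3311, 280, 556, 2293, 3162, 3475,
    1761, 2886, 3467], [t, f, f, f], 9, 3449,
    [[t, f, f, t, f, t, f, f, f, t], [t, t, t, f, t, f], [f, f, f, t, f, f, f, t], [t], [t, t, t, f, f, f, t, t, f],
    [f, f, t, f, t, t, f]]⟩,
  ⟨13, 2, [221, 109, 1201, 2557, 2689, 3316, 1053, 2901], [3269, 676, 2677, 2121, 1757, 1069], [774, 267, 1871, 2437,
    2034, 2387, 1427, 2785, 1120, 2224, 2695, 4041], [2562, 3843, 2953, 3534, 1559, 2857, 168, 252, 3570, 1619, 2307,
    3585], [f], 12, 2049,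
    [[t, t, t, t, f, t, f, t, t, t], [t, f, t, t, t, f, t], [f, f, f, t, f, f, f, t, t, t], [t, t, f, f, t, f, t, t,
    f, t], [f, f, f, t, t, t, t, t], [f, f, f, f, t, t, t]]⟩,
  ⟨13, 3, [1437, 1680, 2289, 1941, 3561, 313], [1249, 3857, 3113, 2793, 2813], [3480, 1772, 3787, 1869, 731, 877,
    3795, 1889, 2869, 3354, 1263, 2165], [1421, 2758, 1197, 2294, 986, 367, 427, 765, 702, 983, 1312, 2608], [t, t,
    f], 6, 1249,
    [[t, f, t, t, f, f, f, f], [f, t, f, f, f, t], [t, f, t, f, f, t, t, f, f, f], [f, f, t, f, f, t, t], [t, t, f,
    f, f, f, f, t, f, f, f], [f, f, t, f, f, f, f]]⟩,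
  ⟨14, 1, [3061, 3333, 1757, 585, 2369, 169], [465, 389, 3573, 193, 2797], [3397, 1674, 3913, 1422, 1482, 2639, 750,
    887, 2099, 3089, 2932, 3480], [3068, 3412, 1292, 2564, 2262, 3179, 3872, 1328, 661, 1002, 3351, 1577], [f], 9,
    2253,
    [[f, t, t, f, f, f, t, t], [f, t, f, t, t, t, f, f, f, f, t], [t, t, f, t, t, t, f, f, t, t], [t, f, f, t, t, t,
    t], [t, t, t, f, t, t, f, t, t], [f, f, t, t, t, t, t]]⟩,
  ⟨14, 2, [625, 1805, 1977, 2069, 2577, 272], [36, 1529, 1045, 2497, 4025], [1428, 2792, 2213, 3322, 677, 1018, 2744,
    4060, 2561, 3842, 1452, 2804], [2072, 3116, 2506, 3663, 1521, 2642, 2024, 2428, 3924, 1448, 495, 629], [f], 5,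
    576,
    [[f, t, f, f, f, f, f, t, f, t], [t, f, f, t, t, t, t, t], [f, t, f, t, f, f, f, f, f, f, t], [f, t, t, t, t, t],
    [t, t, f, f, t, t, t, t, t], [f, t, f, f, t, t, f, t]]⟩]

theorem chk_D1 : D1.all chk = true := by decide +kernel

/-- certificates -/
def D2 : List Crt := [
  ⟨14, 3, [3817, 3769, 13, 2661, 3153, 1545, 3501, 3664], [1641, 1877, 1872, 3972, 3792], [3428, 1720, 3658, 1935,
    1033, 2062, 729, 878, 3626, 1855, 2818, 3331], [3306, 1151, 599, 937, 3791, 1861, 3662, 1927, 3939, 1457, 3848,
    1292], [f], 9, 709,
    [[f, t, f, t, t, f, t, f, t], [f, t, t, t, t, t, f, f, f, f, t], [t, f, t, t, t, t, f, f, f, f, t], [t, f, f, t,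
    f, f, t, t, f, f, t], [f, f, f, f, t, f, f, t, f, t], [f, t, f, f, t, t, f, t, f, f, t, t]]⟩,
  ⟨15, 1, [404, 1549, 3773, 144, 2073, 1289, 1285, 2069], [1061, 3765, 3341, 281, 1553], [3539, 1633, 1845, 2330,
    643, 961, 1891, 2481, 2853, 3386, 3092, 1064], [801, 306, 1814, 2347, 1874, 2467, 1328, 2576, 3909, 1418, 3241,
    1278], [f], 5, 1629,
    [[f, t, f, f, f, t, f, t, t, t], [t, t, f, f, f, f, t, t, f, t], [f, t, t, t, f, t, f, t, t, t], [f, f, f, f, t,
    f, t, t, t, t], [f, f, f, t, t, t, t], [f, f, f, f, t, t, f, f, t, t, t]]⟩,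
  ⟨15, 2, [1397, 277, 1045, 3728, 784], [3076, 1885, 2973, 1797, 3573, 4013], [3726, 1991, 3723, 1997, 2506, 3663,
    501, 602, 3600, 1824, 2293, 3162], [2931, 3473, 2808, 3932, 2229, 3290, 1283, 2561, 1578, 2879, 291, 561], [t,
    f], 6, 2045,
    [[f, f, t, t, t, t, f, t, f, t], [t, t, f, f, t, f, t, t], [t, f, t, t, f, t, t, f, f, f, f], [t, t, t, t, t, f,
    t, f, t], [f, f, f, f, f], [t, t, f, f, t, t, t, t, t]]⟩,
  ⟨15, 3, [3541, 1941, 2685, 497, 3709, 4077], [3524, 3561, 1188, 3133, 3396, 2625], [2443, 3789, 3225, 1262, 1253,
    2170, 870, 443, 1133, 2230, 1824, 2352], [2556, 3668, 1114, 2223, 597, 938, 1126, 2235, 2307, 3585, 1174, 2283],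
    [t, f, f, f, f], 5, 2809,
    [[t, t, f, t, t, t, t], [t, f, f, f, f, t, f], [f, t, f, t], [t, t, t, f, t, f], [f, t, t, f, f, f, t, t, t], [t,
    f, t, t, f, f]]⟩,
  ⟨16, 1, [916, 3821, 3857, 1429, 3457, 2069, 3965], [1265, 3984, 132, 3769, 1252, 884], [3856, 1312, 3756, 2036,
    425, 766, 2035, 2385, 2297, 3166, 1408, 2752], [3286, 1131, 3726, 1991, 1715, 3025, 2837, 3370, 1824, 2352, 530,
    803], [t, f, f], 9, 1517,
    [[t, f, f, t, f, f, t, f, t, f], [t, f, t, t, f, t], [f, f, f, f, t, f, f, f], [f, t, t, t, t, t, t, f, f, t],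
    [t, t, f, f, t, t], [f, t, t, t, t, f, f, t]]⟩,
  ⟨16, 2, [433, 1601, 2425, 2249, 1809, 20, 1924, 3813], [1588, 821, 2064, 2577, 3925], [3366, 1595, 3816, 1916,
    1634, 2995, 833, 386, 1206, 2267, 3698, 1939], [2114, 3203, 598, 939, 886, 411, 3083, 1037, 3208, 1228, 699,
    989], [t, f, f, f], 5, 829,
    [[f, t, f, f, f, t, f, f], [f, f, f, f, f, t, t, t, t, f], [f, t, f, f, t, f, f, f, t, t, f], [f, t, f, f, t, t,
    t, t, f, t], [f, f, f, t, t, f, f, t, f], [f, t, t, t, f, t, t, f, t, f]]⟩,
  ⟨16, 3, [245, 2309, 2797, 481, 3136, 1293], [3929, 313, 285, 105, 537, 1757], [3197, 1174, 803, 305, 767, 853, 886,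
    411, 3317, 1114, 1228, 2116], [1317, 2618, 3112, 1084, 3427, 1713, 3937, 1458, 1562, 2863, 899, 449], [t, t, f],
    9, 3472,
    [[f, f, t, f, f, f, f, f], [f, f, t, t, f, f, f, f, f, f], [t, f, f, f, f, f, t, t], [f, f, f, f, t, t, f, t],
    [t, f, t, f, t, t, t], [t, t, t, f, f, f, f, t, f]]⟩,
  ⟨17, 1, [404, 353, 740, 3053, 3728, 2109], [144, 596, 3437, 1812, 3413, 645], [1164, 2244, 2684, 3988, 1380, 2744,
    998, 379, 470, 619, 787, 289], [2858, 3391, 1460, 2776, 2235, 3293, 2944, 3520, 460, 580, 3918, 1415], [t], 15,
    2789,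
    [[t, t, t, f, f, f, f], [t, f, t, t, t, t, t, t, f], [f, t, t, t, f, f], [f], [t, t, f, t, f, t, f, t, t, f], [f,
    t, f, f]]⟩,
  ⟨17, 2, [2393, 2741, 809, 3845, 3573, 1085, 233], [1857, 3589, 3012, 36, 157], [3198, 1175, 531, 801, 1247, 2149,
    1096, 2188, 487, 633, 959, 469], [3794, 1891, 75, 141, 410, 751, 2804, 3928, 518, 779, 2885, 3466], [t], 9, 3780,
    [[t, t, t, t, f, t, f], [t, t, f, t, t, f], [f, f, t, t, t, f, f], [f, t, t, t, t, f, f], [f, f, t, f, t, f, f,
    t, f, f, f], [f, f, t, t, f, f, f, t, t, f, f]]⟩,
  ⟨17, 3, [2037, 2821, 1629, 3313, 513, 1140], [393, 1689, 3561], [3928, 1452, 1059, 2097, 291, 561, 53, 26, 163,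
    241, 1423, 2757], [2808, 3932, 1443, 2801, 3223, 1257, 2889, 3470, 414, 743, 1577, 2878], [t], 15, 797,
    [[f, f, f, t, f, t, f, t, f, f], [t, f, f, t, f, t, t, t, f, f], [t, f, t, f, t, f, t, f, f, f], [t, f, t, f, t,
    t, f, f], [f, t, f, t, t, t, t, t, f, f], [f, f, t, t, f, f, t, f, f, f]]⟩,
  ⟨18, 1, [3741, 49, 1893, 356, 3849, 3460, 2653, 2085], [3033, 2196, 1093, 737, 3460, 676, 3220, 404], [1362, 2723,
    1607, 2953, 3666, 1955, 3505, 1746, 3000, 3548, 57, 30], [1853, 2326, 3287, 1129, 562, 787, 3208, 1228, 2359,
    3609, 1206, 2267], [f], 6, 2052,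
    [[f, t, f, f, t, t, t, f, t], [f, f, t, f, f, t, t, f, t], [t, t, t, t, t, f, t, f, f, t, t], [t, t, f, f, f, t,
    f, t], [f, t, f, t, f, f, t, t], [f, f, f, t, t, f, f, t, t, f, f, t]]⟩,
  ⟨18, 2, [549, 1860, 9, 3029, 772, 2196], [1433, 1293, 2125, 1625, 2089, 649], [2281, 3198, 2402, 3763, 3596, 1796,
    3183, 1205, 703, 981, 2137, 3246], [766, 855, 1768, 2940, 3632, 1808, 3783, 1865, 3312, 1104, 2930, 3475], [t, t,
    f], 9, 3765,
    [[f, f, f, t, t, f, f, t, f, f], [f, t, f, t, f, t, t], [t, f, t, f, t, f, f, f, t], [f, f, t, t, f, f, t], [t,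
    t, t, t, t, t, f, f], [t, f, t, t, f, t, t, f, f]]⟩,
  ⟨18, 3, [3945, 2628, 2537, 1285, 1588], [3892, 3281, 497, 5, 2997, 673], [2482, 3795, 1037, 2054, 912, 480, 3646,
    1815, 4083, 1361, 2623, 3861], [2621, 3862, 1393, 2706, 670, 999, 3974, 1483, 2206, 3303, 1512, 2684], [f], 9,
    772,
    [[t, f, t, t, f, f, f, f, f, f, t], [f, f, t, f, t, t, t], [t, f, t, t, f, t, t, t, f, t], [f, f, f, t, f, t, t],
    [f, t, f, f, t], [f, t, t, t, f, t, t, t, f, t]]⟩,
  ⟨19, 1, [3845, 3213, 3749, 3437, 2533, 1045], [3117, 3088, 2089, 1917, 3989, 1725, 3093], [3745, 2034, 605, 934,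
    3367, 1593, 71, 137, 2637, 3974, 972, 324], [284, 548, 2278, 3195, 3321, 1118, 3230, 1255, 3019, 3405, 3059,
    3409], [t], 15, 2973,
    [[f, t, t, f, f, t, f, f, t, f], [t, f, t, f, t, f, t, f], [f, f, f, t, f, f, f, t, f], [f, t, t, t, t, f, f, f,
    f], [t, t, f, t, t, f, t, f, f], [f, f, f, f]]⟩,
  ⟨19, 2, [2960, 1744, 2793, 1917, 125, 2276], [3045, 1653, 68, 2121, 1977, 829, 1293, 2713], [2737, 4050, 1384,
    2748, 2198, 3307, 1197, 2294, 774, 267, 1243, 2157], [2158, 3255, 1884, 2468, 3968, 1472, 2572, 3844, 639, 917,
    2438, 3787], [t], 15, 3088,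
    [[f, f, f, f, f, t, f], [t, f, t, f, t, f, f, f, f, f], [f, f, f, f, f, f, f, t, f], [f, f, t, f, f, f, f, t, f,
    f, f, f], [f, t, t, t, f, f, f, f, f], [t, t, f, f, t, t, t, f, f]]⟩,
  ⟨19, 3, [549, 2356, 1553, 3845, 845, 596], [353, 1973, 1744, 2425, 2717], [1359, 2693, 1243, 2157, 351, 677, 1372,
    2724, 2401, 3762, 1819, 2349], [3470, 1735, 1232, 2144, 1043, 2081, 3059, 3409, 479, 613, 2299, 3165], [t, f, f],
    4, 2228,
    [[t, t, f, t, t, f, f, f, t], [f, t, t, f, f, f, t], [f, t, f, t, f, f, f, f, f, f], [t, f, t, f, t, t, t, t, f],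
    [f, t, t, f, f, f, t, f, t, f], [f, f, f, t, f, t, t]]⟩,
  ⟨20, 1, [2129, 1705, 913, 3065, 3117], [973, 2321, 1781, 772, 3636, 3277, 1917, 996], [4019, 1489, 1955, 2545, 526,
    775, 1393, 2706, 2392, 3756, 2137, 3246], [3776, 1856, 2184, 3276, 1104, 2208, 767, 853, 2178, 3267, 2346, 3647],
    [f], 9, 109,
    [[t, t, f, t, f, f, t], [t, f, f, f, t, f, f, t], [t, f, t, f, f, t, f, f, t], [t, t, f, t, f, t], [f, f, f, f,
    t, f, f, f, t], []]⟩,
  ⟨20, 2, [181, 2253, 249, 2829, 1812, 2045, 89, 1949], [549, 1729, 1188, 929, 1165], [1247, 2149, 1851, 2333, 1491,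
    2657, 2192, 3296, 226, 115, 1607, 2953], [1239, 2153, 3385, 1566, 3044, 3448, 446, 727, 3441, 1682, 3470, 1735],
    [t, t, t, f], 15, 740,
    [[f, f, t, t, t, t, f, t, f], [f, t, f, t, t, t], [f, f, t, t, t, f, t, t, t, f, f, t], [f, f, f, f, f, t], [f,
    f, t, t, f], [t, t, t, t, f, t, t, t]]⟩,
  ⟨20, 3, [2905, 3185, 2009, 2704, 1429, 1616], [4061, 1881, 945, 2132, 3153, 1988], [139, 205, 3442, 1683, 1359,
    2693, 2608, 3856, 3913, 1422, 1906, 2451], [3667, 1953, 763, 861, 904, 460, 1277, 2134, 2468, 3832, 316, 532],
    [t, t, t, f], 9, 3145,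
    [[f, f, f, f, f, t, f, f, f, f, f], [f, f, f, t, t, f, t, t, t], [f, f, t, t, f, t, t, f], [f, f, t, f, t, f],
    [f, f, t, f, t], [t, f, t, t, f, t, f, f, f]]⟩,
  ⟨21, 1, [881, 1545, 1749, 389, 901, 905], [2541, 1293, 1461, 3377, 1945], [3637, 1818, 3469, 1734, 3161, 1198,
    2899, 3489, 898, 451, 3648, 1920], [3175, 1209, 3587, 1793, 3684, 1976, 635, 925, 985, 366, 1021, 342], [f], 6,
    660,
    [[f, f, t, t, t], [f, t, f, f, f, t, t, t], [f, t, f, t, f, t, f, t], [t, f, f, f, t, t, f, t, t, t, t], [f, t,
    f, f, f, t, t, t, t], [f, f, t, t, f, t, t]]⟩]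

theorem chk_D2 : D2.all chk = true := by decide +kernel

/-- certificates -/
def D3 : List Crt := [
  ⟨21, 2, [144, 297, 2741, 2768, 3925, 832], [3361, 1077, 17, 2245, 2493], [2788, 3960, 2223, 3317, 1908, 2456, 547,
    817, 4037, 1354, 2040, 2396], [2886, 3467, 3366, 1595, 450, 579, 2139, 3245, 908, 452, 765, 854], [f], 5, 1604,
    [[f, f, f, f, f, f, t], [t, t, f, t, f, t, f, f, t, t], [f, f, f, t, f, f, f, f, t, t], [f, f, t, f, t, f, f, f,
    f, t], [f, t, t, f, f, t, t, f, t], [f, t, f, t, t, f, t, t]]⟩,
  ⟨21, 3, [65, 2276, 2849, 2112, 1345, 2196], [2580, 2189, 2457, 673, 1249, 4057], [4051, 1377, 879, 437, 2450, 3811,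
    2428, 3732, 2115, 3201, 2591, 3877], [1956, 2552, 2516, 3688, 3885, 1334, 1013, 346, 2688, 4032, 2231, 3289],
    [f], 4, 581,
    [[t, t, f, f, t, f, f, f, t], [f, t, t, f, t, t, t], [t, t, f, f, t, t, t], [t, f, f, t, t, f, f, f, t], [t, f,
    t, t, t, t], [f, f, t, f, t, f, f, f, t, t]]⟩,
  ⟨22, 1, [3853, 3925, 2453, 2681, 3577, 3565], [3677, 3933, 3156, 1773, 2781, 1945, 2353], [2215, 3321, 1496, 2668,
    1035, 2061, 1379, 2737, 870, 443, 1262, 2167], [606, 935, 1191, 2297, 21, 42, 69, 138, 2472, 3836, 3746, 2035],
    [f], 5, 80,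
    [[t, t, f, t, f, f, f, t, f, t], [f, f, t, t, t, f, f, f, f, t], [], [f, t, t, f, t], [f, f, t, f, f, f, t], [f,
    t, f, f, f, f, t, f, t]]⟩,
  ⟨22, 2, [913, 1488, 2541, 3485, 3541, 581], [2132, 2317, 2085, 692, 2212, 2245], [877, 438, 510, 599, 414, 743,
    1980, 2516, 2262, 3179, 1793, 2306], [12, 4, 801, 306, 1762, 2931, 2403, 3761, 592, 928, 2576, 3872], [t, t, f,
    f], 9, 1188,
    [[t, f, f, t, f, f, t, f], [t, t, f, t, t, t], [t, f, f, f, f], [t, f, f, t, f, f], [t, t, f, t, f, f, f], [f, f,
    t, f, t, t, f, t, f]]⟩,
  ⟨22, 3, [909, 740, 2645, 417, 3012], [813, 649, 1313, 3997, 709], [1831, 2361, 1483, 2637, 206, 71, 1619, 2977,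
    3276, 1092, 2141, 3238], [1317, 2618, 3221, 1258, 2639, 3973, 1089, 2178, 922, 495, 2184, 3276], [t, f], 9, 2253,
    [[t, t, t, t, f, t], [f, t, f, f, f, f, t, f, t], [f, f, t, t, t, f, f, f], [f, t, f, t, f, f, t, f, f, f], [t,
    f, f, t, t, t, t], [t, t, t, f, t, f, f, t, t, t]]⟩,
  ⟨23, 1, [3889, 2005, 1040, 2609, 1053, 1805], [3277, 1828, 1293, 20, 2273, 1093], [1822, 2343, 619, 957, 1126,
    2235, 2346, 3647, 2864, 3344, 3531, 1613], [1258, 2175, 4008, 1532, 1388, 2740, 2540, 3700, 2419, 3729, 778,
    271], [t, f, f, f], 5, 2525,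
    [[t, t, f, t, t, t, f, t, f], [f, f, t, t, t, f, f, t], [t, f, t, f, f], [f, t], [t, f, f, t, t], [t, f, f, f, f,
    f, f]]⟩,
  ⟨23, 2, [89, 1293, 2485, 2253, 2925, 3109], [1497, 2253, 65, 2461, 196, 17], [416, 752, 3072, 1024, 954, 479, 671,
    997, 385, 706, 844, 388], [3223, 1257, 1432, 2796, 3894, 1307, 1699, 3057, 3463, 1737, 683, 1021], [t, f], 9, 689,
    [[f, f, f, f, f, f, t, t, f, f], [f, t, f, t, f, f, t, f, f, t], [f, t, f, f, t, t, f, f, f, t], [f, f, f, t, f,
    f, f, f], [f, t, t, t, t, t, f, f, f, t], [f, f, f, t, f, t, f, f, f, f]]⟩,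
  ⟨23, 3, [313, 4036, 1881, 2145, 1572, 969], [208, 2909, 3281, 916, 1809, 1569], [864, 432, 1034, 2063, 3182, 1207,
    346, 687, 490, 639, 1213, 2262], [470, 619, 1938, 2531, 3085, 1030, 1865, 2446, 2984, 3580, 1673, 3022], [t, f],
    9, 3217,
    [[t, t, t, f, t, f, t, t], [t, t, t, t, f, f, f, t, f, t], [t, f, f, f, t, t, t, f, t], [f, f, t, t, t, f, t, f,
    f, f, f], [f, t, f, t, f, f, f, f], [f, t, f, t, f, f, f]]⟩,
  ⟨24, 1, [2749, 2941, 2228, 3997, 3172, 2049], [585, 1437, 1124, 573, 2064], [1274, 2143, 1491, 2657, 1178, 2287,
    1500, 2660, 778, 271, 3290, 1135], [3888, 1296, 2964, 3560, 1900, 2484, 1008, 336, 2, 3, 548, 824], [t, t, f, f],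
    4, 340,
    [[f, f, f, f, t], [f, t, t, f, t, f, f, t], [t, f, t, t, t, f, f, t, t], [f, f, f, t, f, f, f, f, t, f], [t, f,
    t, f, t, f], [f, t, t, t, f, f, t, t, f]]⟩,
  ⟨24, 2, [4013, 333, 2612, 3460, 2965, 1293], [1604, 3573, 2021, 2260, 2896], [1114, 2223, 3216, 1248, 1005, 374,
    2894, 3463, 1057, 2098, 2979, 3569], [2614, 3867, 3732, 2024, 2890, 3471, 134, 203, 321, 642, 415, 741], [t, t,
    f], 9, 1985,
    [[t, t, t, f, t, f, f, t, f, f, f], [f, t, f, f, f, t, t, f, f, t], [t, f, t, f, t, t, t], [f, t, t, t, f, t, t,
    t, f, f, f], [f, f, t, t, t, f, t, f, f], [t, t, f, t, f, t, f, f, f, t]]⟩,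
  ⟨24, 3, [2132, 193, 4048, 3133, 1397, 3993, 1465, 33], [484, 3421, 1049, 1028, 3993, 2969], [1697, 3058, 953, 478,
    3534, 1607, 2298, 3167, 2740, 4056, 1327, 2613], [1617, 2978, 2597, 3898, 1500, 2660, 3746, 2035, 4051, 1377,
    207, 69], [t, f], 15, 2797,
    [[t, f, t, f, t, t], [f, f, t, t, t, f, f, f], [t, f, t, f, f, f], [f, t, t, f, t, t, f, t], [t, t, t, t, t, f,
    t], [t, t, f, f, f, f]]⟩,
  ⟨25, 1, [1233, 1828, 1860, 1293, 393, 181], [3664, 1249, 1097, 2077, 3524, 837], [1980, 2516, 3124, 1048, 685,
    1014, 1425, 2786, 3844, 1288, 3627, 1853], [2368, 3712, 1636, 3000, 341, 682, 2308, 3592, 1606, 2955, 2167,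
    3225], [t, f, f], 6, 2313,
    [[f, f, f, f, t, f, f, t], [t, f, f, t, f, t, f, f, f, f, t], [f, t, t, f, t, f, t, t, f, f, f], [t, t, t, t, t,
    f, t, f], [t, t, f, t, t, t, f, t, f], [t, t, f, t, t, f]]⟩,
  ⟨25, 2, [85, 3705, 2164, 945, 1300], [2389, 4073, 2457, 1909, 461, 3477], [2447, 3781, 1238, 2155, 2033, 2386,
    2076, 3108, 1109, 2218, 614, 955], [1217, 2114, 2213, 3322, 2358, 3611, 2237, 3286, 1013, 346, 2008, 2412], [t],
    5, 1300,
    [[t, t, f, f, t, f, f, t, f], [f, f, f, f, f, t, t, t, t, f], [f, t, t, f, f, f, t, t, t, f, f], [t, t, t, f, t,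
    t, t, t, f], [t, f, t, f, t, f, t, f, f, f, f], [t, t, f, t, f, t, t, f]]⟩,
  ⟨25, 3, [2145, 2005, 3933, 80, 932, 3393], [1453, 185, 3333, 1285, 717, 277], [2179, 3265, 1681, 3042, 3641, 1822,
    3683, 1969, 366, 695, 1660, 2964], [985, 366, 2072, 3116, 621, 950, 2377, 3726, 3746, 2035, 859, 429], [f], 15,
    1401,
    [[t, t, f, t, t, t, t, t, t, t], [t, f, f, t, f, t, f, f, t], [f, t, f, t, f, t, t, f, t], [t, t, t, t, f, t, f,
    t], [f, t, t, t, f, t, f, t, f, t], [f, t, t, t, f, f, f, f, t]]⟩,
  ⟨26, 1, [3065, 2905, 724, 17, 3933, 969], [2665, 2413, 1805, 3792, 3037], [1568, 2864, 3879, 1337, 410, 751, 1400,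
    2716, 2100, 3096, 1613, 2950], [1135, 2229, 730, 879, 2428, 3732, 3828, 1880, 2012, 2404, 2305, 3586], [f], 3,
    208,
    [[f, f, t, t, t, t, f, t, f, f, t], [f, f, t, f, f, t, t, f, t, f, f, t], [f, t, t, f, t, t, f, f, f, t], [t, t,
    f, t, t, f, t, t, t, t], [f, t, f, t, f, f, f, f, f, t], [f, t, t, f, t, t, f, f, f, f, t]]⟩,
  ⟨26, 2, [4021, 1769, 1773, 3581, 1709, 2933], [33, 3705, 2045, 3664, 2093, 1797], [3026, 3427, 1147, 2205, 652,
    964, 1378, 2739, 2589, 3878, 1683, 3041], [4083, 1361, 1457, 2770, 1143, 2201, 1908, 2456, 265, 526, 3730, 2019],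
    [t, f], 4, 516,
    [[f, t, t, f, t, f, f, t], [t, t, t, f, f, f, t], [t, t, t, f, t, f, f, f, f, t], [f, t, f, f, f, t, t, f, f],
    [t, t, t, f, f, t, f, t], [f, t, f, t, t, f, t, f, t]]⟩,
  ⟨26, 3, [1653, 1473, 516, 2397, 3860, 3557], [3965, 1533, 533, 1789, 657], [2201, 3310, 3077, 1034, 3537, 1634,
    1720, 3036, 437, 730, 1191, 2297], [2221, 3318, 1594, 2847, 2561, 3842, 986, 367, 2712, 4076, 3389, 1558], [t, f,
    f, f], 9, 1545,
    [[t, f, t, f, f, t, t, t], [f, f, t, f, f, t, t, f, t], [f, t, f, t, t, f, f, t, f], [f, f, t, f, t, f, f, f, f,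
    f], [t, f, f, f, t, f, t], [f, t, t, f, t, t, t, f, t, f]]⟩,
  ⟨27, 1, [420, 2356, 369, 3281, 2253, 3716, 913, 673], [1088, 832, 1332, 2485, 1725], [3826, 1875, 1558, 2859, 2643,
    4001, 3516, 1748, 1635, 2993, 141, 198], [934, 507, 638, 919, 3441, 1682, 350, 679, 1156, 2248, 3389, 1558], [t,
    f, f], 5, 3949,
    [[t, f, t, f, t, t, t, t, f, t, t], [f, f, f, f, f, t, t, t, f, f, f], [f, f, f, t, t, t, t, t, t], [f, f, f, t,
    f], [t, f, f, f, t, f, f, f, f, t], [f, t, t, t, t, t, f, f, t, f]]⟩,
  ⟨27, 2, [101, 237, 2112, 645, 3984, 1069, 1233, 2596], [3129, 2089, 2565, 1053, 2948], [3266, 1091, 2468, 3832,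
    1043, 2081, 1620, 2984, 2732, 4084, 242, 83], [3132, 1044, 1427, 2785, 2591, 3877, 3086, 1031, 2271, 3173, 855,
    425], [f], 5, 1424,
    [[t, t, f, t, f, f, f, f, t], [t, f, t, f, t, f, t, f, f, t], [f, t, f, f, t, f, f, t, t], [t, t, t, f, t, f, f,
    t], [t, f, t, t, t, t, t], [f, t, f, t, f, t, f, f, f, f, t]]⟩,
  ⟨27, 3, [2013, 3313, 3673, 3269, 3145], [181, 20, 2461, 2448, 1233], [992, 368, 1175, 2281, 2587, 3885, 2862, 3383,
    3882, 1343, 3017, 3406], [1195, 2301, 3600, 1824, 3370, 1599, 1779, 2897, 305, 530, 2441, 3790], [f], 5, 125,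
    [[f, t, t, f, f, t, t, f, t, f, t], [t, f, t, t, t, f, t, f, f, f, t], [t, t, f, t, t, t, t, f, t, f, t], [f, t,
    t], [t, f, t, t, f, f, t], [f, t, f, f, t, t, f, f, t]]⟩]

theorem chk_D3 : D3.all chk = true := by decide +kernel

/-- certificates -/
def D4 : List Crt := [
  ⟨28, 1, [996, 2729, 3541, 2045, 569, 1124], [1757, 109, 1689, 3449, 157, 2489], [1920, 2496, 922, 495, 3189, 1178,
    3642, 1823, 1838, 2359, 3606, 1835], [3979, 1485, 2812, 3924, 2243, 3137, 3227, 1261, 2063, 3077, 991, 357], [f],
    15, 2321,
    [[f, f, t, t, f, f, t], [t, t, t, f, t, f, f, t], [f, f, t, f, t, f, f, f, t], [f, t, t, t, t, f, t, t], [t, f,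
    t, t, f, f, f, f, t, t], [t, t, f, t, t, f, t, f, t]]⟩,
  ⟨28, 2, [4073, 3941, 85, 4036, 948], [3589, 2669, 2541, 2289, 149, 3333], [1378, 2739, 928, 496, 2957, 3526, 2214,
    3323, 1380, 2744, 2848, 3376], [3462, 1739, 3534, 1607, 3812, 1912, 1075, 2065, 3726, 1991, 413, 742], [t, f, f],
    9, 2921,
    [[f, f, t, f, t, f, f, f], [f, t, t, f, f, t, t, f], [f, t, t, t, t, t, t], [t, f, f, t, f, t, f, f, t], [t, t,
    f], [f, t, f, t, f, f, f, f]]⟩,
  ⟨28, 3, [257, 2393, 3620, 3969, 1493], [1857, 3669, 1545, 129, 2537, 1637], [2177, 3266, 3731, 2017, 2748, 4052,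
    1458, 2771, 3812, 1912, 308, 536], [3452, 1684, 890, 415, 3321, 1118, 4081, 1362, 3390, 1559, 1423, 2757], [t, f,
    f], 5, 2749,
    [[f, t, f, f, f, t, t, t], [f, f, f, f, t, t, f], [f, f, f, t, f, f, f, f, f, t], [t, t, f, t, t, t], [f, t, t,
    f, f, t, t, t, f], [f, f, t, f, f, f, f, t, f]]⟩,
  ⟨29, 1, [3792, 1077, 717, 1588, 3136], [1773, 2225, 65, 3577, 2525, 3620], [1875, 2465, 2951, 3529, 2159, 3253,
    2341, 3642, 3508, 1752, 606, 935], [944, 464, 2602, 3903, 3894, 1307, 2599, 3897, 1472, 2624, 2144, 3248], [f],
    15, 3589,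
    [[t, f, f, f, t, f, t, t, f, t], [f, f, t, f, t, t, t, f, t, t, t], [f, t, f, t, t, t, f, f, t, f, t], [f, t, t,
    f, t, f, f, t], [t, f, t, f, f, t, t, f, t, f, t], [f, f, f, t]]⟩,
  ⟨29, 2, [285, 3949, 849, 1885, 2384, 3188], [1097, 1360, 1085, 420, 3677], [925, 486, 2703, 4037, 3811, 1905, 2334,
    3623, 2608, 3856, 3089, 1058], [3490, 1779, 1042, 2083, 3265, 1090, 1017, 350, 2137, 3246, 1620, 2984], [t, f, f,
    f], 5, 461,
    [[t, f, t, t, t, f, t, f, f], [f, f, t, f, t, t], [t, t, f, f, f, f], [t, f, t, f, f, t, t, f], [f, t, f, f, f,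
    f], [t, t, f, t, f, t, t, f, t]]⟩,
  ⟨29, 3, [1973, 3273, 2045, 2093, 3765], [320, 2609, 3313, 3652, 2777], [1821, 2342, 248, 92, 1311, 2597, 1574,
    2875, 2802, 3923, 1413, 2762], [421, 762, 3804, 1892, 1861, 2442, 1119, 2213, 1889, 2482, 2341, 3642], [t], 9,
    4073,
    [[t, t, f, t, t, f, f, t, t, t, f], [f, f, t, f, f, t, f, f, f], [t, f, f, t, t, f, t, f], [f, f, f, f, t, t, t,
    f, f], [f, f, f, f, f, t, f], [f, t, t, f, f, t, f, f]]⟩,
  ⟨30, 1, [2313, 2121, 3601, 653, 3012, 1685, 3297, 2212], [3429, 1977, 1965, 2625, 3497, 969], [2721, 4082, 3238,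
    1275, 267, 525, 3924, 1448, 991, 357, 746, 895], [3596, 1796, 3825, 1874, 3913, 1422, 441, 734, 3960, 1436, 1092,
    2184], [t], 15, 2073,
    [[t, f, f, t, f, f, t, f, f], [f, f, t, t, f, t, f, f, f], [t, t, t, t, f, f, f, t, f, f], [t, t, t, t, f, f, t,
    t, t, f], [t, f, t, f, f, t, f, t, f, f], [f, t, f, t, f, t, f, f, f, t, f]]⟩,
  ⟨30, 2, [393, 1185, 4089, 1332, 169, 1348], [1385, 3876, 320, 2689, 500, 645], [1600, 2944, 2857, 3390, 2217, 3326,
    470, 619, 503, 601, 479, 613], [1980, 2516, 3793, 1890, 413, 742, 3605, 1834, 1935, 2501, 1147, 2205], [f], 15,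
    2512,
    [[f, f, t, f, f, t, f, f, f, f, t], [f, t, t, t, t, f, f, t, t, f, t], [t, t, t, t, f, t, f, t, f, t], [t, f, f,
    t, t, f, f, t], [f, f, f, f, t, t, f, t, f, t, t], [f, f, t, f, t, f, t, f, t, t]]⟩,
  ⟨30, 3, [1973, 3757, 3049, 401, 2917, 2041, 1433, 2741], [1860, 17, 340, 1909, 977, 2433], [1824, 2352, 2239, 3285,
    2509, 3654, 3657, 1934, 2437, 3786, 447, 725], [2281, 3198, 2266, 3183, 1190, 2299, 1796, 2312, 2496, 3648, 456,
    588], [f], 3, 3156,
    [[f, f, f, t], [f, t, f, t, f, t, t, t, t], [t, f, t, t, t, f, t], [t, t, t, t, f, t, t, t], [f, f, f, f, f, t,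
    t, f, f, t], [f, t, f, t, t, t, t, t, f, t]]⟩,
  ⟨31, 1, [3485, 1221, 468, 401, 3969], [3577, 1509, 585, 4005, 1252], [3492, 1784, 2184, 3276, 2979, 3569, 1737,
    2894, 1575, 2873, 460, 580], [3544, 1644, 2316, 3588, 2776, 3948, 1, 2, 3712, 1984, 2336, 3632], [t], 9, 301,
    [[f, t, f, f, f, t, f], [f, f, f, f, f, f, f, f], [f, f, f, t, f, t, t, f, f], [f, t, t, t, t, f, t, f, t, f],
    [t, t, t, t, f, f, f, t, f, f], [f, t, t, t, t, t, f, t, f, t, f]]⟩,
  ⟨31, 2, [2089, 1844, 3545, 1493, 4069], [2625, 3364, 1588, 3716, 1668, 2064], [409, 750, 503, 601, 22, 43, 3730,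
    2019, 1355, 2701, 3068, 3412], [2624, 3968, 1916, 2452, 3856, 1312, 1261, 2166, 925, 486, 3811, 1905], [t, t, t,
    f], 9, 1781,
    [[f, f, t, f, t, t, f, t], [t, f, t, f, t, t, f, t, t], [t, f, f, f, f, t, f, f], [t, f, t, t, t], [f, f, f, f,
    f, t, t, f, t], [f, f, f, f, t, t, t, t, t]]⟩,
  ⟨31, 3, [565, 1625, 1265, 3817, 1781, 2105], [121, 1701, 1397, 3109, 3753], [2770, 3939, 4020, 1496, 941, 502,
    2509, 3654, 1043, 2081, 2033, 2386], [3058, 3411, 2175, 3221, 3809, 1906, 1273, 2142, 1472, 2624, 27, 45], [f],
    5, 1769,
    [[t, t, t, t, t, t, t, f, f, t], [f, f, t, f, f, t, t, t], [t, f, f, t, f, t, t, f, t], [t, f, t, f, t, t, t],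
    [f, f, f, t, t, t, f, t, t, t, t], [t, f, f, t, t, t]]⟩,
  ⟨32, 1, [272, 3188, 2276, 433, 3429, 977, 3845], [1585, 660, 65, 132, 645, 2768], [1, 2, 2920, 3516, 3756, 2036,
    2804, 3928, 2968, 3564, 1784, 2908], [3877, 1338, 3611, 1837, 579, 897, 3647, 1813, 1254, 2171, 3996, 1508], [t,
    f], 9, 3117,
    [[t, f, f, f, f, t, f, f], [f, f, f, f, t, f, t, t, t], [f, t, f, t, t, f, f, f, t], [t, t, f, f, t, t, t, f, f,
    t], [f, t, f, f, f, f, f, t, f, f], [t, t, f, f, f, f]]⟩,
  ⟨32, 2, [1088, 2125, 2557, 3300, 3097], [3517, 80, 1541, 3213, 3149], [2995, 3537, 3489, 1778, 1512, 2684, 1283,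
    2561, 1147, 2205, 886, 411], [1205, 2266, 773, 266, 2859, 3389, 2891, 3469, 1892, 2488, 1793, 2306], [f], 5, 1028,
    [[t, f, t, t, t, f, f, f, f, t, t], [f, t, f, f, f, f, t, t], [f, f, f, t, f, f, t, t], [t, t, t, f, f, f, f, f,
    t], [f, t, t, f, f, f, f, t, f, t, t], [f, f, f, t, t, f, f, f, t, t]]⟩,
  ⟨32, 3, [689, 1572, 3012, 2181, 1369, 129], [2569, 3860, 4069, 1108, 2313, 1689], [490, 639, 3480, 1772, 205, 70,
    54, 27, 1151, 2197, 3442, 1683], [777, 270, 870, 443, 300, 564, 1143, 2201, 1873, 2466, 1830, 2363], [t, f, f],
    9, 1121,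
    [[f, t, t, t, t, t], [f, t, t, t, f, f, t], [f, f, f, f, f, f, t, f], [t, f, t, t, f, t, t, t], [t, t, t, f, f,
    f, t, t, f], [f, f, t, f, t, t, f, t, f, t]]⟩,
  ⟨33, 1, [2569, 3129, 245, 2304, 3233], [260, 1093, 3205, 1397, 3497], [2695, 4041, 2808, 3932, 3768, 2012, 4081,
    1362, 39, 57, 3000, 3548], [146, 227, 362, 703, 1684, 3048, 3178, 1215, 3350, 1579, 77, 134], [f], 9, 1424,
    [[t, f, t, t, f, f, f, t, f, t, t], [f, f, t, f, f, t, t, f, f, t], [t, t, t, f, t, t, t, t], [f, f, t, t, t, t,
    f, t, t, t], [t, t, f, t, t], [t, t, t, f, t, f, f, f, t, f, t]]⟩,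
  ⟨33, 2, [628, 2965, 2129, 20, 3545, 1744], [165, 3957, 3408, 1124, 1229, 1009], [2327, 3625, 26, 47, 3978, 1487,
    2097, 3090, 2996, 3544, 1214, 2263], [413, 742, 801, 306, 2188, 3268, 858, 431, 1189, 2298, 1261, 2166], [t], 9,
    1913,
    [[t, f, t, t, f, t, f, f, t, f], [t, t, t, f, f, f, f, t, t, f, t, f], [f, f, t, f, t, f, t, f], [f, f, f, f, f,
    f, t, f, f, f, f], [t, f, t, t, f, f, f, t, f, f, f], [t, t, t, f, t, f]]⟩,
  ⟨33, 3, [1229, 281, 3636, 3169, 2725, 2973, 2093, 2245], [2681, 2881, 3053, 3297, 3908], [3756, 2036, 1218, 2115,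
    323, 641, 2012, 2404, 2307, 3585, 2428, 3732], [2547, 3665, 3570, 1619, 1173, 2282, 3731, 2017, 808, 316, 1669,
    3018], [f], 9, 1588,
    [[f, f, f, f, f, f, f, t, f, f, t], [f, t, t, f, t, f, f, t], [f, t, t, f, t], [f, t, f, f, f, f, t, t, f, t],
    [t, t, t, f, f, t, t, f, t], [t, f, t, t, t, t, f, f, t]]⟩,
  ⟨34, 1, [2129, 2909, 1124, 1657, 1988], [2753, 1717, 1949, 2905, 1025, 905, 1509, 4021], [1396, 2712, 734, 871,
    3843, 1281, 345, 686, 3311, 1141, 746, 895], [502, 603, 1339, 2589, 1673, 3022, 686, 1015, 3681, 1970, 184, 220],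
    [f], 12, 1901,
    [[f, t, t, t, t, t], [t, f, t, t, t, t, f, t, f, t, t], [f, t, t, t, f, f, t, t, f, t], [t, t, t, f, t, f, f, t],
    [t, f, f, t, t, t, f, f, f, t, t], [f, f, t, f, t, f, f, t, t]]⟩,
  ⟨34, 2, [1121, 3437, 1893, 1533, 1473], [3997, 2340, 185, 457, 1165, 2212, 1828, 2537], [1675, 3021, 2623, 3861,
    1319, 2617, 998, 379, 2283, 3197, 3376, 1552], [1938, 2531, 1934, 2503, 415, 741, 1912, 2460, 2343, 3641, 3301,
    1146], [f], 15, 2849,
    [[t, f, f, t, t, f, t, t], [f, f, f, t, f, t, f, t, t, t], [t, t, t, f, t, t, t, t, t], [t, t, t, f, t, f, t, f,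
    t, t], [f, f, t, f, t, f, f, f, t], [f, f, t, t, t, t, t]]⟩]

theorem chk_D4 : D4.all chk = true := by decide +kernel

/-- certificates -/
def D5 : List Crt := [
  ⟨34, 3, [1105, 2145, 2829, 1689, 724, 481, 2729], [253, 1988, 1493, 1365, 65, 121, 3269, 1201], [275, 545, 1813,
    2346, 1595, 2845, 1183, 2277, 2886, 3467, 1916, 2452], [3722, 1999, 698, 991, 3632, 1808, 3258, 1247, 78, 135,
    75, 141], [t], 9, 3472,
    [[f, t, f, t, f, f, f, t, f, f], [f, t, t, f, f, f, t, t, f], [f, f, f, t, t, t, t, t, f], [f, f, f, f, t, f, f,
    t, f], [t, f, t, f, f, f, t, f, f], [t, t, f, f, f, t, f, f, t, f, f]]⟩,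
  ⟨35, 1, [1429, 909, 1885, 3829, 3749, 2164], [3561, 769, 3364, 3949, 20, 1461], [665, 1006, 1507, 2673, 3310, 1143,
    4001, 1522, 1378, 2739, 2568, 3852], [362, 703, 4049, 1378, 1034, 2063, 4020, 1496, 2428, 3732, 3828, 1880], [f],
    15, 4033,
    [[f, f, f, t, t, f, t, t], [t, f, t, f, t, f, f, t, t, t], [f, t, t, f, t, t, f, t, f, t], [f, f, f, t, t, f, t,
    t, f, t], [f, t, f, f, t, f, f, t], [f, t, f, f, t, f, f, t, f, t]]⟩,
  ⟨35, 2, [1053, 841, 1921, 689, 1389, 2029], [233, 2553, 484, 3797, 3833, 3117, 3493], [3083, 1037, 1441, 2802,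
    3198, 1175, 598, 939, 4088, 1372, 3294, 1127], [2442, 3791, 26, 47, 3538, 1635, 2619, 3869, 556, 820, 989, 358],
    [t, f, f], 6, 724,
    [[f, f, t, t, f, t, f, f, f, f], [t, f, f, t, f, f, f, t], [t, t, t, t, t, f, f, f, t], [f, t, f, f, f, f, t, f,
    f, f], [f, t, f, t, t, f, f, t, t], [t, t, f, t, t, f, t, f, t]]⟩,
  ⟨35, 3, [1045, 3129, 329, 181, 2989], [3088, 2372, 2429, 4025, 2228], [242, 83, 2388, 3752, 4084, 1368, 2635, 3981,
    1620, 2984, 3885, 1334], [265, 526, 957, 470, 312, 540, 2642, 4003, 1255, 2169, 3901, 1302], [f], 6, 457,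
    [[f, f, t, t, f, t, t, t, t], [t, f, f, t], [f, t, f, t, t, f, f, t, t, f, t], [t, f, f, t, t, f, t], [t, t, f,
    t, t, t, f, t, f, t], [f, t, t]]⟩,
  ⟨36, 1, [1101, 3649, 3109, 689, 1717], [2640, 500, 2836, 3673, 2304], [2556, 3668, 530, 803, 2346, 3647, 1213,
    2262, 639, 917, 269, 518], [880, 400, 599, 937, 1421, 2758, 361, 702, 1031, 2057, 1418, 2767], [f], 5, 3693,
    [[t, f, f, f, f, f, t, t, t, t], [f, f, f, t, f, f, f, t, t, t, t], [f, f, f, t, f, f, t], [f, t, f, t, t, f, t,
    t, f, t, t], [t, t, f, t, f, f, t, t, t, f, t], [t, t, t, t, f, f, f, f, t]]⟩,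
  ⟨36, 2, [4036, 628, 3573, 453, 313], [1789, 1229, 3300, 1085, 813, 3577, 965, 3345], [1281, 2562, 116, 152, 726,
    875, 1468, 2772, 164, 248, 2262, 3179], [2828, 3332, 712, 844, 536, 812, 1243, 2157, 2913, 3506, 781, 262], [t],
    5, 1437,
    [[t, f, f, f, t, t, f, f, f, f, f], [t, t, t, t, t, t, t, f, f], [t, f, t, f, f, f, f, t, f, f], [f, t, t, t, f],
    [f, t, f, f, f, f, t, t, t, f, f], [f, f, t, t, f, f, t, t, f]]⟩,
  ⟨36, 3, [2713, 3453, 689, 3649, 3377, 1825], [3233, 1088, 3012, 1701, 132, 3833], [877, 438, 1682, 3043, 342, 683,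
    526, 775, 3480, 1772, 2199, 3305], [1937, 2530, 2506, 3663, 2812, 3924, 2303, 3157, 747, 893, 1302, 2603], [t],
    9, 1105,
    [[f, f, f, t, t, t, t, f, f], [f, f, f, t, t, f, t, t, f], [t, f, t, f], [t, f, t, f, f, f, t, t, f, f], [t, t,
    f, t, f, t, f, t, f, t, f], [t, f, t, t, f, t, t, t, f, f]]⟩,
  ⟨37, 1, [821, 1449, 945, 249, 1616, 3757, 3313], [2921, 2833, 3445, 2809, 2553, 3957], [3668, 1960, 2958, 3527,
    243, 81, 1422, 2759, 3605, 1834, 2442, 3791], [3964, 1428, 1747, 2913, 949, 474, 2639, 3973, 2283, 3197, 3382,
    1563], [t], 9, 3033,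
    [[f, t, f, f, f, f, t, f, f], [f, t, t, f, t, f], [t, t, f, f, t, t, t, t, f, f], [t, t, f, t, t, t, t, f, t, f,
    f], [f, t, f, f, t, t, f, t, f, f, f], [f, f, f, f, t, f, t, f, t, f, f]]⟩,
  ⟨37, 2, [1641, 153, 553, 3757, 2833, 557], [80, 3984, 3876, 837, 625, 285], [1275, 2141, 954, 479, 1508, 2680,
    2597, 3898, 262, 523, 563, 785], [3403, 1677, 1119, 2213, 2870, 3355, 783, 261, 3586, 1795, 3752, 2044], [f], 9,
    1433,
    [[t, f, f, f, f, f, f, t], [f, t, t, t, t], [f, t, t, f, t], [f, t, f, t, f, f, t, t, t, t], [f, f, f, t, f, t,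
    t], [t, t, f, f, t, f, f, f, f, t, t]]⟩,
  ⟨37, 3, [3001, 2340, 1097, 185, 3701, 1616], [3908, 2185, 916, 2645, 1709], [522, 783, 2886, 3467, 270, 519, 3216,
    1248, 1581, 2870, 886, 411], [900, 456, 3238, 1275, 2476, 3828, 3484, 1764, 3555, 1649, 3629, 1846], [f], 9, 2645,
    [[f, t, f, f, f, f, t, f, t], [f, f, t, f, t], [f, f, f, f, f, t, t, t, f, f, t], [t, f, t, t, t, f, t, f, t, f,
    t], [t, f, t, f, f, f, f, f, t, f, t], [f, f, f, t, t, f, t, t, f, t]]⟩,
  ⟨38, 1, [2005, 3005, 2225, 852, 649, 2925], [2225, 169, 905, 3833, 1665], [976, 352, 3398, 1675, 885, 410, 1678,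
    3015, 2058, 3087, 602, 943], [1817, 2350, 1318, 2619, 3736, 2028, 1998, 2375, 145, 226, 2854, 3387], [t, t, t, t,
    f], 6, 1040,
    [[f, f, t, f, f, t, f, f], [f, f, f, t, f, f, f, f, t, t], [f, f, t, t, t, t, t, f, t], [t, f, t, t, f, f, f, t],
    [t, f, f, t, f, f, f, f], [f, t, t, f, t, f, f, f]]⟩,
  ⟨38, 2, [2397, 2196, 3805, 2960, 461, 1397], [553, 1769, 3773, 2317, 797], [750, 887, 1999, 2373, 1908, 2456, 3470,
    1735, 1075, 2065, 1615, 2949], [688, 976, 1814, 2347, 505, 606, 597, 938, 2381, 3718, 1245, 2150], [f], 9, 3773,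
    [[f, t, f, f, f, f, f, t, t, t, t], [t, f, f, f, f, f, t, t], [f, t, f, f, f, f, t, t], [t, f, t, t, t, t, t, f,
    t], [f, f, t, t, t, f, t], [f, f, t, t, f, t]]⟩,
  ⟨38, 3, [3860, 1329, 881, 1709, 965], [4093, 1332, 1529, 1389, 369, 2069, 689], [4046, 1351, 115, 145, 3410, 1699,
    2467, 3825, 2615, 3865, 3956, 1432], [1321, 2622, 1042, 2083, 2329, 3630, 3764, 2008, 1492, 2664, 716, 836], [t,
    t, f], 5, 3457,
    [[f, f, t, t, f, f, t, t, f, t], [t, f, t, t, f, t, f, t], [f, f, f, t, f, t, f], [t, f, t, f, t], [t, f, t, f,
    f, f, f, f, t], [t, t, t, f, f, t, f, f, t, t]]⟩,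
  ⟨39, 1, [1169, 569, 3024, 1332, 4009, 2473], [369, 528, 1429, 1300, 2692], [421, 762, 3492, 1784, 3569, 1618, 808,
    316, 460, 580, 1194, 2303], [1989, 2378, 3621, 1850, 1008, 336, 1948, 2532, 2529, 3698, 3232, 1264], [f], 9, 3380,
    [[t, t, t, t, t, f, f, f, f, t], [t, t, t, t, t, t, f, f, f, t], [f, f, t, f, t, t, t, t, f, f, t], [f, t, t, t,
    f, f, t, f, t], [t, f, f, t, f, f, f, t, f, f, t], [f, t, f, f, t, t, t, f, t, t]]⟩,
  ⟨39, 2, [1513, 2393, 3284, 3873, 468], [1769, 2425, 313, 1365, 2565, 3673], [1211, 2269, 3629, 1846, 3820, 1908,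
    2281, 3198, 834, 387, 2231, 3289], [3410, 1699, 3398, 1675, 385, 706, 1064, 2108, 342, 683, 898, 451], [f], 15,
    3413,
    [[t, t, f, f, t, t, f, f, f, t, t], [t, t, t, f, t, f, t, t, t, t], [t, t, t, t, f, t, f, t], [t, f, f, t, t, f,
    t, t, f, t], [t, t, f, f, f, t, t, f, t], [t, t, f, f, f, f, t, t, t]]⟩,
  ⟨39, 3, [3649, 965, 1709, 468, 260], [2653, 905, 3604, 1805, 901, 1689], [2658, 4019, 1929, 2510, 3600, 1824, 306,
    531, 2598, 3899, 1125, 2234], [381, 662, 2706, 4067, 2263, 3177, 3321, 1118, 3195, 1181, 2564, 3848], [t], 9,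
    2405,
    [[t, f, t, t, f, t, t, f], [t, t, t, f, t, t, f], [t, t, f, f, t, t, f, f, f], [f, f, f, t, f, t, t, t, f], [f,
    t, t, f, f, f, t, f, f, f], [t, f, f, t, t, f, f, f, t, f]]⟩]

theorem chk_D5 : D5.all chk = true := by decide +kernel

/-- all certificates -/
def DD : List Crt := D0 ++ D1 ++ D2 ++ D3 ++ D4 ++ D5

theorem chk_DD : ∀ d ∈ DD, chk d = true := by
  intro d hd
  simp only [DD, List.mem_append] at hd
  rcases hd with ((((hd | hd) | hd) | hd) | hd) | hd
  · exact List.all_eq_true.1 chk_D0 d hd
  · exact List.all_eq_true.1 chk_D1 d hd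
  · exact List.all_eq_true.1 chk_D2 d hd
  · exact List.all_eq_true.1 chk_D3 d hd
  · exact List.all_eq_true.1 chk_D4 d hd
  · exact List.all_eq_true.1 chk_D5 d hd

theorem cover_DD : ∀ i < 40, i ≠ 0 → ∀ l < 4, l ≠ 0 → (i ≠ 1 ∨ l ≠ 1) → ∃ d ∈ DD, d.i = i ∧ d.l = l := by
  have h : allB 40 (fun i => bif Nat.beq i 0 then true else allB 4 fun l => bif Nat.beq l 0 then true else
      bif (Nat.beq i 1 && Nat.beq l 1) then true else DD.any fun d => Nat.beq d.i i && Nat.beq d.l l) = true := by
    decide +kernel
  intro i hi hi0 l hl hl0 hil
  have h1 := allB_spec h i hi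
  have e1 : Nat.beq i 0 = false := Bool.eq_false_iff.2 fun h => hi0 (beq_eq h)
  have e2 : Nat.beq l 0 = false := Bool.eq_false_iff.2 fun h => hl0 (beq_eq h)
  have e3 : (Nat.beq i 1 && Nat.beq l 1) = false := by
    rw [Bool.and_eq_false_iff]
    rcases hil with h | h
    · exact Or.inl (Bool.eq_false_iff.2 fun h' => h (beq_eq h'))
    · exact Or.inr (Bool.eq_false_iff.2 fun h' => h (beq_eq h'))
  simp only [e1, cond_false] at h1
  have h2 := allB_spec h1 l hl
  simp only [e2, e3, cond_false] at h2
  obtain ⟨d, hd, h3⟩ := List.any_eq_true.1 h2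
  rw [Bool.and_eq_true] at h3
  exact ⟨d, hd, beq_eq h3.1, beq_eq h3.2⟩

end Cfsg.Agent.H259.U6
end

-- part: H259/U6/Frame
section
/-!
# `SU₆(2)` in codes (6): noncentral elements are commutators of generating pairs

Given the representatives `X i` of the classes (up to scalars and `GU₆(2)`, helper767): every element of `SU₆(2)`
which is neither central nor a transvection is a commutator of a generating pair.
-/

set_option autoImplicit false
set_option linter.unusedSectionVars false
set_option maxRecDepth 100000

namespace Cfsg.Agent.H259.U6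

open Cfsg Cfsg.Agent.LieClassical.HermBasic Cfsg.Agent.ClassicalGeometry.UnitTransv
  Cfsg.Agent.SporadicStructure.UnitTwo
open Cfsg.Agent.LieClassical.HermSiegel (mat mat_mul mat_injective)
open Cfsg.Agent.ClassicalGeometry.PSUAutCount (gm guConj gm_inv_mul gm_mul_inv mat_guConjFun herm_gm gm_inv_mulVec
  gm_mulVec_inv)
open scoped Matrix

section F

variable {F : Type*} [Field F] [Fintype F] (hF : Fintype.card F = 2 ^ 2) {ω : F} (hω : ω ^ 2 + ω + 1 = 0)

/-- a commutator of a generating pair -/
def GoodG (g : SU 6 F 2) : Prop := ∃ a b : SU 6 F 2, g = a * b * a⁻¹ * b⁻¹ ∧ Subgroup.closure {a, b} = ⊤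

/-- transport by an element of `GU` -/
theorem good_conj {a b g : SU 6 F 2} (c : GU 6 F 2) {M : Matrix (Fin 6) (Fin 6) F}
    (hab : Subgroup.closure {a, b} = ⊤) (hM : mat (a * b) = M * mat (b * a)) (hc : gm c * mat g = M * gm c) :
    GoodG g := by
  refine ⟨guConj c⁻¹ a, guConj c⁻¹ b, ?_, ?_⟩
  · have h1 : ∀ x : SU 6 F 2, mat (guConj c⁻¹ x) = gm c⁻¹ * mat x * gm c := by
      intro x
      have := mat_guConjFun c⁻¹ x
      rw [inv_inv] at this
      exact this
    have h2 : g * (guConj c⁻¹ b * guConj c⁻¹ a) = guConj c⁻¹ a * guConj c⁻¹ b := by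
      apply mat_injective
      rw [← map_mul, ← map_mul, mat_mul, h1, h1, hM]
      have h3 : mat g = gm c⁻¹ * (M * gm c) := by rw [← hc, ← Matrix.mul_assoc, gm_inv_mul, Matrix.one_mul]
      rw [h3]
      simp only [Matrix.mul_assoc]
      rw [← Matrix.mul_assoc (gm c) (gm c⁻¹), gm_mul_inv, Matrix.one_mul]
    rw [← h2]
    group
  · have h1 : ({guConj c⁻¹ a, guConj c⁻¹ b} : Set (SU 6 F 2)) = (guConj c⁻¹).toMonoidHom '' {a, b} := by
      rw [Set.image_insert_eq, Set.image_singleton]
      rfl
    rw [h1, ← MonoidHom.map_closure, hab, ← MonoidHom.range_eq_map]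
    exact MonoidHom.range_eq_top.2 (guConj c⁻¹).surjective

theorem X_zero : H767.U6.X ω 0 = 1 := by
  ext r c
  show H767.U6.d4 ω (H767.U6.cd 1180663682709764194305 r c) = (1 : Matrix (Fin 6) (Fin 6) F) r c
  fin_cases r <;> fin_cases c <;> rfl

theorem mx_one : ∀ x < 4096, mx (H767.U6.XP.getD 1 0) x = tv 13 x := by
  have h : allB 4096 (fun x => Nat.beq (mx (H767.U6.XP.getD 1 0) x) (tv 13 x)) = true := by decide +kernel
  exact fun x hx => beq_eq (allB_spec h x hx)

include hF hω in
theorem X_one (x : Fin 6 → F) : H767.U6.X ω 1 *ᵥ x = x + hermForm 6 F 2 x (dec ω 13) • dec ω 13 := by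
  obtain ⟨y, hy, rfl⟩ := exists_code hF hω x
  rw [H767.U6.X, ← dec_mx hF hω, mx_one y hy, dec_tv hF hω (by norm_num)]

theorem scalar_central {g : SU 6 F 2} {s : F} (h : mat g = s • (1 : Matrix (Fin 6) (Fin 6) F)) :
    g ∈ Subgroup.center (SU 6 F 2) := by
  rw [Subgroup.mem_center_iff]
  intro x
  apply mat_injective
  rw [mat_mul, mat_mul, h, Matrix.mul_smul, Matrix.smul_mul, Matrix.mul_one, Matrix.one_mul]

include hF hω in
/-- elements with a representative -/
theorem good_or_T {g : SU 6 F 2} (hg : g ∉ Subgroup.center (SU 6 F 2))
    (h : ∃ i < 40, ∃ l : ℕ, (l = 1 ∨ l = 2 ∨ l = 3) ∧ ∃ c : GU 6 F 2,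
      gm c * mat g = (H767.U6.d4 ω l • H767.U6.X ω i) * gm c) :
    GoodG g ∨ ∃ (v : Fin 6 → F) (hv : hermForm 6 F 2 v v = 0), v ≠ 0 ∧ g = T hF v hv := by
  obtain ⟨i, hi, l, hl, c, hc⟩ := h
  have hl0 : l ≠ 0 := by omega
  have hl4 : l < 4 := by omega
  by_cases h0 : i = 0
  · subst h0
    refine absurd (scalar_central (s := H767.U6.d4 ω l) ?_) hg
    rw [X_zero, Matrix.smul_mul, Matrix.one_mul] at hc
    have h3 : mat g = gm c⁻¹ * (H767.U6.d4 ω l • gm c) := by
      rw [← hc, ← Matrix.mul_assoc, gm_inv_mul, Matrix.one_mul]
    rw [h3, Matrix.mul_smul, gm_inv_mul]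
  · by_cases h1 : i = 1 ∧ l = 1
    · obtain ⟨rfl, rfl⟩ := h1
      right
      have hd : hm 13 13 = 0 := rfl
      have hd' := (herm_eq_zero_iff hF hω 13 13).2 hd
      have h1 : H767.U6.d4 ω 1 • H767.U6.X ω 1 = H767.U6.X ω 1 := one_smul F _
      rw [h1] at hc
      have hv : hermForm 6 F 2 (gm c⁻¹ *ᵥ dec ω 13) (gm c⁻¹ *ᵥ dec ω 13) = 0 := by rw [herm_gm, hd']
      refine ⟨gm c⁻¹ *ᵥ dec ω 13, hv, ?_, ?_⟩
      · intro h
        have h2 := gm_mulVec_inv c (dec ω 13)
        rw [h, Matrix.mulVec_zero] at h2
        have h3 := congrFun h2 0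
        exact zero_ne_one h3
      · apply ext_act
        intro x
        have h2 : act g x = gm c⁻¹ *ᵥ (H767.U6.X ω 1 *ᵥ (gm c *ᵥ x)) := by
          show mat g *ᵥ x = _
          rw [Matrix.mulVec_mulVec, Matrix.mulVec_mulVec, Matrix.mul_assoc, ← hc, ← Matrix.mul_assoc, gm_inv_mul,
            Matrix.one_mul]
        rw [h2, X_one hF hω, act_T, Matrix.mulVec_add, Matrix.mulVec_smul, gm_inv_mulVec,
          ← herm_gm c⁻¹ (gm c *ᵥ x), gm_inv_mulVec]
    · left
      have h2 : i ≠ 1 ∨ l ≠ 1 := by tauto
      obtain ⟨d, hd, rfl, rfl⟩ := cover_DD i hi h0 l hl4 hl0 h2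
      obtain ⟨a, b, hab, hM⟩ := chk_spec hF hω d hl4 (chk_DD d hd)
      exact good_conj c hab hM hc

end F

end Cfsg.Agent.H259.U6
end

-- part: H259/U6/Main
section
/-!
# `SU₆(2)` in codes (7): the theorem

Every noncentral element of `SU₆(2)` which is not a transvection is a commutator of a generating pair.
-/

set_option autoImplicit false
set_option linter.unusedSectionVars false

namespace Cfsg.Agent.H259.U6

open Cfsg Cfsg.Agent.LieClassical.HermBasic Cfsg.Agent.ClassicalGeometry.UnitTransv
  Cfsg.Agent.SporadicStructure.UnitTwo

section F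

variable {F : Type*} [Field F] [Fintype F] (hF : Fintype.card F = 2 ^ 2)

/-- a noncentral element of `SU₆(2)` is a commutator of a generating pair or a transvection -/
theorem ore {g : SU 6 F 2} (hg : g ∉ Subgroup.center (SU 6 F 2)) :
    GoodG g ∨ ∃ (v : Fin 6 → F) (hv : hermForm 6 F 2 v v = 0), v ≠ 0 ∧ g = T hF v hv := by
  obtain ⟨ω, hω⟩ := exists_omega hF
  exact good_or_T hF hω hg (H767.U6.cover hF hω g)

end F

end Cfsg.Agent.H259.U6
end

private theorem dce_8ee6f8593d8f : _root_.True := by
  try have : _root_.True := by simp only [_root_.Cfsg.Agent.H259.U6.orb.eq_2]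
  try have : _root_.True := by simp only [_root_.Cfsg.Agent.H259.U6.hits.eq_1]
  try have : _root_.True := by simp only [_root_.Cfsg.Agent.H259.U6.hits.eq_2]
  try have : _root_.True := by simp only [_root_.Cfsg.Agent.H259.U6.orb.eq_def]
  try have : _root_.True := by simp only [_root_.Cfsg.Agent.H259.U6.DD.eq_1]
  try have : _root_.True := by simp only [_root_.Cfsg.Agent.H259.U6.orb.eq_1]
  try have : _root_.True := by simp only [_root_.Cfsg.Agent.H259.U6.hits.eq_3]
  try have : _root_.True := by simp only [_root_.Cfsg.Agent.H259.U6.pk.eq_1]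
  try have : _root_.True := by simp only [_root_.Cfsg.Agent.SporadicStructure.UnitTwo.R.eq_1]
  try have : _root_.True := by simp only [_root_.Cfsg.Agent.H259.U6.hits.eq_def]
  try have : _root_.True := by simp only [_root_.Cfsg.Agent.H259.U6.col.eq_1]
  try have : _root_.True := by simp only [_root_.Cfsg.Agent.H767.U6.X.eq_1]
  try have : _root_.True := by simp only [_root_.Cfsg.Agent.H259.U6.dec.eq_1]
  exact _root_.True.intro
end

-- part: H486/US/Row
section
prune_inst 0x241030040022000000000010000000600000000000080000008003020200400000000800002001120020080020000048110000000200000000000000000400000000000000000004000000800000000000000000000000000000000000000000000000000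
set_option linter.all false
open scoped Cfsg.Agent.FastGrp

-- part: H486/US/Code
section
/-!
# Word calculus for the transvection lifts of `PSU₆(2)` (helper486)

Codes for the vectors of `F₄⁶`, words of codes, moves (Hurwitz moves, cancellation, line relation), soundness.
-/

set_option autoImplicit false
set_option linter.unusedSectionVars false

namespace Cfsg.Agent.H486.US

open Subgroup Cfsg Cfsg.Agent.LieClassical.HermBasic Cfsg.Agent.ClassicalGeometry.UnitTransv
  Cfsg.Agent.SporadicStructure.UnitTwo Cfsg.Agent.R01.PSUSix Cfsg.Agent.KFacts.OddLift.USixL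
open Cfsg.Agent.ClassicalGeometry.UnitAutBasic (tau pr pr_surjective)

universe u v

/-- the field with four elements: `0, 1, ω, ω²` -/
inductive Q | z | o | w | u
deriving DecidableEq

namespace Q

def add : Q → Q → Q
  | z, x => x
  | x, z => x
  | o, o => z
  | o, w => u
  | o, u => w
  | w, o => u
  | w, w => z
  | w, u => o
  | u, o => w
  | u, w => o
  | u, u => z

def mul : Q → Q → Q
  | z, _ => z
  | _, z => z
  | o, x => x
  | x, o => x
  | w, w => u
  | w, u => o
  | u, w => o
  | u, u => w

/-- conjugation = squaring -/
def cj : Q → Q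
  | z => z
  | o => o
  | w => u
  | u => w

def ev {F : Type v} [Field F] (ω : F) : Q → F
  | z => 0
  | o => 1
  | w => ω
  | u => ω ^ 2

/-- decoding -/
def d : ℕ → Q
  | 0 => z
  | 1 => o
  | 2 => w
  | _ => u

end Q

/-- vectors -/
structure V6 where
  a : Q
  b : Q
  c : Q
  d : Q
  e : Q
  f : Q
deriving DecidableEq

namespace V6

def add (x y : V6) : V6 := ⟨x.a.add y.a, x.b.add y.b, x.c.add y.c, x.d.add y.d, x.e.add y.e, x.f.add y.f⟩

def smul (k : Q) (x : V6) : V6 := ⟨k.mul x.a, k.mul x.b, k.mul x.c, k.mul x.d, k.mul x.e, k.mul x.f⟩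

/-- the Hermitian form -/
def h (x y : V6) : Q := (x.a.mul y.a.cj).add ((x.b.mul y.b.cj).add ((x.c.mul y.c.cj).add ((x.d.mul y.d.cj).add
  ((x.e.mul y.e.cj).add (x.f.mul y.f.cj)))))

def zero : V6 := ⟨.z, .z, .z, .z, .z, .z⟩

/-- decoding, base four -/
def d4 (n : ℕ) : V6 := ⟨Q.d (n % 4), Q.d (n / 4 % 4), Q.d (n / 16 % 4), Q.d (n / 64 % 4), Q.d (n / 256 % 4), Q.d (n / 1024 % 4)⟩

def toF {F : Type v} [Field F] (ω : F) (x : V6) : Fin 6 → F :=
  ![x.a.ev ω, x.b.ev ω, x.c.ev ω, x.d.ev ω, x.e.ev ω, x.f.ev ω]

/-- the transvection of `b` applied to `a` -/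
def T (b a : V6) : V6 := a.add (V6.smul (a.h b) b)

/-- proportional (up to a nonzero scalar) -/
def prop (x y : V6) : Bool := decide (x = y) || decide (x = V6.smul .w y) || decide (x = V6.smul .u y)

end V6

section Sound

variable {F : Type v} [Field F] [Fintype F] (hF : Fintype.card F = 2 ^ 2) {ω : F} (hω : ω ^ 2 + ω + 1 = 0)

include hF hω

theorem ev_add (x y : Q) : (x.add y).ev ω = x.ev ω + y.ev ω := by
  have h2 := two_eq_zero hF
  cases x <;> cases y <;> simp only [Q.add, Q.ev, zero_add, add_zero] <;>
    [linear_combination -h2; linear_combination hω - h2 - ω * h2; linear_combination hω - h2 - ω ^ 2 * h2; linear_combination hω - h2 - ω * h2;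
     linear_combination (-ω) * h2; linear_combination (-1 : F) * hω + h2; linear_combination hω - h2 - ω ^ 2 * h2; linear_combination (-1 : F) * hω + h2;
     linear_combination (-ω ^ 2) * h2]

theorem ev_mul (x y : Q) : (x.mul y).ev ω = x.ev ω * y.ev ω := by
  have h3 : ω ^ 3 = 1 := omega_cubed hω
  cases x <;> cases y <;> simp only [Q.mul, Q.ev, zero_mul, mul_zero, one_mul, mul_one] <;>
    [ring1; linear_combination -h3; linear_combination -h3; linear_combination (-ω) * h3]

theorem ev_cj (x : Q) : (x.cj).ev ω = x.ev ω ^ 2 := by
  have h3 : ω ^ 3 = 1 := omega_cubed hω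
  cases x <;> simp only [Q.cj, Q.ev] <;>
    first
      | rfl
      | ring1
      | linear_combination (-ω) * h3

theorem ev_ne {x y : Q} (h : x ≠ y) : x.ev ω ≠ y.ev ω := by
  have h2 := two_eq_zero hF
  have h0 := omega_ne_zero hω
  have h1 := omega_ne_one hF hω
  have h3 : ω ^ 2 ≠ 0 := pow_ne_zero 2 h0
  have h4 : ω ^ 2 ≠ 1 := by
    intro e
    apply h0
    linear_combination hω - e - h2
  have h5 : ω ^ 2 ≠ ω := by
    intro e
    apply one_ne_zero (α := F)
    linear_combination hω - e - ω * h2
  cases x <;> cases y <;> simp only [Q.ev, ne_eq] <;>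
    [exact absurd rfl h; exact zero_ne_one; exact Ne.symm h0; exact Ne.symm h3; exact one_ne_zero; exact absurd rfl h; exact Ne.symm h1; exact Ne.symm h4;
     exact h0; exact h1; exact absurd rfl h; exact Ne.symm h5; exact h3; exact h4; exact h5; exact absurd rfl h]

theorem ev_inj {x y : Q} (h : x.ev ω = y.ev ω) : x = y := by
  by_contra h1
  exact ev_ne hF hω h1 h

theorem toF_add (x y : V6) : (x.add y).toF ω = x.toF ω + y.toF ω := by
  funext i
  (revert i; simp only [V6.toF, V6.add, ev_add hF hω, _root_.Fin.forall_fin_succ, _root_.Pi.add_apply, Fin.isValue, _root_.Matrix.cons_val_zero, _root_.Matrix.cons_val_succ, _root_.Matrix.cons_val_fin_one, _root_.implies_true, _root_.and_self])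

theorem toF_smul (k : Q) (x : V6) : (x.smul k).toF ω = k.ev ω • x.toF ω := by
  funext i
  (revert i; simp only [V6.toF, V6.smul, ev_mul hF hω, _root_.Fin.forall_fin_succ, _root_.Pi.smul_apply, _root_.smul_eq_mul, Fin.isValue, _root_.Matrix.cons_val_zero, _root_.Matrix.cons_val_succ, _root_.Matrix.cons_val_fin_one, _root_.implies_true, _root_.and_self])

omit hF hω [Fintype F] in
theorem toF_zero : V6.zero.toF ω = 0 := by
  funext i
  fin_cases i <;> simp [V6.toF, V6.zero, Q.ev]

theorem toF_inj {x y : V6} (h : x.toF ω = y.toF ω) : x = y := by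
  have h0 := congrFun h 0
  have h1 := congrFun h 1
  have h2 := congrFun h 2
  have h3 := congrFun h 3
  have h4 := congrFun h 4
  have h5 := congrFun h 5
  obtain ⟨a, b, c, d, e, f⟩ := x
  obtain ⟨a', b', c', d', e', f'⟩ := y
  simp only [V6.toF, Matrix.cons_val] at h0 h1 h2 h3 h4 h5
  rw [V6.mk.injEq]
  exact ⟨ev_inj hF hω h0, ev_inj hF hω h1, ev_inj hF hω h2, ev_inj hF hω h3, ev_inj hF hω h4, ev_inj hF hω h5⟩

theorem herm_toF (x y : V6) : hermForm 6 F 2 (x.toF ω) (y.toF ω) = (x.h y).ev ω := by
  rw [herm_def]
  simp only [V6.h, ev_add hF hω, ev_mul hF hω, ev_cj hF hω, Fin.sum_univ_succ, V6.toF]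
  simp only [_root_.Fin.isValue, _root_.Matrix.cons_val_zero, _root_.Fin.succ_zero_eq_one, _root_.Matrix.cons_val_one, _root_.Fin.succ_one_eq_two, _root_.Matrix.cons_val, _root_.Fin.reduceSucc, _root_.Finset.univ_eq_empty, _root_.Matrix.cons_val_succ, _root_.Matrix.cons_val_fin_one, _root_.Finset.sum_const, _root_.Finset.card_empty, _root_.zero_nsmul, _root_.add_zero]

end Sound

end Cfsg.Agent.H486.US
end

-- part: H486/US/Path
section
/-!
# Word calculus for the transvection lifts of `PSU₆(2)`: moves and soundness (helper486)
-/

set_option autoImplicit false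
set_option linter.unusedSectionVars false

namespace Cfsg.Agent.H486.US

open Subgroup Cfsg Cfsg.Agent.LieClassical.HermBasic Cfsg.Agent.ClassicalGeometry.UnitTransv
  Cfsg.Agent.SporadicStructure.UnitTwo Cfsg.Agent.R01.PSUSix Cfsg.Agent.KFacts.OddLift.USixL
open Cfsg.Agent.ClassicalGeometry.UnitAutBasic (tau pr pr_surjective)

universe u v

/-- isotropic words -/
def iso (w : List V6) : Bool := w.all fun x => decide (x.h x = .z)

/-- a list function at the position `n` -/
def atI (g : List V6 → Option (List V6)) : ℕ → List V6 → Option (List V6)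
  | 0, w => g w
  | n + 1, a :: w => (atI g n w).map (a :: ·)
  | _ + 1, [] => none

def fH : List V6 → Option (List V6)
  | a :: b :: r => some (b :: V6.T b a :: r)
  | _ => none

def fG : List V6 → Option (List V6)
  | a :: b :: r => some (V6.T a b :: a :: r)
  | _ => none

def fC : List V6 → Option (List V6)
  | a :: b :: r => if V6.prop a b then some r else none
  | _ => none

/-- `x`, `y` span an isotropic line -/
def lineOK (x y : V6) : Bool := decide (x ≠ .zero) && decide (x.h y = .z) && decide (y ≠ .zero) && decide (y ≠ x) &&
  decide (y ≠ V6.smul .w x) && decide (y ≠ V6.smul .u x)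

/-- three collinear letters `a, k b, a + k b` are replaced by the two others -/
def fL (k : Q) : List V6 → Option (List V6)
  | a :: b :: c :: r => if lineOK a (V6.smul k b) && V6.prop c (a.add (V6.smul k b)) && decide (k ≠ .z) then
      some ((V6.smul .u a).add (V6.smul k b) :: (V6.smul .w a).add (V6.smul k b) :: r) else none
  | _ => none

/-- operations: Hurwitz moves `h`, `g`, cancellation `c`, line relation `l` -/
inductive Op
  | h (i : ℕ)
  | g (i : ℕ)
  | c (i : ℕ)
  | l (i : ℕ) (k : Q)

def step : Op → List V6 → Option (List V6)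
  | .h i => atI fH i
  | .g i => atI fG i
  | .c i => atI fC i
  | .l i k => atI (fL k) i

def run : List Op → List V6 → Option (List V6)
  | [], w => some w
  | x :: l, w => (step x w).bind (run l)

section Sound

variable {F : Type v} [Field F] [Fintype F] {hF : Fintype.card F = 2 ^ 2} {ω : F} (hω : ω ^ 2 + ω + 1 = 0)
  {K : Type u} [Group K] {f : K →* PSU 6 F 2} {t : (Fin 6 → F) → K} (h : TL hF f t)

/-- the value of a word -/
def val (t : (Fin 6 → F) → K) (ω : F) (w : List V6) : K := (w.map fun x => t (x.toF ω)).prod

theorem val_nil : val t ω [] = 1 := rfl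
theorem val_cons (a : V6) (w : List V6) : val t ω (a :: w) = t (a.toF ω) * val t ω w := by simp [val]
theorem val_append (w w' : List V6) : val t ω (w ++ w') = val t ω w * val t ω w' := by simp [val]

theorem iso_cons {a : V6} {w : List V6} : iso (a :: w) = true ↔ a.h a = .z ∧ iso w = true := by
  simp only [iso, _root_.List.all_cons, _root_.Bool.and_eq_true, _root_.decide_eq_true_eq, _root_.List.all_eq_true]

theorem iso_append {w w' : List V6} : iso (w ++ w') = true ↔ iso w = true ∧ iso w' = true := by
  simp only [iso, _root_.List.all_append, _root_.Bool.and_eq_true, _root_.List.all_eq_true, _root_.decide_eq_true_eq]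

include hω

theorem herm_iso (hF : Fintype.card F = 2 ^ 2) {a : V6} (ha : a.h a = .z) :
    hermForm 6 F 2 (a.toF ω) (a.toF ω) = 0 := by
  rw [herm_toF hF hω, ha]; rfl

theorem toF_T (hF : Fintype.card F = 2 ^ 2) {a b : V6} (hb : b.h b = .z) : (V6.T b a).toF ω =
    act (T hF (b.toF ω) (herm_iso hω hF hb)) (a.toF ω) := by
  rw [act_T, V6.T, toF_add hF hω, toF_smul hF hω, herm_toF hF hω]

theorem h_T (hF : Fintype.card F = 2 ^ 2) {a b : V6} (ha : a.h a = .z) (hb : b.h b = .z) :
    (V6.T b a).h (V6.T b a) = .z := by
  apply ev_inj hF hω
  rw [← herm_toF hF hω, toF_T hω hF hb, herm_act, herm_toF hF hω, ha]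

theorem ev_ne_zero (hF : Fintype.card F = 2 ^ 2) {k : Q} (hk : k ≠ .z) : k.ev ω ≠ 0 := by
  have := ev_ne hF hω hk
  exact this

theorem h_smul (hF : Fintype.card F = 2 ^ 2) (k : Q) {a : V6} (ha : a.h a = .z) :
    (V6.smul k a).h (V6.smul k a) = .z := by
  apply ev_inj hF hω
  rw [← herm_toF hF hω, toF_smul hF hω, herm_smul_left, herm_smul_right, herm_toF hF hω, ha]
  simp [Q.ev]

theorem h_add (hF : Fintype.card F = 2 ^ 2) {a b : V6} (ha : a.h a = .z) (hb : b.h b = .z) (hab : a.h b = .z) :
    (a.add b).h (a.add b) = .z := by
  apply ev_inj hF hω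
  have h1 : hermForm 6 F 2 (a.toF ω) (b.toF ω) = 0 := by rw [herm_toF hF hω, hab]; rfl
  rw [← herm_toF hF hω, toF_add hF hω, herm_add_left, herm_add_right hF, herm_add_right hF, h1,
    herm_eq_zero_swap hF h1, herm_toF hF hω, herm_toF hF hω, ha, hb]
  simp [Q.ev]

/-! ### The moves -/

include h

theorem t_prop {a b : V6} (hb : b.h b = .z) (hp : V6.prop a b = true) : t (a.toF ω) = t (b.toF ω) := by
  have h0 := omega_ne_zero hω
  rw [V6.prop, Bool.or_eq_true, Bool.or_eq_true] at hp
  rcases hp with (h1 | h1) | h1
  · rw [of_decide_eq_true h1]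
  · rw [of_decide_eq_true h1, toF_smul hF hω]
    exact h.smul _ _ h0 (herm_iso hω hF hb)
  · rw [of_decide_eq_true h1, toF_smul hF hω]
    exact h.smul _ _ (pow_ne_zero 2 h0) (herm_iso hω hF hb)

theorem t_sq {a : V6} (ha : a.h a = .z) : t (a.toF ω) * t (a.toF ω) = 1 := h.sq _ (herm_iso hω hF ha)

theorem t_T {a b : V6} (ha : a.h a = .z) (hb : b.h b = .z) :
    t (b.toF ω) * t (a.toF ω) = t ((V6.T b a).toF ω) * t (b.toF ω) := by
  have h1 := h.conj (t (b.toF ω)) (T hF (b.toF ω) (herm_iso hω hF hb)) (a.toF ω) (herm_iso hω hF ha)
    (by rw [h.map _ (herm_iso hω hF hb), tau_eq_pr hF (herm_iso hω hF hb)])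
  rw [← toF_T hω hF hb] at h1
  rw [← h1, inv_mul_cancel_right]

theorem fG_sound {w w' : List V6} (hw : iso w = true) (hs : fG w = some w') :
    val t ω w = val t ω w' ∧ iso w' = true := by
  match w, hw, hs with
  | a :: b :: r, hw, hs =>
    rw [iso_cons, iso_cons] at hw
    simp only [fG, Option.some.injEq] at hs
    rw [← hs]
    refine ⟨?_, ?_⟩
    · rw [val_cons, val_cons, val_cons, val_cons, ← mul_assoc, ← mul_assoc, t_T hω h hw.2.1 hw.1]
    · rw [iso_cons, iso_cons]
      exact ⟨h_T hω hF hw.2.1 hw.1, hw.1, hw.2.2⟩

theorem fH_sound {w w' : List V6} (hw : iso w = true) (hs : fH w = some w') :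
    val t ω w = val t ω w' ∧ iso w' = true := by
  match w, hw, hs with
  | a :: b :: r, hw, hs =>
    rw [iso_cons, iso_cons] at hw
    simp only [fH, Option.some.injEq] at hs
    rw [← hs]
    refine ⟨?_, ?_⟩
    · have h1 := t_T hω h hw.1 hw.2.1
      have h2 := t_sq hω h hw.2.1
      have h3 : t (a.toF ω) * t (b.toF ω) = t (b.toF ω) * t ((V6.T b a).toF ω) := by
        calc t (a.toF ω) * t (b.toF ω) = (t (b.toF ω) * t (b.toF ω)) * t (a.toF ω) * t (b.toF ω) := by
              rw [h2, one_mul]
          _ = t (b.toF ω) * (t (b.toF ω) * t (a.toF ω)) * t (b.toF ω) := by group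
          _ = t (b.toF ω) * (t ((V6.T b a).toF ω) * t (b.toF ω)) * t (b.toF ω) := by rw [h1]
          _ = t (b.toF ω) * t ((V6.T b a).toF ω) * (t (b.toF ω) * t (b.toF ω)) := by group
          _ = _ := by rw [h2, mul_one]
      rw [val_cons, val_cons, val_cons, val_cons, ← mul_assoc, ← mul_assoc, h3]
    · rw [iso_cons, iso_cons]
      exact ⟨hw.2.1, h_T hω hF hw.1 hw.2.1, hw.2.2⟩

theorem fC_sound {w w' : List V6} (hw : iso w = true) (hs : fC w = some w') :
    val t ω w = val t ω w' ∧ iso w' = true := by
  match w, hw, hs with
  | a :: b :: r, hw, hs =>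
    rw [iso_cons, iso_cons] at hw
    simp only [fC] at hs
    split_ifs at hs with hp
    rw [Option.some.injEq] at hs
    rw [← hs]
    refine ⟨?_, hw.2.2⟩
    rw [val_cons, val_cons, ← mul_assoc, t_prop hω h hw.2.1 hp, t_sq hω h hw.2.1, one_mul]

theorem line_of {x y : V6} (hx : x.h x = .z) (hy : y.h y = .z) (hl : lineOK x y = true) :
    Line (x.toF ω) (y.toF ω) := by
  simp only [lineOK, Bool.and_eq_true, decide_eq_true_eq] at hl
  obtain ⟨⟨⟨⟨⟨h1, h2⟩, h3⟩, h4⟩, h5⟩, h6⟩ := hl
  refine ⟨herm_iso hω hF hx, herm_iso hω hF hy, by rw [herm_toF hF hω, h2]; rfl, ?_, ?_⟩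
  · intro e
    exact h1 (toF_inj hF hω (by rw [e, toF_zero]))
  · intro c e
    rcases cases4 hF hω c with h7 | h7 | h7 | h7
    · exact h3 (toF_inj hF hω (by rw [e, h7, zero_smul, toF_zero]))
    · exact h4 (toF_inj hF hω (by rw [e, h7, one_smul]))
    · exact h5 (toF_inj hF hω (by rw [e, h7, toF_smul hF hω]; rfl))
    · exact h6 (toF_inj hF hω (by rw [e, h7, toF_smul hF hω]; rfl))

theorem fL_sound {k : Q} {w w' : List V6} (hw : iso w = true) (hs : fL k w = some w') :
    val t ω w = val t ω w' ∧ iso w' = true := by
  match w, hw, hs with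
  | a :: b :: c :: r, hw, hs =>
    rw [iso_cons, iso_cons, iso_cons] at hw
    simp only [fL] at hs
    split_ifs at hs with hp
    rw [Option.some.injEq] at hs
    rw [← hs]
    rw [Bool.and_eq_true, Bool.and_eq_true, decide_eq_true_eq] at hp
    obtain ⟨⟨h1, h2⟩, h3⟩ := hp
    obtain ⟨ha, hb, hc, hr⟩ := hw
    have hy := h_smul hω hF k hb
    have hL := line_of hω h ha hy h1
    have hab : a.h (V6.smul k b) = .z := by
      simp only [lineOK, Bool.and_eq_true, decide_eq_true_eq] at h1
      exact h1.1.1.1.1.2
    have e1 : t ((V6.smul k b).toF ω) = t (b.toF ω) := by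
      rw [toF_smul hF hω]
      exact h.smul _ _ (ev_ne_zero hω hF h3) (herm_iso hω hF hb)
    have e2 := t_prop hω h (h_add hω hF ha hy hab) h2
    have e3 := h.line _ _ hL ω hω
    have e4 : t (ω • a.toF ω + (V6.smul k b).toF ω) = t (((V6.smul .w a).add (V6.smul k b)).toF ω) := by
      rw [toF_add hF hω, toF_smul hF hω .w]; rfl
    have e5 : t (ω ^ 2 • a.toF ω + (V6.smul k b).toF ω) = t (((V6.smul .u a).add (V6.smul k b)).toF ω) := by
      rw [toF_add hF hω, toF_smul hF hω .u]; rfl
    have e6 : t (a.toF ω + (V6.smul k b).toF ω) = t (c.toF ω) := by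
      rw [e2, toF_add hF hω]
    have i1 : ((V6.smul .w a).add (V6.smul k b)).h ((V6.smul .w a).add (V6.smul k b)) = .z := by
      refine h_add hω hF (h_smul hω hF _ ha) hy ?_
      apply ev_inj hF hω
      rw [← herm_toF hF hω, toF_smul hF hω .w, herm_smul_left, herm_toF hF hω, hab]
      simp [Q.ev]
    have i2 : ((V6.smul .u a).add (V6.smul k b)).h ((V6.smul .u a).add (V6.smul k b)) = .z := by
      refine h_add hω hF (h_smul hω hF _ ha) hy ?_
      apply ev_inj hF hω
      rw [← herm_toF hF hω, toF_smul hF hω .u, herm_smul_left, herm_toF hF hω, hab]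
      simp [Q.ev]
    rw [e1, e4, e5, e6] at e3
    refine ⟨?_, ?_⟩
    · have s1 := t_sq hω h i1
      have s2 := t_sq hω h i2
      rw [val_cons, val_cons, val_cons, val_cons, val_cons, ← mul_assoc, ← mul_assoc, ← mul_assoc]
      congr 1
      generalize t (((V6.smul .w a).add (V6.smul k b)).toF ω) = P at *
      generalize t (((V6.smul .u a).add (V6.smul k b)).toF ω) = R at *
      generalize t (a.toF ω) = A at *
      generalize t (b.toF ω) = B at *
      generalize t (c.toF ω) = C at *
      calc A * B * C = A * B * C * P * (R * R) * P := by rw [s2, mul_one, mul_assoc (A * B * C), s1, mul_one]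
        _ = (A * B * C * P * R) * R * P := by group
        _ = R * P := by rw [e3, one_mul]
    · rw [iso_cons, iso_cons]
      exact ⟨i2, i1, hr⟩

theorem atI_sound {g : List V6 → Option (List V6)}
    (hg : ∀ w w', iso w = true → g w = some w' → val t ω w = val t ω w' ∧ iso w' = true) :
    ∀ (n : ℕ) (w w' : List V6), iso w = true → atI g n w = some w' → val t ω w = val t ω w' ∧ iso w' = true
  | 0, w, w', hw, hs => hg w w' hw hs
  | n + 1, a :: w, w', hw, hs => by
    rw [iso_cons] at hw
    simp only [atI, Option.map_eq_some_iff] at hs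
    obtain ⟨w₁, h1, h2⟩ := hs
    obtain ⟨h3, h4⟩ := atI_sound hg n w w₁ hw.2 h1
    rw [← h2]
    exact ⟨by rw [val_cons, val_cons, h3], iso_cons.2 ⟨hw.1, h4⟩⟩
  | n + 1, [], w', hw, hs => by simp [atI] at hs

theorem step_sound (x : Op) (w w' : List V6) (hw : iso w = true) (hs : step x w = some w') :
    val t ω w = val t ω w' ∧ iso w' = true := by
  cases x with
  | h i => exact atI_sound hω h (fun w w' => fH_sound hω h) i w w' hw hs
  | g i => exact atI_sound hω h (fun w w' => fG_sound hω h) i w w' hw hs
  | c i => exact atI_sound hω h (fun w w' => fC_sound hω h) i w w' hw hs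
  | l i k => exact atI_sound hω h (fun w w' => fL_sound hω h) i w w' hw hs

theorem run_sound : ∀ (l : List Op) (w w' : List V6), iso w = true → run l w = some w' →
    val t ω w = val t ω w' ∧ iso w' = true
  | [], w, w', hw, hs => by
    simp only [run, Option.some.injEq] at hs
    exact ⟨by rw [hs], by rw [← hs]; exact hw⟩
  | x :: l, w, w', hw, hs => by
    simp only [run, Option.bind_eq_some_iff] at hs
    obtain ⟨w₁, h1, h2⟩ := hs
    obtain ⟨h3, h4⟩ := step_sound hω h x w w₁ hw h1
    obtain ⟨h5, h6⟩ := run_sound l w₁ w' h4 h2
    exact ⟨h3.trans h5, h6⟩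

end Sound

end Cfsg.Agent.H486.US
end

-- part: H486/US/Rel
section
/-!
# Word calculus for the transvection lifts of `PSU₆(2)`: relations (helper486)

* `actW`, `gW` : words as elements of `SU₆(2)`;
* `chk`, `chkQ` : certificates; `rel_of_chk : val t ω R = 1`, `rel_of_chkQ : val t ω R = dd t e₀ e₁ (c e₂)`.
-/

set_option autoImplicit false
set_option linter.unusedSectionVars false

namespace Cfsg.Agent.H486.US

open Subgroup Cfsg Cfsg.Agent.LieClassical.HermBasic Cfsg.Agent.ClassicalGeometry.UnitTransv
  Cfsg.Agent.SporadicStructure.UnitTwo Cfsg.Agent.R01.PSUSix Cfsg.Agent.KFacts.OddLift.USixL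
open Cfsg.Agent.ClassicalGeometry.UnitAutBasic (tau pr pr_surjective)

universe u v

/-- the action of a word on the vectors -/
def actW (w : List V6) (x : V6) : V6 := w.foldr (fun b a => V6.T b a) x

def E0 : V6 := ⟨.o, .o, .z, .z, .z, .z⟩
def E1 : V6 := ⟨.z, .z, .o, .o, .z, .z⟩
def E2 : V6 := ⟨.z, .z, .z, .z, .o, .o⟩

/-- the quadrangle move -/
def fQ (X Y Z : V6) : List V6 → Option (List V6)
  | a :: b :: c :: d :: r =>
    if V6.prop a X && V6.prop b Y && V6.prop c Z && V6.prop d ((X.add Y).add Z) then
      some ((((V6.smul .w X).add (V6.smul .u Y)).add Z) :: (((V6.smul .u X).add (V6.smul .w Y)).add Z) :: r)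
    else none
  | _ => none

/-- certificate without quadrangle move -/
def chk (R : List V6) (l : List Op) : Bool :=
  iso R && match run l R with
    | some [] => true
    | _ => false

/-- certificate with one quadrangle move -/
def chkQ (R : List V6) (l₁ : List Op) (n : ℕ) (s : List V6) (c : Q) (l₂ : List Op) : Bool :=
  iso R && (iso s && (decide (c ≠ .z) && match run l₁ R with
    | none => false
    | some R₁ => match atI (fQ (actW s E0) (actW s E1) (actW s (V6.smul c E2))) n R₁ with
      | none => false
      | some R₂ => match run l₂ R₂ with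
        | some [] => true
        | _ => false))

section Sound

variable {F : Type v} [Field F] [Fintype F] {ω : F}

/-- a word as an element of `SU₆(2)` -/
noncomputable def gW (hF : Fintype.card F = 2 ^ 2) (ω : F) (w : List V6) : SU 6 F 2 :=
  (w.map fun x => Cfsg.Agent.ClassicalGeometry.UnitAutBasic.T hF (x.toF ω)).prod

theorem gW_nil (hF : Fintype.card F = 2 ^ 2) : gW hF ω [] = 1 := rfl
theorem gW_cons (hF : Fintype.card F = 2 ^ 2) (a : V6) (w : List V6) :
    gW hF ω (a :: w) = Cfsg.Agent.ClassicalGeometry.UnitAutBasic.T hF (a.toF ω) * gW hF ω w := by simp [gW]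
theorem gW_append (hF : Fintype.card F = 2 ^ 2) (w w' : List V6) :
    gW hF ω (w ++ w') = gW hF ω w * gW hF ω w' := by simp [gW]

variable {hF : Fintype.card F = 2 ^ 2} (hω : ω ^ 2 + ω + 1 = 0)

include hω

theorem act_gW : ∀ (w : List V6), iso w = true → ∀ x : V6, act (gW hF ω w) (x.toF ω) = (actW w x).toF ω
  | [], _, x => by rw [gW_nil, act_one]; rfl
  | a :: w, hw, x => by
    rw [iso_cons] at hw
    rw [gW_cons, act_mul, act_gW w hw.2, T_eq hF (herm_iso hω hF hw.1), ← toF_T hω hF hw.1]
    rfl

omit hω
theorem iso_reverse {w : List V6} (hw : iso w = true) : iso w.reverse = true := by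
  simpa only [iso, _root_.List.all_reverse, _root_.List.all_eq_true, _root_.decide_eq_true_eq] using hw
include hω

/-- two elements of `SU₆(2)` with the same action on the basis -/
theorem eq_of_basis {g g' : SU 6 F 2} (h : ∀ i : Fin 6, act g (Pi.single i 1) = act g' (Pi.single i 1)) : g = g' := by
  apply ext_act
  intro x
  have hx : x = x 0 • Pi.single 0 1 + x 1 • Pi.single 1 1 + x 2 • Pi.single 2 1 + x 3 • Pi.single 3 1 +
      x 4 • Pi.single 4 1 + x 5 • Pi.single 5 1 := by
    funext i
    (revert i; simp only [_root_.Fin.forall_fin_succ, Fin.isValue, _root_.Pi.add_apply, _root_.Pi.smul_apply, _root_.smul_eq_mul, _root_.Pi.single_eq_same, _root_.mul_one, _root_.ne_eq, _root_.zero_ne_one, _root_.not_false_eq_true, _root_.Pi.single_eq_of_ne, _root_.MulZeroClass.mul_zero, _root_.add_zero, Fin.reduceEq, _root_.Fin.succ_ne_zero, _root_.zero_add, _root_.Fin.succ_zero_eq_one, _root_.Fin.succ_one_eq_two, Fin.reduceSucc, _root_.IsEmpty.forall_iff, _root_.and_self])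
  rw [hx]
  simp only [act_add, act_smul, h]

omit hω [Fintype F] in
theorem toF_basis : (V6.d4 1).toF ω = Pi.single 0 1 ∧ (V6.d4 4).toF ω = Pi.single 1 1 ∧
    (V6.d4 16).toF ω = Pi.single 2 1 ∧ (V6.d4 64).toF ω = Pi.single 3 1 ∧ (V6.d4 256).toF ω = Pi.single 4 1 ∧
    (V6.d4 1024).toF ω = Pi.single 5 1 := by
  have e0 : V6.d4 1 = ⟨.o, .z, .z, .z, .z, .z⟩ := by decide
  have e1 : V6.d4 4 = ⟨.z, .o, .z, .z, .z, .z⟩ := by decide
  have e2 : V6.d4 16 = ⟨.z, .z, .o, .z, .z, .z⟩ := by decide
  have e3 : V6.d4 64 = ⟨.z, .z, .z, .o, .z, .z⟩ := by decide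
  have e4 : V6.d4 256 = ⟨.z, .z, .z, .z, .o, .z⟩ := by decide
  have e5 : V6.d4 1024 = ⟨.z, .z, .z, .z, .z, .o⟩ := by decide
  rw [e0, e1, e2, e3, e4, e5]
  refine ⟨?_, ?_, ?_, ?_, ?_, ?_⟩ <;> · funext i; (revert i; simp only [V6.toF, Q.ev, _root_.Fin.forall_fin_succ, Fin.isValue, _root_.Matrix.cons_val_zero, _root_.Pi.single_eq_same, _root_.Matrix.cons_val_succ, _root_.ne_eq, _root_.Fin.succ_ne_zero, _root_.not_false_eq_true, _root_.Pi.single_eq_of_ne, _root_.Matrix.cons_val_fin_one, _root_.implies_true, _root_.and_self, _root_.zero_ne_one, _root_.Fin.succ_zero_eq_one, _root_.Fin.succ_one_eq_two, Fin.reduceEq, Fin.reduceSucc, _root_.IsEmpty.forall_iff])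

/-- the six basis vectors -/
def bas : List V6 := [V6.d4 1, V6.d4 4, V6.d4 16, V6.d4 64, V6.d4 256, V6.d4 1024]

theorem gW_eq {w w' : List V6} (hw : iso w = true) (hw' : iso w' = true)
    (h : ∀ x ∈ bas, actW w x = actW w' x) : gW hF ω w = gW hF ω w' := by
  obtain ⟨b0, b1, b2, b3, b4, b5⟩ := toF_basis (ω := ω)
  refine eq_of_basis hω fun i => ?_
  have key : ∀ x ∈ bas, act (gW hF ω w) (x.toF ω) = act (gW hF ω w') (x.toF ω) := fun x hx => by
    rw [act_gW hω w hw, act_gW hω w' hw', h x hx]
  fin_cases i
  · exact b0 ▸ key _ (by simp [bas])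
  · exact b1 ▸ key _ (by simp [bas])
  · exact b2 ▸ key _ (by simp [bas])
  · exact b3 ▸ key _ (by simp [bas])
  · exact b4 ▸ key _ (by simp [bas])
  · exact b5 ▸ key _ (by simp [bas])

variable {K : Type u} [Group K] {f : K →* PSU 6 F 2} {t : (Fin 6 → F) → K} (h : TL hF f t)

include h

theorem map_val : ∀ {w : List V6}, iso w = true → f (val t ω w) = pr 6 F 2 (gW hF ω w)
  | [], _ => by rw [val_nil, gW_nil, map_one, map_one]
  | a :: w, hw => by
    rw [iso_cons] at hw
    rw [val_cons, gW_cons, map_mul, map_mul, map_val hw.2, h.map _ (herm_iso hω hF hw.1)]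
    rfl

theorem val_reverse : ∀ {w : List V6}, iso w = true → val t ω w.reverse = (val t ω w)⁻¹
  | [], _ => by rw [List.reverse_nil, val_nil, inv_one]
  | a :: w, hw => by
    rw [iso_cons] at hw
    rw [List.reverse_cons, val_append, val_reverse hw.2, val_cons, val_cons, val_nil, mul_one, mul_inv_rev,
      inv_eq_of_mul_eq_one_right (t_sq hω h hw.1)]

theorem val_map {w : List V6} (hw : iso w = true) {k : K} (hk : f k = pr 6 F 2 (gW hF ω w)) :
    ∀ {v : List V6}, iso v = true → val t ω (v.map (actW w)) = k * val t ω v * k⁻¹
  | [], _ => by rw [List.map_nil, val_nil, mul_one, mul_inv_cancel]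
  | a :: v, hv => by
    rw [iso_cons] at hv
    rw [List.map_cons, val_cons, val_cons, val_map hw hk hv.2, ← act_gW (hF := hF) hω w hw,
      ← h.conj k _ _ (herm_iso hω hF hv.1) hk]
    group

/-! ### The certificates -/

theorem rel_of_chk {R : List V6} {l : List Op} (hc : chk R l = true) : val t ω R = 1 := by
  rw [chk, Bool.and_eq_true] at hc
  obtain ⟨h1, h2⟩ := hc
  split at h2
  · rename_i h3
    exact (run_sound hω h l R [] h1 h3).1
  · exact absurd h2 (by simp)

theorem tri_std {c : F} (hc : c ≠ 0) : Tri (ee 0 : Fin 6 → F) (ee 1) (c • ee 2) where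
  uu := herm_ee hF 0 0
  vv := herm_ee hF 1 1
  ww := by rw [herm_smul_left, herm_smul_right, herm_ee hF 2 2]; simp
  uv := herm_ee hF 0 1
  uw := by rw [herm_smul_right, herm_ee hF 0 2]; simp
  vw := by rw [herm_smul_right, herm_ee hF 1 2]; simp
  ind := by
    intro a b d e
    have h0 := congrFun e 0
    have h2 := congrFun e 2
    have h4 := congrFun e 4
    simp [ee, hc] at h0 h2 h4
    exact ⟨h0, h2, h4⟩

omit h in
theorem toF_E : (E0.toF ω : Fin 6 → F) = ee 0 ∧ (E1.toF ω : Fin 6 → F) = ee 1 ∧ (E2.toF ω : Fin 6 → F) = ee 2 := by
  refine ⟨?_, ?_, ?_⟩ <;> · funext i; (revert i; simp [V6.toF, Q.ev, E0, E1, E2, ee, _root_.Fin.forall_fin_succ])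

theorem fQ_sound {X Y Z : V6} (p : Tri (X.toF ω) (Y.toF ω) (Z.toF ω)) {w w' : List V6} (hw : iso w = true)
    (hs : fQ X Y Z w = some w') : val t ω w = dd t (X.toF ω) (Y.toF ω) (Z.toF ω) * val t ω w' ∧ iso w' = true := by
  match w, hw, hs with
  | a :: b :: c :: d :: r, hw, hs =>
    simp only [iso_cons] at hw
    simp only [fQ] at hs
    split_ifs at hs with hp
    rw [Option.some.injEq] at hs
    rw [← hs]
    simp only [Bool.and_eq_true] at hp
    obtain ⟨⟨⟨h1, h2⟩, h3⟩, h4⟩ := hp
    obtain ⟨ha, hb, hc, hd, hr⟩ := hw
    have iX : X.h X = .z := ev_inj hF hω (by rw [← herm_toF hF hω, p.uu]; rfl)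
    have iY : Y.h Y = .z := ev_inj hF hω (by rw [← herm_toF hF hω, p.vv]; rfl)
    have iZ : Z.h Z = .z := ev_inj hF hω (by rw [← herm_toF hF hω, p.ww]; rfl)
    have iXY : X.h Y = .z := ev_inj hF hω (by rw [← herm_toF hF hω, p.uv]; rfl)
    have iXZ : X.h Z = .z := ev_inj hF hω (by rw [← herm_toF hF hω, p.uw]; rfl)
    have iYZ : Y.h Z = .z := ev_inj hF hω (by rw [← herm_toF hF hω, p.vw]; rfl)
    have i3 : ((X.add Y).add Z).h ((X.add Y).add Z) = .z := by
      refine h_add hω hF (h_add hω hF iX iY iXY) iZ ?_
      exact ev_inj hF hω (by rw [← herm_toF hF hω, toF_add hF hω, herm_add_left, p.uw, p.vw, add_zero]; rfl)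
    have e1 := t_prop hω h iX h1
    have e2 := t_prop hω h iY h2
    have e3 := t_prop hω h iZ h3
    have e4 := t_prop hω h i3 h4
    have hyx := herm_eq_zero_swap hF p.uv
    have hzx := herm_eq_zero_swap hF p.uw
    have hzy := herm_eq_zero_swap hF p.vw
    -- the line through X + Y and Y + Z
    have hL : Line (X.toF ω + Y.toF ω) (Y.toF ω + Z.toF ω) := by
      refine ⟨p.puv.add hF, p.pvw.add hF, ?_, ?_, ?_⟩
      · rw [herm_add_left, herm_add_right hF, herm_add_right hF, p.uv, p.uw, p.vv, p.vw]; simp
      · intro e
        have := (p.ind 1 1 0 (by rw [one_smul, one_smul, zero_smul, add_zero, e])).1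
        exact one_ne_zero this
      · intro c e
        have := (p.ind c (c - 1) (-1) (by
          have e' : Y.toF ω + Z.toF ω = c • X.toF ω + c • Y.toF ω := by rw [e, smul_add]
          rw [sub_smul, one_smul, neg_smul, one_smul]
          linear_combination (exp := 1) -e')).2.2
        exact one_ne_zero (neg_eq_zero.1 this)
    have e5 := h.line _ _ hL ω hω
    have h2' := two_eq_zero hF
    have v1 : X.toF ω + Y.toF ω + (Y.toF ω + Z.toF ω) = X.toF ω + Z.toF ω := by
      funext i; simp only [Pi.add_apply]; linear_combination (Y.toF ω i) * h2'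
    have v2 : ω • (X.toF ω + Y.toF ω) + (Y.toF ω + Z.toF ω) =
        (((V6.smul .w X).add (V6.smul .u Y)).add Z).toF ω := by
      rw [toF_add hF hω, toF_add hF hω, toF_smul hF hω, toF_smul hF hω]
      funext i; simp only [Pi.add_apply, Pi.smul_apply, smul_eq_mul, Q.ev]
      linear_combination (Y.toF ω i) * ((ω + 1) * h2' - hω)
    have v3 : ω ^ 2 • (X.toF ω + Y.toF ω) + (Y.toF ω + Z.toF ω) =
        (((V6.smul .u X).add (V6.smul .w Y)).add Z).toF ω := by
      rw [toF_add hF hω, toF_add hF hω, toF_smul hF hω, toF_smul hF hω]
      funext i; simp only [Pi.add_apply, Pi.smul_apply, smul_eq_mul, Q.ev]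
      linear_combination (Y.toF ω i) * (hω - ω * h2')
    rw [v1, v2, v3] at e5
    have iP : (((V6.smul .w X).add (V6.smul .u Y)).add Z).h (((V6.smul .w X).add (V6.smul .u Y)).add Z) = .z := by
      apply ev_inj hF hω
      rw [← herm_toF hF hω, ← v2]
      exact hL.herm1 hF _ _ |> fun h' => h'
    have iR : (((V6.smul .u X).add (V6.smul .w Y)).add Z).h (((V6.smul .u X).add (V6.smul .w Y)).add Z) = .z := by
      apply ev_inj hF hω
      rw [← herm_toF hF hω, ← v3]
      exact hL.herm1 hF _ _ |> fun h' => h'
    refine ⟨?_, iso_cons.2 ⟨iP, iso_cons.2 ⟨iR, hr⟩⟩⟩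
    have e6 := dd_eq h p
    have e7 : t ((X.add Y).add Z |>.toF ω) = t (X.toF ω + Y.toF ω + Z.toF ω) := by
      rw [toF_add hF hω, toF_add hF hω]
    rw [val_cons, val_cons, val_cons, val_cons, val_cons, val_cons, e1, e2, e3, e4, e7, e6]
    have hW := p.ti hF
    have mu : X.toF ω ∈ Submodule.span F {X.toF ω, Y.toF ω, Z.toF ω} := Submodule.subset_span (by simp)
    have mv : Y.toF ω ∈ Submodule.span F {X.toF ω, Y.toF ω, Z.toF ω} := Submodule.subset_span (by simp)
    have mw : Z.toF ω ∈ Submodule.span F {X.toF ω, Y.toF ω, Z.toF ω} := Submodule.subset_span (by simp)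
    have n4 := t_mem (t := t) (Submodule.add_mem _ mu mv)
    have n5 := t_mem (t := t) (Submodule.add_mem _ mu mw)
    have n6 := t_mem (t := t) (Submodule.add_mem _ mv mw)
    have n7 := t_mem (t := t) (Submodule.add_mem _ (Submodule.add_mem _ mu mv) mw)
    have cm := fun {a b : K} (ha : a ∈ MW t (Submodule.span F {X.toF ω, Y.toF ω, Z.toF ω}))
      (hb : b ∈ MW t (Submodule.span F {X.toF ω, Y.toF ω, Z.toF ω})) => MW_comm h hW ha hb
    generalize t (X.toF ω) = U at *
    generalize t (Y.toF ω) = V at *
    generalize t (Z.toF ω) = W at *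
    generalize t (X.toF ω + Y.toF ω) = A at *
    generalize t (X.toF ω + Z.toF ω) = B at *
    generalize t (Y.toF ω + Z.toF ω) = C at *
    generalize t (X.toF ω + Y.toF ω + Z.toF ω) = D at *
    generalize t ((((V6.smul .w X).add (V6.smul .u Y)).add Z).toF ω) = P at *
    generalize t ((((V6.smul .u X).add (V6.smul .w Y)).add Z).toF ω) = R at *
    have k1 : C * A * B * D = D * (A * C * B) := by
      rw [cm (mul_mem (mul_mem n6 n4) n5) n7, cm n6 n4]
    have k2 : A * C * B * (P * R) = 1 := by rw [← mul_assoc]; exact e5
    calc U * (V * (W * (D * val t ω r))) = U * V * W * D * 1 * val t ω r := by group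
      _ = U * V * W * D * (A * C * B * (P * R)) * val t ω r := by rw [k2]
      _ = U * V * W * (D * (A * C * B)) * P * R * val t ω r := by group
      _ = U * V * W * (C * A * B * D) * P * R * val t ω r := by rw [k1]
      _ = _ := by group

/-- a move up to a central factor at a position -/
theorem atI_soundZ {z : K} (hz : ∀ k : K, k * z = z * k) {g : List V6 → Option (List V6)}
    (hg : ∀ w w', iso w = true → g w = some w' → val t ω w = z * val t ω w' ∧ iso w' = true) :
    ∀ (n : ℕ) (w w' : List V6), iso w = true → atI g n w = some w' → val t ω w = z * val t ω w' ∧ iso w' = true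
  | 0, w, w', hw, hs => hg w w' hw hs
  | n + 1, a :: w, w', hw, hs => by
    rw [iso_cons] at hw
    simp only [atI, Option.map_eq_some_iff] at hs
    obtain ⟨w₁, h1, h2⟩ := hs
    obtain ⟨h3, h4⟩ := atI_soundZ hz hg n w w₁ hw.2 h1
    rw [← h2]
    exact ⟨by rw [val_cons, val_cons, h3, ← mul_assoc, ← mul_assoc, hz], iso_cons.2 ⟨hw.1, h4⟩⟩
  | n + 1, [], w', hw, hs => by simp [atI] at hs

theorem rel_of_chkQ (hf : Function.Surjective f) (hZ : f.ker ≤ center K) {R : List V6} {l₁ : List Op} {n : ℕ}
    {s : List V6} {c : Q} {l₂ : List Op} (hc : chkQ R l₁ n s c l₂ = true) :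
    val t ω R = dd t (ee 0) (ee 1) (c.ev ω • ee 2) := by
  simp only [chkQ, Bool.and_eq_true] at hc
  obtain ⟨h1, h2, h3, h4⟩ := hc
  split at h4
  · exact absurd h4 (by simp)
  rename_i R₁ h5
  split at h4
  · exact absurd h4 (by simp)
  rename_i R₂ h6
  split at h4
  swap
  · exact absurd h4 (by simp)
  rename_i h7
  have hc0 := ev_ne_zero hω hF (of_decide_eq_true h3)
  obtain ⟨k1, k2⟩ := run_sound hω h l₁ R R₁ h1 h5
  obtain ⟨b0, b1, b2⟩ := toF_E (ω := ω) hω
  have p := (tri_std hω h hc0).act (gW hF ω s)
  have a0 := act_gW (hF := hF) hω s h2 E0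
  have a1 := act_gW (hF := hF) hω s h2 E1
  have a2 := act_gW (hF := hF) hω s h2 (V6.smul c E2)
  rw [b0] at a0
  rw [b1] at a1
  rw [toF_smul hF hω, b2] at a2
  have e := dd_act h hf hZ (tri_std hω h hc0) (gW hF ω s)
  rw [a0, a1, a2] at p e
  have hz : ∀ k : K, k * dd t ((actW s E0).toF ω) ((actW s E1).toF ω) ((actW s (V6.smul c E2)).toF ω) =
      dd t ((actW s E0).toF ω) ((actW s E1).toF ω) ((actW s (V6.smul c E2)).toF ω) * k :=
    fun k => mem_center_iff.1 (hZ (dd_ker h p)) k
  obtain ⟨k3, k4⟩ := atI_soundZ hω h hz (fun w w' => fQ_sound hω h p) n R₁ R₂ k2 h6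
  obtain ⟨k5, -⟩ := run_sound hω h l₂ R₂ [] k4 h7
  rw [k1, k3, k5, val_nil, mul_one, e]

end Sound

end Cfsg.Agent.H486.US
end

-- part: H486/US/Data
section
/-!
# Word calculus for the transvection lifts of `PSU₆(2)`: data (helper486)
-/

set_option autoImplicit false
set_option maxRecDepth 100000

namespace Cfsg.Agent.H486.US

/-- the scalar `ω` as a word -/
def wom : List V6 := [⟨.o, .o, .z, .z, .z, .z⟩, ⟨.o, .w, .z, .z, .z, .z⟩, ⟨.o, .o, .z, .z, .z, .z⟩, ⟨.z, .o, .o, .z, .z, .z⟩,
  ⟨.o, .w, .z, .z, .z, .z⟩, ⟨.o, .o, .z, .z, .z, .z⟩, ⟨.z, .o, .o, .z, .z, .z⟩, ⟨.o, .o, .z, .z, .z, .z⟩,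
  ⟨.z, .z, .z, .o, .o, .z⟩, ⟨.z, .z, .z, .o, .w, .z⟩, ⟨.z, .z, .z, .o, .o, .z⟩, ⟨.z, .z, .z, .z, .o, .o⟩,
  ⟨.z, .z, .z, .o, .w, .z⟩, ⟨.z, .z, .z, .o, .o, .z⟩, ⟨.z, .z, .z, .z, .o, .o⟩, ⟨.z, .z, .z, .o, .o, .z⟩]

theorem iso_wom : iso wom = true := by decide +kernel

def v_ns1 : List V6 := [1480, 1071, 1169, 1420, 1941, 1529].map V6.d4
def u_ns1 : List V6 := [1498, 1693, 67].map V6.d4
def p_ns1 : List Op := [.g 4, .g 5, .c 6, .g 2, .g 3, .g 4, .g 5, .c 6]
def s_ns1 : List V6 := [2032, 465, 370].map V6.d4
def q_ns1 : List Op := [.h 0, .g 1, .c 2, .g 1, .c 2, .c 0]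
def r_ns1 : List V6 := (v_ns1.map (actW u_ns1)) ++ v_ns1.reverse
theorem iv_ns1 : iso v_ns1 = true := by decide +kernel
theorem iu_ns1 : iso u_ns1 = true := by decide +kernel
theorem m_ns1 : ∀ x ∈ bas, actW (u_ns1 ++ v_ns1) x = actW (v_ns1 ++ u_ns1) x := by decide +kernel
theorem c_ns1 : chkQ r_ns1 p_ns1 1 s_ns1 .o q_ns1 = true := by decide +kernel

def v_ns2 : List V6 := [1480, 1071, 1169, 1420, 1941, 1529].map V6.d4
def u_ns2 : List V6 := [1231, 1513, 1429, 1569, 384, 1736].map V6.d4
def p_ns2 : List Op := [.g 6, .h 5, .g 6, .g 7, .c 8, .g 4, .h 5, .g 6, .g 7, .c 8, .g 4]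
def s_ns2 : List V6 := [1265, 1668, 1070, 1769].map V6.d4
def q_ns2 : List Op := [.g 2, .c 3, .g 1, .c 2, .c 0]
def r_ns2 : List V6 := (v_ns2.map (actW u_ns2)) ++ v_ns2.reverse
theorem iv_ns2 : iso v_ns2 = true := by decide +kernel
theorem iu_ns2 : iso u_ns2 = true := by decide +kernel
theorem m_ns2 : ∀ x ∈ bas, actW (u_ns2 ++ v_ns2) x = actW (v_ns2 ++ u_ns2) x := by decide +kernel
theorem c_ns2 : chkQ r_ns2 p_ns2 1 s_ns2 .w q_ns2 = true := by decide +kernel

def v_wt000 : List V6 := [1799, 1260, 1898, 1922, 1412].map V6.d4
def u_wt000 : List V6 := [1701, 1152, 1495, 1470, 1893, 1878].map V6.d4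
def p_wt000 : List Op := [.g 11, .c 12, .g 14, .c 15, .g 15, .c 16, .g 18, .c 19, .g 6, .h 5, .g 0, .g 1, .g
  2, .g 3, .g 4, .c 5, .h 3, .h 4, .c 5, .g 11, .h 12, .g 6, .g 7, .g 8, .g 9, .g 10, .g 11, .c 12, .h 3, .g 5,
  .h 4, .g 5, .g 6, .c 7, .h 5, .g 4, .l 5 .o, .h 1, .g 2, .g 3, .c 4, .h 0, .h 1, .g 2, .g 3, .g 4, .c 5, .g
  0, .c 1, .g 0, .c 1, .c 0]
def r_wt000 : List V6 := (v_wt000.map (actW u_wt000)) ++ v_wt000.reverse ++ [E0] ++ wom.reverse
theorem iv_wt000 : iso v_wt000 = true := by decide +kernel
theorem iu_wt000 : iso u_wt000 = true := by decide +kernel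
theorem m_wt000 : ∀ x ∈ bas, actW (u_wt000 ++ v_wt000) x = V6.smul .w (actW (E0 :: (v_wt000 ++ u_wt000)) x) := by decide +kernel
theorem c_wt000 : chk r_wt000 p_wt000 = true := by decide +kernel

def v_wt011 : List V6 := [1672, 1366, 1180, 462, 448].map V6.d4
def u_wt011 : List V6 := [117, 1917, 1945, 1439, 404, 1886].map V6.d4
def p_wt011 : List Op := [.g 11, .c 12, .g 14, .c 15, .g 15, .c 16, .g 18, .c 19, .g 5, .g 6, .g 7, .g 8, .g
  9, .g 10, .c 11, .g 13, .h 14, .g 9, .g 10, .g 11, .g 12, .g 13, .c 14, .h 3, .g 4, .h 5, .g 6, .g 7, .g 8,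
  .g 9, .g 10, .g 11, .c 12, .g 5, .h 4, .h 9, .g 5, .g 6, .g 7, .g 8, .c 9, .h 3, .g 2, .l 3 .w, .h 5, .g 2,
  .g 3, .g 4, .c 5]
def s_wt011 : List V6 := [272, 1036, 1289, 1766, 344].map V6.d4
def q_wt011 : List Op := [.h 0, .g 1, .c 2, .g 1, .c 2, .c 0]
def r_wt011 : List V6 := (v_wt011.map (actW u_wt011)) ++ v_wt011.reverse ++ [E0] ++ wom.reverse
theorem iv_wt011 : iso v_wt011 = true := by decide +kernel
theorem iu_wt011 : iso u_wt011 = true := by decide +kernel
theorem m_wt011 : ∀ x ∈ bas, actW (u_wt011 ++ v_wt011) x = V6.smul .w (actW (E0 :: (v_wt011 ++ u_wt011)) x) := by decide +kernel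
theorem c_wt011 : chkQ r_wt011 p_wt011 3 s_wt011 .w q_wt011 = true := by decide +kernel

def v_wt101 : List V6 := [448, 1604, 444, 1626, 1340].map V6.d4
def u_wt101 : List V6 := [80, 1223, 1785, 1527, 369, 1632].map V6.d4
def p_wt101 : List Op := [.g 11, .c 12, .g 14, .c 15, .g 15, .c 16, .g 18, .c 19, .g 9, .g 10, .c 11, .g 13,
  .h 14, .g 9, .g 10, .g 11, .g 12, .g 13, .c 14, .g 5, .h 6, .h 10, .g 7, .g 8, .g 9, .c 10, .h 2, .h 4, .g 5,
  .l 3 .o, .g 2, .h 1, .g 2, .g 3, .g 4, .g 5, .g 6, .c 7, .h 2]
def s_wt101 : List V6 := [1781, 1759, 2014, 1208].map V6.d4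
def q_wt101 : List Op := [.g 0, .g 1, .g 2, .c 3, .g 1, .g 2, .g 3, .c 4, .g 0, .c 1, .c 0]
def r_wt101 : List V6 := (v_wt101.map (actW u_wt101)) ++ v_wt101.reverse ++ [E0] ++ wom.reverse
theorem iv_wt101 : iso v_wt101 = true := by decide +kernel
theorem iu_wt101 : iso u_wt101 = true := by decide +kernel
theorem m_wt101 : ∀ x ∈ bas, actW (u_wt101 ++ v_wt101) x = V6.smul .w (actW (E0 :: (v_wt101 ++ u_wt101)) x) := by decide +kernel
theorem c_wt101 : chkQ r_wt101 p_wt101 3 s_wt101 .u q_wt101 = true := by decide +kernel

def v_wt110 : List V6 := [1079, 1781, 2037, 1434, 1260].map V6.d4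
def u_wt110 : List V6 := [1345, 1348, 1374, 1370, 420, 1632].map V6.d4
def p_wt110 : List Op := [.g 11, .c 12, .g 14, .c 15, .g 15, .c 16, .g 18, .c 19, .h 6, .g 7, .g 8, .g 9, .c
  10, .g 13, .h 14, .g 9, .g 10, .g 11, .g 12, .g 13, .c 14, .g 8, .h 7, .l 5 .o]
def s_wt110 : List V6 := [1352, 1947, 1769, 1157].map V6.d4
def q_wt110 : List Op := [.g 0, .g 1, .g 2, .g 3, .g 4, .g 5, .c 6, .g 2, .g 3, .g 4, .c 5, .h 1, .h 2, .g 0,
  .g 1, .c 2, .h 1, .g 2, .g 3, .c 4, .g 0, .c 1, .c 0]
def r_wt110 : List V6 := (v_wt110.map (actW u_wt110)) ++ v_wt110.reverse ++ [E0] ++ wom.reverse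
theorem iv_wt110 : iso v_wt110 = true := by decide +kernel
theorem iu_wt110 : iso u_wt110 = true := by decide +kernel
theorem m_wt110 : ∀ x ∈ bas, actW (u_wt110 ++ v_wt110) x = V6.smul .w (actW (E0 :: (v_wt110 ++ u_wt110)) x) := by decide +kernel
theorem c_wt110 : chkQ r_wt110 p_wt110 6 s_wt110 .o q_wt110 = true := by decide +kernel


end Cfsg.Agent.H486.US
end

-- part: H486/US/Fus
section
/-!
# The 2-covers of `SU₆(2)`: fusion of the lifts of `x₀`, the lifts of `ω` times a transvection (helper486)
-/

set_option autoImplicit false
set_option linter.unusedSectionVars false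

namespace Cfsg.Agent.H486.US

open Subgroup Cfsg Cfsg.Agent.LieClassical.HermBasic Cfsg.Agent.ClassicalGeometry.UnitTransv
  Cfsg.Agent.SporadicStructure.UnitTwo Cfsg.Agent.R01.PSUSix Cfsg.Agent.KFacts.OddLift.USixL Cfsg.Agent.H777.Ore
open Cfsg.Agent.ClassicalGeometry.UnitAutBasic (tau pr pr_surjective)

universe u v w

variable {F : Type v} [Field F] [Fintype F] {hF : Fintype.card F = 2 ^ 2} {ω : F} (hω : ω ^ 2 + ω + 1 = 0)

section Base

variable {K : Type u} [Group K] {f : K →* PSU 6 F 2} {t : (Fin 6 → F) → K} (h : TL hF f t)

include hω h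

/-- the kernel has at most four elements -/
theorem ker_cases [Finite K] (hK : commutator K = ⊤) (hf : Function.Surjective f) (hZ : f.ker ≤ center K)
    (h2 : IsPGroup 2 f.ker) {z : K} (hz : f z = 1) : z = 1 ∨ z = dd t (ee 0) (ee 1) (ee 2) ∨
      z = dd t (ee 0) (ee 1) (ω • ee 2) ∨ z = dd t (ee 0) (ee 1) (ω ^ 2 • ee 2) := by
  have p1 : Tri (ee 0 : Fin 6 → F) (ee 1) (ee 2) := by
    have := tri_std hω h one_ne_zero; rwa [one_smul] at this
  have pw := tri_std hω h (omega_ne_zero hω)
  have pu := tri_std hω h (pow_ne_zero 2 (omega_ne_zero hω))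
  set a := dd t (ee 0) (ee 1) (ee 2) with ha
  set b := dd t (ee 0) (ee 1) (ω • ee 2) with hb
  set c := dd t (ee 0) (ee 1) (ω ^ 2 • ee 2) with hc
  have sa : a * a = 1 := dd_sq h p1
  have sb : b * b = 1 := dd_sq h pw
  have sc : c * c = 1 := dd_sq h pu
  have ca : ∀ k : K, k * a = a * k := mem_center_iff.1 (hZ (dd_ker h p1))
  have cb : ∀ k : K, k * b = b * k := mem_center_iff.1 (hZ (dd_ker h pw))
  have abc : a * b * c = 1 := dd_three h p1 hω
  have hab : a * b = c := by
    calc a * b = a * b * (c * c) := by rw [sc, mul_one]
      _ = a * b * c * c := by group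
      _ = c := by rw [abc, one_mul]
  have hba : b * a = c := by rw [ca, hab]
  have hac : a * c = b := by rw [← hab, ← mul_assoc, sa, one_mul]
  have hca : c * a = b := by rw [ca, hac]
  have hbc : b * c = a := by rw [← hba, ← mul_assoc, sb, one_mul]
  have hcb : c * b = a := by rw [cb, hbc]
  have hz' : z ∈ f.ker := hz
  rw [ker_eq hK hf hZ h2 h] at hz'
  have hinv : ∀ x : K, x * x = 1 → x⁻¹ = x := fun x hx => inv_eq_of_mul_eq_one_left hx
  have hgen : ∀ x, (∃ u v w, Tri u v w ∧ x = dd t u v w) → x = a ∨ x = b ∨ x = c := by
    rintro x ⟨u, v, w, p, rfl⟩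
    exact dd_cases h hf hZ hω p
  clear_value a b c
  refine closure_induction (p := fun z _ => z = 1 ∨ z = a ∨ z = b ∨ z = c) ?_ (Or.inl rfl) ?_ ?_ hz'
  · intro x hx
    exact Or.inr (hgen x hx)
  · rintro x y - - hx hy
    rcases hx with e | e | e | e <;> rcases hy with e' | e' | e' | e' <;>
      simp only [e, e', one_mul, mul_one, sa, sb, sc, hab, hba, hac, hca, hbc, hcb, true_or, or_true]
  · rintro x - hx
    rcases hx with rfl | rfl | rfl | rfl
    · exact Or.inl inv_one
    · exact Or.inr (Or.inl (hinv _ sa))
    · exact Or.inr (Or.inr (Or.inl (hinv _ sb)))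
    · exact Or.inr (Or.inr (Or.inr (hinv _ sc)))

end Base

/-- the situation: `L → SU₆(2)` with a central 2-kernel, `q : L → K` its 2-part over `PSU₆(2)` -/
structure Two (hF : Fintype.card F = 2 ^ 2) (ω : F) {L : Type w} {K : Type u} [Group L] [Group K]
    (φ : L →* SU 6 F 2) (q : L →* K) (f : K →* PSU 6 F 2) (t : (Fin 6 → F) → K) : Prop where
  tl : TL hF f t
  hφ : Function.Surjective φ
  hq : Function.Surjective q
  comp : ∀ x, f (q x) = pr 6 F 2 (φ x)
  hf : Function.Surjective f
  hZ : f.ker ≤ center K
  inj : ∀ x, q x = 1 → φ x = 1 → x = 1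
  cases : ∀ z, f z = 1 → z = 1 ∨ z = dd t (ee 0) (ee 1) (ee 2) ∨
      z = dd t (ee 0) (ee 1) (ω • ee 2) ∨ z = dd t (ee 0) (ee 1) (ω ^ 2 • ee 2)
  wom : val t ω wom = 1

namespace Two

variable {L : Type w} {K : Type u} [Group L] [Group K] {φ : L →* SU 6 F 2} {q : L →* K} {f : K →* PSU 6 F 2}
  {t : (Fin 6 → F) → K} (H : Two hF ω φ q f t)

include hω H

theorem conj_rel {u v : List V6} (hu : iso u = true) (hv : iso v = true) {k y : L} (hk : φ k = gW hF ω u)
    (hy : φ y = gW hF ω v) : q (k * y * k⁻¹ * y⁻¹) = val t ω (v.map (actW u)) * val t ω v.reverse := by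
  have h1 : f (q k) = pr 6 F 2 (gW hF ω u) := by rw [H.comp, hk]
  obtain ⟨ζ, hζ⟩ : ∃ ζ, q y = val t ω v * ζ := ⟨(val t ω v)⁻¹ * q y, by group⟩
  have h2 : f ζ = 1 := by
    have h3 : f (q y) = f (val t ω v) * f ζ := by rw [hζ, map_mul]
    rw [H.comp, hy, map_val hω H.tl hv] at h3
    exact (mul_eq_left.1 h3.symm)
  have h4 := mem_center_iff.1 (H.hZ h2)
  rw [val_map hω H.tl hu h1 hv, val_reverse hω H.tl hv, map_mul, map_mul, map_mul, map_inv, map_inv, hζ]
  calc q k * (val t ω v * ζ) * (q k)⁻¹ * (val t ω v * ζ)⁻¹
      = q k * val t ω v * (ζ * (q k)⁻¹) * ζ⁻¹ * (val t ω v)⁻¹ := by group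
    _ = q k * val t ω v * ((q k)⁻¹ * ζ) * ζ⁻¹ * (val t ω v)⁻¹ := by rw [h4]
    _ = q k * val t ω v * (q k)⁻¹ * (val t ω v)⁻¹ := by group

theorem eq_of {x y : L} (h1 : q x = q y) (h2 : φ x = φ y) : x = y := by
  have := H.inj (x * y⁻¹) (by rw [map_mul, map_inv, h1, mul_inv_cancel]) (by rw [map_mul, map_inv, h2, mul_inv_cancel])
  exact mul_inv_eq_one.1 this

theorem central {c : L} (hc : φ c = 1) (y : L) : y * c = c * y := by
  apply H.eq_of hω
  · rw [map_mul, map_mul]
    exact mem_center_iff.1 (H.hZ (show q c ∈ f.ker by rw [MonoidHom.mem_ker, H.comp, hc, map_one])) _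
  · rw [map_mul, map_mul, hc, one_mul, mul_one]

/-- one conjugation of the lifts of a word -/
theorem exists_conj {u v : List V6} (hu : iso u = true) (hv : iso v = true)
    (hm : ∀ x ∈ bas, actW (u ++ v) x = actW (v ++ u) x) {z : K}
    (hr : val t ω (v.map (actW u) ++ v.reverse) = z) {x : L} (hx : φ x = gW hF ω v) :
    ∃ k c : L, k * x * k⁻¹ = x * c ∧ φ c = 1 ∧ q c = z := by
  obtain ⟨k, hk⟩ := H.hφ (gW hF ω u)
  have h1 : φ (k * x * k⁻¹ * x⁻¹) = 1 := by
    have e := gW_eq (hF := hF) hω (w := u ++ v) (w' := v ++ u) (iso_append.2 ⟨hu, hv⟩) (iso_append.2 ⟨hv, hu⟩) hm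
    rw [gW_append, gW_append] at e
    rw [map_mul, map_mul, map_mul, map_inv, map_inv, hk, hx, e]
    group
  refine ⟨k, k * x * k⁻¹ * x⁻¹, ?_, h1, ?_⟩
  · rw [H.central hω h1]; group
  · rw [H.conj_rel hω hu hv hk hx, ← val_append, hr]

/-- **The lifts of `x₀` are fused.** -/
theorem fus {x : L} (hx : φ x = gW hF ω v_ns1) {ζ : L} (hζ : φ ζ = 1) : IsConj x (x * ζ) := by
  obtain ⟨k₁, c₁, a1, b1, d1⟩ := H.exists_conj hω iu_ns1 iv_ns1 m_ns1
    (rel_of_chkQ hω H.tl H.hf H.hZ c_ns1) hx
  obtain ⟨k₂, c₂, a2, b2, d2⟩ := H.exists_conj hω iu_ns2 iv_ns2 m_ns2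
    (rel_of_chkQ hω H.tl H.hf H.hZ c_ns2) (show φ x = gW hF ω v_ns2 from hx)
  have e1 : (Q.ev ω .o • ee 2 : Fin 6 → F) = ee 2 := by rw [show Q.ev ω .o = 1 from rfl, one_smul]
  rw [e1] at d1
  change q c₂ = dd t (ee 0) (ee 1) (ω • ee 2) at d2
  have p1 : Tri (ee 0 : Fin 6 → F) (ee 1) (ee 2) := by
    have := tri_std hω H.tl one_ne_zero; rwa [one_smul] at this
  have pu := tri_std hω H.tl (pow_ne_zero 2 (omega_ne_zero hω))
  have abc := dd_three H.tl p1 hω
  have sc := dd_sq H.tl pu
  rcases H.cases (q ζ) (by rw [H.comp, hζ, map_one]) with e | e | e | e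
  · rw [H.inj ζ e hζ, mul_one]
  · have : ζ = c₁ := H.eq_of hω (e.trans d1.symm) (hζ.trans b1.symm)
    rw [this]
    exact isConj_iff.2 ⟨k₁, a1⟩
  · have : ζ = c₂ := H.eq_of hω (e.trans d2.symm) (hζ.trans b2.symm)
    rw [this]
    exact isConj_iff.2 ⟨k₂, a2⟩
  · have : ζ = c₁ * c₂ := by
      refine H.eq_of hω ?_ ?_
      · rw [e, map_mul, d1, d2]
        calc dd t (ee 0) (ee 1) (ω ^ 2 • ee 2) = 1 * dd t (ee 0) (ee 1) (ω ^ 2 • ee 2) := by rw [one_mul]
          _ = dd t (ee 0) (ee 1) (ee 2) * dd t (ee 0) (ee 1) (ω • ee 2) *
              (dd t (ee 0) (ee 1) (ω ^ 2 • ee 2) * dd t (ee 0) (ee 1) (ω ^ 2 • ee 2)) := by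
            rw [← abc]; group
          _ = _ := by rw [sc, mul_one]
      · rw [hζ, map_mul, b1, b2, one_mul]
    rw [this]
    refine isConj_iff.2 ⟨k₁ * k₂, ?_⟩
    calc k₁ * k₂ * x * (k₁ * k₂)⁻¹ = k₁ * (k₂ * x * k₂⁻¹) * k₁⁻¹ := by group
      _ = (k₁ * x * k₁⁻¹) * (k₁ * c₂ * k₁⁻¹) := by rw [a2]; group
      _ = x * c₁ * (c₂ * k₁ * k₁⁻¹) := by rw [a1, H.central hω b2]
      _ = x * (c₁ * c₂) := by group

end Two

/-! ### `ω` times a transvection -/

include hω in
/-- an additive and homogeneous map is determined by its values on the basis -/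
theorem act_of_basis {g : SU 6 F 2} {A : (Fin 6 → F) → (Fin 6 → F)} (ha : ∀ x y, A (x + y) = A x + A y)
    (hs : ∀ (c : F) x, A (c • x) = c • A x) (h : ∀ x ∈ bas, act g (x.toF ω) = A (x.toF ω)) (X : Fin 6 → F) :
    act g X = A X := by
  obtain ⟨b0, b1, b2, b3, b4, b5⟩ := toF_basis (ω := ω)
  have hx : X = X 0 • Pi.single 0 1 + X 1 • Pi.single 1 1 + X 2 • Pi.single 2 1 + X 3 • Pi.single 3 1 +
      X 4 • Pi.single 4 1 + X 5 • Pi.single 5 1 := by
    funext i
    (revert i; simp only [_root_.Fin.forall_fin_succ, Fin.isValue, _root_.Pi.add_apply, _root_.Pi.smul_apply, _root_.smul_eq_mul, _root_.Pi.single_eq_same, _root_.mul_one, _root_.ne_eq, _root_.zero_ne_one, _root_.not_false_eq_true, _root_.Pi.single_eq_of_ne, _root_.MulZeroClass.mul_zero, _root_.add_zero, Fin.reduceEq, _root_.Fin.succ_ne_zero, _root_.zero_add, _root_.Fin.succ_zero_eq_one, _root_.Fin.succ_one_eq_two, Fin.reduceSucc, _root_.IsEmpty.forall_iff, _root_.and_self])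
  have k0 : act g (Pi.single 0 1) = A (Pi.single 0 1) := b0 ▸ h _ (by simp [bas])
  have k1 : act g (Pi.single 1 1) = A (Pi.single 1 1) := b1 ▸ h _ (by simp [bas])
  have k2 : act g (Pi.single 2 1) = A (Pi.single 2 1) := b2 ▸ h _ (by simp [bas])
  have k3 : act g (Pi.single 3 1) = A (Pi.single 3 1) := b3 ▸ h _ (by simp [bas])
  have k4 : act g (Pi.single 4 1) = A (Pi.single 4 1) := b4 ▸ h _ (by simp [bas])
  have k5 : act g (Pi.single 5 1) = A (Pi.single 5 1) := b5 ▸ h _ (by simp [bas])
  rw [hx]
  simp only [act_add, act_smul, ha, hs, k0, k1, k2, k3, k4, k5]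

theorem wom_ok : bas.all (fun x => decide (actW wom x = V6.smul .w x)) = true := by decide +kernel

include hω in
theorem act_wom (X : Fin 6 → F) : act (gW hF ω wom) X = ω • X := by
  refine act_of_basis hω (A := fun x => ω • x) (fun x y => smul_add _ _ _) (fun c x => smul_comm _ _ _) ?_ X
  intro x hx
  rw [act_gW hω wom iso_wom, of_decide_eq_true (List.all_eq_true.1 wom_ok x hx), toF_smul hF hω]
  rfl

include hω in
/-- `[u, v] = ω T(E0)` in `SU₆(2)` -/
theorem rel_su {u v : List V6} (hu : iso u = true) (hv : iso v = true)
    (hm : ∀ x ∈ bas, actW (u ++ v) x = V6.smul .w (actW (E0 :: (v ++ u)) x)) :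
    gW hF ω u * gW hF ω v = gW hF ω wom * gW hF ω [E0] * (gW hF ω v * gW hF ω u) := by
  have hE : iso [E0] = true := by decide
  have hvu : iso (E0 :: (v ++ u)) = true := iso_cons.2 ⟨by decide, iso_append.2 ⟨hv, hu⟩⟩
  have e : gW hF ω u * gW hF ω v = gW hF ω wom * gW hF ω (E0 :: (v ++ u)) := by
    rw [← gW_append]
    apply ext_act
    intro X
    rw [act_mul, act_wom hω]
    refine act_of_basis hω (A := fun x => ω • act (gW hF ω (E0 :: (v ++ u))) x) (fun x y => by
      simp only [act_add, smul_add]) (fun c x => by simp only [act_smul]; rw [smul_comm]) ?_ X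
    intro x hx
    show _ = ω • act (gW hF ω (E0 :: (v ++ u))) (x.toF ω)
    rw [act_gW hω _ (iso_append.2 ⟨hu, hv⟩), hm x hx, toF_smul hF hω, act_gW hω _ hvu]
    rfl
  have e2 : gW hF ω (E0 :: (v ++ u)) = gW hF ω [E0] * (gW hF ω v * gW hF ω u) := by
    rw [gW_cons, gW_append, gW_cons, gW_nil, mul_one]
  rw [e, e2, mul_assoc]

namespace Two

variable {L : Type w} {K : Type u} [Group L] [Group K] {φ : L →* SU 6 F 2} {q : L →* K} {f : K →* PSU 6 F 2}
  {t : (Fin 6 → F) → K} (H : Two hF ω φ q f t)

include hω H

/-- one lift of `ω T(E0)` -/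
theorem wt_one {u v : List V6} (hu : iso u = true) (hv : iso v = true)
    (hm : ∀ x ∈ bas, actW (u ++ v) x = V6.smul .w (actW (E0 :: (v ++ u)) x)) {z : K} (hz : f z = 1)
    (hr : val t ω (v.map (actW u) ++ v.reverse ++ [E0] ++ H486.US.wom.reverse) = z) {y : L}
    (hy : φ y = gW hF ω H486.US.wom * gW hF ω [E0]) (hq : q y = t (E0.toF ω) * z) : IsC y := by
  obtain ⟨k, hk⟩ := H.hφ (gW hF ω u)
  obtain ⟨x, hx⟩ := H.hφ (gW hF ω v)
  refine ⟨k, x, H.eq_of hω ?_ ?_⟩
  · rw [H.conj_rel hω hu hv hk hx, ← val_append, hq]
    have e1 := t_sq hω H.tl (a := E0) (by decide)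
    have e2 : val t ω H486.US.wom.reverse = 1 := by rw [val_reverse hω H.tl iso_wom, H.wom, inv_one]
    rw [val_append, e2, mul_one, val_append, val_cons, val_nil, mul_one] at hr
    have e3 := mem_center_iff.1 (H.hZ (show z ∈ f.ker from hz)) (t (E0.toF ω))
    rw [e3, ← hr, mul_assoc, e1, mul_one]
  · have e := rel_su (hF := hF) hω hu hv hm
    rw [map_mul, map_mul, map_mul, map_inv, map_inv, hk, hx, hy, e]
    group

/-- **All lifts of `ω T(E0)` are commutators.** -/
theorem wt {y : L} (hy : φ y = gW hF ω H486.US.wom * gW hF ω [E0]) : IsC y := by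
  have hE : iso [E0] = true := by decide
  have e0 : pr 6 F 2 (gW hF ω H486.US.wom) = 1 := by
    rw [← map_val hω H.tl iso_wom, H.wom, map_one]
  have e1 : f (q y) = f (t (E0.toF ω)) := by
    rw [H.comp, hy, map_mul, e0, one_mul, ← map_val hω H.tl hE, val_cons, val_nil, mul_one]
  obtain ⟨z, hz⟩ : ∃ z, q y = t (E0.toF ω) * z := ⟨(t (E0.toF ω))⁻¹ * q y, by group⟩
  have hfz : f z = 1 := by
    rw [hz, map_mul] at e1
    exact mul_eq_left.1 e1
  have e2 : (Q.ev ω .o • ee 2 : Fin 6 → F) = ee 2 := by rw [show Q.ev ω .o = 1 from rfl, one_smul]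
  rcases H.cases z hfz with e | e | e | e
  · exact H.wt_one hω iu_wt000 iv_wt000 m_wt000 hfz (by rw [e]; exact rel_of_chk hω H.tl c_wt000) hy hz
  · refine H.wt_one hω iu_wt110 iv_wt110 m_wt110 hfz ?_ hy hz
    rw [e, ← e2]; exact rel_of_chkQ hω H.tl H.hf H.hZ c_wt110
  · refine H.wt_one hω iu_wt011 iv_wt011 m_wt011 hfz ?_ hy hz
    rw [e]; exact (rel_of_chkQ hω H.tl H.hf H.hZ c_wt011 :)
  · refine H.wt_one hω iu_wt101 iv_wt101 m_wt101 hfz ?_ hy hz
    rw [e]; exact (rel_of_chkQ hω H.tl H.hf H.hZ c_wt101 :)

end Two

end Cfsg.Agent.H486.US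
end

-- part: H486/US/Pairs
section
/-!
# `SU₆(2)`: commutator pairs with first member `x₀ = gW v_ns1` for the class representatives (helper486)
-/

set_option autoImplicit false
set_option maxRecDepth 100000

namespace Cfsg.Agent.H486.US

open Cfsg.Agent.H767.U6 (XP cd)

/-- the column `j` of `l X` -/
def colV (P l j : ℕ) : V6 := V6.smul (Q.d l) ⟨Q.d (cd P 0 j), Q.d (cd P 1 j), Q.d (cd P 2 j), Q.d (cd P 3 j),
  Q.d (cd P 4 j), Q.d (cd P 5 j)⟩

/-- the columns of `l X_i` -/
def colsV (i l : ℕ) : List V6 := (List.range 6).map (colV (XP.getD i 0) l)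

/-- the word `a [x₀, u] a⁻¹` -/
def pairW (A U : List V6) : List V6 := A ++ v_ns1 ++ U ++ v_ns1.reverse ++ U.reverse ++ A.reverse

/-- certificate: `l X_i = a [x₀, u] a⁻¹` -/
def chkP (r : ℕ × ℕ × List ℕ × List ℕ) : Bool :=
  iso (r.2.2.1.map V6.d4) && (iso (r.2.2.2.map V6.d4) &&
    decide (bas.map (actW (pairW (r.2.2.1.map V6.d4) (r.2.2.2.map V6.d4))) = colsV r.1 r.2.1))

def pd0 : List (ℕ × ℕ × List ℕ × List ℕ) := [
  (1, 1, [436, 1078, 1079, 1510, 1922], [1534, 105, 417, 1977, 1749, 1196]),
  (2, 1, [1653, 7, 1843, 268], [1435, 1176, 1308, 121, 1067, 408]),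
  (2, 2, [1470, 112, 1390, 1236, 1192], [1447, 1216, 1230, 1895, 1287]),
  (2, 3, [1435, 1556, 1405, 28, 1509], [1071, 1703, 1027, 1196, 1810]),
  (3, 1, [1917, 1902, 384, 1187], [1645, 1116, 1919, 1963, 1703, 1785]),
  (3, 2, [1812, 2006, 1077, 1252, 85], [1625, 288, 1376, 325, 1062, 1453]),
  (3, 3, [1654, 326, 320, 1449, 106], [1381, 1329, 483, 1108, 268]),
  (4, 1, [1077, 1517, 125, 1622, 28, 1298], [329, 418, 1045, 1313]),
  (4, 2, [1461, 1601, 1534, 1494, 1488], [1676, 1551, 311, 1176, 1095]),
  (4, 3, [1152, 465, 1868, 433], [1864, 1759, 1782, 320, 1550]),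
  (5, 1, [1081, 1196, 2010, 1723, 1622, 1399], [1050, 18, 1331, 1454, 1185]),
  (5, 2, [1233, 303, 107, 1957, 1222, 1286], [298, 1509, 1661, 1918])]
private noncomputable def _root_.Cfsg.Agent.LsF.ffe0377_0 : {f // @Cfsg.Agent.H486.US.Q.add = f} := ⟨_, by first | (delta Cfsg.Agent.H486.US.Q.add; (try delta Cfsg.Agent.H486.US.Q.add.match_1); (try delta Cfsg.Agent.H486.US.Q.casesOn); exact rfl) | exact rfl⟩
private noncomputable def _root_.Cfsg.Agent.LsF.ffe0377_1 : {f // @Cfsg.Agent.H486.US.Q.mul = f} := ⟨_, by first | (delta Cfsg.Agent.H486.US.Q.mul; (try delta Cfsg.Agent.H486.US.Q.mul.match_1); (try delta Cfsg.Agent.H486.US.Q.mul._sparseCasesOn_1); (try delta Cfsg.Agent.H486.US.Q.casesOn); exact rfl) | exact rfl⟩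
private noncomputable def _root_.Cfsg.Agent.LsF.ffe0377_2 : {f // @Cfsg.Agent.H486.US.Q.cj = f} := ⟨_, by first | (delta Cfsg.Agent.H486.US.Q.cj; (try delta Cfsg.Agent.H486.US.Q.cj.match_1); (try delta Cfsg.Agent.H486.US.Q.casesOn); exact rfl) | exact rfl⟩
private noncomputable def _root_.Cfsg.Agent.LsF.ffe0377_3 : {f // @Cfsg.Agent.H486.US.V6.h = f} := ⟨_, by first | (delta Cfsg.Agent.H486.US.V6.h; rewrite [Cfsg.Agent.LsF.ffe0377_0.2, Cfsg.Agent.LsF.ffe0377_1.2, Cfsg.Agent.LsF.ffe0377_2.2]; exact rfl) | exact rfl⟩
private noncomputable def _root_.Cfsg.Agent.LsF.ffe0377_4 : {f // @Cfsg.Agent.H486.US.instDecidableEqQ = f} := ⟨_, by first | (delta Cfsg.Agent.H486.US.instDecidableEqQ; rewrite [Cfsg.Agent.LsF.instDecEq_eq, Cfsg.Agent.LsF.dite_eq]; exact rfl) | exact rfl⟩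
private noncomputable def _root_.Cfsg.Agent.LsF.ffe0377_5 : {f // @Cfsg.Agent.H486.US.iso = f} := ⟨_, by first | (delta Cfsg.Agent.H486.US.iso; rewrite [Cfsg.Agent.LsF.ffe0377_3.2, Cfsg.Agent.LsF.ffe0377_4.2, Cfsg.Agent.LsF.all_eq, Cfsg.Agent.LsF.decide_eq]; exact rfl) | exact rfl⟩
private noncomputable def _root_.Cfsg.Agent.LsF.ffe0377_6 : {f // @Cfsg.Agent.H486.US.Q.d = f} := ⟨_, by first | (delta Cfsg.Agent.H486.US.Q.d; (try delta Cfsg.Agent.H486.US.Q.d.match_1); (try rewrite [Cfsg.Agent.LsF.instDecEq_eq, Cfsg.Agent.LsF.dite_eq]); exact rfl) | exact rfl⟩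
private noncomputable def _root_.Cfsg.Agent.LsF.ffe0377_7 : {f // @Cfsg.Agent.H486.US.V6.d4 = f} := ⟨_, by first | (delta Cfsg.Agent.H486.US.V6.d4; rewrite [Cfsg.Agent.LsF.ffe0377_6.2, Cfsg.Agent.LsF.ndiv_pat, Cfsg.Agent.LsF.nmod_pat]; exact rfl) | exact rfl⟩
private noncomputable def _root_.Cfsg.Agent.LsF.ffe0377_8 : {f // @Cfsg.Agent.H486.US.V6.add = f} := ⟨_, by first | (delta Cfsg.Agent.H486.US.V6.add; rewrite [Cfsg.Agent.LsF.ffe0377_0.2]; exact rfl) | exact rfl⟩
private noncomputable def _root_.Cfsg.Agent.LsF.ffe0377_9 : {f // @Cfsg.Agent.H486.US.V6.smul = f} := ⟨_, by first | (delta Cfsg.Agent.H486.US.V6.smul; rewrite [Cfsg.Agent.LsF.ffe0377_1.2]; exact rfl) | exact rfl⟩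
private noncomputable def _root_.Cfsg.Agent.LsF.ffe0377_10 : {f // @Cfsg.Agent.H486.US.V6.T = f} := ⟨_, by first | (delta Cfsg.Agent.H486.US.V6.T; rewrite [Cfsg.Agent.LsF.ffe0377_8.2, Cfsg.Agent.LsF.ffe0377_9.2, Cfsg.Agent.LsF.ffe0377_3.2]; exact rfl) | exact rfl⟩
private noncomputable def _root_.Cfsg.Agent.LsF.ffe0377_11 : {f // @Cfsg.Agent.H486.US.actW = f} := ⟨_, by first | (delta Cfsg.Agent.H486.US.actW; rewrite [Cfsg.Agent.LsF.ffe0377_10.2, Cfsg.Agent.LsF.foldr_eq]; exact rfl) | exact rfl⟩
private noncomputable def _root_.Cfsg.Agent.LsF.ffe0377_12 : {f // @Cfsg.Agent.H486.US.v_ns1 = f} := ⟨_, by first | (delta Cfsg.Agent.H486.US.v_ns1; rewrite [Cfsg.Agent.LsF.ffe0377_7.2, Cfsg.Agent.LsF.map_eq]; exact rfl) | exact rfl⟩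
private noncomputable def _root_.Cfsg.Agent.LsF.ffe0377_13 : {f // @Cfsg.Agent.H486.US.pairW = f} := ⟨_, by first | (delta Cfsg.Agent.H486.US.pairW; rewrite [Cfsg.Agent.LsF.ffe0377_12.2, Cfsg.Agent.LsF.lappend_pat, Cfsg.Agent.LsF.reverse_eq]; exact rfl) | exact rfl⟩
private noncomputable def _root_.Cfsg.Agent.LsF.ffe0377_14 : {f // @Cfsg.Agent.H486.US.bas = f} := ⟨_, by first | (delta Cfsg.Agent.H486.US.bas; rewrite [Cfsg.Agent.LsF.ffe0377_7.2]; exact rfl) | exact rfl⟩
private noncomputable def _root_.Cfsg.Agent.LsF.ffe0377_15 : {f // @Cfsg.Agent.H767.U6.cd = f} := ⟨_, by first | (delta Cfsg.Agent.H767.U6.cd; rewrite [Cfsg.Agent.LsF.nadd_pat, Cfsg.Agent.LsF.nmul_pat]; exact rfl) | exact rfl⟩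
private noncomputable def _root_.Cfsg.Agent.LsF.ffe0377_16 : {f // @Cfsg.Agent.H486.US.colV = f} := ⟨_, by first | (delta Cfsg.Agent.H486.US.colV; rewrite [Cfsg.Agent.LsF.ffe0377_9.2, Cfsg.Agent.LsF.ffe0377_6.2, Cfsg.Agent.LsF.ffe0377_15.2]; exact rfl) | exact rfl⟩
private noncomputable def _root_.Cfsg.Agent.LsF.ffe0377_17 : {f // @Cfsg.Agent.H486.US.colsV = f} := ⟨_, by first | (delta Cfsg.Agent.H486.US.colsV; rewrite [Cfsg.Agent.LsF.ffe0377_16.2, Cfsg.Agent.LsF.map_eq, Cfsg.Agent.LsF.range_eq, Cfsg.Agent.LsF.getD_eq]; exact rfl) | exact rfl⟩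
private noncomputable def _root_.Cfsg.Agent.LsF.ffe0377_18 : {f // @Cfsg.Agent.H486.US.instDecidableEqV6.decEq = f} := ⟨_, by first | (delta Cfsg.Agent.H486.US.instDecidableEqV6.decEq; rewrite [Cfsg.Agent.LsF.ffe0377_4.2, Cfsg.Agent.LsF.dite_eq]; (try delta Cfsg.Agent.H486.US.instDecidableEqV6.decEq.match_1); (try delta Cfsg.Agent.H486.US.V6.casesOn); exact rfl) | exact rfl⟩
private noncomputable def _root_.Cfsg.Agent.LsF.ffe0377_19 : {f // @Cfsg.Agent.H486.US.instDecidableEqV6 = f} := ⟨_, by first | (delta Cfsg.Agent.H486.US.instDecidableEqV6; rewrite [Cfsg.Agent.LsF.ffe0377_18.2]; exact rfl) | exact rfl⟩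
private noncomputable def _root_.Cfsg.Agent.LsF.ffe0377_20 : {f // @Cfsg.Agent.H486.US.chkP = f} := ⟨_, by first | (delta Cfsg.Agent.H486.US.chkP; rewrite [Cfsg.Agent.LsF.ffe0377_5.2, Cfsg.Agent.LsF.ffe0377_7.2, Cfsg.Agent.LsF.ffe0377_11.2, Cfsg.Agent.LsF.ffe0377_13.2, Cfsg.Agent.LsF.ffe0377_14.2, Cfsg.Agent.LsF.ffe0377_17.2, Cfsg.Agent.LsF.ffe0377_19.2, Cfsg.Agent.LsF.and_eq, Cfsg.Agent.LsF.map_eq, Cfsg.Agent.LsF.dListEq_eq, Cfsg.Agent.LsF.decide_eq]; exact rfl) | exact rfl⟩
theorem pd0_ok : pd0.all chkP = true := by ((try (rewrite [Cfsg.Agent.LsF.ffe0377_20.2, Cfsg.Agent.LsF.all_eq])); decide +kernel)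

def pd1 : List (ℕ × ℕ × List ℕ × List ℕ) := [
  (5, 3, [1466, 1932, 1783, 1852], [334, 1480, 1848, 1962, 463]),
  (6, 1, [320, 1398, 1256, 401, 1369, 1911], [1631, 1047, 1751]),
  (6, 2, [1077, 1297, 1816, 1085], [1534, 91, 310, 1055, 1340]),
  (6, 3, [1124, 1087, 257, 1373, 1529], [1494, 1382, 1786, 1330, 1159]),
  (7, 1, [1176, 344, 1196, 391, 1790], [1201, 1717, 1705, 1411, 1767]),
  (7, 2, [370, 1420, 1332, 1655, 1801], [1801, 1471, 1256, 1216, 102]),
  (7, 3, [1659, 2014, 1140, 2032, 102, 1694], [272, 1881, 1470]),
  (8, 1, [1450, 1809, 1585, 1641], [1383, 1765, 1266, 1240, 301]),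
  (8, 2, [1816, 390, 260, 403, 309], [1467, 1250, 398, 1783, 1553]),
  (8, 3, [1903, 488, 403, 1663, 127], [1801, 1965, 417, 101, 1285]),
  (9, 1, [1433, 1032, 302, 1169, 294], [1051, 1438, 497, 370, 1268]),
  (9, 2, [466, 1515, 404, 1286, 1231], [1094, 492, 1287, 285, 1347, 337])]
theorem pd1_ok : pd1.all chkP = true := by ((try (rewrite [Cfsg.Agent.LsF.ffe0377_20.2, Cfsg.Agent.LsF.all_eq])); decide +kernel)

def pd2 : List (ℕ × ℕ × List ℕ × List ℕ) := [
  (9, 3, [1672, 1332, 1571, 1411, 1403], [1520, 1514, 1291, 1902, 1826]),
  (10, 1, [1411, 1405, 1942, 444, 2005, 1501], [1841, 1067, 2037, 1648, 1707]),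
  (10, 2, [1204, 1180, 457, 1163, 1403], [1705, 1078, 1827, 286, 1914, 389]),
  (10, 3, [1386, 1329, 310, 499, 1374, 1932], [1294, 1513, 1773, 1299]),
  (11, 1, [380, 1450, 353, 1978, 2013], [86, 1036, 1632, 1314]),
  (11, 2, [1825, 1122, 1792, 1529, 1885], [1586, 1295, 1535, 1945, 1308]),
  (11, 3, [1903, 1922, 1072, 1985, 1251], [1792, 123, 1170, 2038, 468]),
  (12, 1, [1186, 1696, 118, 1102, 1965], [1632, 1797, 1320, 419, 1313]),
  (12, 2, [1550, 1883, 1571, 1435, 86], [337, 1165, 1629, 1718, 1757]),
  (12, 3, [1451, 1705, 1140, 353, 1526, 1919], [1751, 1642, 1686, 1801, 1201]),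
  (13, 1, [1722, 1067, 1586, 1026], [1140, 1629, 1864, 1555, 1580, 1272]),
  (13, 2, [1858, 1672, 1848, 1235, 1061, 1530], [1975, 1518, 1530, 1560])]
theorem pd2_ok : pd2.all chkP = true := by ((try (rewrite [Cfsg.Agent.LsF.ffe0377_20.2, Cfsg.Agent.LsF.all_eq])); decide +kernel)

def pd3 : List (ℕ × ℕ × List ℕ × List ℕ) := [
  (13, 3, [1340, 327, 1455, 1494], [1433, 1051, 278, 504, 1883, 344]),
  (14, 1, [264, 465, 1439, 1721, 1202], [302, 339, 326, 1451, 1848]),
  (14, 2, [1642, 294, 1527, 1276, 1858], [1828, 399, 1336, 1627, 288]),
  (14, 3, [1982, 1050, 1966, 1071, 1546], [1234, 1456, 264, 1913]),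
  (15, 1, [1623, 2016, 1455, 1859, 1225], [1622, 1519, 1913, 103, 272]),
  (15, 2, [1053, 1431, 1872, 2014, 1643], [1585, 1047, 1901, 1324, 397]),
  (15, 3, [1053, 1695, 1978, 1923, 1061, 1095], [1067, 458, 1958, 1740, 1542]),
  (16, 1, [1533, 1079, 1689, 327, 1510], [331, 1088, 1107, 2043, 1642]),
  (16, 2, [408, 399, 1626, 1560, 1773, 335], [334, 2025, 1629, 1982]),
  (16, 3, [1877, 339, 1240, 1186, 1465, 1723], [95, 1462, 1083]),
  (17, 1, [1983, 1596, 264, 2005, 288], [1124, 1280, 109, 454, 1495]),
  (17, 2, [1827, 1376, 1424, 497, 1975, 2042], [333, 1894, 1569, 1046])]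
theorem pd3_ok : pd3.all chkP = true := by ((try (rewrite [Cfsg.Agent.LsF.ffe0377_20.2, Cfsg.Agent.LsF.all_eq])); decide +kernel)

def pd4 : List (ℕ × ℕ × List ℕ × List ℕ) := [
  (17, 3, [89, 1107, 1235, 1690, 1138], [1287, 1180, 257, 1501]),
  (18, 1, [101, 1106, 1936, 1040], [1293, 2037, 2045, 1530, 1102]),
  (18, 2, [1383, 1456, 1473, 1392], [1515, 1924, 1066, 2042, 2047]),
  (18, 3, [418, 1371, 2026, 1313, 315], [1067, 1226, 483, 1525, 1648]),
  (19, 1, [1749, 1347, 1467, 1782, 463], [95, 309, 1484, 298, 1300]),
  (19, 2, [2000, 1469, 1612, 1894, 1806], [1760, 1476, 1744, 86, 1383]),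
  (19, 3, [459, 1744, 1974, 338, 1345, 339], [1811, 1601, 1046, 1401]),
  (20, 1, [2029, 1223, 390, 440, 259], [1857, 1776, 391, 1525, 1381]),
  (20, 2, [1947, 440, 1860, 1751, 1811], [2042, 1951, 1406, 1446, 281]),
  (20, 3, [126, 1132, 1298, 1570, 1212], [1717, 1520, 2005, 1707, 1446]),
  (21, 1, [1438, 1128, 65, 356, 1172], [1864, 1903, 1881, 107, 1643, 1291]),
  (21, 2, [1696, 1047, 435, 1986, 1645, 1392], [319, 85, 1081, 461])]
theorem pd4_ok : pd4.all chkP = true := by ((try (rewrite [Cfsg.Agent.LsF.ffe0377_20.2, Cfsg.Agent.LsF.all_eq])); decide +kernel)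

def pd5 : List (ℕ × ℕ × List ℕ × List ℕ) := [
  (21, 3, [458, 1676, 1316, 1433], [370, 2041, 1502, 2025, 1412, 1299]),
  (22, 1, [1346, 303, 1858, 1026, 1290], [1346, 1904, 1095, 1531, 417]),
  (22, 2, [1440, 1185, 1721, 94, 1749], [1169, 2041, 310, 1249, 1857]),
  (22, 3, [1781, 1036, 1775, 1965, 1571], [278, 258, 1416, 329, 1392]),
  (23, 1, [103, 1810, 1473, 1265, 1932], [1782, 318, 1480, 1101, 420]),
  (23, 2, [1899, 80, 2037, 453, 1473], [1493, 1222, 1828, 444]),
  (23, 3, [1503, 370, 1250, 1689, 1923], [2027, 457, 278, 1826, 1945]),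
  (24, 1, [481, 1187, 1947, 1958, 391], [1324, 1163, 2029, 402, 472]),
  (24, 2, [403, 1753, 1366, 1919, 1105], [353, 1365, 444, 1903, 126]),
  (24, 3, [1827, 465, 1887, 1171, 1807], [1105, 1026, 1291, 2030, 1162]),
  (25, 1, [1667, 1501, 1647, 67, 1903, 1959], [1095, 1083, 2042, 302]),
  (25, 2, [1639, 1560, 1272, 1596, 1887], [1554, 492, 1751, 457, 1290])]
theorem pd5_ok : pd5.all chkP = true := by ((try (rewrite [Cfsg.Agent.LsF.ffe0377_20.2, Cfsg.Agent.LsF.all_eq])); decide +kernel)

def pd6 : List (ℕ × ℕ × List ℕ × List ℕ) := [
  (25, 3, [1895, 1868, 408, 1859, 90, 1655], [1534, 1898, 1740, 435, 428]),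
  (26, 1, [389, 1872, 1186, 2010, 2038, 101], [1036, 66, 370, 1047]),
  (26, 2, [448, 1957, 1872, 264], [317, 1691, 68, 268, 1157]),
  (26, 3, [1526, 1887, 1128, 1725, 1623], [1572, 1438, 6, 1885, 508]),
  (27, 1, [1801, 1188, 1250, 1705, 1152], [1336, 1502, 1766, 1144]),
  (27, 2, [1474, 1696, 1370, 1180, 1148], [1963, 1860, 1286, 393]),
  (27, 3, [1297, 412, 1172, 298, 1527], [93, 1603, 107, 393]),
  (28, 1, [1602, 1859, 311, 1315], [1094, 1391, 1167, 304, 1103]),
  (28, 2, [1799, 1315, 1061, 1924, 1942], [1383, 1886, 286, 1431, 20]),
  (28, 3, [1803, 459, 1569, 356, 1494], [1725, 1331, 1071, 1801]),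
  (29, 1, [126, 1446, 1473, 1240, 1435, 1534], [1525, 1345, 1401, 394, 1025]),
  (29, 2, [260, 1638, 1787, 1571, 1536], [2025, 90, 459, 329, 1572])]
theorem pd6_ok : pd6.all chkP = true := by ((try (rewrite [Cfsg.Agent.LsF.ffe0377_20.2, Cfsg.Agent.LsF.all_eq])); decide +kernel)

def pd7 : List (ℕ × ℕ × List ℕ × List ℕ) := [
  (29, 3, [1585, 1265, 18, 488, 1717], [1223, 1466, 1887, 1072, 1098]),
  (30, 1, [329, 1480, 1665, 1501, 1767], [1533, 1744, 1527, 1977, 331]),
  (30, 2, [1992, 1300, 2010, 1917], [1291, 1555, 1370, 326, 497]),
  (30, 3, [2015, 1696, 1249, 2007, 1497], [1046, 1347, 285, 1757, 24]),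
  (31, 1, [294, 1167, 1087, 76, 1027], [433, 106, 371, 492, 309, 1790]),
  (31, 2, [1162, 1484, 1050, 1915, 2009], [1545, 1569, 1291, 1389, 1055]),
  (31, 3, [1572, 1774, 1961, 1340], [101, 1107, 1706, 1403, 279]),
  (32, 1, [1965, 298, 417, 1973, 1893], [314, 1740, 293, 1320, 1435]),
  (32, 2, [1391, 1630, 1977, 1293, 1878], [1887, 1765, 403, 1315, 401]),
  (32, 3, [1986, 1665, 1336, 1662, 1580], [1051, 2037, 1570, 468, 1382]),
  (33, 1, [1402, 1534, 1663, 1690, 2045, 1410], [1765, 1108, 393, 20, 1431]),
  (33, 2, [1902, 310, 1718, 1895, 1529], [1480, 1280, 1070, 1732, 1285])]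
theorem pd7_ok : pd7.all chkP = true := by ((try (rewrite [Cfsg.Agent.LsF.ffe0377_20.2, Cfsg.Agent.LsF.all_eq])); decide +kernel)

def pd8 : List (ℕ × ℕ × List ℕ × List ℕ) := [
  (33, 3, [1924, 1367, 1122, 1040], [1497, 1450, 1662, 1236, 1180, 1348]),
  (34, 1, [1233, 2046, 482, 466, 101], [72, 1816, 313, 340, 1965]),
  (34, 2, [283, 1054, 1286, 1188, 1982], [498, 1608, 1919, 1901]),
  (34, 3, [1608, 335, 1786, 1230, 282, 1706], [1560, 1051, 1882, 2030, 2025]),
  (35, 1, [465, 1077, 1988, 369, 1945, 1087], [1447, 1093, 126]),
  (35, 2, [402, 1790, 1513, 1250, 1420], [1868, 1986, 1295, 1471, 1256]),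
  (35, 3, [481, 1868, 1123, 1139, 1986], [1569, 1447, 1526, 1868, 1340]),
  (36, 1, [344, 1868, 1308, 103, 1390, 90], [1791, 1588, 1382, 1774, 1196]),
  (36, 2, [331, 1056, 1365, 1067, 85, 1928], [80, 1531, 301, 1687]),
  (36, 3, [80, 1727, 303, 93, 353, 1298], [2031, 1667, 1144, 295]),
  (37, 1, [364, 1786, 1654, 1981, 302], [1152, 1439, 1405, 1941, 337]),
  (37, 2, [72, 1112, 1961, 2016, 1983], [1116, 1070, 1585, 1121, 2005])]
theorem pd8_ok : pd8.all chkP = true := by ((try (rewrite [Cfsg.Agent.LsF.ffe0377_20.2, Cfsg.Agent.LsF.all_eq])); decide +kernel)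

def pd9 : List (ℕ × ℕ × List ℕ × List ℕ) := [
  (37, 3, [1369, 481, 457, 395, 1919, 1787], [1161, 1382, 315, 1812, 1751]),
  (38, 1, [85, 313, 1887, 1502, 408, 106], [1825, 1066, 121, 1810]),
  (38, 2, [1765, 1921, 1585, 20, 259], [1825, 1932, 1569, 1919, 1093]),
  (38, 3, [1898, 1456, 1112, 1256], [454, 364, 1027, 1267, 285, 1077]),
  (39, 1, [1534, 91, 1898, 1462, 1148], [1463, 1705, 277, 364, 1290, 2016]),
  (39, 2, [2047, 1775, 1580, 1545, 1431], [1904, 106, 434, 420, 109, 330]),
  (39, 3, [257, 1121, 1662, 340, 1910], [420, 1252, 1843, 288, 1648])]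
theorem pd9_ok : pd9.all chkP = true := by ((try (rewrite [Cfsg.Agent.LsF.ffe0377_20.2, Cfsg.Agent.LsF.all_eq])); decide +kernel)

/-- all pairs -/
def pdAll : List (ℕ × ℕ × List ℕ × List ℕ) := pd0 ++ pd1 ++ pd2 ++ pd3 ++ pd4 ++ pd5 ++ pd6 ++ pd7 ++ pd8 ++ pd9

theorem pdAll_ok : ∀ r ∈ pdAll, chkP r = true := by
  intro r hr
  simp only [pdAll, List.mem_append] at hr
  have key : ∀ {l : List (ℕ × ℕ × List ℕ × List ℕ)}, l.all chkP = true → r ∈ l → chkP r = true := fun h1 h2 =>
    List.all_eq_true.1 h1 r h2
  rcases hr with (((((((((hr | hr) | hr) | hr) | hr) | hr) | hr) | hr) | hr) | hr) <;> [exact key pd0_ok hr; exact key pd1_ok hr; exact key pd2_ok hr; exact key pd3_ok hr; exact key pd4_ok hr; exact key pd5_ok hr; exact key pd6_ok hr;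
                                                                                        exact key pd7_ok hr; exact key pd8_ok hr; exact key pd9_ok hr]

private noncomputable def _root_.Cfsg.Agent.LsF.ffe0377_21 : {f // @Cfsg.Agent.H486.US.pdAll = f} := ⟨_, by first | (delta Cfsg.Agent.H486.US.pdAll; rewrite [Cfsg.Agent.LsF.lappend_pat]; exact rfl) | exact rfl⟩
theorem pdAll_any : ((List.range 40).all fun i => (List.range 4).all fun l => l == 0 || i == 0 || (i == 1 && l != 1) ||
    pdAll.any fun r => r.1 == i && r.2.1 == l) = true := by ((try (rewrite [Cfsg.Agent.LsF.ffe0377_21.2, Cfsg.Agent.LsF.nbeq_pat, Cfsg.Agent.LsF.nbne_pat, Cfsg.Agent.LsF.and_eq, Cfsg.Agent.LsF.or_eq, Cfsg.Agent.LsF.all_eq, Cfsg.Agent.LsF.any_eq, Cfsg.Agent.LsF.range_eq])); decide +kernel)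

/-- every representative but `0`, `(1, 2)`, `(1, 3)` occurs -/
theorem pdAll_cover (i l : ℕ) (hi : i < 40) (hl : l < 4) (h1 : l ≠ 0) (h2 : i ≠ 0) (h3 : i = 1 → l = 1) :
    ∃ r ∈ pdAll, r.1 = i ∧ r.2.1 = l := by
  have k1 := List.all_eq_true.1 pdAll_any i (List.mem_range.2 hi)
  have k2 := List.all_eq_true.1 k1 l (List.mem_range.2 hl)
  simp only [Bool.or_eq_true, beq_iff_eq, Bool.and_eq_true, bne_iff_ne, ne_eq, List.any_eq_true] at k2
  rcases k2 with ((h | h) | h) | h
  · exact absurd h h1
  · exact absurd h h2
  · exact absurd (h3 h.1) h.2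
  · obtain ⟨r, hr, h4⟩ := h
    exact ⟨r, hr, h4⟩

/-- `X_1` is a conjugate of the transvection `T E0` -/
def a1 : List V6 := [1077, 1376, 1469, 107, 1116].map V6.d4
theorem a1_iso : iso a1 = true := by decide +kernel
theorem a1_ok : bas.map (actW (a1 ++ [E0] ++ a1.reverse)) = colsV 1 1 := by decide +kernel

end Cfsg.Agent.H486.US
end

-- part: H109/US/Wom
section
/-!
# Two commuting extraspecial blocks in a central 2-extension of `PSU₆(2)`

`wom`: the product of the two commutators (scalar `ω` on the first and on the last three coordinates) is 1.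
-/

set_option autoImplicit false
set_option linter.unusedSectionVars false
set_option linter.unusedSimpArgs false

namespace Cfsg.Agent.H109.US

open Subgroup Cfsg Cfsg.Agent.LieClassical.HermBasic Cfsg.Agent.ClassicalGeometry.UnitTransv
  Cfsg.Agent.SporadicStructure.UnitTwo Cfsg.Agent.R01.PSUSix Cfsg.Agent.KFacts.OddLift.USixL
open Cfsg.Agent.ClassicalGeometry.UnitAutBasic (tau pr pr_surjective pr_eq_of_scalar)
open scoped commutatorElement

universe u v

variable {F : Type v} [Field F] [Fintype F] {hF : Fintype.card F = 2 ^ 2}

section Group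

variable {K : Type u} [Group K]

/-- a central element of a 2-group with cube 1 -/
theorem eq_one_of_cube {N : Subgroup K} (h2 : IsPGroup 2 N) {z : K} (hz : z ∈ N) (h3 : z ^ 3 = 1) : z = 1 := by
  obtain ⟨k, hk⟩ := h2 ⟨z, hz⟩
  have hk' : z ^ (2 ^ k) = 1 := by
    have := congrArg Subtype.val hk
    simpa only [_root_.SubmonoidClass.mk_pow, _root_.OneMemClass.coe_one] using this
  have h4 : orderOf z ∣ 3 := orderOf_dvd_of_pow_eq_one h3
  have h5 : orderOf z ∣ 2 ^ k := orderOf_dvd_of_pow_eq_one hk'
  have h6 : Nat.Coprime 3 (2 ^ k) := Nat.Coprime.pow_right k (by norm_num)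
  exact orderOf_eq_one_iff.1 (Nat.dvd_one.1 (h6 ▸ Nat.dvd_gcd h4 h5))

variable {X : Type v} [Group X]

/-- an element of order 3 that commutes with `c` modulo a central 2-group commutes with `c` -/
theorem commute_of_map {f : K →* X} (hZ : f.ker ≤ center K) (h2 : IsPGroup 2 f.ker) {c p : K} (hp : p ^ 3 = 1)
    (hc : f c * f p = f p * f c) : c * p = p * c := by
  have hz : c * p * c⁻¹ * p⁻¹ ∈ f.ker := by
    rw [MonoidHom.mem_ker, map_mul, map_mul, map_mul, map_inv, map_inv, hc]
    group
  set z := c * p * c⁻¹ * p⁻¹ with hzd
  have e1 : c * p * c⁻¹ = z * p := by rw [hzd]; group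
  have hzc := mem_center_iff.1 (hZ hz)
  have e2 : (z * p) ^ 3 = z ^ 3 := by
    have hcm : Commute z p := (hzc p).symm
    rw [hcm.mul_pow, hp, mul_one]
  have e3 : z ^ 3 = 1 := by
    rw [← e2, ← e1, conj_pow, hp, mul_one, mul_inv_cancel]
  have e4 := eq_one_of_cube h2 hz e3
  rw [e4, one_mul] at e1
  exact mul_inv_eq_iff_eq_mul.1 e1

/-- the commutator of two elements of order 3, commuting with both, has order 3 -/
theorem cube_comm {p q c : K} (hq : q ^ 3 = 1) (hc : p * q * p⁻¹ = c * q) (hcq : c * q = q * c) :
    c ^ 3 = 1 := by
  have hcm : Commute c q := hcq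
  have e : (p * q * p⁻¹) ^ 3 = c ^ 3 := by rw [hc, hcm.mul_pow, hq, mul_one]
  rw [← e, conj_pow, hq, mul_one, mul_inv_cancel]

end Group

variable {K : Type u} [Group K] {f : K →* PSU 6 F 2} {t : (Fin 6 → F) → K}

theorem braid (h : TL hF f t) {a b : Fin 6 → F} (ha : hermForm 6 F 2 a a = 0) (hb : hermForm 6 F 2 b b = 0)
    (hab : hermForm 6 F 2 a b ≠ 0) : t a * t b * t a = t b * t a * t b := by
  have ia : (t a)⁻¹ = t a := inv_eq_of_mul_eq_one_left (h.sq a ha)
  have ib : (t b)⁻¹ = t b := inv_eq_of_mul_eq_one_left (h.sq b hb)
  have e1 := h.conj (t a) (T hF a ha) b hb (map_t h ha)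
  have e2 := h.conj (t b) (T hF b hb) a ha (map_t h hb)
  rw [ia] at e1
  rw [ib] at e2
  rw [e1, e2]
  have h3 := pow_three hF hab
  have e3 : act (T hF a ha) b = (hermForm 6 F 2 a b) ^ 2 • act (T hF b hb) a := by
    rw [act_T, act_T, herm_swap hF a b]
    funext i
    simp only [Pi.add_apply, Pi.smul_apply, smul_eq_mul]
    linear_combination (- b i) * h3
  rw [e3]
  refine h.smul _ _ (pow_ne_zero 2 hab) ?_
  rw [herm_act]
  exact ha

theorem cube_ab (h : TL hF f t) {a b : Fin 6 → F} (ha : hermForm 6 F 2 a a = 0) (hb : hermForm 6 F 2 b b = 0)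
    (hab : hermForm 6 F 2 a b ≠ 0) : (t a * t b) ^ 3 = 1 := by
  have e := braid h ha hb hab
  have sa := h.sq a ha
  have sb := h.sq b hb
  calc (t a * t b) ^ 3 = (t a * t b * t a) * (t b * t a * t b) := by rw [pow_succ, pow_two]; group
    _ = (t a * t b * t a) * (t a * t b * t a) := by rw [← e]
    _ = t a * t b * (t a * t a) * t b * t a := by group
    _ = t a * (t b * t b) * t a := by rw [sa]; group
    _ = 1 := by rw [sb, mul_one, sa]

/-- the word -/
def wd (t : (Fin 6 → F) → K) (a b d : Fin 6 → F) : K := t a * t b * t a * t d * t b * t a * t d * t a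

/-- the image of the word -/
def wg (hF : Fintype.card F = 2 ^ 2) {a b d : Fin 6 → F} (ha : hermForm 6 F 2 a a = 0) (hb : hermForm 6 F 2 b b = 0)
    (hd : hermForm 6 F 2 d d = 0) : SU 6 F 2 :=
  T hF a ha * T hF b hb * T hF a ha * T hF d hd * T hF b hb * T hF a ha * T hF d hd * T hF a ha

theorem map_wd (h : TL hF f t) {a b d : Fin 6 → F} (ha : hermForm 6 F 2 a a = 0) (hb : hermForm 6 F 2 b b = 0)
    (hd : hermForm 6 F 2 d d = 0) : f (wd t a b d) = pr 6 F 2 (wg hF ha hb hd) := by
  unfold wd wg
  simp only [map_mul, map_t h ha, map_t h hb, map_t h hd]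

theorem cube_wd (h : TL hF f t) (hZ : f.ker ≤ center K) (h2 : IsPGroup 2 f.ker) {a b d : Fin 6 → F}
    (ha : hermForm 6 F 2 a a = 0) (hb : hermForm 6 F 2 b b = 0) (hd : hermForm 6 F 2 d d = 0)
    (had : hermForm 6 F 2 a d ≠ 0)
    (cd : wg hF ha hb hd * (T hF a ha * T hF d hd) = (T hF a ha * T hF d hd) * wg hF ha hb hd) :
    wd t a b d ^ 3 = 1 := by
  have ia : (t a)⁻¹ = t a := inv_eq_of_mul_eq_one_left (h.sq a ha)
  have ib : (t b)⁻¹ = t b := inv_eq_of_mul_eq_one_left (h.sq b hb)
  have id' : (t d)⁻¹ = t d := inv_eq_of_mul_eq_one_left (h.sq d hd)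
  have hq := cube_ab h ha hd had
  refine cube_comm (p := t a * t b) hq ?_ ?_
  · unfold wd
    rw [mul_inv_rev, ia, ib]
    have e1 : t d * t d = 1 := h.sq d hd
    have e2 : t a * t a = 1 := h.sq a ha
    calc t a * t b * (t a * t d) * (t b * t a) = t a * t b * t a * t d * t b * t a := by group
      _ = t a * t b * t a * t d * t b * t a * (t d * t d) := by rw [e1, mul_one]
      _ = t a * t b * t a * t d * t b * t a * t d * (t a * t a) * t d := by rw [e2, mul_one]; group
      _ = _ := by group
  · refine commute_of_map hZ h2 hq ?_
    rw [map_wd h ha hb hd, map_mul, map_t h ha, map_t h hd, ← map_mul, ← map_mul, ← map_mul, cd]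

section Vectors

variable (hF)

/-- the six vectors -/
def a0 : Fin 6 → F := ![1, 1, 0, 0, 0, 0]
/-- the six vectors -/
def b0 (ω : F) : Fin 6 → F := ![1, ω, 0, 0, 0, 0]
/-- the six vectors -/
def d0 : Fin 6 → F := ![0, 1, 1, 0, 0, 0]
/-- the six vectors -/
def a1 : Fin 6 → F := ![0, 0, 0, 1, 1, 0]
/-- the six vectors -/
def b1 (ω : F) : Fin 6 → F := ![0, 0, 0, 1, ω, 0]
/-- the six vectors -/
def d1 : Fin 6 → F := ![0, 0, 0, 0, 1, 1]

theorem fsum (x y : Fin 6 → F) : hermForm 6 F 2 x y =
    x 0 * y 0 ^ 2 + x 1 * y 1 ^ 2 + x 2 * y 2 ^ 2 + x 3 * y 3 ^ 2 + x 4 * y 4 ^ 2 + x 5 * y 5 ^ 2 := by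
  rw [herm_def, Fin.sum_univ_six]

include hF

theorem ha0 : hermForm 6 F 2 a0 a0 = 0 := by
  rw [fsum]; simp only [a0, _root_.Fin.isValue, _root_.Matrix.cons_val_zero, _root_.one_pow, _root_.mul_one, _root_.Matrix.cons_val_one, _root_.Matrix.cons_val, _root_.ne_eq, _root_.OfNat.ofNat_ne_zero, _root_.not_false_eq_true, _root_.zero_pow, _root_.MulZeroClass.mul_zero, _root_.add_zero]; linear_combination two_eq_zero hF
theorem hd0 : hermForm 6 F 2 d0 d0 = 0 := by
  rw [fsum]; simp only [d0, _root_.Fin.isValue, _root_.Matrix.cons_val_zero, _root_.ne_eq, _root_.OfNat.ofNat_ne_zero, _root_.not_false_eq_true, _root_.zero_pow, _root_.MulZeroClass.mul_zero, _root_.Matrix.cons_val_one, _root_.one_pow, _root_.mul_one, _root_.zero_add, _root_.Matrix.cons_val, _root_.add_zero]; linear_combination two_eq_zero hF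
theorem ha1 : hermForm 6 F 2 a1 a1 = 0 := by
  rw [fsum]; simp only [a1, _root_.Fin.isValue, _root_.Matrix.cons_val_zero, _root_.ne_eq, _root_.OfNat.ofNat_ne_zero, _root_.not_false_eq_true, _root_.zero_pow, _root_.MulZeroClass.mul_zero, _root_.Matrix.cons_val_one, _root_.add_zero, _root_.Matrix.cons_val, _root_.one_pow, _root_.mul_one, _root_.zero_add]; linear_combination two_eq_zero hF
theorem hd1 : hermForm 6 F 2 d1 d1 = 0 := by
  rw [fsum]; simp only [d1, _root_.Fin.isValue, _root_.Matrix.cons_val_zero, _root_.ne_eq, _root_.OfNat.ofNat_ne_zero, _root_.not_false_eq_true, _root_.zero_pow, _root_.MulZeroClass.mul_zero, _root_.Matrix.cons_val_one, _root_.add_zero, _root_.Matrix.cons_val, _root_.one_pow, _root_.mul_one, _root_.zero_add]; linear_combination two_eq_zero hF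

theorem hb0 {ω : F} (hω : ω ^ 2 + ω + 1 = 0) : hermForm 6 F 2 (b0 ω) (b0 ω) = 0 := by
  have h3 := omega_cubed hω
  rw [fsum]; simp only [b0, _root_.Fin.isValue, _root_.Matrix.cons_val_zero, _root_.one_pow, _root_.mul_one, _root_.Matrix.cons_val_one, _root_.Matrix.cons_val, _root_.ne_eq, _root_.OfNat.ofNat_ne_zero, _root_.not_false_eq_true, _root_.zero_pow, _root_.MulZeroClass.mul_zero, _root_.add_zero]; linear_combination two_eq_zero hF + h3
theorem hb1 {ω : F} (hω : ω ^ 2 + ω + 1 = 0) : hermForm 6 F 2 (b1 ω) (b1 ω) = 0 := by
  have h3 := omega_cubed hω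
  rw [fsum]; simp only [b1, _root_.Fin.isValue, _root_.Matrix.cons_val_zero, _root_.ne_eq, _root_.OfNat.ofNat_ne_zero, _root_.not_false_eq_true, _root_.zero_pow, _root_.MulZeroClass.mul_zero, _root_.Matrix.cons_val_one, _root_.add_zero, _root_.Matrix.cons_val, _root_.one_pow, _root_.mul_one, _root_.zero_add]; linear_combination two_eq_zero hF + h3

theorem had0 : hermForm 6 F 2 a0 d0 ≠ 0 := by
  rw [fsum]; simp [a0, d0]
theorem had1 : hermForm 6 F 2 a1 d1 ≠ 0 := by
  rw [fsum]; simp [a1, d1]

theorem act_a0 (x : Fin 6 → F) : act (T hF a0 (ha0 hF)) x = ![x 1, x 0, x 2, x 3, x 4, x 5] := by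
  have h2 := two_eq_zero hF
  rw [act_T, fsum]
  funext i
  (revert i; simp only [a0, _root_.Fin.forall_fin_succ, Fin.isValue, _root_.Matrix.cons_val_zero, _root_.one_pow, _root_.mul_one, _root_.Matrix.cons_val_one, _root_.Matrix.cons_val, _root_.ne_eq, _root_.OfNat.ofNat_ne_zero, _root_.not_false_eq_true, _root_.zero_pow, _root_.MulZeroClass.mul_zero, _root_.add_zero, _root_.Matrix.smul_cons, _root_.smul_eq_mul, _root_.Matrix.smul_empty, _root_.Pi.add_apply, _root_.Nat.succ_eq_add_one, Nat.reduceAdd, _root_.Matrix.cons_val_succ, _root_.Fin.succ_zero_eq_one, _root_.Fin.succ_one_eq_two, Fin.reduceSucc, _root_.Matrix.cons_val_fin_one, _root_.IsEmpty.forall_iff, _root_.and_true, _root_.true_and]) <;> (repeat' with_reducible apply And.intro)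
  · linear_combination x 0 * h2
  · linear_combination x 1 * h2

theorem act_d0 (x : Fin 6 → F) : act (T hF d0 (hd0 hF)) x = ![x 0, x 2, x 1, x 3, x 4, x 5] := by
  have h2 := two_eq_zero hF
  rw [act_T, fsum]
  funext i
  (revert i; simp only [d0, _root_.Fin.forall_fin_succ, Fin.isValue, _root_.Matrix.cons_val_zero, _root_.ne_eq, _root_.OfNat.ofNat_ne_zero, _root_.not_false_eq_true, _root_.zero_pow, _root_.MulZeroClass.mul_zero, _root_.Matrix.cons_val_one, _root_.one_pow, _root_.mul_one, _root_.zero_add, _root_.Matrix.cons_val, _root_.add_zero, _root_.Matrix.smul_cons, _root_.smul_eq_mul, _root_.Matrix.smul_empty, _root_.Pi.add_apply, _root_.Nat.succ_eq_add_one, Nat.reduceAdd, _root_.Matrix.cons_val_succ, _root_.Fin.succ_zero_eq_one, _root_.Fin.succ_one_eq_two, Fin.reduceSucc, _root_.Matrix.cons_val_fin_one, _root_.IsEmpty.forall_iff, _root_.and_true, _root_.true_and]) <;> (repeat' with_reducible apply And.intro)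
  · linear_combination x 1 * h2
  · linear_combination x 2 * h2

theorem act_a1 (x : Fin 6 → F) : act (T hF a1 (ha1 hF)) x = ![x 0, x 1, x 2, x 4, x 3, x 5] := by
  have h2 := two_eq_zero hF
  rw [act_T, fsum]
  funext i
  (revert i; simp only [a1, _root_.Fin.forall_fin_succ, Fin.isValue, _root_.Matrix.cons_val_zero, _root_.ne_eq, _root_.OfNat.ofNat_ne_zero, _root_.not_false_eq_true, _root_.zero_pow, _root_.MulZeroClass.mul_zero, _root_.Matrix.cons_val_one, _root_.add_zero, _root_.Matrix.cons_val, _root_.one_pow, _root_.mul_one, _root_.zero_add, _root_.Matrix.smul_cons, _root_.smul_eq_mul, _root_.Matrix.smul_empty, _root_.Pi.add_apply, _root_.Nat.succ_eq_add_one, Nat.reduceAdd, _root_.Matrix.cons_val_succ, _root_.Fin.succ_zero_eq_one, _root_.Fin.succ_one_eq_two, Fin.reduceSucc, _root_.Matrix.cons_val_fin_one, _root_.IsEmpty.forall_iff, _root_.and_true, _root_.true_and]) <;> (repeat' with_reducible apply And.intro)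
  · linear_combination x 3 * h2
  · linear_combination x 4 * h2

theorem act_d1 (x : Fin 6 → F) : act (T hF d1 (hd1 hF)) x = ![x 0, x 1, x 2, x 3, x 5, x 4] := by
  have h2 := two_eq_zero hF
  rw [act_T, fsum]
  funext i
  (revert i; simp only [d1, _root_.Fin.forall_fin_succ, Fin.isValue, _root_.Matrix.cons_val_zero, _root_.ne_eq, _root_.OfNat.ofNat_ne_zero, _root_.not_false_eq_true, _root_.zero_pow, _root_.MulZeroClass.mul_zero, _root_.Matrix.cons_val_one, _root_.add_zero, _root_.Matrix.cons_val, _root_.one_pow, _root_.mul_one, _root_.zero_add, _root_.Matrix.smul_cons, _root_.smul_eq_mul, _root_.Matrix.smul_empty, _root_.Pi.add_apply, _root_.Nat.succ_eq_add_one, Nat.reduceAdd, _root_.Matrix.cons_val_succ, _root_.Fin.succ_zero_eq_one, _root_.Fin.succ_one_eq_two, Fin.reduceSucc, _root_.Matrix.cons_val_fin_one, _root_.IsEmpty.forall_iff, _root_.and_true, _root_.true_and]) <;> (repeat' with_reducible apply And.intro)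
  · linear_combination x 4 * h2
  · linear_combination x 5 * h2

theorem act_b0 {ω : F} (hω : ω ^ 2 + ω + 1 = 0) (x : Fin 6 → F) :
    act (T hF (b0 ω) (hb0 hF hω)) x = ![ω ^ 2 * x 1, ω * x 0, x 2, x 3, x 4, x 5] := by
  have h2 := two_eq_zero hF
  have h3 := omega_cubed hω
  rw [act_T, fsum]
  funext i
  (revert i; simp only [b0, _root_.Fin.forall_fin_succ, Fin.isValue, _root_.Matrix.cons_val_zero, _root_.one_pow, _root_.mul_one, _root_.Matrix.cons_val_one, _root_.Matrix.cons_val, _root_.ne_eq, _root_.OfNat.ofNat_ne_zero, _root_.not_false_eq_true, _root_.zero_pow, _root_.MulZeroClass.mul_zero, _root_.add_zero, _root_.Matrix.smul_cons, _root_.smul_eq_mul, _root_.Matrix.smul_empty, _root_.Pi.add_apply, _root_.Nat.succ_eq_add_one, Nat.reduceAdd, _root_.Matrix.cons_val_succ, _root_.Fin.succ_zero_eq_one, _root_.Fin.succ_one_eq_two, Fin.reduceSucc, _root_.Matrix.cons_val_fin_one, _root_.IsEmpty.forall_iff, _root_.and_true, _root_.true_and]) <;> (repeat' with_reducible apply And.intro)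
  · linear_combination x 0 * h2
  · linear_combination x 1 * h2 + x 1 * h3

theorem act_b1 {ω : F} (hω : ω ^ 2 + ω + 1 = 0) (x : Fin 6 → F) :
    act (T hF (b1 ω) (hb1 hF hω)) x = ![x 0, x 1, x 2, ω ^ 2 * x 4, ω * x 3, x 5] := by
  have h2 := two_eq_zero hF
  have h3 := omega_cubed hω
  rw [act_T, fsum]
  funext i
  (revert i; simp only [b1, _root_.Fin.forall_fin_succ, Fin.isValue, _root_.Matrix.cons_val_zero, _root_.ne_eq, _root_.OfNat.ofNat_ne_zero, _root_.not_false_eq_true, _root_.zero_pow, _root_.MulZeroClass.mul_zero, _root_.Matrix.cons_val_one, _root_.add_zero, _root_.Matrix.cons_val, _root_.one_pow, _root_.mul_one, _root_.zero_add, _root_.Matrix.smul_cons, _root_.smul_eq_mul, _root_.Matrix.smul_empty, _root_.Pi.add_apply, _root_.Nat.succ_eq_add_one, Nat.reduceAdd, _root_.Matrix.cons_val_succ, _root_.Fin.succ_zero_eq_one, _root_.Fin.succ_one_eq_two, Fin.reduceSucc, _root_.Matrix.cons_val_fin_one, _root_.IsEmpty.forall_iff, _root_.and_true, _root_.true_and]) <;> (repeat' with_reducible apply And.intro)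
  · linear_combination x 3 * h2
  · linear_combination x 4 * h2 + x 4 * h3

theorem act_w0 {ω : F} (hω : ω ^ 2 + ω + 1 = 0) (x : Fin 6 → F) :
    act (wg hF (ha0 hF) (hb0 hF hω) (hd0 hF)) x = ![ω * x 0, ω * x 1, ω * x 2, x 3, x 4, x 5] := by
  have h3 := omega_cubed hω
  unfold wg
  simp only [act_mul, act_a0, act_b0 hF hω, act_d0]
  funext i
  (revert i; simp only [_root_.Fin.forall_fin_succ, _root_.Nat.succ_eq_add_one, Nat.reduceAdd, Fin.isValue, _root_.Matrix.cons_val_zero, _root_.Matrix.cons_val, _root_.Matrix.cons_val_one, _root_.Matrix.cons_val_succ, _root_.implies_true, _root_.and_true, _root_.true_and]) <;> (repeat' with_reducible apply And.intro)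
  · linear_combination (ω * x 1) * h3

theorem act_w1 {ω : F} (hω : ω ^ 2 + ω + 1 = 0) (x : Fin 6 → F) :
    act (wg hF (ha1 hF) (hb1 hF hω) (hd1 hF)) x = ![x 0, x 1, x 2, ω * x 3, ω * x 4, ω * x 5] := by
  have h3 := omega_cubed hω
  unfold wg
  simp only [act_mul, act_a1, act_b1 hF hω, act_d1]
  funext i
  (revert i; simp only [_root_.Fin.forall_fin_succ, _root_.Nat.succ_eq_add_one, Nat.reduceAdd, Fin.isValue, _root_.Matrix.cons_val_zero, _root_.Matrix.cons_val_one, _root_.Matrix.cons_val, _root_.Matrix.cons_val_succ, _root_.Matrix.cons_val_fin_one, _root_.implies_true, _root_.and_true, _root_.true_and]) <;> (repeat' with_reducible apply And.intro)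
  · linear_combination (ω * x 4) * h3

end Vectors

theorem wom' (h : TL hF f t) (hZ : f.ker ≤ center K) (h2 : IsPGroup 2 f.ker) {ω : F} (hω : ω ^ 2 + ω + 1 = 0) :
    wd t a0 (b0 ω) d0 * wd t a1 (b1 ω) d1 = 1 := by
  have c0 : wd t a0 (b0 ω) d0 ^ 3 = 1 := by
    refine cube_wd h hZ h2 (ha0 hF) (hb0 hF hω) (hd0 hF) (had0 hF) ?_
    refine ext_act fun x => ?_
    simp only [act_mul, act_w0 hF hω, act_a0, act_d0]
    funext i
    (revert i; simp [_root_.Fin.forall_fin_succ])
  have c1 : wd t a1 (b1 ω) d1 ^ 3 = 1 := by
    refine cube_wd h hZ h2 (ha1 hF) (hb1 hF hω) (hd1 hF) (had1 hF) ?_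
    refine ext_act fun x => ?_
    simp only [act_mul, act_w1 hF hω, act_a1, act_d1]
    funext i
    (revert i; simp [_root_.Fin.forall_fin_succ])
  have hz : wd t a0 (b0 ω) d0 * wd t a1 (b1 ω) d1 ∈ f.ker := by
    rw [MonoidHom.mem_ker, map_mul, map_wd h (ha0 hF) (hb0 hF hω) (hd0 hF), map_wd h (ha1 hF) (hb1 hF hω) (hd1 hF),
      ← map_mul, ← map_one (pr 6 F 2), eq_comm]
    refine pr_eq_of_scalar (c := ω) fun x => ?_
    change act (_ * _) x = ω • act 1 x
    rw [act_mul, act_w0 hF hω, act_w1 hF hω, act_one]
    funext i
    (revert i; simp only [_root_.Fin.forall_fin_succ, _root_.Nat.succ_eq_add_one, Nat.reduceAdd, Fin.isValue, _root_.Matrix.cons_val_zero, _root_.Matrix.cons_val_one, _root_.Matrix.cons_val, _root_.Pi.smul_apply, _root_.smul_eq_mul, _root_.Matrix.cons_val_succ, _root_.Fin.succ_zero_eq_one, _root_.Fin.succ_one_eq_two, Fin.reduceSucc, _root_.Matrix.cons_val_fin_one, _root_.mul_eq_mul_left_iff, _root_.true_or, _root_.IsEmpty.forall_iff, _root_.and_self])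
  refine eq_one_of_cube h2 hz ?_
  have hzc := mem_center_iff.1 (hZ hz)
  generalize wd t a0 (b0 ω) d0 = A at *
  generalize wd t a1 (b1 ω) d1 = B at *
  have e : B = A⁻¹ * (A * B) := by group
  have hcm : Commute A⁻¹ (A * B) := hzc A⁻¹
  rw [e, hcm.mul_pow, inv_pow, c0, inv_one, one_mul] at c1
  exact c1

/-- **the relation between the two blocks** -/
theorem wom (h : TL hF f t) (hZ : f.ker ≤ center K) (h2 : IsPGroup 2 f.ker) {ω : F} (hω : ω ^ 2 + ω + 1 = 0) :
    t ![1, 1, 0, 0, 0, 0] * t ![1, ω, 0, 0, 0, 0] * t ![1, 1, 0, 0, 0, 0] * t ![0, 1, 1, 0, 0, 0] *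
      t ![1, ω, 0, 0, 0, 0] * t ![1, 1, 0, 0, 0, 0] * t ![0, 1, 1, 0, 0, 0] * t ![1, 1, 0, 0, 0, 0] *
      (t ![0, 0, 0, 1, 1, 0] * t ![0, 0, 0, 1, ω, 0] * t ![0, 0, 0, 1, 1, 0] * t ![0, 0, 0, 0, 1, 1] *
        t ![0, 0, 0, 1, ω, 0] * t ![0, 0, 0, 1, 1, 0] * t ![0, 0, 0, 0, 1, 1] * t ![0, 0, 0, 1, 1, 0]) = 1 :=
  wom' h hZ h2 hω

end Cfsg.Agent.H109.US
end

-- part: H109/US/Two
section
/-!
# The 2-part of a perfect central 2-extension of `SU₆(2)`

`exists_two`: a perfect central extension `φ : L → SU₆(2)` whose kernel is a 2-group has a quotient `K = L / M`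
(`M` = the elements of order 3 of the kernel of `L → PSU₆(2)`) that is a perfect central 2-extension of `PSU₆(2)`
with the same kernel.
-/

set_option autoImplicit false

namespace Cfsg.Agent.H109.US

open Subgroup Cfsg Cfsg.Agent.LieClassical.HermBasic Cfsg.Agent.ClassicalGeometry.UnitTransv
  Cfsg.Agent.SporadicStructure.UnitTwo Cfsg.Agent.R01.PSUSix Cfsg.Agent.H51.Mult
open Cfsg.Agent.ClassicalGeometry.UnitAutBasic (pr pr_surjective exists_scalar_of_mem_center)
open scoped commutatorElement

/-- In a perfect group, an element that commutes with everything modulo a central subgroup is central. -/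
theorem mem_center_of_perfect {L : Type*} [Group L] (hL : commutator L = ⊤) {n : L}
    (h : ∀ g : L, ⁅n, g⁆ ∈ center L) : n ∈ center L := by
  let δ : L →* L := MonoidHom.mk' (fun g => ⁅n, g⁆) (by
    intro a b
    have h1 := mem_center_iff.1 (h b) a
    have e : ⁅n, a * b⁆ = ⁅n, a⁆ * (a * ⁅n, b⁆ * a⁻¹) := by
      simp only [commutatorElement_def]; group
    rw [e, h1, mul_inv_cancel_right])
  have hδ : ∀ g, δ g = 1 := by
    intro g
    have h1 : g ∈ commutator L := by rw [hL]; exact mem_top g
    have h2 : commutator L ≤ δ.ker := by
      rw [commutator_def, commutator_le]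
      intro a _ b _
      rw [MonoidHom.mem_ker, map_commutatorElement]
      rw [commutatorElement_eq_one_iff_mul_comm]
      exact (mem_center_iff.1 (h a) _).symm
    exact MonoidHom.mem_ker.1 (h2 h1)
  rw [mem_center_iff]
  intro g
  exact (commutatorElement_eq_one_iff_mul_comm.1 (hδ g)).symm

variable {F : Type} [Field F] [Fintype F] (hF : Fintype.card F = 2 ^ 2)

include hF

theorem center_cube {z : SU 6 F 2} (hz : z ∈ center (SU 6 F 2)) : z ^ 3 = 1 := by
  obtain ⟨c, hc, hx⟩ := exists_scalar_of_mem_center hF (by norm_num) hz
  have hx' : ∀ x, act z x = c • x := hx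
  refine ext_act fun x => ?_
  rw [pow_succ, pow_two, act_mul, act_mul, hx', hx', hx', act_one, smul_smul, smul_smul]
  have e : c * c * c = 1 := by rw [← hc]; ring
  rw [e, one_smul]

theorem exists_two {L : Type} [Group L] [Finite L] {φ : L →* SU 6 F 2} (hφ : PCE φ) (h2 : IsPGroup 2 φ.ker) :
    ∃ (K : Type) (_ : Group K) (_ : Finite K) (q : L →* K) (f : K →* PSU 6 F 2), Function.Surjective q ∧
      f.comp q = (pr 6 F 2).comp φ ∧ Function.Surjective f ∧ f.ker ≤ center K ∧ IsPGroup 2 f.ker ∧
      commutator K = ⊤ ∧ (∀ x : L, q x = 1 → φ x = 1 → x = 1) ∧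
      (∀ z : K, f z = 1 → ∃ ζ : L, φ ζ = 1 ∧ q ζ = z) := by
  set g : L →* PSU 6 F 2 := (pr 6 F 2).comp φ with hg
  have hgc : ∀ x : L, g x = 1 → φ x ∈ center (SU 6 F 2) := fun x hx =>
    (QuotientGroup.eq_one_iff (φ x)).1 hx
  have hN : ∀ x : L, g x = 1 → x ∈ center L := by
    intro x hx
    refine mem_center_of_perfect hφ.perf fun y => hφ.cen ?_
    rw [MonoidHom.mem_ker, map_commutatorElement, commutatorElement_eq_one_iff_mul_comm]
    exact (mem_center_iff.1 (hgc x hx) _).symm
  have h3 : ∀ x : L, g x = 1 → φ (x ^ 3) = 1 := by
    intro x hx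
    rw [map_pow]
    exact center_cube hF (hgc x hx)
  -- the subgroup `M`
  let M : Subgroup L :=
    { carrier := {x | g x = 1 ∧ x ^ 3 = 1}
      one_mem' := ⟨map_one _, one_pow 3⟩
      mul_mem' := by
        rintro a b ⟨ha, ha3⟩ ⟨hb, hb3⟩
        refine ⟨by rw [map_mul, ha, hb, mul_one], ?_⟩
        have hcm : Commute a b := mem_center_iff.1 (hN b hb) a
        rw [hcm.mul_pow, ha3, hb3, mul_one]
      inv_mem' := by
        rintro a ⟨ha, ha3⟩
        exact ⟨by rw [map_inv, ha, inv_one], by rw [inv_pow, ha3, inv_one]⟩ }
  have hM : ∀ x, x ∈ M ↔ g x = 1 ∧ x ^ 3 = 1 := fun x => Iff.rfl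
  have hMn : M.Normal := normal_of_le_center fun x hx => hN x hx.1
  have hle : M ≤ g.ker := fun x hx => hx.1
  have hfq : ∀ x, QuotientGroup.lift M g hle (QuotientGroup.mk' M x) = g x := fun x => rfl
  have hq1 : ∀ x, QuotientGroup.mk' M x = 1 ↔ x ∈ M := fun x => QuotientGroup.eq_one_iff x
  have hgs : Function.Surjective g := pr_surjective.comp hφ.surj
  -- the 2-power
  have hpow : ∀ x : L, g x = 1 → ∃ k : ℕ, (QuotientGroup.mk' M x) ^ (2 ^ k) = 1 := by
    intro x hx
    obtain ⟨k, hk⟩ := h2 ⟨x ^ 3, h3 x hx⟩
    have hk' : (x ^ 3) ^ (2 ^ k) = 1 := by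
      have := congrArg Subtype.val hk
      simpa only [_root_.SubmonoidClass.coe_pow, _root_.OneMemClass.coe_one] using this
    refine ⟨k, ?_⟩
    rw [← map_pow, hq1, hM, map_pow, hx, one_pow]
    refine ⟨rfl, ?_⟩
    rw [← pow_mul, mul_comm, pow_mul]
    exact hk'
  refine ⟨L ⧸ M, inferInstance, inferInstance, QuotientGroup.mk' M, QuotientGroup.lift M g hle,
    QuotientGroup.mk'_surjective M, ?_, ?_, ?_, ?_, ?_, ?_, ?_⟩
  · ext x; rfl
  · intro y
    obtain ⟨x, hx⟩ := hgs y
    exact ⟨QuotientGroup.mk' M x, by rw [hfq, hx]⟩
  · intro z hz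
    obtain ⟨x, rfl⟩ := QuotientGroup.mk'_surjective M z
    rw [MonoidHom.mem_ker, hfq] at hz
    rw [mem_center_iff]
    intro y
    obtain ⟨y, rfl⟩ := QuotientGroup.mk'_surjective M y
    rw [← map_mul, ← map_mul, mem_center_iff.1 (hN x hz) y]
  · rintro ⟨z, hz⟩
    obtain ⟨x, rfl⟩ := QuotientGroup.mk'_surjective M z
    rw [MonoidHom.mem_ker, hfq] at hz
    obtain ⟨k, hk⟩ := hpow x hz
    exact ⟨k, Subtype.ext hk⟩
  · exact Cfsg.Agent.KFacts.MulDef.commutator_top_of_surj (QuotientGroup.mk' M)
      (QuotientGroup.mk'_surjective M) hφ.perf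
  · intro x hx hx1
    have h4 := (hM x).1 ((hq1 x).1 hx)
    obtain ⟨k, hk⟩ := h2 ⟨x, hx1⟩
    have hk' : x ^ (2 ^ k) = 1 := by
      have := congrArg Subtype.val hk
      simpa only [_root_.SubmonoidClass.coe_pow, _root_.OneMemClass.coe_one] using this
    have h5 : orderOf x ∣ 3 := orderOf_dvd_of_pow_eq_one h4.2
    have h6 : orderOf x ∣ 2 ^ k := orderOf_dvd_of_pow_eq_one hk'
    have h7 : Nat.Coprime 3 (2 ^ k) := Nat.Coprime.pow_right k (by norm_num)
    exact orderOf_eq_one_iff.1 (Nat.dvd_one.1 (h7 ▸ Nat.dvd_gcd h5 h6))
  · intro z hz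
    obtain ⟨x, rfl⟩ := QuotientGroup.mk'_surjective M z
    rw [hfq] at hz
    obtain ⟨k, hk⟩ := hpow x hz
    have h6 : orderOf (QuotientGroup.mk' M x) ∣ 2 ^ k := orderOf_dvd_of_pow_eq_one hk
    have h7 : Nat.Coprime 3 (orderOf (QuotientGroup.mk' M x)) :=
      Nat.Coprime.coprime_dvd_right h6 (Nat.Coprime.pow_right k (by norm_num))
    obtain ⟨m, hm⟩ := exists_pow_eq_self_of_coprime h7
    refine ⟨(x ^ 3) ^ m, ?_, ?_⟩
    · rw [map_pow, h3 x hz, one_pow]
    · rw [map_pow, map_pow, hm]

end Cfsg.Agent.H109.US
end

-- part: H486/US/Fin
section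
/-!
# The 2-covers of `SU₆(2)`: every element over a class representative is a commutator (helper486)
-/

set_option autoImplicit false
set_option linter.unusedSectionVars false

namespace Cfsg.Agent.H486.US

open Subgroup Cfsg Cfsg.Agent.LieClassical.HermBasic Cfsg.Agent.ClassicalGeometry.UnitTransv
  Cfsg.Agent.SporadicStructure.UnitTwo Cfsg.Agent.R01.PSUSix Cfsg.Agent.KFacts.OddLift.USixL Cfsg.Agent.H777.Ore
  Cfsg.Agent.H51.Mult
open Cfsg.Agent.LieClassical.HermSiegel (mat mat_def)
open Cfsg.Agent.ClassicalGeometry.UnitAutBasic (tau pr pr_surjective)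
open Cfsg.Agent.H767.U6 (XP cd X mt)
open scoped Matrix

universe u v w

variable {F : Type} [Field F] [Fintype F] {hF : Fintype.card F = 2 ^ 2} {ω : F} (hω : ω ^ 2 + ω + 1 = 0)

include hω

/-- the word `ω` has value `1` -/
theorem val_wom {K : Type u} [Group K] {f : K →* PSU 6 F 2} {t : (Fin 6 → F) → K} (h : TL hF f t)
    (hZ : f.ker ≤ center K) (h2 : IsPGroup 2 f.ker) : val t ω wom = 1 := by
  have e := H109.US.wom h hZ h2 hω
  rw [← e]
  simp only [val, wom, List.map_cons, List.map_nil, List.prod_cons, List.prod_nil, V6.toF, Q.ev, mul_one, mul_assoc]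

theorem exists_Two {L : Type} [Group L] [Finite L] {φ : L →* SU 6 F 2} (hφ : PCE φ) (h2 : IsPGroup 2 φ.ker) :
    ∃ (K : Type) (_ : Group K) (q : L →* K) (f : K →* PSU 6 F 2) (t : (Fin 6 → F) → K), Two hF ω φ q f t := by
  obtain ⟨K, _, _, q, f, hq, hcomp, hf, hZ, h2', hK, hinj, -⟩ := H109.US.exists_two hF hφ h2
  obtain ⟨t, ht⟩ := exists_TL (hF := hF) hf hZ h2'
  exact ⟨K, _, q, f, t, ht, hφ.surj, hq, fun x => DFunLike.congr_fun hcomp x, hf, hZ, hinj,
    fun z hz => ker_cases hω ht hK hf hZ h2' hz, val_wom hω ht hZ h2'⟩

theorem gW_reverse (hF : Fintype.card F = 2 ^ 2) : ∀ {w : List V6}, iso w = true → gW hF ω w.reverse = (gW hF ω w)⁻¹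
  | [], _ => by simp [gW]
  | a :: w, hw => by
    rw [iso_cons] at hw
    rw [List.reverse_cons, gW_append, gW_reverse hF hw.2, gW_cons, gW_cons, gW_nil, mul_one, mul_inv_rev,
      T_eq hF (herm_iso hω hF hw.1)]
    congr 1
    exact (inv_eq_of_mul_eq_one_left (T_mul_self hF _ _)).symm

/-- every element over `a [x₀, u] a⁻¹` is a commutator -/
theorem isC_pair (hF : Fintype.card F = 2 ^ 2) {L : Type} [Group L] [Finite L] {φ : L →* SU 6 F 2} (hφ : PCE φ)
    (h2 : IsPGroup 2 φ.ker) {A U : List V6} (hA : iso A = true) (hU : iso U = true) {y : L}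
    (hy : φ y = gW hF ω (pairW A U)) : IsC y := by
  obtain ⟨K, _, q, f, t, H⟩ := exists_Two (hF := hF) hω hφ h2
  obtain ⟨a, ha⟩ := H.hφ (gW hF ω A)
  obtain ⟨x, hx⟩ := H.hφ (gW hF ω v_ns1)
  have e : φ y = φ (a * x * a⁻¹) * (gW hF ω A * gW hF ω U * (gW hF ω A)⁻¹) * (φ (a * x * a⁻¹))⁻¹ *
      (gW hF ω A * gW hF ω U * (gW hF ω A)⁻¹)⁻¹ := by
    rw [hy, pairW, gW_append, gW_append, gW_append, gW_append, gW_append, gW_reverse hω hF hA,
      gW_reverse hω hF hU, gW_reverse hω hF iv_ns1,
      map_mul, map_mul, map_inv, ha, hx]
    group
  refine Cfsg.Agent.H6.QO.isC_of_pair H.hφ hφ.cen e fun ζ hζ => ?_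
  obtain ⟨k, hk⟩ := isConj_iff.1 (H.fus hω hx hζ)
  refine isConj_iff.2 ⟨a * k * a⁻¹, ?_⟩
  have hc := H.central hω hζ
  calc a * k * a⁻¹ * (a * x * a⁻¹) * (a * k * a⁻¹)⁻¹ = a * (k * x * k⁻¹) * a⁻¹ := by group
    _ = a * x * (ζ * a⁻¹) := by rw [hk]; group
    _ = a * x * a⁻¹ * ζ := by rw [← hc]; group

/-- every element over a conjugate of `ω T` is a commutator -/
theorem isC_wt (hF : Fintype.card F = 2 ^ 2) {L : Type} [Group L] [Finite L] {φ : L →* SU 6 F 2} (hφ : PCE φ)
    (h2 : IsPGroup 2 φ.ker) {s : SU 6 F 2} {y : L}
    (hy : φ y = s * (gW hF ω wom * gW hF ω [E0]) * s⁻¹) : IsC y := by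
  obtain ⟨K, _, q, f, t, H⟩ := exists_Two (hF := hF) hω hφ h2
  obtain ⟨a, ha⟩ := H.hφ s
  have h1 : IsC (a⁻¹ * y * a) := H.wt hω (by rw [map_mul, map_mul, map_inv, hy, ha]; group)
  have h2 := IsC.conj h1 a
  have e : a * (a⁻¹ * y * a) * a⁻¹ = y := by group
  rwa [e] at h2

/-! ### The columns -/

theorem d4_eq (hF : Fintype.card F = 2 ^ 2) (n : ℕ) : H767.U6.d4 ω n = (Q.d n).ev ω := by
  match n with
  | 0 => rfl
  | 1 => rfl
  | 2 => rfl
  | n + 3 =>
    show ω + 1 = ω ^ 2
    have := two_eq_zero hF
    linear_combination hω - ω ^ 2 * this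

theorem toF_colV (hF : Fintype.card F = 2 ^ 2) (P l : ℕ) (j : Fin 6) : (colV P l j).toF ω =
    (H767.U6.d4 ω l • _root_.Cfsg.Agent.H767.U6.mt ω P) *ᵥ Pi.single j 1 := by
  rw [colV, toF_smul hF hω, d4_eq hω hF, Matrix.smul_mulVec, Matrix.mulVec_single_one]
  congr 1
  funext i
  rw [Matrix.col_apply]
  fin_cases i <;> exact (d4_eq hω hF _).symm

/-- the matrix of a word from its columns -/
theorem mat_gW (hF : Fintype.card F = 2 ^ 2) {i l : ℕ} {W : List V6} (hW : iso W = true)
    (hc : bas.map (actW W) = colsV i l) : mat (gW hF ω W) = H767.U6.d4 ω l • X ω i := by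
  obtain ⟨b0, b1, b2, b3, b4, b5⟩ := toF_basis (ω := ω)
  have hc' : [actW W (V6.d4 1), actW W (V6.d4 4), actW W (V6.d4 16), actW W (V6.d4 64), actW W (V6.d4 256),
      actW W (V6.d4 1024)] = [colV (XP.getD i 0) l 0, colV (XP.getD i 0) l 1, colV (XP.getD i 0) l 2,
      colV (XP.getD i 0) l 3, colV (XP.getD i 0) l 4, colV (XP.getD i 0) l 5] := hc
  simp only [List.cons.injEq, and_true] at hc'
  obtain ⟨c0, c1, c2, c3, c4, c5⟩ := hc'
  have key : ∀ (j : Fin 6) (x : V6), x.toF ω = Pi.single j 1 → actW W x = colV (XP.getD i 0) l j →
      mat (gW hF ω W) *ᵥ Pi.single j 1 = (H767.U6.d4 ω l • X ω i) *ᵥ Pi.single j 1 := by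
    intro j x hx hcx
    have e : act (gW hF ω W) (Pi.single j 1) = (H767.U6.d4 ω l • X ω i) *ᵥ Pi.single j 1 := by
      rw [← hx, act_gW hω W hW, hcx, toF_colV hω hF, hx]
      rfl
    exact e
  refine Matrix.ext_of_mulVec_single fun j => ?_
  fin_cases j
  · exact key 0 _ b0 c0
  · exact key 1 _ b1 c1
  · exact key 2 _ b2 c2
  · exact key 3 _ b3 c3
  · exact key 4 _ b4 c4
  · exact key 5 _ b5 c5

theorem iso_pairW {A U : List V6} (hA : iso A = true) (hU : iso U = true) : iso (pairW A U) = true := by
  rw [pairW, iso_append, iso_append, iso_append, iso_append, iso_append]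
  exact ⟨⟨⟨⟨⟨hA, iv_ns1⟩, hU⟩, iso_reverse iv_ns1⟩, iso_reverse hU⟩, iso_reverse hA⟩

/-- **Every element over a class representative (`i ≠ 0`) is a commutator.** -/
theorem isC_rep (hF : Fintype.card F = 2 ^ 2) {L : Type} [Group L] [Finite L] {φ : L →* SU 6 F 2} (hφ : PCE φ)
    (h2 : IsPGroup 2 φ.ker) {g : SU 6 F 2} {i l : ℕ} (hi : i < 40) (hl : l = 1 ∨ l = 2 ∨ l = 3) (hi0 : i ≠ 0)
    (hg : mat g = H767.U6.d4 ω l • X ω i) {y : L} (hy : φ y = g) : IsC y := by
  by_cases h1 : i = 1 → l = 1
  · obtain ⟨r, hr, rfl, rfl⟩ := pdAll_cover i l hi (by omega) (by omega) hi0 h1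
    have hc := pdAll_ok r hr
    simp only [chkP, Bool.and_eq_true, decide_eq_true_eq] at hc
    obtain ⟨hA, hU, hc⟩ := hc
    exact isC_pair hω hF hφ h2 hA hU (hy.trans (LieClassical.HermSiegel.mat_injective
      (hg.trans (mat_gW hω hF (iso_pairW hω hA hU) hc).symm)))
  · push Not at h1
    obtain ⟨rfl, hl1⟩ := h1
    -- `X_1 = a T a⁻¹`
    have hE : iso [E0] = true := by decide
    have hW : iso (a1 ++ [E0] ++ a1.reverse) = true :=
      iso_append.2 ⟨iso_append.2 ⟨a1_iso, hE⟩, iso_reverse a1_iso⟩
    have hm := mat_gW hω hF hW a1_ok
    set g₀ := gW hF ω (a1 ++ [E0] ++ a1.reverse) with hg₀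
    have e₀ : g₀ = gW hF ω a1 * gW hF ω [E0] * (gW hF ω a1)⁻¹ := by
      rw [hg₀, gW_append, gW_append, gW_reverse hω hF a1_iso]
    have hEE : gW hF ω [E0] * gW hF ω [E0] = 1 := by
      rw [gW_cons, gW_nil, mul_one, T_eq hF (herm_iso hω hF (a := E0) (by decide)), T_mul_self]
    have hinv : g₀ * g₀ = 1 := by
      rw [e₀]
      calc gW hF ω a1 * gW hF ω [E0] * (gW hF ω a1)⁻¹ * (gW hF ω a1 * gW hF ω [E0] * (gW hF ω a1)⁻¹)
          = gW hF ω a1 * (gW hF ω [E0] * gW hF ω [E0]) * (gW hF ω a1)⁻¹ := by group
        _ = 1 := by rw [hEE]; group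
    have hc : ∀ x : SU 6 F 2, x * gW hF ω wom = gW hF ω wom * x := fun x => by
      apply ext_act
      intro v
      rw [act_mul, act_mul, act_wom hω, act_wom hω, act_smul]
    have ha : ∀ v, act g v = H767.U6.d4 ω l • act g₀ v := by
      intro v
      have h3 : act g₀ v = (H767.U6.d4 ω 1 • X ω 1) *ᵥ v := by rw [← hm]; rfl
      have h4 : act g v = (H767.U6.d4 ω l • X ω 1) *ᵥ v := by rw [← hg]; rfl
      rw [h3, h4, Matrix.smul_mulVec, Matrix.smul_mulVec]
      show _ = H767.U6.d4 ω l • ((1 : F) • _)
      rw [one_smul]
    have e1 : gW hF ω wom * g₀ = gW hF ω a1 * (gW hF ω wom * gW hF ω [E0]) * (gW hF ω a1)⁻¹ := by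
      rw [e₀, ← mul_assoc, ← mul_assoc, ← hc (gW hF ω a1), mul_assoc (gW hF ω a1) (gW hF ω wom)]
    rcases hl with rfl | rfl | rfl
    · exact absurd rfl hl1
    · refine isC_wt hω hF hφ h2 (s := gW hF ω a1) (y := y) ?_
      rw [hy, ← e1]
      apply ext_act
      intro v
      rw [ha, act_mul, act_wom hω]
      rfl
    · have h5 : IsC y⁻¹ := by
        refine isC_wt hω hF hφ h2 (s := gW hF ω a1) (y := y⁻¹) ?_
        rw [map_inv, hy, ← e1]
        refine inv_eq_of_mul_eq_one_right ?_
        apply ext_act
        intro v
        have h6 : (ω + 1) * ω = 1 := by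
          have := two_eq_zero hF
          linear_combination hω - this
        rw [act_mul, ha, act_mul, act_wom hω, act_smul, smul_smul, ← act_mul, hinv, act_one]
        show ((ω + 1) * ω) • v = v
        rw [h6, one_smul]
      have h7 := IsC.inv h5
      rwa [inv_inv] at h7

end Cfsg.Agent.H486.US
end

-- part: H486/US/All
section
/-!
# The 2-covers of `SU₆(2)`: every noncentral element is a commutator, from the class cover (helper486)
-/

set_option autoImplicit false
set_option linter.unusedSectionVars false

namespace Cfsg.Agent.H486.US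

open Subgroup Cfsg Cfsg.Agent.LieClassical.HermBasic Cfsg.Agent.ClassicalGeometry.UnitTransv
  Cfsg.Agent.SporadicStructure.UnitTwo Cfsg.Agent.R01.PSUSix Cfsg.Agent.KFacts.OddLift.USixL Cfsg.Agent.H777.Ore
  Cfsg.Agent.H51.Mult
open Cfsg.Agent.LieClassical.HermSiegel (mat mat_def mat_injective mat_mul)
open Cfsg.Agent.ClassicalGeometry.PSUAutCount (gm guConj mat_guConjFun gm_mul_inv)
open Cfsg.Agent.H767.U6 (XP cd X mt)
open scoped Matrix

universe u v w

variable {F : Type} [Field F] [Fintype F] {hF : Fintype.card F = 2 ^ 2} {ω : F} (hω : ω ^ 2 + ω + 1 = 0)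

/-- composing with an automorphism of the quotient -/
theorem pce_aut {L : Type} [Group L] {φ : L →* SU 6 F 2} (hφ : PCE φ) (α : MulAut (SU 6 F 2)) :
    PCE (α.toMonoidHom.comp φ) := by
  refine ⟨α.surjective.comp hφ.surj, ?_, hφ.perf⟩
  intro x hx
  refine hφ.cen ?_
  have h1 : α (φ x) = 1 := hx
  exact (map_eq_one_iff α α.injective).1 h1

theorem ker_aut {L : Type} [Group L] {φ : L →* SU 6 F 2} (h2 : IsPGroup 2 φ.ker) (α : MulAut (SU 6 F 2)) :
    IsPGroup 2 (α.toMonoidHom.comp φ).ker := by
  have e : (α.toMonoidHom.comp φ).ker = φ.ker := by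
    ext x
    rw [MonoidHom.mem_ker, MonoidHom.mem_ker]
    exact map_eq_one_iff α α.injective
  rw [e]; exact h2

include hω

theorem isC_of_cover (hF : Fintype.card F = 2 ^ 2) (g : SU 6 F 2)
    (hcov : ∃ i < 40, ∃ l, (l = 1 ∨ l = 2 ∨ l = 3) ∧ ∃ c : Cfsg.GU 6 F 2,
      gm c * mat g = (H767.U6.d4 ω l • X ω i) * gm c) (hg : g ∉ center (SU 6 F 2)) {L : Type} [Group L] [Finite L]
    {φ : L →* SU 6 F 2} (hφ : PCE φ) (h2 : IsPGroup 2 φ.ker) {y : L} (hy : φ y = g) : IsC y := by
  obtain ⟨i, hi, l, hl, c, hc⟩ := hcov
  have h1 : mat (guConj c g) = H767.U6.d4 ω l • X ω i := by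
    show gm c * mat g * gm c⁻¹ = _
    rw [hc, Matrix.mul_assoc, gm_mul_inv, Matrix.mul_one]
  refine isC_rep hω hF (pce_aut hφ (guConj c)) (ker_aut h2 (guConj c)) hi hl ?_ h1 (y := y) ?_
  · rintro rfl
    apply hg
    have hX : X ω 0 = 1 := by
      ext r s
      have e : ∀ r s : Fin 6, cd (XP.getD 0 0) r s = if r = s then 1 else 0 := by decide
      show H767.U6.d4 ω (cd (XP.getD 0 0) r s) = _
      rw [e, Matrix.one_apply]
      split_ifs <;> rfl
    rw [hX] at h1
    have hcen : guConj c g ∈ center (SU 6 F 2) := by
      rw [mem_center_iff]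
      intro x
      apply mat_injective
      rw [mat_mul, mat_mul, h1, Matrix.smul_mul, Matrix.mul_smul, Matrix.one_mul, Matrix.mul_one]
    rw [mem_center_iff] at hcen ⊢
    intro x
    have := hcen (guConj c x)
    rw [← map_mul, ← map_mul] at this
    exact (guConj c).injective this
  · show guConj c (φ y) = guConj c g
    rw [hy]

end Cfsg.Agent.H486.US
end

-- part: H486/US/Row
section
/-!
# Ore's theorem for the covers of `U₆(2)`, noncentral elements (helper486)

`rowN_psu : RowN (PSU 6 F 2)` for every field with four elements.
-/

set_option autoImplicit false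
set_option linter.unusedSectionVars false

namespace Cfsg.Agent.H486.US

open Subgroup Cfsg Cfsg.Agent.H777.Ore Cfsg.Agent.H51.Mult Cfsg.Agent.H68.Bounds Cfsg.Agent.H6.QO
open Cfsg.Agent.SporadicStructure.UnitTwo (exists_omega)
open Cfsg.Agent.ClassicalGeometry.UnitAutBasic (pr pr_surjective)

universe u v w

theorem isC_all {F : Type} [Field F] [Fintype F] (hF : Fintype.card F = 2 ^ 2) {L : Type} [Group L] [Finite L]
    {φ : L →* SU 6 F 2} (hφ : PCE φ) (h2 : IsPGroup 2 φ.ker) {y : L} (hy : φ y ∉ center (SU 6 F 2)) : IsC y := by
  obtain ⟨ω, hω⟩ := exists_omega hF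
  exact isC_of_cover hω hF (φ y) (H767.U6.cover hF hω (φ y)) hy hφ h2 rfl

theorem rowN_type {F : Type} [Field F] [Fintype F] (hF : Fintype.card F = 2 ^ 2) : RowN (PSU 6 F 2) := by
  have hA := Cfsg.Agent.S2091.result (F := F) (hF.trans (by norm_num))
  obtain ⟨⟨Γ, _, _, σ, hst, ⟨e⟩⟩, -⟩ := id hA
  obtain ⟨hpr, hpr3⟩ := Cfsg.Agent.H133.USixMult.pce_pr hF
  have hσ : PCE σ := PCE.of_stem hst hpr.perf_base
  have hc : Nat.card σ.ker = 12 := by
    rw [Nat.card_congr e.toEquiv]
    simp [Nat.card_eq_fintype_card]
  obtain ⟨D, _, f, g, hf, hg, hfg, hD, hfin⟩ := exists_common hσ hpr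
  have h12 : Nat.card (Multiplicative (ZMod 3 × ZMod 2 × ZMod 2)) = 12 := by simp [Nat.card_eq_fintype_card]
  haveI : Finite D := hfin inferInstance inferInstance
  have h1 := H990.TC.card_ker_dvd hA hD
  rw [h12] at h1
  have h2 : Nat.card (σ.comp f).ker = 12 := by
    have e1 := card_ker_comp (ρ := σ) hf.surj
    rw [hc] at e1
    have hpos : 0 < Nat.card f.ker := Nat.card_pos
    have h3 := Nat.le_of_dvd (by norm_num) h1
    rw [e1] at h3
    have h4 : Nat.card f.ker = 1 := by omega
    rw [e1, h4]
  have h3 : Nat.card g.ker = 4 := by
    have e1 := card_ker_comp (ρ := pr 6 F 2) hg.surj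
    rw [← hfg, h2, hpr3] at e1
    omega
  have h4 : IsPGroup 2 g.ker := IsPGroup.of_card (n := 2) (by rw [h3]; norm_num)
  refine RowN.of_univ hA hD (by rw [h2, h12]) fun y hy => isC_all hF hg h4 (y := y) fun hc => hy ?_
  refine H109.US.mem_center_of_perfect hg.perf fun x => hg.cen ?_
  rw [MonoidHom.mem_ker, map_commutatorElement, commutatorElement_eq_one_iff_mul_comm]
  exact (mem_center_iff.1 hc _).symm

/-- **Every noncentral element of every finite perfect central extension of `U₆(2)` is a commutator.** -/
theorem rowN_psu {F : Type v} [Field F] [Fintype F] (hF : Fintype.card F = 4) : RowN (PSU 6 F 2) := by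
  obtain ⟨E, _, _, hE⟩ : ∃ (E : Type) (_ : Field E) (_ : Fintype E), Fintype.card E = 2 ^ 2 :=
    ⟨GaloisField 2 2, inferInstance, Fintype.ofFinite _, by
      letI := Fintype.ofFinite (GaloisField 2 2)
      rw [← GaloisField.card 2 2 (by norm_num), Nat.card_eq_fintype_card]⟩
  exact (rowN_type hE).congr (Cfsg.Agent.LieClassical.FieldTransfer.psuCongr 6 2
    (FiniteField.ringEquivOfCardEq (hE.trans (hF.trans (by norm_num)).symm)))

end Cfsg.Agent.H486.US
end

private theorem dce_db3bf692945b : _root_.True := by
  try have : _root_.True := by simp only [_root_.Cfsg.Agent.H486.US.fC.eq_2]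
  try have : _root_.True := by simp only [_root_.Cfsg.Agent.H486.US.chkP.eq_1]
  try have : _root_.True := by simp only [_root_.Cfsg.Agent.H486.US.colV.eq_1]
  try have : _root_.True := by simp only [_root_.Cfsg.Agent.H109.US.d1.eq_1]
  try have : _root_.True := by simp only [_root_.Cfsg.Agent.H486.US.pairW.eq_1]
  try have : _root_.True := by simp only [_root_.Cfsg.Agent.H486.US.V6.smul.eq_1]
  try have : _root_.True := by simp only [_root_.Cfsg.Agent.H109.US.b0.eq_1]
  try have : _root_.True := by simp only [_root_.Cfsg.Agent.H486.US.Q.ev.eq_4]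
  try have : _root_.True := by simp only [_root_.Cfsg.Agent.H486.US.Q.mul.eq_1]
  try have : _root_.True := by simp only [_root_.Cfsg.Agent.H486.US.run.eq_2]
  try have : _root_.True := by simp only [_root_.Cfsg.Agent.H486.US.fQ.eq_2]
  try have : _root_.True := by simp only [_root_.Cfsg.Agent.H486.US.gW.eq_1]
  try have : _root_.True := by simp only [_root_.Cfsg.Agent.H486.US.fL.eq_2]
  try have : _root_.True := by simp only [_root_.Cfsg.Agent.H486.US.V6.h.eq_1]
  try have : _root_.True := by simp only [_root_.Cfsg.Agent.H486.US.Q.add.eq_10]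
  try have : _root_.True := by simp only [_root_.Cfsg.Agent.H486.US.fG.eq_1]
  try have : _root_.True := by simp only [_root_.Cfsg.Agent.H486.US.lineOK.eq_1]
  try have : _root_.True := by simp only [_root_.Cfsg.Agent.H486.US.gW.congr_simp]
  try have : _root_.True := by simp only [_root_.Cfsg.Agent.H486.US.atI.eq_def]
  try have : _root_.True := by simp only [_root_.Cfsg.Agent.H486.US.fH.eq_2]
  try have : _root_.True := by simp only [_root_.Cfsg.Agent.H486.US.V6.toF.eq_1]
  try have : _root_.True := by simp only [_root_.Cfsg.Agent.H486.US.atI.eq_2]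
  try have : _root_.True := by simp only [_root_.Cfsg.Agent.H486.US.Q.ev.eq_2]
  try have : _root_.True := by simp only [_root_.Cfsg.Agent.H486.US.fH._sparseCasesOn_1.else_eq]
  try have : _root_.True := by simp only [_root_.Cfsg.Agent.H486.US.fH.eq_1]
  try have : _root_.True := by simp only [_root_.Cfsg.Agent.H486.US.Q.cj.eq_4]
  try have : _root_.True := by simp only [_root_.Cfsg.Agent.H109.US.b1.eq_1]
  try have : _root_.True := by simp only [_root_.Cfsg.Agent.H486.US.V6.add.eq_1]
  try have : _root_.True := by simp only [_root_.Cfsg.Agent.H486.US.run.eq_def]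
  try have : _root_.True := by simp only [_root_.Cfsg.Agent.H486.US.Q.ev.eq_3]
  try have : _root_.True := by simp only [_root_.Cfsg.Agent.H486.US.atI.eq_3]
  try have : _root_.True := by simp only [_root_.Cfsg.Agent.H486.US.Q.cj.eq_1]
  try have : _root_.True := by simp only [_root_.Cfsg.Agent.H486.US.Q.mul.eq_7]
  try have : _root_.True := by simp only [_root_.Cfsg.Agent.H109.US.wg.congr_simp]
  try have : _root_.True := by simp only [_root_.Cfsg.Agent.H486.US.V6.prop.eq_1]
  try have : _root_.True := by simp only [_root_.Cfsg.Agent.H486.US.Q.cj.eq_2]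
  try have : _root_.True := by simp only [_root_.Cfsg.Agent.H486.US.Q.mul.eq_5]
  try have : _root_.True := by simp only [_root_.Cfsg.Agent.H486.US.Q.add.eq_7]
  try have : _root_.True := by simp only [_root_.Cfsg.Agent.H486.US.chkQ.eq_1]
  try have : _root_.True := by simp only [_root_.Cfsg.Agent.H486.US.Q.add.eq_9]
  try have : _root_.True := by simp only [_root_.Cfsg.Agent.H486.US.iso.eq_1]
  try have : _root_.True := by simp only [_root_.Cfsg.Agent.H486.US.wom.eq_1]
  try have : _root_.True := by simp only [_root_.Cfsg.Agent.H486.US.chk._sparseCasesOn_1.else_eq]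
  try have : _root_.True := by simp only [_root_.Cfsg.Agent.H486.US.fC.eq_1]
  try have : _root_.True := by simp only [_root_.Cfsg.Agent.H486.US.val.eq_1]
  try have : _root_.True := by simp only [_root_.Cfsg.Agent.H109.US.a1.eq_1]
  try have : _root_.True := by simp only [_root_.Cfsg.Agent.H486.US.Q.mul.eq_6]
  try have : _root_.True := by simp only [_root_.Cfsg.Agent.H486.US.Q.cj.eq_3]
  try have : _root_.True := by simp only [_root_.Cfsg.Agent.H486.US.E0.eq_1]
  try have : _root_.True := by simp only [_root_.Cfsg.Agent.H486.US.Q.mul.eq_3]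
  try have : _root_.True := by simp only [_root_.Cfsg.Agent.ClassicalGeometry.UnitAutBasic.T.congr_simp]
  try have : _root_.True := by simp only [_root_.Cfsg.Agent.H486.US.bas.eq_1]
  try have : _root_.True := by simp only [_root_.Cfsg.Agent.H486.US.fL.eq_1]
  try have : _root_.True := by simp only [_root_.Cfsg.Agent.H486.US.fG.eq_2]
  try have : _root_.True := by simp only [_root_.Cfsg.Agent.H486.US.E2.eq_1]
  try have : _root_.True := by simp only [_root_.Cfsg.Agent.H486.US.Q.add.eq_3]
  try have : _root_.True := by simp only [_root_.Cfsg.Agent.H109.US.a0.eq_1]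
  try have : _root_.True := by simp only [_root_.Cfsg.Agent.H486.US.Q.mul.eq_2]
  try have : _root_.True := by simp only [_root_.Cfsg.Agent.H486.US.fQ.eq_1]
  try have : _root_.True := by simp only [_root_.Cfsg.Agent.H486.US.run.eq_1]
  try have : _root_.True := by simp only [_root_.Cfsg.Agent.H486.US.Q.add.eq_2]
  try have : _root_.True := by simp only [_root_.Cfsg.Agent.H486.US.V6.zero.eq_1]
  try have : _root_.True := by simp only [_root_.Cfsg.Agent.H486.US.Q.add.eq_5]
  try have : _root_.True := by simp only [_root_.Cfsg.Agent.H486.US.Q.add.eq_1]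
  try have : _root_.True := by simp only [_root_.Cfsg.Agent.H486.US.chk._sparseCasesOn_2.else_eq]
  try have : _root_.True := by simp only [_root_.Cfsg.Agent.H486.US.Q.mul.eq_8]
  try have : _root_.True := by simp only [_root_.Cfsg.Agent.H486.US.Q.ev.eq_1]
  try have : _root_.True := by simp only [_root_.Cfsg.Agent.H486.US.Q.mul.eq_4]
  try have : _root_.True := by simp only [_root_.Cfsg.Agent.H486.US.atI.eq_1]
  try have : _root_.True := by simp only [_root_.Cfsg.Agent.H109.US.d0.eq_1]
  try have : _root_.True := by simp only [_root_.Cfsg.Agent.H486.US.Q.add.eq_6]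
  try have : _root_.True := by simp only [_root_.Cfsg.Agent.H486.US.Q.add.eq_8]
  try have : _root_.True := by simp only [_root_.Cfsg.Agent.H486.US.E1.eq_1]
  try have : _root_.True := by simp only [_root_.Cfsg.Agent.H486.US.chk.eq_1]
  try have : _root_.True := by simp only [_root_.Cfsg.Agent.H486.US.Q.add.eq_4]
  try have : _root_.True := by simp only [_root_.Cfsg.Agent.H486.US.V6.T.eq_1]
  try have : _root_.True := by simp only [_root_.Cfsg.Agent.H486.US.Q.add.eq_11]
  try have : _root_.True := by simp only [_root_.Cfsg.Agent.H486.US.Q.mul._sparseCasesOn_1.else_eq]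
  try have : _root_.True := by simp only [_root_.Cfsg.Agent.H486.US.pdAll.eq_1]
  exact _root_.True.intro
end
end
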